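import Mathlib
import Cfsg.Agent.Lib.Lead.Hall2
import Cfsg.Agent.Lib.Lead.CharBurnside
import Cfsg.Agent.Lib.Lead.SylowAux
import Cfsg.Agent.Lib.Helper1.ThompsonJ

set_option autoImplicit false

namespace Cfsg.Agent.Lib.Helper5

universe u

theorem two_pow_mul_odd_unique5 (j b x y : ℕ) (h : 2 ^ j * x = 2 ^ b * y) (hx : Odd x)
    (hy : Odd y) : j = b ∧ x = y := by
  have h1 : 2 ^ j ∣ 2 ^ b := by
    have h0 : 2 ^ j ∣ 2 ^ b * y := ⟨x, h.symm⟩
    exact Nat.Coprime.dvd_of_dvd_mul_right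
      (Nat.Coprime.pow_left j (Nat.coprime_two_left.mpr hy)) h0
  have h2 : 2 ^ b ∣ 2 ^ j := by
    have h0 : 2 ^ b ∣ 2 ^ j * x := ⟨y, h⟩
    exact Nat.Coprime.dvd_of_dvd_mul_right
      (Nat.Coprime.pow_left b (Nat.coprime_two_left.mpr hx)) h0
  have h3 : j ≤ b := (Nat.pow_dvd_pow_iff_le_right (by norm_num)).mp h1
  have h4 : b ≤ j := (Nat.pow_dvd_pow_iff_le_right (by norm_num)).mp h2
  have h5 : j = b := le_antisymm h3 h4
  refine ⟨h5, ?_⟩
  rw [h5] at h
  exact Nat.eq_of_mul_eq_mul_left (by positivity) h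

theorem exists_sylow_complement5 {X : Type*} [Group X] [Finite X] (D : Subgroup X) (c : ℕ)
    (hcard : Nat.card X = 2 ^ c * Nat.card D) (hodd : Odd (Nat.card D)) :
    ∃ P : Sylow 2 X, Subgroup.IsComplement' (P : Subgroup X) D := by
  obtain ⟨P⟩ : Nonempty (Sylow 2 X) := inferInstance
  refine ⟨P, ?_⟩
  obtain ⟨j, hj⟩ := IsPGroup.iff_card.mp P.isPGroup'
  have h1 := Subgroup.card_mul_index (P : Subgroup X)
  have hidx : Odd (P : Subgroup X).index := by
    rw [← Nat.not_even_iff_odd]; intro h; exact P.not_dvd_index (even_iff_two_dvd.mp h)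
  rw [hj, hcard] at h1
  obtain ⟨hjc, hidxD⟩ := two_pow_mul_odd_unique5 _ _ _ _ h1 hidx hodd
  apply Subgroup.isComplement'_of_coprime
  · rw [hj, hjc, hcard]
  · rw [hj]; exact Nat.Coprime.pow_left j (Nat.coprime_two_left.mpr hodd)

theorem abcomp_core5 {H : Type*} [Group H] [Finite H] (C N : Subgroup H) [N.Normal] (a : ℕ)
    (hcard : Nat.card H = 2 ^ a * Nat.card C) :
    ∃ b : ℕ, b ≤ a ∧ Nat.card ↥(C ⊔ N) = 2 ^ b * Nat.card C ∧
      Nat.card N = 2 ^ b * Nat.card ↥(C ⊓ N) := by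
  have h1 := Cfsg.Agent.Lib.Helper1.card_sup_mul_card_inf C N
    (by rw [Subgroup.normalizer_eq_top]; exact le_top)
  obtain ⟨t, ht⟩ := Subgroup.card_dvd_of_le (le_sup_left : C ≤ C ⊔ N)
  have hCpos : 0 < Nat.card C := Nat.card_pos
  have h2 : Nat.card ↥(C ⊔ N) ∣ Nat.card H := Subgroup.card_subgroup_dvd_card _
  rw [ht, hcard, mul_comm (2 ^ a)] at h2
  have h3 : t ∣ 2 ^ a := Nat.dvd_of_mul_dvd_mul_left hCpos h2
  obtain ⟨b, hb, rfl⟩ := (Nat.dvd_prime_pow Nat.prime_two).mp h3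
  refine ⟨b, hb, by rw [ht, mul_comm], ?_⟩
  rw [ht, mul_assoc] at h1
  exact (Nat.eq_of_mul_eq_mul_left hCpos h1).symm

theorem abcomp_quot5 {H : Type*} [Group H] [Finite H] (C N : Subgroup H) [N.Normal] (a : ℕ)
    (hC : IsMulCommutative ↥C)
    (hcard : Nat.card H = 2 ^ a * Nat.card C) (hodd : Odd (Nat.card C))
    (D : Subgroup (H ⧸ N)) (hDdef : D = C.map (QuotientGroup.mk' N)) :
    IsMulCommutative ↥D ∧ Odd (Nat.card D) ∧ ∃ c, Nat.card (H ⧸ N) = 2 ^ c * Nat.card D := by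
  obtain ⟨b, hb, hsup, hNcard⟩ := abcomp_core5 C N a hcard
  have hcomap : D.comap (QuotientGroup.mk' N) = C ⊔ N := by
    rw [hDdef, Subgroup.comap_map_eq, QuotientGroup.ker_mk']
  have h1 := Cfsg.Agent.Lib.Lead.card_comap_mk' N D
  rw [hcomap, hsup, hNcard] at h1
  have hD : Nat.card C = Nat.card D * Nat.card ↥(C ⊓ N) := by
    have h0 : 2 ^ b * Nat.card C = 2 ^ b * (Nat.card D * Nat.card ↥(C ⊓ N)) := by
      rw [h1]; ring
    exact Nat.eq_of_mul_eq_mul_left (by positivity) h0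
  have hDodd : Odd (Nat.card D) := Odd.of_dvd_nat hodd ⟨_, hD⟩
  refine ⟨?_, hDodd, a - b, ?_⟩
  · rw [hDdef]
    exact IsMulCommutative.of_setLike_mul_comm (by
      rintro _ ⟨x, hx, rfl⟩ _ ⟨y, hy, rfl⟩
      rw [← map_mul, ← map_mul]
      exact congrArg _ (congrArg Subtype.val (hC.is_comm.comm ⟨x, hx⟩ ⟨y, hy⟩)))
  · have h2 : Nat.card H = Nat.card (H ⧸ N) * Nat.card N :=
      Subgroup.card_eq_card_quotient_mul_card_subgroup N
    rw [hcard, hNcard, hD] at h2
    have hpos : 0 < Nat.card ↥(C ⊓ N) := Nat.card_pos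
    have h3 : 2 ^ a * Nat.card D = Nat.card (H ⧸ N) * 2 ^ b := by
      have h0 : (2 ^ a * Nat.card D) * Nat.card ↥(C ⊓ N) =
          (Nat.card (H ⧸ N) * 2 ^ b) * Nat.card ↥(C ⊓ N) := by
        rw [mul_assoc, h2]; ring
      exact Nat.eq_of_mul_eq_mul_right hpos h0
    have h4 : 2 ^ a = 2 ^ (a - b) * 2 ^ b := by rw [← pow_add, Nat.sub_add_cancel hb]
    rw [h4] at h3
    have h5 : (2 ^ (a - b) * Nat.card D) * 2 ^ b = Nat.card (H ⧸ N) * 2 ^ b := by
      rw [← h3]; ring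
    exact (Nat.eq_of_mul_eq_mul_right (by positivity) h5).symm

theorem abcomp_solvable5 : ∀ (n : ℕ) (H : Type u) [Group H] [Finite H] (C : Subgroup H) (a : ℕ),
    Nat.card H = n → IsMulCommutative ↥C → Nat.card H = 2 ^ a * Nat.card C → Odd (Nat.card C) →
    Group.IsSolvable H := by
  intro n
  induction n using Nat.strong_induction_on with
  | _ n ih =>
  intro H _ _ C a hn hC hcard hodd
  by_cases hCbot : C = ⊥
  · have h1 : Nat.card H = 2 ^ a := by rw [hcard, hCbot, Subgroup.card_bot, mul_one]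
    haveI : Group.IsNilpotent H := (IsPGroup.of_card h1).isNilpotent
    infer_instance
  obtain ⟨c, hcC, hc1⟩ : ∃ c ∈ C, c ≠ 1 := by
    by_contra h
    push Not at h
    exact hCbot ((Subgroup.eq_bot_iff_forall C).mpr h)
  have hCle : C ≤ Subgroup.centralizer ({c} : Set H) := by
    intro d hd
    rw [Subgroup.mem_centralizer_iff]
    intro y hy
    rw [Set.mem_singleton_iff] at hy
    subst hy
    exact congrArg Subtype.val (hC.is_comm.comm ⟨y, hcC⟩ ⟨d, hd⟩)
  by_cases hs : IsSimpleGroup H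
  · have hCidx : C.index = 2 ^ a := by
      have h0 := Subgroup.card_mul_index C
      rw [hcard, mul_comm] at h0
      exact Nat.eq_of_mul_eq_mul_right Nat.card_pos h0
    have h1 : (Subgroup.centralizer ({c} : Set H)).index ∣ C.index :=
      Subgroup.index_dvd_of_le hCle
    rw [hCidx] at h1
    obtain ⟨j, -, hj⟩ := (Nat.dvd_prime_pow Nat.prime_two).mp h1
    have hp := Cfsg.Agent.Lib.Lead.prime_card_of_class_prime_pow 2 j Nat.prime_two c hc1 hj
    haveI : Fact (Nat.card H).Prime := ⟨hp⟩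
    haveI : Group.IsNilpotent H :=
      (IsPGroup.of_card (p := Nat.card H) (n := 1) (pow_one _).symm).isNilpotent
    infer_instance
  · have hnt : Nontrivial H := ⟨⟨c, 1, hc1⟩⟩
    obtain ⟨N, hNn, hNbot, hNtop⟩ : ∃ N : Subgroup H, N.Normal ∧ N ≠ ⊥ ∧ N ≠ ⊤ := by
      by_contra hcon
      push Not at hcon
      apply hs
      exact { exists_pair_ne := hnt.exists_pair_ne
              eq_bot_or_eq_top_of_normal := fun N hN => by
                by_cases h : N = ⊥
                · left; exact h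
                · right; exact hcon N hN h }
    haveI := hNn
    obtain ⟨b, hb, hsup, hNcard⟩ := abcomp_core5 C N a hcard
    have hN_sol : Group.IsSolvable ↥N := by
      have hlt : Nat.card N < n := by
        rw [← hn]
        exact lt_of_le_of_ne (Subgroup.card_le_card_group N)
          (fun h => hNtop ((Subgroup.card_eq_iff_eq_top N).mp h))
      have hc1 : Nat.card ((C ⊓ N).subgroupOf N) = Nat.card ↥(C ⊓ N) :=
        Nat.card_congr (Subgroup.subgroupOfEquivOfLe (inf_le_right : C ⊓ N ≤ N)).toEquiv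
      refine ih (Nat.card N) hlt ↥N ((C ⊓ N).subgroupOf N) b rfl ?_ (by rw [hc1]; exact hNcard) ?_
      · exact IsMulCommutative.of_setLike_mul_comm (fun x hx y hy => by
          apply Subtype.ext
          have hx' : (x : H) ∈ C := (Subgroup.mem_subgroupOf.mp hx).1
          have hy' : (y : H) ∈ C := (Subgroup.mem_subgroupOf.mp hy).1
          have h0 : (x : H) * (y : H) = (y : H) * (x : H) :=
            congrArg Subtype.val (hC.is_comm.comm ⟨(x : H), hx'⟩ ⟨(y : H), hy'⟩)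
          exact h0)
      · rw [hc1]
        exact Odd.of_dvd_nat hodd (Subgroup.card_dvd_of_le inf_le_left)
    have hQ_sol : Group.IsSolvable (H ⧸ N) := by
      obtain ⟨hDc, hDodd, c', hc'⟩ := abcomp_quot5 C N a hC hcard hodd _ rfl
      have hlt : Nat.card (H ⧸ N) < n := by
        rw [← hn, Subgroup.card_eq_card_quotient_mul_card_subgroup N]
        have h1 : 1 < Nat.card N := by
          rw [Subgroup.one_lt_card_iff_ne_bot]; exact hNbot
        have h2 : 0 < Nat.card (H ⧸ N) := Nat.card_pos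
        nlinarith
      exact ih (Nat.card (H ⧸ N)) hlt (H ⧸ N) _ c' rfl hDc hc' hDodd
    exact solvable_of_ker_le_range N.subtype (QuotientGroup.mk' N) (by simp)

theorem abcomp_main5 {H : Type u} [Group H] [Finite H]
    (S : Sylow 2 H) (C : Subgroup H) (hC : IsMulCommutative ↥C)
    (hSC : Subgroup.IsComplement' (S : Subgroup H) C) :
    Group.IsSolvable H ∧
    (∀ L : Subgroup H, ∃ (P : Sylow 2 ↥L) (D : Subgroup ↥L), IsMulCommutative ↥D ∧
      Subgroup.IsComplement' (P : Subgroup ↥L) D) ∧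
    (∀ (N : Subgroup H) [N.Normal], ∃ (P : Sylow 2 (H ⧸ N)) (D : Subgroup (H ⧸ N)),
      IsMulCommutative ↥D ∧ Subgroup.IsComplement' (P : Subgroup (H ⧸ N)) D) := by
  obtain ⟨a, ha⟩ := IsPGroup.iff_card.mp S.isPGroup'
  have hodd : Odd (Nat.card C) := by
    rw [← hSC.symm.index_eq_card, ← Nat.not_even_iff_odd]
    intro h; exact S.not_dvd_index (even_iff_two_dvd.mp h)
  have hcard : Nat.card H = 2 ^ a * Nat.card C := by
    rw [← ha]; exact hSC.card_mul_card.symm
  have hsol : Group.IsSolvable H := abcomp_solvable5 (Nat.card H) H C a rfl hC hcard hodd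
  refine ⟨hsol, ?_, ?_⟩
  · intro L
    haveI := hsol
    obtain ⟨b, m, hm, hL⟩ := Nat.exists_eq_two_pow_mul_odd (n := Nat.card L) Nat.card_pos.ne'
    have hcop : m.Coprime (2 ^ b) :=
      (Nat.Coprime.pow_left b (Nat.coprime_two_left.mpr hm)).symm
    obtain ⟨D, hD⟩ := Cfsg.Agent.Lib.Lead.hall_exists (Nat.card L) ↥L m (2 ^ b) rfl
      (by rw [hL, mul_comm]) hcop
    have hD'card : Nat.card (D.map L.subtype) = m := by
      rw [Subgroup.card_map_of_injective L.subtype_injective, hD]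
    have hcop2 : (Nat.card C).Coprime (2 ^ a) :=
      (Nat.Coprime.pow_left a (Nat.coprime_two_left.mpr hodd)).symm
    obtain ⟨K, hK, hDK⟩ := Cfsg.Agent.Lib.Lead.hall_le (Nat.card H) H (Nat.card C) (2 ^ a) rfl
      (by rw [hcard, mul_comm]) hcop2 (D.map L.subtype)
      (by rw [hD'card]; exact (Nat.Coprime.pow_left a (Nat.coprime_two_left.mpr hm)).symm)
    obtain ⟨g, hg⟩ := Cfsg.Agent.Lib.Lead.hall_conj (Nat.card H) H (Nat.card C) (2 ^ a) rfl
      (by rw [hcard, mul_comm]) hcop2 C K rfl hK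
    have hKcomm : ∀ x ∈ K, ∀ y ∈ K, x * y = y * x := by
      intro x hx y hy
      rw [← hg, Cfsg.Agent.Lib.Lead.mem_conj_smul] at hx hy
      have h1 : (g⁻¹ * x * g) * (g⁻¹ * y * g) = (g⁻¹ * y * g) * (g⁻¹ * x * g) :=
        congrArg Subtype.val (hC.is_comm.comm ⟨_, hx⟩ ⟨_, hy⟩)
      have h2 : x * y = g * ((g⁻¹ * x * g) * (g⁻¹ * y * g)) * g⁻¹ := by group
      rw [h2, h1]; group
    have hDc : IsMulCommutative ↥D := IsMulCommutative.of_setLike_mul_comm (fun x hx y hy => by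
      apply Subtype.ext
      exact hKcomm _ (hDK ⟨x, hx, rfl⟩) _ (hDK ⟨y, hy, rfl⟩))
    obtain ⟨P, hP⟩ := exists_sylow_complement5 D b (by rw [hD]; exact hL) (by rw [hD]; exact hm)
    exact ⟨P, D, hDc, hP⟩
  · intro N _
    obtain ⟨hDc, hDodd, c, hc⟩ := abcomp_quot5 C N a hC hcard hodd _ rfl
    obtain ⟨P, hP⟩ := exists_sylow_complement5 _ c hc hDodd
    exact ⟨P, _, hDc, hP⟩

end Cfsg.Agent.Lib.Helper5
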