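import Mathlib
import Cfsg.Prelude.Def_CaseTheorems

set_option autoImplicit false

namespace Cfsg.Agent.Lib.Helper5

theorem odd_pow_modEq_one5 (n a r : ℕ) (hr : Odd r) (h : a ^ r ≡ 1 [MOD 2 ^ n]) :
    a ≡ 1 [MOD 2 ^ n] := by
  rcases Nat.eq_zero_or_pos n with rfl | hn
  · rw [pow_zero]; exact Nat.modEq_one
  haveI : NeZero (2 ^ n) := ⟨by positivity⟩
  have hr0 : r ≠ 0 := by
    rintro rfl
    exact (Nat.not_odd_iff_even.mpr ⟨0, rfl⟩) hr
  have hpQ1 : (a : ZMod (2 ^ n)) ^ r = 1 := by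
    have h1 := (ZMod.natCast_eq_natCast_iff (a ^ r) 1 (2 ^ n)).mpr h
    push_cast at h1
    exact h1
  have hpu : IsUnit (a : ZMod (2 ^ n)) := IsUnit.of_pow_eq_one hpQ1 hr0
  obtain ⟨u, hu⟩ := hpu
  have hum : u ^ r = 1 := by
    apply Units.ext
    rw [Units.val_pow_eq_pow_val, hu, hpQ1]
    rfl
  have hcard : Nat.card (ZMod (2 ^ n))ˣ = 2 ^ (n - 1) := by
    rw [Nat.card_eq_fintype_card, ZMod.card_units_eq_totient,
      Nat.totient_prime_pow Nat.prime_two hn]
    simp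
  have ho1 : orderOf u ∣ r := orderOf_dvd_of_pow_eq_one hum
  have ho2 : orderOf u ∣ 2 ^ (n - 1) := by rw [← hcard]; exact orderOf_dvd_natCard u
  have ho : orderOf u = 1 := by
    obtain ⟨j, -, hj⟩ := (Nat.dvd_prime_pow Nat.prime_two).mp ho2
    rw [hj] at ho1 ⊢
    rcases Nat.eq_zero_or_pos j with rfl | hjpos
    · rfl
    · exfalso
      have h2 : 2 ∣ r := (dvd_pow_self 2 hjpos.ne').trans ho1
      exact (Nat.not_even_iff_odd.mpr hr) (even_iff_two_dvd.mpr h2)
  have hu1 : u = 1 := orderOf_eq_one_iff.mp ho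
  have hp1 : (a : ZMod (2 ^ n)) = 1 := by rw [← hu, hu1]; rfl
  apply (ZMod.natCast_eq_natCast_iff a 1 (2 ^ n)).mp
  rw [hp1]; simp

theorem aut_isPGroup_two5 {X : Type*} [Group X] [Finite X] (n : ℕ) (x y : X)
    (hx : orderOf x = 2 ^ n) (hcard : Nat.card X = 2 ^ (n + 1))
    (hy : y ∉ Subgroup.zpowers x) (e : ℕ)
    (he : ∀ j : ℕ, (x ^ j * y) ^ e = 1) (hne : ¬ 2 ^ n ∣ e) :
    IsPGroup 2 (MulAut X) := by
  have hidx : (Subgroup.zpowers x).index = 2 := by
    have h1 := Subgroup.card_mul_index (Subgroup.zpowers x)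
    rw [Nat.card_zpowers, hx, hcard, pow_succ] at h1
    exact Nat.eq_of_mul_eq_mul_left (by positivity) h1
  have hCpow : ∀ g ∈ Subgroup.zpowers x, ∃ j : ℕ, g = x ^ j := by
    intro g hg
    have hfin : IsOfFinOrder x := isOfFinOrder_of_finite x
    rw [← hfin.mem_powers_iff_mem_zpowers, Submonoid.mem_powers_iff] at hg
    obtain ⟨j, hj⟩ := hg
    exact ⟨j, hj.symm⟩
  have hout : ∀ g : X, g ∉ Subgroup.zpowers x → ∃ j : ℕ, g = x ^ j * y := by
    intro g hg
    have h1 : g * y⁻¹ ∈ Subgroup.zpowers x := by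
      rw [Subgroup.mul_mem_iff_of_index_two hidx, inv_mem_iff]
      exact ⟨fun h => absurd h hg, fun h => absurd h hy⟩
    obtain ⟨j, hj⟩ := hCpow _ h1
    exact ⟨j, by rw [← hj, inv_mul_cancel_right]⟩
  have hgen : Subgroup.closure ({x, y} : Set X) = ⊤ := by
    rw [eq_top_iff]
    intro g _
    have hxm : x ∈ Subgroup.closure ({x, y} : Set X) := Subgroup.subset_closure (by simp)
    have hym : y ∈ Subgroup.closure ({x, y} : Set X) := Subgroup.subset_closure (by simp)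
    by_cases hg : g ∈ Subgroup.zpowers x
    · obtain ⟨j, rfl⟩ := hCpow g hg
      exact pow_mem hxm j
    · obtain ⟨j, rfl⟩ := hout g hg
      exact mul_mem (pow_mem hxm j) hym
  have hαx : ∀ α : MulAut X, α x ∈ Subgroup.zpowers x := by
    intro α
    by_contra hcon
    obtain ⟨j, hj⟩ := hout _ hcon
    have h1 := he j
    rw [← hj, ← map_pow] at h1
    have h2 : x ^ e = 1 := α.injective (h1.trans (map_one α).symm)
    exact hne (hx ▸ orderOf_dvd_of_pow_eq_one h2)
  have hαC : ∀ (α : MulAut X) (g : X), g ∈ Subgroup.zpowers x → α g ∈ Subgroup.zpowers x := by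
    intro α g hg
    obtain ⟨j, rfl⟩ := hCpow g hg
    rw [map_pow]; exact pow_mem (hαx α) j
  have hαy : ∀ α : MulAut X, α y ∉ Subgroup.zpowers x := by
    intro α hcon
    apply hy
    have := hαC α⁻¹ _ hcon
    rwa [MulAut.inv_apply_self] at this
  have hoddtriv : ∀ (β : MulAut X) (r : ℕ), Odd r → β ^ r = 1 → β = 1 := by
    intro β r hr hβ
    obtain ⟨a, ha⟩ := hCpow _ (hαx β)
    have hpow : ∀ i : ℕ, (β ^ i) x = x ^ (a ^ i) := by
      intro i
      induction i with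
      | zero => simp
      | succ i ih =>
        rw [pow_succ', MulAut.mul_apply, ih, map_pow, ha, ← pow_mul, pow_succ']
    have h1 := hpow r
    rw [hβ, MulAut.one_apply] at h1
    have h2 : a ^ r ≡ 1 [MOD 2 ^ n] := by
      rw [← hx, ← pow_eq_pow_iff_modEq, pow_one]; exact h1.symm
    have h3 := odd_pow_modEq_one5 n a r hr h2
    have hβx : β x = x := by
      rw [ha]
      have h4 : x ^ a = x ^ 1 := by rw [pow_eq_pow_iff_modEq, hx]; exact h3
      rw [h4, pow_one]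
    obtain ⟨j, hj⟩ := hout _ (hαy β)
    have hpowy : ∀ i : ℕ, (β ^ i) y = x ^ (i * j) * y := by
      intro i
      induction i with
      | zero => simp
      | succ i ih =>
        rw [pow_succ', MulAut.mul_apply, ih, map_mul, map_pow, hβx, hj, ← mul_assoc, ← pow_add]
        congr 2
        ring
    have h4 := hpowy r
    rw [hβ, MulAut.one_apply] at h4
    have h5 : x ^ (r * j) = 1 := by
      have h4' : x ^ (r * j) * y = 1 * y := by rw [one_mul]; exact h4.symm
      exact mul_right_cancel h4'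
    have h6 : 2 ^ n ∣ r * j := hx ▸ orderOf_dvd_of_pow_eq_one h5
    have hcop : Nat.Coprime (2 ^ n) r := Nat.Coprime.pow_left n (Nat.coprime_two_left.mpr hr)
    have h7 : 2 ^ n ∣ j := hcop.dvd_of_dvd_mul_left h6
    have hβy : β y = y := by
      rw [hj]
      have h8 : x ^ j = 1 := by rw [← hx] at h7; exact orderOf_dvd_iff_pow_eq_one.mp h7
      rw [h8, one_mul]
    have h9 : (β : X →* X) = MonoidHom.id X := by
      apply MonoidHom.eq_of_eqOn_dense hgen
      intro g hg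
      rcases hg with rfl | hg
      · exact hβx
      · rw [Set.mem_singleton_iff] at hg; rw [hg]; exact hβy
    ext g
    exact DFunLike.congr_fun h9 g
  intro α
  have ho : orderOf α ≠ 0 := (orderOf_pos α).ne'
  obtain ⟨k, r, hr, hkr⟩ := Nat.exists_eq_two_pow_mul_odd ho
  refine ⟨k, ?_⟩
  apply hoddtriv _ r hr
  rw [← pow_mul, ← hkr, pow_orderOf_eq_one]

theorem aut_dihedral5 (m : ℕ) (hm : 4 ≤ m) (hpow : ∃ k, 2 * m = 2 ^ k) :
    IsPGroup 2 (MulAut (DihedralGroup m)) := by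
  haveI : NeZero m := ⟨by omega⟩
  obtain ⟨k, hk⟩ := hpow
  have hk1 : 1 ≤ k := by
    rcases Nat.eq_zero_or_pos k with rfl | h
    · simp at hk
    · exact h
  obtain ⟨n, rfl⟩ : ∃ n, k = n + 1 := ⟨k - 1, by omega⟩
  have hmn : m = 2 ^ n := by
    rw [pow_succ'] at hk
    omega
  apply aut_isPGroup_two5 n (DihedralGroup.r 1) (DihedralGroup.sr 0) _ _ _ 2
  · intro j
    rw [DihedralGroup.r_one_pow, DihedralGroup.r_mul_sr, pow_two, DihedralGroup.sr_mul_self]
  · intro hd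
    have := Nat.le_of_dvd (by norm_num) hd
    omega
  · rw [DihedralGroup.orderOf_r_one, hmn]
  · rw [DihedralGroup.nat_card, hk]
  · intro h
    rw [Subgroup.mem_zpowers_iff] at h
    obtain ⟨z, hz⟩ := h
    rw [DihedralGroup.r_one_zpow] at hz
    exact absurd hz (by simp)

theorem aut_quasidihedral5 {X : Type*} [Group X] [Finite X] (h : Cfsg.IsQuasiDihedral X) :
    IsPGroup 2 (MulAut X) := by
  obtain ⟨n, hn, hcard, x, y, hx, hy, hrel⟩ := h
  have hlt : 2 ^ (n - 1) < 2 ^ n := Nat.pow_lt_pow_right (by norm_num) (by omega)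
  have h4 : 4 ≤ 2 ^ (n - 1) := by
    calc 4 = 2 ^ 2 := rfl
      _ ≤ 2 ^ (n - 1) := Nat.pow_le_pow_right (by norm_num) (by omega)
  have hyy : y * y = 1 := by rw [← pow_two, ← hy]; exact pow_orderOf_eq_one y
  have hxn : x ^ (2 ^ n) = 1 := by rw [← hx]; exact pow_orderOf_eq_one x
  apply aut_isPGroup_two5 n x y hx hcard _ 4
  · intro j
    have hconj : y * x ^ j * y⁻¹ = (x ^ (2 ^ (n - 1) - 1)) ^ j := by
      rw [← hrel, conj_pow]
    have h2 : (x ^ j * y) ^ 2 = x ^ (j * 2 ^ (n - 1)) := by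
      have e1 : (x ^ j * y) ^ 2 = x ^ j * (y * x ^ j * y⁻¹) * (y * y) := by
        rw [pow_two]; group
      rw [e1, hconj, hyy, mul_one, ← pow_mul, ← pow_add]
      congr 1
      have : 2 ^ (n - 1) - 1 + 1 = 2 ^ (n - 1) := by omega
      calc j + (2 ^ (n - 1) - 1) * j = j * (2 ^ (n - 1) - 1 + 1) := by ring
        _ = j * 2 ^ (n - 1) := by rw [this]
    have e2 : (x ^ j * y) ^ 4 = ((x ^ j * y) ^ 2) ^ 2 := by rw [← pow_mul]
    rw [e2, h2, ← pow_mul]
    have e3 : j * 2 ^ (n - 1) * 2 = 2 ^ n * j := by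
      have : 2 ^ n = 2 ^ (n - 1) * 2 := by rw [← pow_succ]; congr 1; omega
      rw [this]; ring
    rw [e3, pow_mul, hxn, one_pow]
  · intro hd
    have := Nat.le_of_dvd (by norm_num) hd
    omega
  · intro hmem
    have hc : y * x = x * y := by
      obtain ⟨z, hz⟩ := Subgroup.mem_zpowers_iff.mp hmem
      rw [← hz]
      exact (Commute.zpow_left (Commute.refl x) z).eq
    have h1 : x ^ (2 ^ (n - 1) - 1) = x ^ 1 := by
      rw [← hrel, hc, mul_inv_cancel_right, pow_one]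
    rw [pow_eq_pow_iff_modEq, hx] at h1
    have h2 := Nat.ModEq.eq_of_lt_of_lt h1 (by omega) (by omega)
    omega

theorem autDih_main5 {X : Type*} [Group X] [Finite X] (h2 : IsPGroup 2 X)
    (h : (∃ n : ℕ, 4 ≤ n ∧ Nonempty (X ≃* DihedralGroup n)) ∨ Cfsg.IsQuasiDihedral X) :
    IsPGroup 2 (MulAut X) := by
  rcases h with ⟨m, hm, ⟨e⟩⟩ | h
  · have hpow : ∃ k, 2 * m = 2 ^ k := by
      obtain ⟨k, hk⟩ := IsPGroup.iff_card.mp h2
      refine ⟨k, ?_⟩
      rw [← hk, Nat.card_congr e.toEquiv, DihedralGroup.nat_card]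
    exact (aut_dihedral5 m hm hpow).of_equiv (MulAut.congr e).symm
  · exact aut_quasidihedral5 h

end Cfsg.Agent.Lib.Helper5
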