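import Mathlib
import Cfsg.Prelude.Def_BaumannBlocks
import Cfsg.Prelude.Def_PLocal
import Cfsg.Agent.Lib.Helper5.Basic
import Cfsg.Agent.Lib.Helper5.CDLarge
import Cfsg.Agent.Lib.Helper5.CDLarge2

set_option autoImplicit false

namespace Cfsg.Agent.Lib.Helper5

open Pointwise
open scoped commutatorElement

variable {S : Type*} [Group S]

theorem card_mul_card_eq_of_setMul [Finite S] (H K : Subgroup S)
    (h : ((H ⊔ K : Subgroup S) : Set S) = (H : Set S) * (K : Set S)) :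
    Nat.card H * Nat.card K = Nat.card (H ⊔ K : Subgroup S) * Nat.card (H ⊓ K : Subgroup S) := by
  rw [card_mul_card_eq_card_setMul, ← h]
  rfl

/-- For centrally large `Q`, `R`, the subgroup `(Q ∩ R) Z(Q)` is centrally large. -/
theorem isCentrallyLarge_inf_sup_centralizer [Finite S] (Q R : Subgroup S)
    (hQ : Cfsg.IsCentrallyLarge Q) (hR : Cfsg.IsCentrallyLarge R) :
    Cfsg.IsCentrallyLarge ((Q ⊓ R) ⊔ Subgroup.centralizer (Q : Set S)) ∧
      (((Q ⊓ R) ⊔ Subgroup.centralizer (Q : Set S) : Subgroup S) : Set S) =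
        ((Q ⊓ R : Subgroup S) : Set S) * (Subgroup.centralizer (Q : Set S) : Set S) := by
  rw [isCentrallyLarge_iff] at hQ hR
  obtain ⟨hQM, hCQ⟩ := hQ
  obtain ⟨hRM, hCR⟩ := hR
  have hM : ∀ X : Subgroup S, cdm X ≤ Cfsg.maxCentralizerProduct S := cdm_le_maxCentralizerProduct
  obtain ⟨-, hinf, -, hsetC, hcent⟩ := cdm_lattice _ hM Q R hQM hRM
  obtain ⟨hCM, hCC⟩ := cdm_centralizer _ hM Q hQM
  obtain ⟨hsup, -, hset, -, -⟩ := cdm_lattice _ hM (Q ⊓ R) (Subgroup.centralizer (Q : Set S)) hinf hCM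
  refine ⟨?_, hset⟩
  rw [isCentrallyLarge_iff]
  refine ⟨hsup, ?_⟩
  rw [centralizer_sup, hcent, ← hCC]
  rintro x ⟨hx1, hx2⟩
  have hx1' : x ∈ ((Subgroup.centralizer (Q : Set S) ⊔ Subgroup.centralizer (R : Set S) :
      Subgroup S) : Set S) := hx1
  rw [hsetC] at hx1'
  obtain ⟨c, hc, r, hr, rfl⟩ := hx1'
  have hrQ : r ∈ Q := by
    have := Q.mul_mem (Q.inv_mem (hCQ hc)) hx2
    simpa using this
  exact Subgroup.mul_mem _ (Subgroup.mem_sup_right hc) (Subgroup.mem_sup_left ⟨hrQ, hCR hr⟩)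

theorem minimalCL_eq [Finite S] (Q R : Subgroup S) (hQ : Cfsg.IsMinimalCentrallyLarge Q)
    (hR : Cfsg.IsCentrallyLarge R) :
    (Q ⊓ R) ⊔ Subgroup.centralizer (Q : Set S) = Q ∧
      (Q : Set S) = ((Q ⊓ R : Subgroup S) : Set S) * (Subgroup.centralizer (Q : Set S) : Set S) := by
  obtain ⟨h1, h2⟩ := isCentrallyLarge_inf_sup_centralizer Q R hQ.1 hR
  have hCQ : Subgroup.centralizer (Q : Set S) ≤ Q := ((isCentrallyLarge_iff Q).mp hQ.1).2
  have h3 := hQ.2 _ (sup_le inf_le_left hCQ) h1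
  refine ⟨h3, ?_⟩
  rw [← h2, h3]

theorem commutatorElement_mul_central_left (x c y : S) (h : c * y = y * c) :
    ⁅x * c, y⁆ = ⁅x, y⁆ := by
  simp only [commutatorElement_def]
  have : x * c * y * (x * c)⁻¹ = x * y * x⁻¹ := by
    calc x * c * y * (x * c)⁻¹ = x * (c * y) * c⁻¹ * x⁻¹ := by group
      _ = x * (y * c) * c⁻¹ * x⁻¹ := by rw [h]
      _ = x * y * x⁻¹ := by group
  rw [this]

theorem commutatorElement_mul_central_right (x y c : S) (h : c * x = x * c) :
    ⁅x, y * c⁆ = ⁅x, y⁆ := by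
  simp only [commutatorElement_def]
  have h' : c * x⁻¹ = x⁻¹ * c := by
    calc c * x⁻¹ = x⁻¹ * (x * c) * x⁻¹ := by group
      _ = x⁻¹ * (c * x) * x⁻¹ := by rw [h]
      _ = x⁻¹ * c := by group
  calc x * (y * c) * x⁻¹ * (y * c)⁻¹ = x * y * (c * x⁻¹) * c⁻¹ * y⁻¹ := by group
    _ = x * y * (x⁻¹ * c) * c⁻¹ * y⁻¹ := by rw [h']
    _ = x * y * x⁻¹ * y⁻¹ := by group

theorem commutator_eq_of_minimalCL [Finite S] (Q R : Subgroup S)
    (hQ : Cfsg.IsMinimalCentrallyLarge Q) (hR : Cfsg.IsCentrallyLarge R) :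
    ⁅Q, Q⁆ = ⁅Q ⊓ R, Q ⊓ R⁆ := by
  obtain ⟨-, hset⟩ := minimalCL_eq Q R hQ hR
  apply le_antisymm
  · rw [Subgroup.commutator_le]
    intro g₁ hg₁ g₂ hg₂
    have hg₁' : g₁ ∈ (Q : Set S) := hg₁
    have hg₂' : g₂ ∈ (Q : Set S) := hg₂
    rw [hset] at hg₁' hg₂'
    obtain ⟨d₁, hd₁, c₁, hc₁, rfl⟩ := hg₁'
    obtain ⟨d₂, hd₂, c₂, hc₂, rfl⟩ := hg₂'
    have e1 : ⁅d₁ * c₁, d₂ * c₂⁆ = ⁅d₁, d₂ * c₂⁆ := by
      apply commutatorElement_mul_central_left
      exact (Subgroup.mem_centralizer_iff.mp hc₁ _ hg₂).symm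
    have e2 : ⁅d₁, d₂ * c₂⁆ = ⁅d₁, d₂⁆ := by
      apply commutatorElement_mul_central_right
      exact (Subgroup.mem_centralizer_iff.mp hc₂ _ hd₁.1).symm
    have hmul : (fun x1 x2 : S => x1 * x2) d₁ c₁ = d₁ * c₁ := rfl
    have hmul2 : (fun x1 x2 : S => x1 * x2) d₂ c₂ = d₂ * c₂ := rfl
    rw [hmul, hmul2, e1, e2]
    exact Subgroup.commutator_mem_commutator hd₁ hd₂
  · exact Subgroup.commutator_mono inf_le_left inf_le_left

theorem minimalCL_facts [Finite S] (Q R : Subgroup S) (hQ : Cfsg.IsMinimalCentrallyLarge Q)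
    (hR : Cfsg.IsMinimalCentrallyLarge R) :
    (Q ⊓ R) ⊔ (Q ⊓ Subgroup.centralizer (Q : Set S)) = Q ∧ ⁅Q, Q⁆ = ⁅R, R⁆ ∧
      Nat.card Q = Nat.card R ∧
      Nat.card (Q ⊓ Subgroup.centralizer (Q : Set S) : Subgroup S) =
        Nat.card (R ⊓ Subgroup.centralizer (R : Set S) : Subgroup S) := by
  have hQ' := (isCentrallyLarge_iff Q).mp hQ.1
  have hR' := (isCentrallyLarge_iff R).mp hR.1
  obtain ⟨hQM, hCQ⟩ := hQ'
  obtain ⟨hRM, hCR⟩ := hR'
  set CQ := Subgroup.centralizer (Q : Set S) with hCQdef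
  set CR := Subgroup.centralizer (R : Set S) with hCRdef
  have hZQ : Q ⊓ CQ = CQ := inf_eq_right.mpr hCQ
  have hZR : R ⊓ CR = CR := inf_eq_right.mpr hCR
  rw [hZQ, hZR]
  obtain ⟨hQeq, hQset⟩ := minimalCL_eq Q R hQ hR.1
  obtain ⟨hReq, hRset⟩ := minimalCL_eq R Q hR hQ.1
  have hcomm : ⁅Q, Q⁆ = ⁅R, R⁆ := by
    rw [commutator_eq_of_minimalCL Q R hQ hR.1, commutator_eq_of_minimalCL R Q hR hQ.1, inf_comm]
  refine ⟨hQeq, hcomm, ?_⟩
  -- cardinalities
  have hD1 : R ⊓ CQ ≤ CR := by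
    intro x hx
    have hx1 : x ∈ Subgroup.centralizer ((R ⊓ Q : Subgroup S) : Set S) :=
      Subgroup.centralizer_le (by exact_mod_cast (inf_le_right : R ⊓ Q ≤ Q)) hx.2
    have hx2 : x ∈ Subgroup.centralizer ((CR : Subgroup S) : Set S) := by
      rw [Subgroup.mem_centralizer_iff]
      intro y hy
      exact (Subgroup.mem_centralizer_iff.mp hy x hx.1).symm
    have : x ∈ Subgroup.centralizer (((R ⊓ Q) ⊔ CR : Subgroup S) : Set S) := by
      rw [centralizer_sup]; exact ⟨hx1, hx2⟩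
    rw [hReq] at this
    exact this
  have hD2 : Q ⊓ CR ≤ CQ := by
    intro x hx
    have hx1 : x ∈ Subgroup.centralizer ((Q ⊓ R : Subgroup S) : Set S) :=
      Subgroup.centralizer_le (by exact_mod_cast (inf_le_right : Q ⊓ R ≤ R)) hx.2
    have hx2 : x ∈ Subgroup.centralizer ((CQ : Subgroup S) : Set S) := by
      rw [Subgroup.mem_centralizer_iff]
      intro y hy
      exact (Subgroup.mem_centralizer_iff.mp hy x hx.1).symm
    have : x ∈ Subgroup.centralizer (((Q ⊓ R) ⊔ CQ : Subgroup S) : Set S) := by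
      rw [centralizer_sup]; exact ⟨hx1, hx2⟩
    rw [hQeq] at this
    exact this
  have hE1 : (Q ⊓ R) ⊓ CQ = CQ ⊓ CR := by
    apply le_antisymm
    · exact le_inf inf_le_right
        (le_trans (le_inf (inf_le_left.trans inf_le_right) inf_le_right) hD1)
    · exact le_inf (le_inf (inf_le_left.trans hCQ) (inf_le_right.trans hCR)) inf_le_left
  have hE2 : (R ⊓ Q) ⊓ CR = CQ ⊓ CR := by
    apply le_antisymm
    · exact le_inf (le_trans (le_inf (inf_le_left.trans inf_le_right) inf_le_right) hD2)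
        inf_le_right
    · exact le_inf (le_inf (inf_le_right.trans hCR) (inf_le_left.trans hCQ)) inf_le_right
  have hset1 : (((Q ⊓ R) ⊔ CQ : Subgroup S) : Set S) =
      ((Q ⊓ R : Subgroup S) : Set S) * (CQ : Set S) := by rw [hQeq]; exact hQset
  have hset2 : (((R ⊓ Q) ⊔ CR : Subgroup S) : Set S) =
      ((R ⊓ Q : Subgroup S) : Set S) * (CR : Set S) := by rw [hReq]; exact hRset
  have hc1 := card_mul_card_eq_of_setMul _ _ hset1
  have hc2 := card_mul_card_eq_of_setMul _ _ hset2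
  rw [hQeq, hE1] at hc1
  rw [hReq, hE2, inf_comm] at hc2
  have hQM' : Nat.card Q * Nat.card CQ = Cfsg.maxCentralizerProduct S := hQM
  have hRM' : Nat.card R * Nat.card CR = Cfsg.maxCentralizerProduct S := hRM
  set n := Nat.card (Q ⊓ R : Subgroup S)
  set zq := Nat.card CQ
  set zr := Nat.card CR
  set d := Nat.card (CQ ⊓ CR : Subgroup S)
  set q := Nat.card Q
  set r := Nat.card R
  have hn : 0 < n := Nat.card_pos
  have hzq : 0 < zq := Nat.card_pos
  have hzr : 0 < zr := Nat.card_pos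
  have hd : 0 < d := Nat.card_pos
  have hq : 0 < q := Nat.card_pos
  have hr : 0 < r := Nat.card_pos
  -- hc1 : n * zq = q * d ; hc2 : n * zr = r * d ; q * zq = r * zr
  have hqr : q * zq = r * zr := by rw [hQM', hRM']
  have hsq : zq * zq = zr * zr := by
    have h1 : n * (zq * zq) = n * (zr * zr) := by
      calc n * (zq * zq) = (n * zq) * zq := by ring
        _ = q * d * zq := by rw [hc1]
        _ = (q * zq) * d := by ring
        _ = (r * zr) * d := by rw [hqr]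
        _ = (r * d) * zr := by ring
        _ = (n * zr) * zr := by rw [hc2]
        _ = n * (zr * zr) := by ring
    exact Nat.eq_of_mul_eq_mul_left hn h1
  have hz : zq = zr := by
    have := Nat.mul_self_inj.mp hsq
    exact this
  refine ⟨?_, hz⟩
  rw [hz] at hqr
  exact Nat.eq_of_mul_eq_mul_right hzr hqr

theorem minimalCL_abelian_iff [Finite S] (Q : Subgroup S) (hQ : Cfsg.IsMinimalCentrallyLarge Q)
    (hQc : IsMulCommutative ↥Q) (X : Subgroup S) :
    Cfsg.IsMinimalCentrallyLarge X ↔ X ∈ Cfsg.maxAbelianSubgroups S := by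
  have hQ' := (isCentrallyLarge_iff Q).mp hQ.1
  obtain ⟨hQM, hCQ⟩ := hQ'
  have hM : ∀ X : Subgroup S, cdm X ≤ Cfsg.maxCentralizerProduct S := cdm_le_maxCentralizerProduct
  have hQC : Subgroup.centralizer (Q : Set S) = Q :=
    le_antisymm hCQ (Subgroup.le_centralizer_iff_isMulCommutative.mpr hQc)
  have hMQ : Cfsg.maxCentralizerProduct S = Nat.card Q * Nat.card Q := by
    rw [← hQM]; unfold cdm; rw [hQC]
  have habel : ∀ B : Subgroup S, IsMulCommutative B → Nat.card B ≤ Nat.card Q := by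
    intro B hB
    have h1 : B ≤ Subgroup.centralizer (B : Set S) :=
      Subgroup.le_centralizer_iff_isMulCommutative.mpr hB
    have h2 : Nat.card B * Nat.card B ≤ cdm B := by
      unfold cdm
      exact Nat.mul_le_mul_left _ (Subgroup.card_le_of_le h1)
    have h3 := h2.trans (hM B)
    rw [hMQ] at h3
    exact Nat.mul_self_le_mul_self_iff.mp h3
  have hQmax : Q ∈ Cfsg.maxAbelianSubgroups S := ⟨hQc, habel⟩
  constructor
  · intro hX
    obtain ⟨-, -, hcard, hcardC⟩ := minimalCL_facts X Q hX hQ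
    have hX' := (isCentrallyLarge_iff X).mp hX.1
    rw [inf_eq_right.mpr hX'.2, inf_eq_right.mpr hCQ, hQC, ← hcard] at hcardC
    have hXC : Subgroup.centralizer (X : Set S) = X :=
      Subgroup.eq_of_le_of_card_ge hX'.2 (le_of_eq hcardC.symm)
    have hXc : IsMulCommutative ↥X := by
      rw [← Subgroup.le_centralizer_iff_isMulCommutative, hXC]
    refine ⟨hXc, ?_⟩
    intro B hB
    rw [hcard]
    exact habel B hB
  · intro hX
    have hcard : Nat.card X = Nat.card Q := le_antisymm (habel X hX.1) (hX.2 Q hQc)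
    have hXC := maxAbelian_centralizer X hX
    have hXCL : Cfsg.IsCentrallyLarge X := by
      rw [isCentrallyLarge_iff]
      refine ⟨?_, le_of_eq hXC⟩
      unfold cdm
      rw [hXC, hcard, hMQ]
    refine ⟨hXCL, ?_⟩
    intro R' hR'X hR'
    have hR'' := (isCentrallyLarge_iff R').mp hR'
    have hR'c : IsMulCommutative ↥R' := by
      have := hX.1
      exact IsMulCommutative.of_setLike_mul_comm
        (fun a ha b hb => setLike_mul_comm (hR'X ha) (hR'X hb))
    have hR'C : Subgroup.centralizer (R' : Set S) = R' :=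
      le_antisymm hR''.2 (Subgroup.le_centralizer_iff_isMulCommutative.mpr hR'c)
    have h1 : Nat.card R' * Nat.card R' = Nat.card Q * Nat.card Q := by
      rw [← hMQ, ← hR''.1]; unfold cdm; rw [hR'C]
    have h2 : Nat.card R' = Nat.card Q := Nat.mul_self_inj.mp h1
    exact Subgroup.eq_of_le_of_card_ge hR'X (by rw [h2, hcard])

end Cfsg.Agent.Lib.Helper5
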