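import Mathlib
import Cfsg.Agent.Lib.Helper5.ClassicalSE

set_option autoImplicit false

namespace Cfsg.Agent.Lib.Helper5

section

variable {G : Type*} [Group G]

theorem orderOf_conj5 (g y : G) : orderOf (g * y * g⁻¹) = orderOf y :=
  (MulAut.conj g).orderOf_eq y

theorem orderOf_conj5' (g y : G) : orderOf (g⁻¹ * y * g) = orderOf y := by
  have := orderOf_conj5 g⁻¹ y
  rw [inv_inv] at this
  exact this

/-- the subgroup generated by the `p'`-elements is normal -/
theorem pres_normal5 (N : Type*) [Group N] (p : ℕ) :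
    (Subgroup.closure {g : N | (orderOf g).Coprime p}).Normal := by
  constructor
  intro n hn g
  have h : (Subgroup.closure {g : N | (orderOf g).Coprime p}).map (MulAut.conj g).toMonoidHom ≤
      Subgroup.closure {g : N | (orderOf g).Coprime p} := by
    rw [MonoidHom.map_closure]
    apply Subgroup.closure_mono
    rintro _ ⟨y, hy, rfl⟩
    show (orderOf (g * y * g⁻¹)).Coprime p
    rw [orderOf_conj5]; exact hy
  exact h ⟨n, hn, rfl⟩

/-- `N = O^p(N) P` for a Sylow `p`-subgroup `P` of `N`. -/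
theorem pres_sup_sylow_eq_top {N : Type*} [Group N] [Finite N] {p : ℕ} [Fact p.Prime]
    (P : Sylow p N) :
    Subgroup.closure {g : N | (orderOf g).Coprime p} ⊔ (P : Subgroup N) = ⊤ := by
  have hp : p.Prime := Fact.out
  have hKn := pres_normal5 N p
  obtain ⟨K, hK⟩ : ∃ K : Subgroup N, K = Subgroup.closure {g : N | (orderOf g).Coprime p} :=
    ⟨_, rfl⟩
  rw [← hK] at hKn ⊢
  have hq : IsPGroup p (N ⧸ K) := by
    intro x
    induction x using QuotientGroup.induction_on with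
    | H n =>
      obtain ⟨e, m, hm, hnm⟩ := Nat.exists_eq_pow_mul_and_not_dvd (orderOf_pos n).ne' p hp.ne_one
      refine ⟨e, ?_⟩
      rw [← QuotientGroup.mk_pow, QuotientGroup.eq_one_iff, hK]
      apply Subgroup.subset_closure
      show (orderOf (n ^ p ^ e)).Coprime p
      have h1 : (n ^ p ^ e) ^ m = 1 := by rw [← pow_mul, ← hnm, pow_orderOf_eq_one]
      have h2 : orderOf (n ^ p ^ e) ∣ m := orderOf_dvd_of_pow_eq_one h1
      exact Nat.Coprime.coprime_dvd_left h2 ((Nat.Prime.coprime_iff_not_dvd hp).mpr hm).symm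
  obtain ⟨k, hk⟩ := IsPGroup.iff_card.mp hq
  rw [← Subgroup.index_eq_one]
  have d1 : (K ⊔ (P : Subgroup N)).index ∣ p ^ k := by
    rw [← hk, ← Subgroup.index_eq_card]
    exact Subgroup.index_dvd_of_le le_sup_left
  have d2 : (K ⊔ (P : Subgroup N)).index ∣ (P : Subgroup N).index :=
    Subgroup.index_dvd_of_le le_sup_right
  have hc : Nat.Coprime (p ^ k) (P : Subgroup N).index :=
    Nat.Coprime.pow_left k ((Nat.Prime.coprime_iff_not_dvd hp).mpr P.not_dvd_index)
  exact Nat.eq_one_of_dvd_coprimes hc d1 d2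

/-- `G = H O^p(N)` for a classical strongly `p`-embedded `H` and a normal `N` of order
divisible by `p`. -/
theorem cse_sup_pres_eq_top [Finite G] {p : ℕ} [Fact p.Prime] (H : Subgroup G)
    (hpH : p ∣ Nat.card H)
    (hse : ∀ g : G, g ∉ H → ¬ p ∣ Nat.card ↥(H ⊓ H.map (MulAut.conj g).toMonoidHom))
    (N : Subgroup G) [hNn : N.Normal] (hN : p ∣ Nat.card N) :
    H ⊔ Subgroup.closure {g : G | g ∈ N ∧ (orderOf g).Coprime p} = ⊤ := by
  have hp : p.Prime := Fact.out
  obtain ⟨S, hSH, hS1⟩ := cse_sylow H hse hpH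
  obtain ⟨P0⟩ : Nonempty (Sylow p N) := inferInstance
  obtain ⟨Q, hQ⟩ : ∃ Q : Subgroup G, Q = (P0 : Subgroup N).map N.subtype := ⟨_, rfl⟩
  have hQN : Q ≤ N := by rw [hQ]; exact Subgroup.map_subtype_le _
  have hQp : IsPGroup p Q := by rw [hQ]; exact P0.2.map N.subtype
  have hQ1 : Q ≠ ⊥ := by
    rw [hQ]
    intro h
    rw [Subgroup.map_eq_bot_iff_of_injective _ N.subtype_injective] at h
    exact P0.ne_bot_of_dvd_card hN h
  obtain ⟨S', hS'⟩ := hQp.exists_le_sylow
  obtain ⟨g, rfl⟩ := MulAction.exists_smul_eq G S S'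
  have hconj : ∀ q ∈ Q, g⁻¹ * q * g ∈ (S : Subgroup G) :=
    fun q hq => (mem_smul_sylow_iff5 g S q).mp (hS' hq)
  obtain ⟨q0, hq0Q, hq0o⟩ := exists_orderOf_eq_prime_of_ne_bot Q hQp hQ1
  have hnorm : ∀ m ∈ Subgroup.normalizer (Q : Set G), g⁻¹ * m * g ∈ H := by
    intro m hm
    have hx : g⁻¹ * q0 * g ∈ H := hSH (hconj q0 hq0Q)
    have hxo : orderOf (g⁻¹ * q0 * g) = p := by rw [orderOf_conj5', hq0o]
    apply cse_mem_of_conj H hse _ hx hxo
    have e : g⁻¹ * m * g * (g⁻¹ * q0 * g) * (g⁻¹ * m * g)⁻¹ = g⁻¹ * (m * q0 * m⁻¹) * g := by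
      group
    rw [e]
    exact hSH (hconj _ ((Subgroup.mem_normalizer_iff.mp hm q0).mp hq0Q))
  obtain ⟨K, hK⟩ : ∃ K : Subgroup G,
      K = Subgroup.closure {g : G | g ∈ N ∧ (orderOf g).Coprime p} := ⟨_, rfl⟩
  rw [← hK]
  have hKconj : ∀ k ∈ K, ∀ g : G, g * k * g⁻¹ ∈ K := by
    intro k hk g
    have h : K.map (MulAut.conj g).toMonoidHom ≤ K := by
      rw [hK, MonoidHom.map_closure]
      apply Subgroup.closure_mono
      rintro _ ⟨y, ⟨hyN, hyo⟩, rfl⟩
      refine ⟨hNn.conj_mem y hyN g, ?_⟩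
      show (orderOf (g * y * g⁻¹)).Coprime p
      rw [orderOf_conj5]; exact hyo
    exact h ⟨k, hk, rfl⟩
  have hNKQ : ∀ n ∈ N, ∃ k ∈ K, ∃ q ∈ Q, n = k * q := by
    intro n hn
    have htop := pres_sup_sylow_eq_top P0
    have hmem : (⟨n, hn⟩ : N) ∈
        Subgroup.closure {g : N | (orderOf g).Coprime p} ⊔ (P0 : Subgroup N) := by
      rw [htop]; trivial
    have hKn : (Subgroup.closure {g : N | (orderOf g).Coprime p}).Normal := pres_normal5 N p
    rw [← SetLike.mem_coe, Subgroup.normal_mul] at hmem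
    obtain ⟨k, hk, q, hq, hkq⟩ := Set.mem_mul.mp hmem
    refine ⟨(k : G), ?_, (q : G), ?_, ?_⟩
    · have hle : Subgroup.closure {g : N | (orderOf g).Coprime p} ≤ K.comap N.subtype := by
        rw [Subgroup.closure_le]
        intro y hy
        show (y : G) ∈ K
        rw [hK]
        apply Subgroup.subset_closure
        exact ⟨y.2, by rw [Subgroup.orderOf_coe]; exact hy⟩
      exact hle hk
    · rw [hQ]; exact ⟨q, hq, rfl⟩
    · have := congrArg Subtype.val hkq
      exact this.symm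
  rw [eq_top_iff]
  intro y _
  have hfr := Sylow.normalizer_sup_eq_top P0
  have hy : g * y * g⁻¹ ∈ Subgroup.normalizer
      ((Subgroup.map N.subtype (P0 : Subgroup N) : Subgroup G) : Set G) ⊔ N := by
    rw [hfr]; trivial
  rw [← SetLike.mem_coe, Subgroup.mul_normal] at hy
  obtain ⟨m, hm, n, hn, hmn⟩ := Set.mem_mul.mp hy
  obtain ⟨k, hk, q, hq, rfl⟩ := hNKQ n hn
  have e : y = (g⁻¹ * m * g) * (g⁻¹ * k * g) * (g⁻¹ * q * g) := by
    have e1 : y = g⁻¹ * (g * y * g⁻¹) * g := by group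
    rw [e1, ← hmn]; group
  rw [e]
  refine Subgroup.mul_mem _ (Subgroup.mul_mem _ ?_ ?_) ?_
  · exact (le_sup_left : H ≤ H ⊔ K) (hnorm m (by rw [hQ]; exact hm))
  · apply (le_sup_right : K ≤ H ⊔ K)
    have h := hKconj k hk g⁻¹
    rw [inv_inv] at h
    exact h
  · exact (le_sup_left : H ≤ H ⊔ K) (hSH (hconj q hq))

end

end Cfsg.Agent.Lib.Helper5
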