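import Mathlib
import Cfsg.Agent.Lib.Helper5.ClassicalSE2
import Cfsg.Agent.Lib.Helper2.GenCoprime2

set_option autoImplicit false

namespace Cfsg.Agent.Lib.Helper5

section

variable {G : Type*} [Group G]

/-- If `G` has a classical strongly `p`-embedded subgroup then any two normal subgroups of order
divisible by `p` have intersection of order divisible by `p`. -/
theorem cse_inf_dvd [Finite G] {p : ℕ} [Fact p.Prime] (H : Subgroup G) (hH : H ≠ ⊤)
    (hpH : p ∣ Nat.card H)
    (hse : ∀ g : G, g ∉ H → ¬ p ∣ Nat.card ↥(H ⊓ H.map (MulAut.conj g).toMonoidHom))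
    (N M : Subgroup G) [hNn : N.Normal] [hMn : M.Normal] (hN : p ∣ Nat.card N)
    (hM : p ∣ Nat.card M) : p ∣ Nat.card ↥(N ⊓ M) := by
  have hp : p.Prime := Fact.out
  by_contra hK
  obtain ⟨S, hSH, hS1⟩ := cse_sylow H hse hpH
  have hex : ∀ L : Subgroup G, L.Normal → p ∣ Nat.card L →
      ∃ x ∈ L, x ∈ (S : Subgroup G) ∧ orderOf x = p := by
    intro L hL hpL
    obtain ⟨⟨x, hxL⟩, hxo⟩ := exists_prime_orderOf_dvd_card' (G := L) p hpL
    rw [← Subgroup.orderOf_coe] at hxo
    replace hxo : orderOf x = p := hxo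
    have hxp : IsPGroup p (Subgroup.zpowers x) :=
      isPGroup_zpowers_of_orderOf x 1 (by rw [pow_one]; exact hxo)
    obtain ⟨S', hS'⟩ := hxp.exists_le_sylow
    obtain ⟨g, rfl⟩ := MulAction.exists_smul_eq G S S'
    have h1 : g⁻¹ * x * g ∈ (S : Subgroup G) :=
      (mem_smul_sylow_iff5 g S x).mp (hS' (Subgroup.mem_zpowers x))
    refine ⟨g⁻¹ * x * g, ?_, h1, by rw [orderOf_conj5', hxo]⟩
    have h2 := hL.conj_mem x hxL g⁻¹
    rw [inv_inv] at h2
    exact h2
  obtain ⟨x, hxN, hxS, hxo⟩ := hex N hNn hN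
  obtain ⟨y, hyM, hyS, hyo⟩ := hex M hMn hM
  have htriv : ∀ c : G, c ∈ N → c ∈ M → c ∈ (S : Subgroup G) → c = 1 := by
    intro c hcN hcM hcS
    have h1 : orderOf c ∣ Nat.card ↥(N ⊓ M) := Subgroup.orderOf_dvd_natCard _ ⟨hcN, hcM⟩
    obtain ⟨k, hk⟩ := S.2 ⟨c, hcS⟩
    have h2 : c ^ p ^ k = 1 := congrArg Subtype.val hk
    have h3 : orderOf c ∣ p ^ k := orderOf_dvd_of_pow_eq_one h2
    have hcop : Nat.Coprime (p ^ k) (Nat.card ↥(N ⊓ M)) :=
      Nat.Coprime.pow_left k ((Nat.Prime.coprime_iff_not_dvd hp).mpr hK)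
    have h4 : orderOf c = 1 := Nat.eq_one_of_dvd_coprimes hcop h3 h1
    exact orderOf_eq_one_iff.mp h4
  have hxy : x * y = y * x := by
    have h1 : x * y * x⁻¹ * y⁻¹ = 1 := by
      apply htriv
      · have h := hNn.conj_mem x⁻¹ (N.inv_mem hxN) y
        have e : x * y * x⁻¹ * y⁻¹ = x * (y * x⁻¹ * y⁻¹) := by group
        rw [e]; exact N.mul_mem hxN h
      · have h := hMn.conj_mem y hyM x
        exact M.mul_mem h (M.inv_mem hyM)
      · exact Subgroup.mul_mem _ (Subgroup.mul_mem _ (Subgroup.mul_mem _ hxS hyS)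
          (Subgroup.inv_mem _ hxS)) (Subgroup.inv_mem _ hyS)
    have e : x * y = (x * y * x⁻¹ * y⁻¹) * (y * x) := by group
    rw [e, h1, one_mul]
  have hxA : x ∈ Subgroup.closure ({x, y} : Set G) :=
    Subgroup.subset_closure (Set.mem_insert x {y})
  have hyA : y ∈ Subgroup.closure ({x, y} : Set G) :=
    Subgroup.subset_closure (Set.mem_insert_of_mem x rfl)
  have hAS : Subgroup.closure ({x, y} : Set G) ≤ (S : Subgroup G) := by
    rw [Subgroup.closure_le]
    intro z hz
    rcases hz with h | h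
    · rw [h]; exact hxS
    · rw [Set.mem_singleton_iff.mp h]; exact hyS
  have hA1 : Subgroup.closure ({x, y} : Set G) ≤ Subgroup.centralizer {x, y} := by
    rw [Subgroup.closure_le]
    intro z hz
    show z ∈ Subgroup.centralizer {x, y}
    rw [Subgroup.mem_centralizer_iff]
    intro w hw
    rcases hz with h | h
    · rcases hw with h' | h'
      · rw [h, h']
      · rw [h, Set.mem_singleton_iff.mp h']; exact hxy.symm
    · rcases hw with h' | h'
      · rw [Set.mem_singleton_iff.mp h, h']; exact hxy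
      · rw [Set.mem_singleton_iff.mp h, Set.mem_singleton_iff.mp h']
  have hAc : ∀ a ∈ Subgroup.closure ({x, y} : Set G), ∀ b ∈ Subgroup.closure ({x, y} : Set G),
      a * b = b * a := by
    intro a ha
    have h2 : Subgroup.closure ({x, y} : Set G) ≤ Subgroup.centralizer {a} := by
      rw [Subgroup.closure_le]
      intro z hz
      show z ∈ Subgroup.centralizer {a}
      rw [Subgroup.mem_centralizer_iff]
      intro w hw
      rw [Set.mem_singleton_iff.mp hw]
      exact (Subgroup.mem_centralizer_iff.mp (hA1 ha) z hz).symm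
    intro b hb
    exact Subgroup.mem_centralizer_iff.mp (h2 hb) a rfl
  have hAp : ∀ a ∈ Subgroup.closure ({x, y} : Set G), a ^ p = 1 := by
    intro a ha
    refine Subgroup.closure_induction (p := fun a _ => a ^ p = 1) ?_ ?_ ?_ ?_ ha
    · intro z hz
      rcases hz with h | h
      · rw [h, ← hxo, pow_orderOf_eq_one]
      · rw [Set.mem_singleton_iff.mp h, ← hyo, pow_orderOf_eq_one]
    · exact one_pow p
    · intro a b ha hb iha ihb
      have hab : Commute a b := hAc a ha b hb
      rw [hab.mul_pow, iha, ihb, one_mul]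
    · intro a ha iha
      rw [inv_pow, iha, inv_one]
  have hKH : N ⊓ M ≤ H := by
    apply Cfsg.Agent.Lib.Helper2.gen_coprime p (Subgroup.closure ({x, y} : Set G)) (N ⊓ M) H
      hAc hAp hK
    · intro a _
      rw [Subgroup.normalizer_eq_top]; trivial
    · rintro B hBA ⟨z, hzA, hAB⟩ c ⟨-, hc⟩
      have hB1 : B ≠ ⊥ := by
        intro h
        rw [h, bot_sup_eq] at hAB
        have hzp : z ^ p = 1 := hAp z hzA
        have hle : Subgroup.zpowers x ≤ Subgroup.zpowers z := by
          rw [Subgroup.zpowers_le]; exact hAB hxA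
        have hcard : Nat.card (Subgroup.zpowers z) ≤ Nat.card (Subgroup.zpowers x) := by
          rw [Nat.card_zpowers, Nat.card_zpowers, hxo]
          exact Nat.le_of_dvd hp.pos (orderOf_dvd_of_pow_eq_one hzp)
        have heq := Subgroup.eq_of_le_of_card_ge hle hcard
        have hy2 : y ∈ Subgroup.zpowers x := by rw [heq]; exact hAB hyA
        have hyN : y ∈ N := (Subgroup.zpowers_le.mpr hxN) hy2
        have h1 := htriv y hyN hyM hyS
        rw [h1, orderOf_one] at hyo
        exact hp.one_lt.ne hyo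
      obtain ⟨b, hbB, hbo⟩ :=
        exists_orderOf_eq_prime_of_ne_bot B (S.2.to_le (hBA.trans hAS)) hB1
      apply cse_centralizer_le H hse b (hSH (hAS (hBA hbB))) hbo
      show c ∈ Subgroup.centralizer {b}
      rw [Subgroup.mem_centralizer_iff]
      intro w hw
      rw [Set.mem_singleton_iff.mp hw]
      exact Subgroup.mem_centralizer_iff.mp hc b hbB
  have hMH : M ≤ H := by
    intro m hm
    apply cse_mem_of_conj H hse x (hSH hxS) hxo m
    have e : m * x * m⁻¹ = (m * x * m⁻¹ * x⁻¹) * x := by group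
    rw [e]
    apply H.mul_mem _ (hSH hxS)
    apply hKH
    constructor
    · exact N.mul_mem (hNn.conj_mem x hxN m) (N.inv_mem hxN)
    · have h := hMn.conj_mem m⁻¹ (M.inv_mem hm) x
      have e2 : m * x * m⁻¹ * x⁻¹ = m * (x * m⁻¹ * x⁻¹) := by group
      show m * x * m⁻¹ * x⁻¹ ∈ M
      rw [e2]; exact M.mul_mem hm h
  apply hH
  have htop := cse_sup_pres_eq_top H hpH hse M hM
  rw [← htop]
  symm
  apply sup_eq_left.mpr
  rw [Subgroup.closure_le]
  rintro g ⟨hgM, -⟩
  exact hMH hgM

end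

end Cfsg.Agent.Lib.Helper5
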