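import Mathlib
import Cfsg.Prelude.Def_Solvable
import Cfsg.Agent.Lib.Helper5.SL2Invol5
import Cfsg.Agent.Lib.Helper5.DStarOf
import Cfsg.Agent.S0199

set_option autoImplicit false

namespace Cfsg.Agent.Lib.Helper5

universe u

section CommFam

variable {G : Type u} [Group G] [Finite G]

/-- elementwise commuting of two subgroups -/
def CommSub5 (X Y : Subgroup G) : Prop := ∀ x ∈ X, ∀ y ∈ Y, x * y = y * x

omit [Finite G] in
theorem CommSub5.symm {X Y : Subgroup G} (h : CommSub5 X Y) : CommSub5 Y X :=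
  fun y hy x hx => (h x hx y hy).symm

omit [Finite G] in
theorem mem_zpowers_of_card_prime5 {p : ℕ} (hp : p.Prime) (X : Subgroup G) (hX : Nat.card X = p)
    (x : G) (hx : x ∈ X) (hx1 : x ≠ 1) (y : G) (hy : y ∈ X) : y ∈ Subgroup.zpowers x := by
  haveI := Fact.mk hp
  have h := mem_zpowers_of_prime_card (G := ↥X) hX (g := ⟨x, hx⟩) (g' := ⟨y, hy⟩)
    (fun e => hx1 (congrArg Subtype.val e))
  obtain ⟨k, hk⟩ := Subgroup.mem_zpowers_iff.1 h
  refine Subgroup.mem_zpowers_iff.2 ⟨k, ?_⟩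
  have := congrArg Subtype.val hk
  simpa using this

omit [Finite G] in
theorem commSub_of_gen5 {p : ℕ} (hp : p.Prime) (X Y : Subgroup G) (hX : Nat.card X = p)
    (hY : Nat.card Y = p) (x y : G) (hx : x ∈ X) (hx1 : x ≠ 1) (hy : y ∈ Y) (hy1 : y ≠ 1)
    (h : x * y = y * x) : CommSub5 X Y := by
  intro a ha b hb
  obtain ⟨k, rfl⟩ := Subgroup.mem_zpowers_iff.1 (mem_zpowers_of_card_prime5 hp X hX x hx hx1 a ha)
  obtain ⟨l, rfl⟩ := Subgroup.mem_zpowers_iff.1 (mem_zpowers_of_card_prime5 hp Y hY y hy hy1 b hb)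
  exact ((Commute.zpow_left (show Commute x y from h) k).zpow_right l).eq

omit [Finite G] in
theorem pow_card_eq_one5 {p : ℕ} (X : Subgroup G) (hX : Nat.card X = p) (x : G) (hx : x ∈ X) :
    x ^ p = 1 := by
  have : (⟨x, hx⟩ : ↥X) ^ Nat.card X = 1 := pow_card_eq_one'
  rw [hX] at this
  exact congrArg Subtype.val this

omit [Finite G] in
theorem card_zpowers_of_pow5 {p : ℕ} (hp : p.Prime) (g : G) (hg1 : g ≠ 1) (hgp : g ^ p = 1) :
    Nat.card (Subgroup.zpowers g) = p := by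
  haveI := Fact.mk hp
  rw [Nat.card_zpowers]
  exact orderOf_eq_prime hgp hg1

omit [Finite G] in
theorem commSub_zpowers_left5 (g : G) (Y : Subgroup G) (h : ∀ y ∈ Y, g * y = y * g) :
    CommSub5 (Subgroup.zpowers g) Y := by
  intro a ha y hy
  obtain ⟨k, rfl⟩ := Subgroup.mem_zpowers_iff.1 ha
  exact (Commute.zpow_left (show Commute g y from h y hy) k).eq

omit [Finite G] in
theorem comm_mod_central5 (x w c₁ c₂ : G) (h2 : c₁ * w = w * c₁) (h3 : c₂ * x = x * c₂)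
    (h5 : c₁ * c₂ = c₂ * c₁) :
    (x * c₁) * (w * c₂) * (x * c₁)⁻¹ * (w * c₂)⁻¹ = x * w * x⁻¹ * w⁻¹ := by
  have h3' : c₂ * x⁻¹ = x⁻¹ * c₂ := ((show Commute c₂ x from h3).inv_right).eq
  calc (x * c₁) * (w * c₂) * (x * c₁)⁻¹ * (w * c₂)⁻¹
      = x * (c₁ * w) * c₂ * c₁⁻¹ * x⁻¹ * c₂⁻¹ * w⁻¹ := by group
    _ = x * (w * c₁) * c₂ * c₁⁻¹ * x⁻¹ * c₂⁻¹ * w⁻¹ := by rw [h2]
    _ = x * w * (c₁ * c₂) * c₁⁻¹ * x⁻¹ * c₂⁻¹ * w⁻¹ := by group
    _ = x * w * (c₂ * c₁) * c₁⁻¹ * x⁻¹ * c₂⁻¹ * w⁻¹ := by rw [h5]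
    _ = x * w * (c₂ * x⁻¹) * c₂⁻¹ * w⁻¹ := by group
    _ = x * w * (x⁻¹ * c₂) * c₂⁻¹ * w⁻¹ := by rw [h3']
    _ = x * w * x⁻¹ * w⁻¹ := by group

/-- the hypotheses of the commuting family lemma -/
structure CommFam5 (p : ℕ) (K : Set (Subgroup G)) : Prop where
  prime : p.Prime
  card : ∀ X ∈ K, Nat.card ↥X = p
  conj : ∀ X ∈ K, ∀ g : G, X.map (MulAut.conj g).toMonoidHom ∈ K
  line : ∀ X ∈ K, ∀ Y ∈ K, X ≠ Y → CommSub5 X Y →
    ∀ Z : Subgroup G, Z ≤ X ⊔ Y → Nat.card ↥Z = p → Z ∈ K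
  meet : ∀ X ∈ K, ∀ Y ∈ K, X ≠ Y → CommSub5 X Y →
    ∀ W ∈ K, (X ⊔ Y) ⊓ Subgroup.centralizer (W : Set G) ≠ ⊥

variable {p : ℕ} {K : Set (Subgroup G)}

omit [Finite G] in
theorem CommFam5.exists_ne_one (h : CommFam5 p K) (X : Subgroup G) (hX : X ∈ K) :
    ∃ x ∈ X, x ≠ 1 := by
  have hne : X ≠ ⊥ := by
    intro e
    have h1 := h.card X hX
    rw [e, Subgroup.card_bot] at h1
    exact h.prime.one_lt.ne h1
  obtain ⟨⟨x, hx⟩, hx1⟩ := (Subgroup.ne_bot_iff_exists_ne_one).1 hne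
  exact ⟨x, hx, fun e => hx1 (Subtype.ext e)⟩

omit [Finite G] in
theorem CommFam5.gen_point (h : CommFam5 p K) (X Y : Subgroup G) (hX : X ∈ K) (hY : Y ∈ K)
    (hXY : X ≠ Y) (hc : CommSub5 X Y) (e : G) (he : e ∈ X ⊔ Y) (he1 : e ≠ 1) :
    Subgroup.zpowers e ∈ K := by
  obtain ⟨x, hx, y, hy, rfl⟩ := mem_sup_of_commute5 X Y hc e he
  have hep : (x * y) ^ p = 1 := by
    rw [(show Commute x y from hc x hx y hy).mul_pow, pow_card_eq_one5 X (h.card X hX) x hx,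
      pow_card_eq_one5 Y (h.card Y hY) y hy, one_mul]
  exact h.line X hX Y hY hXY hc _ (Subgroup.zpowers_le.2 he) (card_zpowers_of_pow5 h.prime _ he1 hep)

omit [Finite G] in
theorem CommFam5.meet_elt (h : CommFam5 p K) (X Y : Subgroup G) (hX : X ∈ K) (hY : Y ∈ K)
    (hXY : X ≠ Y) (hc : CommSub5 X Y) (W : Subgroup G) (hW : W ∈ K) :
    ∃ x ∈ X, ∃ y ∈ Y, x * y ≠ 1 ∧ ∀ w ∈ W, (x * y) * w = w * (x * y) := by
  obtain ⟨⟨e, he⟩, he1⟩ := (Subgroup.ne_bot_iff_exists_ne_one).1 (h.meet X hX Y hY hXY hc W hW)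
  obtain ⟨x, hx, y, hy, rfl⟩ := mem_sup_of_commute5 X Y hc e he.1
  refine ⟨x, hx, y, hy, fun e' => he1 (Subtype.ext e'), ?_⟩
  intro w hw
  exact (Subgroup.mem_centralizer_iff.1 he.2 w hw).symm

theorem CommFam5.quad (h : CommFam5 p K) (X W Z₁ Z₂ : Subgroup G) (hX : X ∈ K) (hW : W ∈ K)
    (hZ₁ : Z₁ ∈ K) (hZ₂ : Z₂ ∈ K) (hXW : ¬ CommSub5 X W) (hZZ : ¬ CommSub5 Z₁ Z₂)
    (hXZ₁ : CommSub5 X Z₁) (hXZ₂ : CommSub5 X Z₂) (hWZ₁ : CommSub5 W Z₁)
    (hWZ₂ : CommSub5 W Z₂) :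
    ∃ g : G, g ≠ 1 ∧ Subgroup.zpowers g ∈ K ∧ (∀ x ∈ X, g * x = x * g) ∧
      (∀ y ∈ W, g * y = y * g) ∧
      ∀ x ∈ X, ∀ y ∈ W, x * y * x⁻¹ * y⁻¹ ∈ Subgroup.zpowers g := by
  have hp := h.prime
  haveI := Fact.mk hp
  obtain ⟨w, hw, hw1⟩ := h.exists_ne_one W hW
  obtain ⟨z₂, hz₂, hz₂1⟩ := h.exists_ne_one Z₂ hZ₂
  obtain ⟨x₀, hx₀, hx₀1⟩ := h.exists_ne_one X hX
  have hWZ : W ≠ Z₂ := by
    intro e
    rw [e] at hWZ₁
    exact hZZ hWZ₁.symm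
  have hXZ : X ≠ Z₁ := by
    intro e
    rw [← e] at hWZ₁
    exact hXW hWZ₁.symm
  have hwz1 : w * z₂ ≠ 1 := by
    intro e
    apply hXW
    have hwZ : w ∈ Z₂ := by
      have : w = z₂⁻¹ := eq_inv_of_mul_eq_one_left e
      rw [this]; exact Z₂.inv_mem hz₂
    exact commSub_of_gen5 hp X W (h.card X hX) (h.card W hW) x₀ w hx₀ hx₀1 hw hw1
      (hXZ₂ x₀ hx₀ w hwZ)
  have hY' : Subgroup.zpowers (w * z₂) ∈ K :=
    h.gen_point W Z₂ hW hZ₂ hWZ hWZ₂ (w * z₂)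
      (Subgroup.mul_mem _ (Subgroup.mem_sup_left hw) (Subgroup.mem_sup_right hz₂)) hwz1
  obtain ⟨u, hu, v, hv, huv1, hcomm⟩ := h.meet_elt X Z₁ hX hZ₁ hXZ hXZ₁ _ hY'
  have hc0 : (u * v) * (w * z₂) = (w * z₂) * (u * v) := hcomm _ (Subgroup.mem_zpowers _)
  have c_vw : v * w = w * v := (hWZ₁ w hw v hv).symm
  have c_uz : u * z₂ = z₂ * u := hXZ₂ u hu z₂ hz₂
  have hu1 : u ≠ 1 := by
    intro e
    rw [e, one_mul] at hc0 huv1
    apply hZZ
    have : v * z₂ = z₂ * v := by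
      have h1 : w * (v * z₂) = w * (z₂ * v) := by
        calc w * (v * z₂) = (w * v) * z₂ := by group
          _ = (v * w) * z₂ := by rw [c_vw]
          _ = v * (w * z₂) := by group
          _ = (w * z₂) * v := hc0
          _ = w * (z₂ * v) := by group
      exact mul_left_cancel h1
    exact commSub_of_gen5 hp Z₁ Z₂ (h.card _ hZ₁) (h.card _ hZ₂) v z₂ hv huv1 hz₂ hz₂1 this
  have hv1 : v ≠ 1 := by
    intro e
    rw [e, mul_one] at hc0 huv1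
    apply hXW
    have : u * w = w * u := by
      have h1 : (u * w) * z₂ = (w * u) * z₂ := by
        calc (u * w) * z₂ = u * (w * z₂) := by group
          _ = (w * z₂) * u := hc0
          _ = w * (z₂ * u) := by group
          _ = w * (u * z₂) := by rw [c_uz]
          _ = (w * u) * z₂ := by group
      exact mul_right_cancel h1
    exact commSub_of_gen5 hp X W (h.card _ hX) (h.card _ hW) u w hu huv1 hw hw1 this
  have huw : u * w ≠ w * u := by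
    intro e
    exact hXW (commSub_of_gen5 hp X W (h.card _ hX) (h.card _ hW) u w hu hu1 hw hw1 e)
  have key : u * w * (v * z₂) = w * u * (z₂ * v) := by
    calc u * w * (v * z₂) = u * (w * v) * z₂ := by group
      _ = u * (v * w) * z₂ := by rw [c_vw]
      _ = (u * v) * (w * z₂) := by group
      _ = (w * z₂) * (u * v) := hc0
      _ = w * (z₂ * u) * v := by group
      _ = w * (u * z₂) * v := by rw [c_uz]
      _ = w * u * (z₂ * v) := by group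
  obtain ⟨g, hg⟩ : ∃ g : G, g = u⁻¹ * w⁻¹ * u * w := ⟨_, rfl⟩
  have hg2 : g = z₂ * v * z₂⁻¹ * v⁻¹ := by
    have h1 : u * w = w * u * (z₂ * v) * (v * z₂)⁻¹ := by rw [← key]; group
    calc g = u⁻¹ * w⁻¹ * (u * w) := by rw [hg]; group
      _ = u⁻¹ * w⁻¹ * (w * u * (z₂ * v) * (v * z₂)⁻¹) := congrArg (fun t => u⁻¹ * w⁻¹ * t) h1
      _ = z₂ * v * z₂⁻¹ * v⁻¹ := by group
  have hg1 : g ≠ 1 := by
    intro e
    apply huw
    have : u * w = w * u * g := by rw [hg]; group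
    rw [this, e, mul_one]
  have gX : ∀ x ∈ X, g * x = x * g := by
    intro x hx
    have b1 : Commute x z₂ := hXZ₂ x hx z₂ hz₂
    have b2 : Commute x v := hXZ₁ x hx v hv
    rw [hg2]
    exact ((((b1.mul_right b2).mul_right b1.inv_right).mul_right b2.inv_right).eq).symm
  have gW : ∀ y ∈ W, g * y = y * g := by
    intro y hy
    have b1 : Commute y z₂ := hWZ₂ y hy z₂ hz₂
    have b2 : Commute y v := hWZ₁ y hy v hv
    rw [hg2]
    exact ((((b1.mul_right b2).mul_right b1.inv_right).mul_right b2.inv_right).eq).symm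
  have hwu : w⁻¹ * u * w = u * g := by rw [hg]; group
  have hup : u ^ p = 1 := pow_card_eq_one5 X (h.card X hX) u hu
  have hgp : g ^ p = 1 := by
    have h1 : (w⁻¹ * u * w) ^ p = 1 := by
      have : w⁻¹ * u * w = w⁻¹ * u * (w⁻¹)⁻¹ := by rw [inv_inv]
      rw [this, conj_pow, hup]; group
    rw [hwu, (show Commute u g from (gX u hu).symm).mul_pow, hup, one_mul] at h1
    exact h1
  have hgK : Subgroup.zpowers g ∈ K := by
    have hX' : X.map (MulAut.conj w⁻¹).toMonoidHom ∈ K := h.conj X hX w⁻¹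
    have hug : u * g ∈ X.map (MulAut.conj w⁻¹).toMonoidHom := by
      refine ⟨u, hu, ?_⟩
      show w⁻¹ * u * (w⁻¹)⁻¹ = u * g
      rw [inv_inv, hwu]
    have hug1 : u * g ≠ 1 := by
      rw [← hwu]
      intro e
      apply hu1
      have : u = w * (w⁻¹ * u * w) * w⁻¹ := by group
      rw [this, e]; group
    have hcXX' : CommSub5 X (X.map (MulAut.conj w⁻¹).toMonoidHom) :=
      commSub_of_gen5 hp X _ (h.card _ hX) (h.card _ hX') u (u * g) hu hu1 hug hug1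
        (by
          have := gX u hu
          calc u * (u * g) = u * (g * u) := by rw [this]
            _ = (u * g) * u := by group)
    have hgsup : g ∈ X ⊔ X.map (MulAut.conj w⁻¹).toMonoidHom := by
      have : g = u⁻¹ * (u * g) := by group
      rw [this]
      exact Subgroup.mul_mem _ (Subgroup.mem_sup_left (X.inv_mem hu)) (Subgroup.mem_sup_right hug)
    have hne : X ≠ X.map (MulAut.conj w⁻¹).toMonoidHom := by
      intro e
      have hgX : g ∈ X := by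
        rw [← e, sup_idem] at hgsup
        exact hgsup
      exact hXW (commSub_of_gen5 hp X W (h.card _ hX) (h.card _ hW) g w hgX hg1 hw hw1 (gW w hw))
    exact h.gen_point X _ hX hX' hne hcXX' g hgsup hg1
  refine ⟨g, hg1, hgK, gX, gW, ?_⟩
  intro x hx y hy
  obtain ⟨a, rfl⟩ := Subgroup.mem_zpowers_iff.1
    (mem_zpowers_of_card_prime5 hp X (h.card _ hX) u hu hu1 x hx)
  have hyp : y ∈ Submonoid.powers w :=
    (mem_powers_iff_mem_zpowers).2 (mem_zpowers_of_card_prime5 hp W (h.card _ hW) w hw hw1 y hy)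
  obtain ⟨b, rfl⟩ := (Submonoid.mem_powers_iff _ _).1 hyp
  have cgw : Commute g w := gW w hw
  have cgu : Commute g u := gX u hu
  have s1 : ∀ b : ℕ, (w ^ b)⁻¹ * u * w ^ b = u * g ^ b := by
    intro b
    induction b with
    | zero => simp
    | succ b ih =>
      have h2 : g ^ b * w = w * g ^ b := (cgw.pow_left b).eq
      have gwb : w⁻¹ * g ^ b * w = g ^ b := by
        calc w⁻¹ * g ^ b * w = w⁻¹ * (g ^ b * w) := by group
          _ = w⁻¹ * (w * g ^ b) := by rw [h2]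
          _ = g ^ b := by group
      calc (w ^ (b + 1))⁻¹ * u * w ^ (b + 1) = w⁻¹ * ((w ^ b)⁻¹ * u * w ^ b) * w := by
            rw [pow_succ]; group
        _ = w⁻¹ * (u * g ^ b) * w := by rw [ih]
        _ = (w⁻¹ * u * w) * (w⁻¹ * g ^ b * w) := by group
        _ = u * g * g ^ b := by rw [hwu, gwb]
        _ = u * g ^ (b + 1) := by rw [pow_succ']; group
  have s2 : (w ^ b)⁻¹ * u ^ a * w ^ b = u ^ a * (g ^ b) ^ a := by
    have e1 : (w ^ b)⁻¹ * u ^ a * w ^ b = ((w ^ b)⁻¹ * u * ((w ^ b)⁻¹)⁻¹) ^ a := by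
      rw [conj_zpow, inv_inv]
    rw [e1, inv_inv, s1 b]
    exact ((cgu.pow_left b).symm).mul_zpow a
  have hγu : u ^ a * (g ^ b) ^ a = (g ^ b) ^ a * u ^ a :=
    ((((cgu.pow_left b).zpow_left a).zpow_right a).eq).symm
  have hγw : w ^ b * (g ^ b) ^ a = (g ^ b) ^ a * w ^ b :=
    ((((cgw.pow_left b).zpow_left a).pow_right b).eq).symm
  have s3 : u ^ a * w ^ b * (u ^ a)⁻¹ * (w ^ b)⁻¹ = (g ^ b) ^ a := by
    have e1 : u ^ a * w ^ b = w ^ b * (u ^ a * (g ^ b) ^ a) := by rw [← s2]; group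
    calc u ^ a * w ^ b * (u ^ a)⁻¹ * (w ^ b)⁻¹
        = w ^ b * (u ^ a * (g ^ b) ^ a) * (u ^ a)⁻¹ * (w ^ b)⁻¹ := by rw [e1]
      _ = w ^ b * ((g ^ b) ^ a * u ^ a) * (u ^ a)⁻¹ * (w ^ b)⁻¹ := by rw [hγu]
      _ = (w ^ b * (g ^ b) ^ a) * (w ^ b)⁻¹ := by group
      _ = ((g ^ b) ^ a * w ^ b) * (w ^ b)⁻¹ := by rw [hγw]
      _ = (g ^ b) ^ a := by group
  rw [s3]
  exact Subgroup.zpow_mem _ (Subgroup.pow_mem _ (Subgroup.mem_zpowers g) b) a

theorem CommFam5.radical_of_quad (h : CommFam5 p K) (X W : Subgroup G) (hX : X ∈ K) (hW : W ∈ K)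
    (hXW : ¬ CommSub5 X W) (g : G) (hg1 : g ≠ 1) (hgK : Subgroup.zpowers g ∈ K)
    (gX : ∀ x ∈ X, g * x = x * g) (gW : ∀ y ∈ W, g * y = y * g)
    (hcm : ∀ x ∈ X, ∀ y ∈ W, x * y * x⁻¹ * y⁻¹ ∈ Subgroup.zpowers g) :
    ∀ W' ∈ K, CommSub5 (Subgroup.zpowers g) W' := by
  intro W' hW'
  have hp := h.prime
  obtain ⟨w', hw', hw'1⟩ := h.exists_ne_one W' hW'
  obtain ⟨x₀, hx₀, hx₀1⟩ := h.exists_ne_one X hX
  obtain ⟨w₀, hw₀, hw₀1⟩ := h.exists_ne_one W hW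
  have hcard := h.card _ hgK
  have hgmem : g ∈ Subgroup.zpowers g := Subgroup.mem_zpowers g
  have hXC : X ≠ Subgroup.zpowers g := by
    intro e
    have hgX : g ∈ X := by rw [e]; exact hgmem
    exact hXW (commSub_of_gen5 hp X W (h.card _ hX) (h.card _ hW) g w₀ hgX hg1 hw₀ hw₀1
      (gW w₀ hw₀))
  have hWC : W ≠ Subgroup.zpowers g := by
    intro e
    have hgW : g ∈ W := by rw [e]; exact hgmem
    exact hXW (commSub_of_gen5 hp X W (h.card _ hX) (h.card _ hW) x₀ g hx₀ hx₀1 hgW hg1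
      (gX x₀ hx₀).symm)
  have cXC : CommSub5 X (Subgroup.zpowers g) := (commSub_zpowers_left5 g X gX).symm
  have cWC : CommSub5 W (Subgroup.zpowers g) := (commSub_zpowers_left5 g W gW).symm
  obtain ⟨x₁, hx₁, c₁, hc₁, he1, hcomm1⟩ := h.meet_elt X _ hX hgK hXC cXC W' hW'
  obtain ⟨w₁, hw₁, c₂, hc₂, he2, hcomm2⟩ := h.meet_elt W _ hW hgK hWC cWC W' hW'
  have fin : ∀ c ∈ Subgroup.zpowers g, c ≠ 1 → c * w' = w' * c →
      CommSub5 (Subgroup.zpowers g) W' :=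
    fun c hc hc1 hcw => commSub_of_gen5 hp _ W' hcard (h.card _ hW') c w' hc hc1 hw' hw'1 hcw
  by_cases hx₁1 : x₁ = 1
  · rw [hx₁1, one_mul] at he1 hcomm1
    exact fin c₁ hc₁ he1 (hcomm1 w' hw')
  by_cases hw₁1 : w₁ = 1
  · rw [hw₁1, one_mul] at he2 hcomm2
    exact fin c₂ hc₂ he2 (hcomm2 w' hw')
  have hk : x₁ * w₁ * x₁⁻¹ * w₁⁻¹ ∈ Subgroup.zpowers g := hcm x₁ hx₁ w₁ hw₁
  have hk1 : x₁ * w₁ * x₁⁻¹ * w₁⁻¹ ≠ 1 := by
    intro e
    apply hXW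
    have : x₁ * w₁ = w₁ * x₁ := by
      have h2 : x₁ * w₁ = (x₁ * w₁ * x₁⁻¹ * w₁⁻¹) * (w₁ * x₁) := by group
      rw [h2, e, one_mul]
    exact commSub_of_gen5 hp X W (h.card _ hX) (h.card _ hW) x₁ w₁ hx₁ hx₁1 hw₁ hw₁1 this
  apply fin _ hk hk1
  have d1 : c₁ * w₁ = w₁ * c₁ := (cWC w₁ hw₁ c₁ hc₁).symm
  have d2 : c₂ * x₁ = x₁ * c₂ := (cXC x₁ hx₁ c₂ hc₂).symm
  have d3 : c₁ * c₂ = c₂ * c₁ := by
    obtain ⟨k, rfl⟩ := Subgroup.mem_zpowers_iff.1 hc₁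
    obtain ⟨l, rfl⟩ := Subgroup.mem_zpowers_iff.1 hc₂
    exact (((Commute.refl g).zpow_left k).zpow_right l).eq
  rw [← comm_mod_central5 x₁ w₁ c₁ c₂ d1 d2 d3]
  have a1 : Commute (x₁ * c₁) w' := hcomm1 w' hw'
  have a2 : Commute (w₁ * c₂) w' := hcomm2 w' hw'
  exact (((a1.mul_left a2).mul_left a1.inv_left).mul_left a2.inv_left).eq

theorem CommFam5.exists_radical (h : CommFam5 p K)
    (hex : ∃ X ∈ K, ∃ Y ∈ K, X ≠ Y ∧ CommSub5 X Y) :
    ∃ V ∈ K, ∀ W ∈ K, CommSub5 V W := by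
  by_contra hno
  push Not at hno
  have hp := h.prime
  have star : ∀ X ∈ K, ∀ W ∈ K, ¬ CommSub5 X W → ∀ Z₁ ∈ K, ∀ Z₂ ∈ K, CommSub5 X Z₁ →
      CommSub5 X Z₂ → CommSub5 W Z₁ → CommSub5 W Z₂ → CommSub5 Z₁ Z₂ := by
    intro X hX W hW hXW Z₁ hZ₁ Z₂ hZ₂ h1 h2 h3 h4
    by_contra hZZ
    obtain ⟨g, hg1, hgK, gX, gW, hcm⟩ := h.quad X W Z₁ Z₂ hX hW hZ₁ hZ₂ hXW hZZ h1 h2 h3 h4
    obtain ⟨W', hW', hnc⟩ := hno _ hgK
    exact hnc (h.radical_of_quad X W hX hW hXW g hg1 hgK gX gW hcm W' hW')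
  have self : ∀ X ∈ K, CommSub5 X X := by
    intro X hX
    obtain ⟨x, hx, hx1⟩ := h.exists_ne_one X hX
    exact commSub_of_gen5 hp X X (h.card _ hX) (h.card _ hX) x x hx hx1 hx hx1 rfl
  have clique : ∀ X ∈ K, ∀ Y₁ ∈ K, ∀ Y₂ ∈ K, CommSub5 X Y₁ → CommSub5 X Y₂ →
      CommSub5 Y₁ Y₂ := by
    intro X hX Y₁ hY₁ Y₂ hY₂ c1 c2
    obtain ⟨W, hW, hXW⟩ := hno X hX
    by_cases e1 : X = Y₁
    · rw [← e1]; exact c2
    by_cases e2 : X = Y₂
    · rw [← e2]; exact c1.symm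
    obtain ⟨x₁, hx₁, y₁, hy₁, he1, hcomm1⟩ := h.meet_elt X Y₁ hX hY₁ e1 c1 W hW
    obtain ⟨x₂, hx₂, y₂, hy₂, he2, hcomm2⟩ := h.meet_elt X Y₂ hX hY₂ e2 c2 W hW
    obtain ⟨w, hw, hw1⟩ := h.exists_ne_one W hW
    have hy₁1 : y₁ ≠ 1 := by
      intro e
      rw [e, mul_one] at he1 hcomm1
      exact hXW (commSub_of_gen5 hp X W (h.card _ hX) (h.card _ hW) x₁ w hx₁ he1 hw hw1
        (hcomm1 w hw))
    have hy₂1 : y₂ ≠ 1 := by
      intro e
      rw [e, mul_one] at he2 hcomm2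
      exact hXW (commSub_of_gen5 hp X W (h.card _ hX) (h.card _ hW) x₂ w hx₂ he2 hw hw1
        (hcomm2 w hw))
    have hZ₁ : Subgroup.zpowers (x₁ * y₁) ∈ K := h.gen_point X Y₁ hX hY₁ e1 c1 _
      (Subgroup.mul_mem _ (Subgroup.mem_sup_left hx₁) (Subgroup.mem_sup_right hy₁)) he1
    have hZ₂ : Subgroup.zpowers (x₂ * y₂) ∈ K := h.gen_point X Y₂ hX hY₂ e2 c2 _
      (Subgroup.mul_mem _ (Subgroup.mem_sup_left hx₂) (Subgroup.mem_sup_right hy₂)) he2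
    have cXZ₁ : CommSub5 X (Subgroup.zpowers (x₁ * y₁)) := by
      apply CommSub5.symm
      apply commSub_zpowers_left5
      intro x hx
      have a1 : Commute x₁ x := self X hX x₁ hx₁ x hx
      have a2 : Commute y₁ x := (c1 x hx y₁ hy₁).symm
      exact (a1.mul_left a2).eq
    have cXZ₂ : CommSub5 X (Subgroup.zpowers (x₂ * y₂)) := by
      apply CommSub5.symm
      apply commSub_zpowers_left5
      intro x hx
      have a1 : Commute x₂ x := self X hX x₂ hx₂ x hx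
      have a2 : Commute y₂ x := (c2 x hx y₂ hy₂).symm
      exact (a1.mul_left a2).eq
    have cWZ₁ : CommSub5 W (Subgroup.zpowers (x₁ * y₁)) :=
      (commSub_zpowers_left5 _ W hcomm1).symm
    have cWZ₂ : CommSub5 W (Subgroup.zpowers (x₂ * y₂)) :=
      (commSub_zpowers_left5 _ W hcomm2).symm
    have hzz := star X hX W hW hXW _ hZ₁ _ hZ₂ cXZ₁ cXZ₂ cWZ₁ cWZ₂
    have hee : (x₁ * y₁) * (x₂ * y₂) = (x₂ * y₂) * (x₁ * y₁) :=
      hzz _ (Subgroup.mem_zpowers _) _ (Subgroup.mem_zpowers _)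
    have k1 : y₁ * x₂ = x₂ * y₁ := (c1 x₂ hx₂ y₁ hy₁).symm
    have k2 : y₂ * x₁ = x₁ * y₂ := (c2 x₁ hx₁ y₂ hy₂).symm
    have k3 : x₁ * x₂ = x₂ * x₁ := self X hX x₁ hx₁ x₂ hx₂
    have : y₁ * y₂ = y₂ * y₁ := by
      have h1 : (x₁ * x₂) * (y₁ * y₂) = (x₁ * x₂) * (y₂ * y₁) := by
        calc (x₁ * x₂) * (y₁ * y₂) = x₁ * (x₂ * y₁) * y₂ := by group
          _ = x₁ * (y₁ * x₂) * y₂ := by rw [k1]
          _ = (x₁ * y₁) * (x₂ * y₂) := by group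
          _ = (x₂ * y₂) * (x₁ * y₁) := hee
          _ = x₂ * (y₂ * x₁) * y₁ := by group
          _ = x₂ * (x₁ * y₂) * y₁ := by rw [k2]
          _ = (x₂ * x₁) * (y₂ * y₁) := by group
          _ = (x₁ * x₂) * (y₂ * y₁) := by rw [k3]
      exact mul_left_cancel h1
    exact commSub_of_gen5 hp Y₁ Y₂ (h.card _ hY₁) (h.card _ hY₂) y₁ y₂ hy₁ hy₁1 hy₂ hy₂1 this
  obtain ⟨X, hX, Y, hY, hXY, cXY⟩ := hex
  obtain ⟨W, hW, hXW⟩ := hno X hX
  obtain ⟨x, hx, y, hy, he, hcomm⟩ := h.meet_elt X Y hX hY hXY cXY W hW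
  have hZ : Subgroup.zpowers (x * y) ∈ K := h.gen_point X Y hX hY hXY cXY _
    (Subgroup.mul_mem _ (Subgroup.mem_sup_left hx) (Subgroup.mem_sup_right hy)) he
  have cZX : CommSub5 (Subgroup.zpowers (x * y)) X := by
    apply commSub_zpowers_left5
    intro x' hx'
    have a1 : Commute x x' := self X hX x hx x' hx'
    have a2 : Commute y x' := (cXY x' hx' y hy).symm
    exact (a1.mul_left a2).eq
  have cZW : CommSub5 (Subgroup.zpowers (x * y)) W := commSub_zpowers_left5 _ W hcomm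
  exact hXW (clique _ hZ X hX W hW cZX cZW)

/-- S3196 -/
theorem comm_family_main5 {p : ℕ} (hp : p.Prime) (K : Set (Subgroup G))
    (hK : ∀ X ∈ K, Nat.card ↥X = p)
    (hKc : ∀ X ∈ K, ∀ g : G, X.map (MulAut.conj g).toMonoidHom ∈ K)
    (hex : ∃ X ∈ K, ∃ Y ∈ K, X ≠ Y ∧ ∀ x ∈ X, ∀ y ∈ Y, x * y = y * x)
    (ha : ∀ X ∈ K, ∀ Y ∈ K, X ≠ Y → (∀ x ∈ X, ∀ y ∈ Y, x * y = y * x) →
      ∀ Z : Subgroup G, Z ≤ X ⊔ Y → Nat.card ↥Z = p → Z ∈ K)
    (hb : ∀ X ∈ K, ∀ Y ∈ K, X ≠ Y → (∀ x ∈ X, ∀ y ∈ Y, x * y = y * x) →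
      ∀ W ∈ K, (X ⊔ Y) ⊓ Subgroup.centralizer (W : Set G) ≠ ⊥) :
    (∃ V ∈ K, (∀ W ∈ K, ∀ v ∈ V, ∀ w ∈ W, v * w = w * v) ∧ V ≤ Cfsg.pCore p G) ∧
      ¬ IsSimpleGroup G := by
  have h : CommFam5 p K := ⟨hp, hK, hKc, ha, hb⟩
  haveI := Fact.mk hp
  obtain ⟨V, hV, hrad⟩ := h.exists_radical hex
  have hVp : IsPGroup p V := IsPGroup.of_card (n := 1) (by rw [hK V hV, pow_one])
  have hBS : ∀ g : G, IsPGroup p ↥(V ⊔ V.map (MulAut.conj g).toMonoidHom) := by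
    intro g
    have hVg := hKc V hV g
    have hVgp : IsPGroup p (V.map (MulAut.conj g).toMonoidHom) :=
      IsPGroup.of_card (n := 1) (by rw [hK _ hVg, pow_one])
    apply IsPGroup.to_sup_of_normal_right' hVp hVgp
    refine le_trans ?_ (Subgroup.centralizer_le_normalizer _)
    intro v hv
    rw [Subgroup.mem_centralizer_iff]
    intro y hy
    exact (hrad _ hVg v hv y hy).symm
  obtain ⟨N, hN, hNp, hVN⟩ := Cfsg.Agent.S0199.result V hVp hBS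
  refine ⟨⟨V, hV, hrad, hVN.trans (le_pCore5 hN hNp)⟩, ?_⟩
  intro hsimple
  haveI := hsimple
  obtain ⟨X, hX, Y, hY, hXY, -⟩ := hex
  have hne : ∀ H ∈ K, H ≠ ⊥ := by
    intro H hH e
    have h1 := hK H hH
    rw [e, Subgroup.card_bot] at h1
    exact hp.one_lt.ne h1
  have hNtop : N = ⊤ := by
    rcases hN.eq_bot_or_eq_top with h1 | h1
    · exfalso
      apply hne V hV
      rw [h1] at hVN
      exact le_bot_iff.1 hVN
    · exact h1
  have hGp : IsPGroup p G := by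
    intro x
    obtain ⟨k, hk⟩ := hNp ⟨x, by rw [hNtop]; trivial⟩
    exact ⟨k, by simpa using congrArg Subtype.val hk⟩
  haveI : Nontrivial G := IsSimpleGroup.toNontrivial
  have hZ : Subgroup.center G = ⊤ := by
    rcases (Subgroup.Normal.eq_bot_or_eq_top (inferInstance : (Subgroup.center G).Normal))
      with h1 | h1
    · exfalso
      have := hGp.center_nontrivial
      exact (Subgroup.nontrivial_iff_ne_bot _).1 this h1
    · exact h1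
  have hnormal : ∀ H : Subgroup G, H.Normal := by
    intro H
    constructor
    intro n hn g
    have hg : g ∈ Subgroup.center G := by rw [hZ]; trivial
    have := Subgroup.mem_center_iff.1 hg n
    rw [← this, mul_inv_cancel_right]
    exact hn
  have htop : ∀ H ∈ K, H = ⊤ := by
    intro H hH
    rcases (hnormal H).eq_bot_or_eq_top with h1 | h1
    · exact absurd h1 (hne H hH)
    · exact h1
  exact hXY ((htop X hX).trans (htop Y hY).symm)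

end CommFam

end Cfsg.Agent.Lib.Helper5
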