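import Mathlib
import Cfsg.Prelude.Def_CaseTheorems
import Cfsg.Agent.Lib.Helper5.Isolated
import Cfsg.Agent.Lib.Helper5.ClassicalSE
import Cfsg.Agent.Lib.Helper5.DStarOf
import Cfsg.Agent.Lib.Helper2.FStar
import Cfsg.Agent.Lib.Helper2.PQLayer2
import Cfsg.Agent.Lib.Helper2.Quasi
import Cfsg.Agent.Lib.Helper2.PComp

set_option autoImplicit false

universe u

namespace Cfsg.Agent.Lib.Helper5

/-- Cyclic Sylow intersections pass to quotients. -/
theorem cyclic_inter_quotient5 {G : Type u} [Group G] [Finite G] {p : ℕ} [Fact p.Prime]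
    (K : Subgroup G) [K.Normal]
    (hC : ∀ S T : Sylow p G, S ≠ T → IsCyclic ↥((S : Subgroup G) ⊓ (T : Subgroup G)))
    (P T : Sylow p (G ⧸ K)) (hne : P ≠ T) :
    IsCyclic ↥((P : Subgroup (G ⧸ K)) ⊓ (T : Subgroup (G ⧸ K))) := by
  have hsurj : Function.Surjective (QuotientGroup.mk' K) := QuotientGroup.mk'_surjective K
  obtain ⟨S₀, rfl⟩ := Sylow.mapSurjective_surjective hsurj p P
  obtain ⟨T₀, rfl⟩ := Sylow.mapSurjective_surjective hsurj p T
  rw [Sylow.coe_mapSurjective, Sylow.coe_mapSurjective]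
  have hf : Function.Surjective ((QuotientGroup.mk' K).subgroupComap
      ((S₀ : Subgroup G).map (QuotientGroup.mk' K) ⊓ (T₀ : Subgroup G).map (QuotientGroup.mk' K))) :=
    MonoidHom.subgroupComap_surjective_of_surjective _ _ hsurj
  have hUb : IsPGroup p ↥((S₀ : Subgroup G).map (QuotientGroup.mk' K) ⊓
      (T₀ : Subgroup G).map (QuotientGroup.mk' K)) :=
    (S₀.isPGroup'.map (QuotientGroup.mk' K)).to_le inf_le_left
  let L : Subgroup G := ((S₀ : Subgroup G).map (QuotientGroup.mk' K) ⊓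
      (T₀ : Subgroup G).map (QuotientGroup.mk' K)).comap (QuotientGroup.mk' K)
  let U₀ : Sylow p ↥L := default
  let U : Subgroup G := (U₀ : Subgroup ↥L).map L.subtype
  have htop : (U₀ : Subgroup ↥L).map ((QuotientGroup.mk' K).subgroupComap
      ((S₀ : Subgroup G).map (QuotientGroup.mk' K) ⊓ (T₀ : Subgroup G).map (QuotientGroup.mk' K))) = ⊤ :=
    ((U₀.mapSurjective hf).is_maximal' (hUb.to_subgroup ⊤) le_top).symm
  have hUp : IsPGroup p ↥U := U₀.isPGroup'.map _
  -- conjugate into Sylows with the right images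
  have hfind : ∀ (S : Sylow p G), U ≤
      ((S : Subgroup G).map (QuotientGroup.mk' K)).comap (QuotientGroup.mk' K) →
      ∃ S₁ : Sylow p G, U ≤ (S₁ : Subgroup G) ∧
        S₁.mapSurjective hsurj = S.mapSurjective hsurj := by
    intro S hUS
    obtain ⟨n, hnH, hn⟩ := exists_conj_mem_of_max_pSubgroup
      (((S : Subgroup G).map (QuotientGroup.mk' K)).comap (QuotientGroup.mk' K)) (S : Subgroup G)
      _ (Subgroup.le_comap_map _ _) S.isPGroup' (fun R _ hR hSR => S.is_maximal' hR hSR) hUS hUp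
    refine ⟨n • S, ?_, ?_⟩
    · intro x hx
      rw [mem_smul_sylow_iff5]
      exact hn x hx
    · have hle : ((n • S : Sylow p G) : Subgroup G).map (QuotientGroup.mk' K) ≤
          (S : Subgroup G).map (QuotientGroup.mk' K) := by
        rintro _ ⟨x, hx, rfl⟩
        have hx' : n⁻¹ * x * n ∈ (S : Subgroup G) := (mem_smul_sylow_iff5 n S x).mp hx
        have e : x = n * (n⁻¹ * x * n) * n⁻¹ := by group
        rw [e, map_mul, map_mul, map_inv]
        exact Subgroup.mul_mem _ (Subgroup.mul_mem _ hnH (Subgroup.mem_map_of_mem _ hx'))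
          (Subgroup.inv_mem _ hnH)
      apply Sylow.ext
      rw [Sylow.coe_mapSurjective, Sylow.coe_mapSurjective]
      have := ((n • S : Sylow p G).mapSurjective hsurj).is_maximal'
        (S.mapSurjective hsurj).isPGroup' hle
      exact this.symm
  have hL1 : U ≤
      ((S₀ : Subgroup G).map (QuotientGroup.mk' K)).comap (QuotientGroup.mk' K) :=
    (Subgroup.map_subtype_le _).trans (Subgroup.comap_mono inf_le_left)
  have hL2 : U ≤
      ((T₀ : Subgroup G).map (QuotientGroup.mk' K)).comap (QuotientGroup.mk' K) :=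
    (Subgroup.map_subtype_le _).trans (Subgroup.comap_mono inf_le_right)
  obtain ⟨S₁, hUS₁, hS₁⟩ := hfind S₀ hL1
  obtain ⟨T₁, hUT₁, hT₁⟩ := hfind T₀ hL2
  have hne' : S₁ ≠ T₁ := by
    intro h
    apply hne
    rw [← hS₁, ← hT₁, h]
  have hcyc := hC S₁ T₁ hne'
  have hUle : U ≤ (S₁ : Subgroup G) ⊓ (T₁ : Subgroup G) :=
    le_inf hUS₁ hUT₁
  have hU1 : IsCyclic ↥((U).subgroupOf
      ((S₁ : Subgroup G) ⊓ (T₁ : Subgroup G))) := inferInstance
  have hU2 : IsCyclic ↥(U) :=
    isCyclic_of_surjective (Subgroup.subgroupOfEquivOfLe hUle) (Subgroup.subgroupOfEquivOfLe hUle).surjective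
  have hU3 : IsCyclic ↥(U₀ : Subgroup ↥L) :=
    isCyclic_of_surjective
      ((U₀ : Subgroup ↥L).equivMapOfInjective L.subtype (Subgroup.subtype_injective L)).symm
      ((U₀ : Subgroup ↥L).equivMapOfInjective L.subtype (Subgroup.subtype_injective L)).symm.surjective
  apply isCyclic_of_surjective (((QuotientGroup.mk' K).subgroupComap
      ((S₀ : Subgroup G).map (QuotientGroup.mk' K) ⊓ (T₀ : Subgroup G).map (QuotientGroup.mk' K))).comp
      (U₀ : Subgroup ↥L).subtype)
  intro y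
  have hy : y ∈ (⊤ : Subgroup _) := Subgroup.mem_top y
  rw [← htop] at hy
  obtain ⟨u, hu, rfl⟩ := hy
  exact ⟨⟨u, hu⟩, rfl⟩

/-- Solvable, `O(H) = 1`, cyclic Sylow 2-intersections: normal Sylow 2-subgroup. -/
theorem normal_sylow_of_cyclic_inter5 {H : Type u} [Group H] [Finite H] (hs : Group.IsSolvable H)
    (hO : Cfsg.pPrimeCore 2 H = ⊥)
    (hC : ∀ S T : Sylow 2 H, S ≠ T → IsCyclic ↥((S : Subgroup H) ⊓ (T : Subgroup H))) :
    ∃ P : Sylow 2 H, (P : Subgroup H).Normal := by
  let P : Sylow 2 H := default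
  refine ⟨P, ?_⟩
  by_cases hall : ∀ T : Sylow 2 H, T = P
  · apply Subgroup.normalizer_eq_top_iff.mp
    rw [eq_top_iff]
    intro g _
    exact Sylow.smul_eq_iff_mem_normalizer.mp (hall (g • P))
  · exfalso
    push Not at hall
    obtain ⟨T, hT⟩ := hall
    have hno : ∀ K : Subgroup H, ¬ Cfsg.IsComponent K := by
      intro K hK
      exact Cfsg.Agent.Lib.Helper2.quasisimple_not_solvable hK.2 inferInstance
    have hF := Cfsg.Agent.Lib.Helper2.genFitting_eq_pCore_of_no_comp 2 hO hno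
    have hcent : Subgroup.centralizer (Cfsg.pCore 2 H : Set H) ≤ Cfsg.pCore 2 H := by
      have := Cfsg.Agent.Lib.Helper2.centralizer_genFitting_le H
      rwa [hF] at this
    have hQn : (Cfsg.pCore 2 H).Normal := pCore_normal5 2 H
    have hQp : IsPGroup 2 ↥(Cfsg.pCore 2 H) := pCore_isPGroup5 2 H
    have hQle : Cfsg.pCore 2 H ≤ (T : Subgroup H) ⊓ (P : Subgroup H) :=
      le_inf (pCore_le_sylow5 T) (pCore_le_sylow5 P)
    have hcyc := hC T P hT
    have hQ1 : IsCyclic ↥((Cfsg.pCore 2 H).subgroupOf ((T : Subgroup H) ⊓ (P : Subgroup H))) :=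
      inferInstance
    have hQc : IsCyclic ↥(Cfsg.pCore 2 H) :=
      isCyclic_of_surjective (Subgroup.subgroupOfEquivOfLe hQle)
        (Subgroup.subgroupOfEquivOfLe hQle).surjective
    -- index of centralizer divides |Aut Q|
    have key := Subgroup.card_dvd_of_injective _
      (QuotientGroup.kerLift_injective (Cfsg.pCore 2 H).normalizerMonoidHom)
    rw [Subgroup.normalizerMonoidHom_ker, ← Subgroup.index, ← Subgroup.relIndex,
      Subgroup.normalizer_eq_top, Subgroup.relIndex_top_right, hQc.card_mulAut] at key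
    obtain ⟨k, hk⟩ := IsPGroup.iff_card.mp hQp
    have htot : ∃ j, Nat.totient (Nat.card ↥(Cfsg.pCore 2 H)) = 2 ^ j := by
      rw [hk]
      rcases Nat.eq_zero_or_pos k with h0 | h0
      · exact ⟨0, by rw [h0]; simp⟩
      · exact ⟨k - 1, by rw [Nat.totient_prime_pow Nat.prime_two h0]; simp⟩
    obtain ⟨j, hj⟩ := htot
    rw [hj] at key
    obtain ⟨i, -, hi⟩ := (Nat.dvd_prime_pow Nat.prime_two).mp key
    have hCp : IsPGroup 2 ↥(Subgroup.centralizer (Cfsg.pCore 2 H : Set H)) := hQp.to_le hcent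
    obtain ⟨l, hl⟩ := IsPGroup.iff_card.mp hCp
    have hcard : Nat.card H = 2 ^ (l + i) := by
      rw [← Subgroup.card_mul_index (Subgroup.centralizer (Cfsg.pCore 2 H : Set H)), hl, hi, pow_add]
    have hH2 : IsPGroup 2 H := IsPGroup.of_card hcard
    apply hT
    apply Sylow.ext
    have h1 := P.is_maximal' (hH2.to_subgroup ⊤) le_top
    have h2 := T.is_maximal' (hH2.to_subgroup ⊤) le_top
    rw [← h1, ← h2]

theorem cyclic_inter_main5 {G : Type u} [Group G] [Finite G] (hs : Group.IsSolvable G)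
    (hC : ∀ S T : Sylow 2 G, S ≠ T → IsCyclic ↥((S : Subgroup G) ⊓ (T : Subgroup G))) :
    ∃ P : Sylow 2 (G ⧸ Cfsg.oddCore G), (P : Subgroup (G ⧸ Cfsg.oddCore G)).Normal := by
  apply normal_sylow_of_cyclic_inter5 inferInstance
  · exact Cfsg.Agent.Lib.Helper2.pPrimeCore_quotient_eq_bot 2 G
  · intro P T hne
    exact cyclic_inter_quotient5 (Cfsg.oddCore G) hC P T hne

end Cfsg.Agent.Lib.Helper5
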