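import Mathlib
import Cfsg.Prelude.Def_Transfer
import Cfsg.Agent.Lib.Helper3.HallHigman
import Cfsg.Agent.Lib.Helper7.ElemAbCount

set_option autoImplicit false

universe u

namespace Cfsg.Agent.Lib.Helper5

/-- Basic facts on the extraspecial group of order `p ^ 3` and exponent `p ^ 2`, `p` odd. -/
theorem es_p3_facts5 {Q : Type u} [Group Q] [Finite Q] {p : ℕ} [Fact p.Prime] (hp : p ≠ 2)
    (hE : Cfsg.IsExtraspecial p Q) (hcard : Nat.card Q = p ^ 3)
    (hexp : Monoid.exponent Q = p ^ 2) :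
    (∀ x : Q, x ^ p ∈ Subgroup.center Q) ∧
    (∀ x y : Q, x * y * x⁻¹ * y⁻¹ ∈ Subgroup.center Q) ∧
    (∀ c ∈ Subgroup.center Q, c ^ p = 1) ∧
    (∀ x y : Q, (x * y) ^ p = x ^ p * y ^ p) ∧
    (∃ a : Q, a ^ p ≠ 1) ∧
    ∃ E₀ : Subgroup Q, (∀ x, x ∈ E₀ ↔ x ^ p = 1) ∧ Nat.card E₀ = p ^ 2 ∧
      (∀ x ∈ E₀, ∀ y ∈ E₀, x * y = y * x) ∧
      (∀ u, u ∉ E₀ → ∀ y ∈ E₀, u * y = y * u → y ∈ Subgroup.center Q) := by
  classical
  have hpp : p.Prime := Fact.out
  obtain ⟨⟨hPG, hfrat, hcomm⟩, hZcard⟩ := hE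
  have ha : ∀ x : Q, x ^ p ∈ Subgroup.center Q := by
    intro x
    rw [← hfrat]
    exact Cfsg.Agent.Lib.Helper7.pow_mem_frattini hPG x
  have hb : ∀ x y : Q, x * y * x⁻¹ * y⁻¹ ∈ Subgroup.center Q := by
    intro x y
    rw [← hcomm]
    exact Subgroup.commutator_mem_commutator (Subgroup.mem_top x) (Subgroup.mem_top y)
  have hc : ∀ c ∈ Subgroup.center Q, c ^ p = 1 := by
    intro c hc
    have h1 : (⟨c, hc⟩ : Subgroup.center Q) ^ Nat.card (Subgroup.center Q) = 1 := pow_card_eq_one'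
    rw [hZcard] at h1
    exact congrArg Subtype.val h1
  have hd : ∀ x y : Q, (x * y) ^ p = x ^ p * y ^ p := by
    intro x y
    have hcz := hb y x
    have hba : y * x = (y * x * y⁻¹ * x⁻¹) * x * y := by group
    have hcx : Commute (y * x * y⁻¹ * x⁻¹) x := (Subgroup.mem_center_iff.mp hcz x).symm
    have hcy : Commute (y * x * y⁻¹ * x⁻¹) y := (Subgroup.mem_center_iff.mp hcz y).symm
    have h1 := Cfsg.Agent.Lib.Helper3.mul_pow_of_comm x y _ hba hcx hcy p
    rw [h1]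
    obtain ⟨k, hk⟩ : ∃ k, p = 2 * k + 1 := by
      rcases hpp.eq_two_or_odd with h | h
      · exact absurd h hp
      · exact ⟨p / 2, by omega⟩
    have h2 : p * (p - 1) / 2 = p * k := by
      have : p - 1 = 2 * k := by omega
      rw [this, ← mul_assoc, mul_comm p 2, mul_assoc]
      exact Nat.mul_div_cancel_left _ (by norm_num)
    rw [h2, pow_mul, hc _ hcz, one_pow, mul_one]
  have he : ∃ a : Q, a ^ p ≠ 1 := by
    by_contra hno
    push Not at hno
    have h1 : Monoid.exponent Q ∣ p := Monoid.exponent_dvd_of_forall_pow_eq_one hno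
    rw [hexp] at h1
    have h2 := Nat.le_of_dvd hpp.pos h1
    have h3 : p < p ^ 2 := by
      calc p = p ^ 1 := (pow_one p).symm
        _ < p ^ 2 := Nat.pow_lt_pow_right hpp.one_lt (by norm_num)
    omega
  refine ⟨ha, hb, hc, hd, he, ?_⟩
  set φ : Q →* Q := MonoidHom.mk' (fun x => x ^ p) hd with hφ
  have hφx : ∀ x, φ x = x ^ p := fun x => rfl
  have hrange : φ.range ≤ Subgroup.center Q := by
    rintro _ ⟨x, rfl⟩
    exact ha x
  have hrcard : Nat.card φ.range = p := by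
    have h1 : Nat.card φ.range ∣ p := by
      rw [← hZcard]; exact Subgroup.card_dvd_of_le hrange
    rcases (Nat.dvd_prime hpp).mp h1 with h | h
    · exfalso
      obtain ⟨a, ha1⟩ := he
      have h2 : φ.range = ⊥ := Subgroup.card_eq_one.mp h
      have h3 : φ a ∈ φ.range := ⟨a, rfl⟩
      rw [h2, Subgroup.mem_bot] at h3
      exact ha1 h3
    · exact h
  have hkidx : φ.ker.index = p := by rw [Subgroup.index_ker, hrcard]
  have hkcard : Nat.card φ.ker = p ^ 2 := by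
    have h1 := φ.ker.card_mul_index
    rw [hkidx, hcard] at h1
    have h2 : Nat.card φ.ker * p = p ^ 2 * p := by rw [h1]; ring
    exact Nat.eq_of_mul_eq_mul_right hpp.pos h2
  have hkcomm : ∀ x ∈ φ.ker, ∀ y ∈ φ.ker, x * y = y * x := by
    intro x hx y hy
    have h0 := IsPGroup.isMulCommutative_of_card_eq_prime_sq hkcard
    have h1 := h0.is_comm.comm (⟨x, hx⟩ : φ.ker) ⟨y, hy⟩
    exact congrArg Subtype.val h1
  refine ⟨φ.ker, fun x => by rw [MonoidHom.mem_ker, hφx], hkcard, hkcomm, ?_⟩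
  intro u hu y hy huy
  have hle : φ.ker ≤ Subgroup.centralizer ({y} : Set Q) := by
    intro x hx
    rw [Subgroup.mem_centralizer_iff]
    intro w hw
    rw [Set.mem_singleton_iff] at hw; subst hw
    exact hkcomm _ hy x hx
  have huK : u ∈ Subgroup.centralizer ({y} : Set Q) := by
    rw [Subgroup.mem_centralizer_iff]
    intro w hw
    rw [Set.mem_singleton_iff] at hw; subst hw
    exact huy.symm
  have hidx : (Subgroup.centralizer ({y} : Set Q)).index ∣ p := by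
    rw [← hkidx]; exact Subgroup.index_dvd_of_le hle
  rcases (Nat.dvd_prime hpp).mp hidx with h | h
  · rw [Subgroup.index_eq_one] at h
    rw [Subgroup.mem_center_iff]
    intro g
    have hg : g ∈ Subgroup.centralizer ({y} : Set Q) := by rw [h]; exact Subgroup.mem_top g
    exact (Subgroup.mem_centralizer_iff.mp hg y rfl).symm
  · exfalso
    have h1 := (Subgroup.centralizer ({y} : Set Q)).card_mul_index
    rw [h, hcard] at h1
    have h2 : Nat.card (Subgroup.centralizer ({y} : Set Q)) * p = p ^ 2 * p := by rw [h1]; ring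
    have h3 : Nat.card (Subgroup.centralizer ({y} : Set Q)) = p ^ 2 :=
      Nat.eq_of_mul_eq_mul_right hpp.pos h2
    have h4 := Subgroup.eq_of_le_of_card_ge hle (by rw [h3, hkcard])
    exact hu (h4 ▸ huK)

/-- Two transvection-like elements produce an element inverting the two generators. -/
theorem inv_of_transvections5 {G : Type u} [Group G] (a v z y : G)
    (hyz : y * z = z * y)
    (haz : a * z * a⁻¹ = z) (hay : a * y * a⁻¹ = y * z)
    (hvy : v * y * v⁻¹ = y) (hvz : v * z * v⁻¹ = z * y⁻¹) :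
    (a * v * a) ^ 2 * z * ((a * v * a) ^ 2)⁻¹ = z⁻¹ ∧
      (a * v * a) ^ 2 * y * ((a * v * a) ^ 2)⁻¹ = y⁻¹ := by
  have hwz : (a * v * a) * z * (a * v * a)⁻¹ = y⁻¹ := by
    calc (a * v * a) * z * (a * v * a)⁻¹ = a * (v * (a * z * a⁻¹) * v⁻¹) * a⁻¹ := by group
      _ = a * (z * y⁻¹) * a⁻¹ := by rw [haz, hvz]
      _ = (a * z * a⁻¹) * (a * y * a⁻¹)⁻¹ := by group
      _ = z * (y * z)⁻¹ := by rw [haz, hay]
      _ = y⁻¹ := by group
  have hwy : (a * v * a) * y * (a * v * a)⁻¹ = z := by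
    calc (a * v * a) * y * (a * v * a)⁻¹ = a * (v * (a * y * a⁻¹) * v⁻¹) * a⁻¹ := by group
      _ = a * (v * (y * z) * v⁻¹) * a⁻¹ := by rw [hay]
      _ = a * ((v * y * v⁻¹) * (v * z * v⁻¹)) * a⁻¹ := by group
      _ = a * (y * (z * y⁻¹)) * a⁻¹ := by rw [hvy, hvz]
      _ = a * (z * y * y⁻¹) * a⁻¹ := by
          have e : y * (z * y⁻¹) = z * y * y⁻¹ := by rw [← mul_assoc, hyz]
          rw [e]
      _ = a * z * a⁻¹ := by group
      _ = z := haz
  constructor
  · calc (a * v * a) ^ 2 * z * ((a * v * a) ^ 2)⁻¹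
        = (a * v * a) * ((a * v * a) * z * (a * v * a)⁻¹) * (a * v * a)⁻¹ := by
          rw [pow_two, mul_inv_rev]; simp only [mul_assoc]
      _ = ((a * v * a) * y * (a * v * a)⁻¹)⁻¹ := by rw [hwz]; group
      _ = z⁻¹ := by rw [hwy]
  · calc (a * v * a) ^ 2 * y * ((a * v * a) ^ 2)⁻¹
        = (a * v * a) * ((a * v * a) * y * (a * v * a)⁻¹) * (a * v * a)⁻¹ := by
          rw [pow_two, mul_inv_rev]; simp only [mul_assoc]
      _ = y⁻¹ := by rw [hwy, hwz]

/-- Iterating a transvection. -/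
theorem conj_pow_shift5 {G : Type u} [Group G] (v z y : G) (hvy : v * y * v⁻¹ = y)
    (hvz : v * z * v⁻¹ = z * y) (l : ℕ) : v ^ l * z * (v ^ l)⁻¹ = z * y ^ l := by
  induction l with
  | zero => simp
  | succ l ih =>
    calc v ^ (l + 1) * z * (v ^ (l + 1))⁻¹ = v * (v ^ l * z * (v ^ l)⁻¹) * v⁻¹ := by
          rw [pow_succ']; group
      _ = v * (z * y ^ l) * v⁻¹ := by rw [ih]
      _ = (v * z * v⁻¹) * (v * y * v⁻¹) ^ l := by rw [conj_pow]; group
      _ = z * y ^ (l + 1) := by rw [hvz, hvy, pow_succ', mul_assoc]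

/-- Product decomposition in `C ⊔ P` when `P` normalizes `C`. -/
theorem mem_sup_of_normalizes5 {G : Type u} [Group G] (C P : Subgroup G)
    (h : ∀ x ∈ P, ∀ c ∈ C, x * c * x⁻¹ ∈ C) (g : G) (hg : g ∈ C ⊔ P) :
    ∃ c ∈ C, ∃ x ∈ P, g = c * x := by
  rw [Subgroup.sup_eq_closure] at hg
  induction hg using Subgroup.closure_induction with
  | mem g hg =>
    rcases hg with hg | hg
    · exact ⟨g, hg, 1, P.one_mem, by rw [mul_one]⟩
    · exact ⟨1, C.one_mem, g, hg, by rw [one_mul]⟩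
  | one => exact ⟨1, C.one_mem, 1, P.one_mem, by rw [mul_one]⟩
  | mul a b _ _ iha ihb =>
    obtain ⟨c1, hc1, x1, hx1, rfl⟩ := iha
    obtain ⟨c2, hc2, x2, hx2, rfl⟩ := ihb
    exact ⟨c1 * (x1 * c2 * x1⁻¹), C.mul_mem hc1 (h x1 hx1 c2 hc2), x1 * x2, P.mul_mem hx1 hx2,
      by group⟩
  | inv a _ iha =>
    obtain ⟨c1, hc1, x1, hx1, rfl⟩ := iha
    exact ⟨x1⁻¹ * c1⁻¹ * (x1⁻¹)⁻¹, h x1⁻¹ (P.inv_mem hx1) c1⁻¹ (C.inv_mem hc1), x1⁻¹,
      P.inv_mem hx1, by group⟩

end Cfsg.Agent.Lib.Helper5
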