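import Mathlib
import Cfsg.Prelude.Def_TwoFusion
import Cfsg.Agent.Lib.Helper5.ESClosed5
import Cfsg.Agent.Lib.Helper5.ClassicalSE
import Cfsg.Agent.Lib.Helper5.PGroupBasics

set_option autoImplicit false

universe u

namespace Cfsg.Agent.Lib.Helper5

set_option maxHeartbeats 1600000 in
/-- If a Sylow `p`-subgroup `P` (`p` odd) is extraspecial of order `p ^ 3` and exponent `p ^ 2`,
then `Z(P)` is strongly closed in `P`. -/
theorem es_center_strongly_closed5 {G : Type u} [Group G] [Finite G]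
    {p : ℕ} [Fact p.Prime] (hp : p ≠ 2) (P : Sylow p G) (hE : Cfsg.IsExtraspecial p ↥P)
    (hcard : Nat.card P = p ^ 3) (hexp : Monoid.exponent ↥P = p ^ 2) :
    Cfsg.IsStronglyClosed ((Subgroup.center ↥P).map (P : Subgroup G).subtype)
      (P : Subgroup G) := by
  classical
  have hpp : p.Prime := Fact.out
  obtain ⟨ha, hb, hc, hd, ⟨a₀, ha₀⟩, E₀, hE₀mem, hE₀card, hE₀comm, hE₀cent⟩ :=
    es_p3_facts5 hp hE hcard hexp
  obtain ⟨Z, hZdef⟩ : ∃ Z : Subgroup G,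
      Z = (Subgroup.center ↥P).map (P : Subgroup G).subtype := ⟨_, rfl⟩
  obtain ⟨E, hEdef⟩ : ∃ E : Subgroup G, E = E₀.map (P : Subgroup G).subtype := ⟨_, rfl⟩
  rw [← hZdef]
  have hZP : Z ≤ (P : Subgroup G) := by rw [hZdef]; exact Subgroup.map_subtype_le _
  have hEP : E ≤ (P : Subgroup G) := by rw [hEdef]; exact Subgroup.map_subtype_le _
  have hZmem : ∀ z : G, z ∈ Z ↔
      ∃ hz : z ∈ (P : Subgroup G), (⟨z, hz⟩ : ↥P) ∈ Subgroup.center ↥P := by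
    intro z
    rw [hZdef]
    constructor
    · rintro ⟨⟨z', hz'⟩, hzc, rfl⟩; exact ⟨hz', hzc⟩
    · rintro ⟨hz, hzc⟩; exact ⟨⟨z, hz⟩, hzc, rfl⟩
  have hEmem : ∀ e : G, e ∈ E ↔ e ∈ (P : Subgroup G) ∧ e ^ p = 1 := by
    intro e
    rw [hEdef]
    constructor
    · rintro ⟨⟨e', he'⟩, hec, rfl⟩
      exact ⟨he', congrArg Subtype.val ((hE₀mem _).mp hec)⟩
    · rintro ⟨he, hep⟩
      exact ⟨⟨e, he⟩, (hE₀mem _).mpr (Subtype.ext hep), rfl⟩
  have hZcomm : ∀ z ∈ Z, ∀ x ∈ (P : Subgroup G), x * z = z * x := by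
    intro z hz x hx
    obtain ⟨hzP, hzc⟩ := (hZmem z).mp hz
    exact congrArg Subtype.val (Subgroup.mem_center_iff.mp hzc ⟨x, hx⟩)
  have G1 : ∀ x ∈ (P : Subgroup G), x ^ p ∈ Z := fun x hx =>
    (hZmem _).mpr ⟨Subgroup.pow_mem _ hx p, ha ⟨x, hx⟩⟩
  have G2 : ∀ x ∈ (P : Subgroup G), ∀ y ∈ (P : Subgroup G), x * y * x⁻¹ * y⁻¹ ∈ Z :=
    fun x hx y hy => (hZmem _).mpr
      ⟨Subgroup.mul_mem _ (Subgroup.mul_mem _ (Subgroup.mul_mem _ hx hy) (Subgroup.inv_mem _ hx))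
        (Subgroup.inv_mem _ hy), hb ⟨x, hx⟩ ⟨y, hy⟩⟩
  have G3 : ∀ c ∈ Z, c ^ p = 1 := by
    intro c hc'
    obtain ⟨hcP, hcc⟩ := (hZmem c).mp hc'
    exact congrArg Subtype.val (hc _ hcc)
  have G4 : ∀ x ∈ (P : Subgroup G), ∀ y ∈ (P : Subgroup G), (x * y) ^ p = x ^ p * y ^ p :=
    fun x hx y hy => congrArg Subtype.val (hd ⟨x, hx⟩ ⟨y, hy⟩)
  have hZE : Z ≤ E := fun c hc' => (hEmem c).mpr ⟨hZP hc', G3 c hc'⟩
  have G6 : ∀ x ∈ E, ∀ y ∈ E, x * y = y * x := by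
    intro x hx y hy
    rw [hEdef] at hx hy
    obtain ⟨x', hx', rfl⟩ := hx
    obtain ⟨y', hy', rfl⟩ := hy
    exact congrArg Subtype.val (hE₀comm x' hx' y' hy')
  have G7 : ∀ u ∈ (P : Subgroup G), u ∉ E → ∀ y ∈ E, u * y = y * u → y ∈ Z := by
    intro u hu huE y hy huy
    have hyP := hEP hy
    have h1 : (⟨u, hu⟩ : ↥P) ∉ E₀ := fun h => huE (by rw [hEdef]; exact ⟨⟨u, hu⟩, h, rfl⟩)
    have h2 : (⟨y, hyP⟩ : ↥P) ∈ E₀ := (hE₀mem _).mpr (Subtype.ext ((hEmem y).mp hy).2)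
    exact (hZmem y).mpr ⟨hyP, hE₀cent ⟨u, hu⟩ h1 ⟨y, hyP⟩ h2 (Subtype.ext huy)⟩
  have hZcard : Nat.card Z = p := by
    rw [hZdef, Subgroup.card_map_of_injective (Subgroup.subtype_injective _)]; exact hE.2
  have hEcard : Nat.card E = p ^ 2 := by
    rw [hEdef, Subgroup.card_map_of_injective (Subgroup.subtype_injective _)]; exact hE₀card
  have G9 : ∀ x ∈ (P : Subgroup G), ∀ e ∈ E, x * e * x⁻¹ ∈ E := by
    intro x hx e he
    have he' := (hEmem e).mp he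
    refine (hEmem _).mpr
      ⟨Subgroup.mul_mem _ (Subgroup.mul_mem _ hx he'.1) (Subgroup.inv_mem _ hx), ?_⟩
    rw [conj_pow, he'.2]; group
  have hgenZ : ∀ c ∈ Z, c ≠ 1 → ∀ z' ∈ Z, ∃ k : ℕ, c ^ k = z' := by
    intro c hc' hc1 z' hz'
    have h2 : orderOf c = p := orderOf_eq_prime (G3 c hc') hc1
    have h1 : Subgroup.zpowers c = Z := by
      apply Subgroup.eq_of_le_of_card_ge (Subgroup.zpowers_le.mpr hc')
      rw [hZcard, Nat.card_zpowers, h2]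
    rw [← h1] at hz'
    obtain ⟨k, hk⟩ := mem_powers_iff_mem_zpowers.mpr hz'
    exact ⟨k, hk⟩
  refine ⟨hZP, ?_⟩
  intro z hz g hgP
  by_contra hyZ
  have hz1 : z ≠ 1 := by
    rintro rfl
    apply hyZ
    have e1 : g * 1 * g⁻¹ = (1 : G) := by group
    rw [e1]; exact Z.one_mem
  have hyp : (g * z * g⁻¹) ^ p = 1 := by rw [conj_pow, G3 z hz]; group
  have hyE0 : g * z * g⁻¹ ∈ E := (hEmem _).mpr ⟨hgP, hyp⟩
  -- Step A: adjust the conjugating element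
  obtain ⟨g', hg'z, hg'E⟩ : ∃ g' : G, g' * z * g'⁻¹ = g * z * g⁻¹ ∧
      ∀ e ∈ E, g'⁻¹ * e * g' ∈ (P : Subgroup G) := by
    have hP'C : ((g • P : Sylow p G) : Subgroup G) ≤
        Subgroup.centralizer ({g * z * g⁻¹} : Set G) := by
      intro x hx
      rw [mem_smul_sylow_iff5] at hx
      rw [Subgroup.mem_centralizer_iff]
      intro w hw
      rw [Set.mem_singleton_iff] at hw; subst hw
      have h1 := hZcomm z hz _ hx
      calc g * z * g⁻¹ * x = g * (z * (g⁻¹ * x * g)) * g⁻¹ := by group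
        _ = g * ((g⁻¹ * x * g) * z) * g⁻¹ := by rw [h1]
        _ = x * (g * z * g⁻¹) := by group
    have hEC : E ≤ Subgroup.centralizer ({g * z * g⁻¹} : Set G) := by
      intro e he
      rw [Subgroup.mem_centralizer_iff]
      intro w hw
      rw [Set.mem_singleton_iff] at hw; subst hw
      exact G6 _ hyE0 e he
    have hEp : IsPGroup p ↥(E.subgroupOf (Subgroup.centralizer ({g * z * g⁻¹} : Set G))) :=
      (P.isPGroup'.to_le hEP).comap_of_injective _ (Subgroup.subtype_injective _)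
    obtain ⟨Q', hQ'⟩ := hEp.exists_le_sylow
    obtain ⟨c, hc⟩ := MulAction.exists_smul_eq
      (↥(Subgroup.centralizer ({g * z * g⁻¹} : Set G))) ((g • P : Sylow p G).subtype hP'C) Q'
    refine ⟨(c : G) * g, ?_, ?_⟩
    · have hcc : (c : G) ∈ Subgroup.centralizer ({g * z * g⁻¹} : Set G) := c.2
      have h1 : g * z * g⁻¹ * (c : G) = (c : G) * (g * z * g⁻¹) :=
        Subgroup.mem_centralizer_iff.mp hcc _ rfl
      calc (c : G) * g * z * ((c : G) * g)⁻¹ = ((c : G) * (g * z * g⁻¹)) * (c : G)⁻¹ := by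
            group
        _ = g * z * g⁻¹ := by rw [← h1]; group
    · intro e he
      have h1 : (⟨e, hEC he⟩ : ↥(Subgroup.centralizer ({g * z * g⁻¹} : Set G))) ∈
          ((c • (g • P : Sylow p G).subtype hP'C : Sylow p _) : Subgroup _) := by
        rw [hc]; exact hQ' (Subgroup.mem_subgroupOf.mpr he)
      rw [mem_smul_sylow_iff5] at h1
      have h2 : ((c⁻¹ * ⟨e, hEC he⟩ * c :
          ↥(Subgroup.centralizer ({g * z * g⁻¹} : Set G))) : G) ∈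
          ((g • P : Sylow p G) : Subgroup G) := h1
      rw [mem_smul_sylow_iff5] at h2
      simp only [Subgroup.coe_mul, InvMemClass.coe_inv] at h2
      have e1 : ((c : G) * g)⁻¹ * e * ((c : G) * g) = g⁻¹ * ((c : G)⁻¹ * e * (c : G)) * g := by
        group
      rw [e1]; exact h2
  obtain ⟨y, hy⟩ : ∃ y : G, y = g' * z * g'⁻¹ := ⟨_, rfl⟩
  have hyP : y ∈ (P : Subgroup G) := by rw [hy, hg'z]; exact hgP
  have hyZ' : y ∉ Z := by rw [hy, hg'z]; exact hyZ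
  have hyE : y ∈ E := by rw [hy, hg'z]; exact hyE0
  have hg'inv : ∀ e ∈ E, g'⁻¹ * e * g' ∈ E := by
    intro e he
    refine (hEmem _).mpr ⟨hg'E e he, ?_⟩
    have e1 : g'⁻¹ * e * g' = g'⁻¹ * e * (g'⁻¹)⁻¹ := by rw [inv_inv]
    rw [e1, conj_pow, ((hEmem e).mp he).2]; group
  have hg'N : g' ∈ Subgroup.normalizer (E : Set G) := by
    have h1 : g'⁻¹ ∈ Subgroup.normalizer (E : Set G) :=
      mem_normalizer_of_conj_mem5 E g'⁻¹ (fun e he => by rw [inv_inv]; exact hg'inv e he)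
    have h2 := Subgroup.inv_mem _ h1
    rwa [inv_inv] at h2
  have hg'fwd : ∀ e ∈ E, g' * e * g'⁻¹ ∈ E := fun e he =>
    (Subgroup.mem_normalizer_iff.mp hg'N e).mp he
  obtain ⟨a, haP, hap⟩ : ∃ a ∈ (P : Subgroup G), a ^ p ≠ 1 :=
    ⟨(a₀ : G), a₀.2, fun h => ha₀ (Subtype.ext h)⟩
  have haE : a ∉ E := fun h => hap ((hEmem a).mp h).2
  have haN : a ∈ Subgroup.normalizer (E : Set G) :=
    mem_normalizer_of_conj_mem5 E a (fun e he => G9 a haP e he)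
  obtain ⟨c₁, hc₁⟩ : ∃ c₁ : G, c₁ = a * y * a⁻¹ * y⁻¹ := ⟨_, rfl⟩
  have hc₁Z : c₁ ∈ Z := by rw [hc₁]; exact G2 a haP y hyP
  have hc₁1 : c₁ ≠ 1 := by
    intro h
    apply hyZ'
    apply G7 a haP haE y hyE
    have e1 : a * y = (a * y * a⁻¹ * y⁻¹) * y * a := by group
    rw [e1, ← hc₁, h, one_mul]
  have hay : a * y * a⁻¹ = y * c₁ := by
    have e1 : a * y * a⁻¹ = c₁ * y := by rw [hc₁]; group
    rw [e1]; exact G6 c₁ (hZE hc₁Z) y hyE
  have hac₁ : a * c₁ * a⁻¹ = c₁ := by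
    rw [hZcomm c₁ hc₁Z a haP]; group
  obtain ⟨q, hq⟩ : ∃ q : G, q = g'⁻¹ * c₁ * g' := ⟨_, rfl⟩
  have hqE : q ∈ E := by rw [hq]; exact hg'inv c₁ (hZE hc₁Z)
  have hq1 : q ≠ 1 := by
    intro h
    apply hc₁1
    have e1 : c₁ = g' * q * g'⁻¹ := by rw [hq]; group
    rw [e1, h]; group
  have hqZ : q ∉ Z := by
    intro hqZ
    obtain ⟨k, hk⟩ := hgenZ q hqZ hq1 c₁ hc₁Z
    obtain ⟨j, hj⟩ := hgenZ c₁ hc₁Z hc₁1 z hz
    have e1 : g' * c₁ * g'⁻¹ = c₁ ^ k := by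
      nth_rewrite 1 [← hk]
      rw [hq]
      have e2 : g'⁻¹ * c₁ * g' = g'⁻¹ * c₁ * (g'⁻¹)⁻¹ := by rw [inv_inv]
      rw [e2, conj_pow]; group
    apply hyZ'
    rw [hy, ← hj, ← conj_pow, e1, ← pow_mul]
    exact Z.pow_mem hc₁Z _
  obtain ⟨z₃, hz₃⟩ : ∃ z₃ : G, z₃ = a * q * a⁻¹ * q⁻¹ := ⟨_, rfl⟩
  have hz₃Z : z₃ ∈ Z := by rw [hz₃]; exact G2 a haP q (hEP hqE)
  have hz₃1 : z₃ ≠ 1 := by
    intro h
    apply hqZ
    apply G7 a haP haE q hqE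
    have e1 : a * q = (a * q * a⁻¹ * q⁻¹) * q * a := by group
    rw [e1, ← hz₃, h, one_mul]
  obtain ⟨y₃, hy₃⟩ : ∃ y₃ : G, y₃ = g' * z₃ * g'⁻¹ := ⟨_, rfl⟩
  obtain ⟨v, hv⟩ : ∃ v : G, v = g' * a * g'⁻¹ := ⟨_, rfl⟩
  have hy₃E : y₃ ∈ E := by rw [hy₃]; exact hg'fwd z₃ (hZE hz₃Z)
  have hvN : v ∈ Subgroup.normalizer (E : Set G) := by
    rw [hv]
    exact Subgroup.mul_mem _ (Subgroup.mul_mem _ hg'N haN) (Subgroup.inv_mem _ hg'N)
  have hvy : v * y * v⁻¹ = y := by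
    rw [hv, hy]
    have h1 := hZcomm z hz a haP
    calc g' * a * g'⁻¹ * (g' * z * g'⁻¹) * (g' * a * g'⁻¹)⁻¹
        = g' * (a * z) * a⁻¹ * g'⁻¹ := by group
      _ = g' * z * g'⁻¹ := by rw [h1]; group
  have hvy₃ : v * y₃ * v⁻¹ = y₃ := by
    rw [hv, hy₃]
    have h1 := hZcomm z₃ hz₃Z a haP
    calc g' * a * g'⁻¹ * (g' * z₃ * g'⁻¹) * (g' * a * g'⁻¹)⁻¹
        = g' * (a * z₃) * a⁻¹ * g'⁻¹ := by group
      _ = g' * z₃ * g'⁻¹ := by rw [h1]; group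
  have hvc₁ : v * c₁ * v⁻¹ = c₁ * y₃ := by
    have e1 : v * c₁ * v⁻¹ = g' * (a * q * a⁻¹) * g'⁻¹ := by rw [hv, hq]; group
    have e2 : a * q * a⁻¹ = z₃ * q := by rw [hz₃]; group
    have e3 : g' * (z₃ * q) * g'⁻¹ = y₃ * c₁ := by rw [hy₃, hq]; group
    rw [e1, e2, e3]
    exact G6 y₃ hy₃E c₁ (hZE hc₁Z)
  obtain ⟨l, hl⟩ : ∃ l : ℕ, y₃ ^ l = y⁻¹ := by
    obtain ⟨l, hl⟩ := hgenZ z₃ hz₃Z hz₃1 z⁻¹ (Z.inv_mem hz)
    refine ⟨l, ?_⟩
    rw [hy₃, hy, conj_pow, hl]; group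
  have hv'c₁ : v ^ l * c₁ * (v ^ l)⁻¹ = c₁ * y⁻¹ := by
    rw [conj_pow_shift5 v c₁ y₃ hvy₃ hvc₁ l, hl]
  have hv'y : v ^ l * y * (v ^ l)⁻¹ = y := by
    have h1 : Commute v y := by
      show v * y = y * v
      calc v * y = (v * y * v⁻¹) * v := by group
        _ = y * v := by rw [hvy]
    have h2 : Commute (v ^ l) y := h1.pow_left l
    calc v ^ l * y * (v ^ l)⁻¹ = y * v ^ l * (v ^ l)⁻¹ := by rw [h2.eq]
      _ = y := by group
  obtain ⟨t, ht⟩ : ∃ t : G, t = (a * v ^ l * a) ^ 2 := ⟨_, rfl⟩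
  have hinv := inv_of_transvections5 a (v ^ l) c₁ y (G6 y hyE c₁ (hZE hc₁Z)) hac₁ hay hv'y hv'c₁
  rw [← ht] at hinv
  obtain ⟨htc₁, hty⟩ := hinv
  have htN : t ∈ Subgroup.normalizer (E : Set G) := by
    rw [ht]
    exact Subgroup.pow_mem _
      (Subgroup.mul_mem _ (Subgroup.mul_mem _ haN (Subgroup.pow_mem _ hvN l)) haN) 2
  have hinvE : ∀ e ∈ E, t * e * t⁻¹ = e⁻¹ := by
    let T : Subgroup G :=
      { carrier := {e | e ∈ E ∧ t * e * t⁻¹ = e⁻¹}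
        mul_mem' := by
          rintro e f ⟨he, he'⟩ ⟨hf, hf'⟩
          refine ⟨E.mul_mem he hf, ?_⟩
          calc t * (e * f) * t⁻¹ = (t * e * t⁻¹) * (t * f * t⁻¹) := by group
            _ = e⁻¹ * f⁻¹ := by rw [he', hf']
            _ = (f * e)⁻¹ := by group
            _ = (e * f)⁻¹ := by rw [G6 f hf e he]
        one_mem' := ⟨E.one_mem, by group⟩
        inv_mem' := by
          rintro e ⟨he, he'⟩
          refine ⟨E.inv_mem he, ?_⟩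
          calc t * e⁻¹ * t⁻¹ = (t * e * t⁻¹)⁻¹ := by group
            _ = (e⁻¹)⁻¹ := by rw [he'] }
    have hTE : T ≤ E := fun e he => he.1
    have hZT : Z ≤ T := by
      intro z' hz'
      obtain ⟨k, rfl⟩ := hgenZ c₁ hc₁Z hc₁1 z' hz'
      refine ⟨hZE (Z.pow_mem hc₁Z k), ?_⟩
      rw [← conj_pow, htc₁, inv_pow]
    have hyT : y ∈ T := ⟨hyE, hty⟩
    have hTcard : Nat.card T = p ^ 2 := by
      have h1 : Nat.card T ∣ p ^ 2 := by rw [← hEcard]; exact Subgroup.card_dvd_of_le hTE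
      obtain ⟨j, hj2, hj⟩ := (Nat.dvd_prime_pow hpp).mp h1
      have h2 : p ∣ Nat.card T := by rw [← hZcard]; exact Subgroup.card_dvd_of_le hZT
      have hj1 : j ≠ 1 := by
        intro h
        rw [h, pow_one] at hj
        have h3 := Subgroup.eq_of_le_of_card_ge hZT (by rw [hj, hZcard])
        exact hyZ' (h3 ▸ hyT)
      have hj0 : j ≠ 0 := by
        intro h
        rw [h, pow_zero] at hj
        rw [hj] at h2
        exact hpp.one_lt.ne' (Nat.dvd_one.mp h2)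
      have hj3 : j = 2 := by omega
      rw [hj, hj3]
    have hTeq : T = E := Subgroup.eq_of_le_of_card_ge hTE (by rw [hTcard, hEcard])
    intro e he
    have heT : e ∈ T := by rw [hTeq]; exact he
    exact heT.2
  have hC0 : ∀ s : G, (∀ e ∈ E, s * e * s⁻¹ = e⁻¹) → ∀ e ∈ E,
      (s * a * s⁻¹ * a⁻¹) * e = e * (s * a * s⁻¹ * a⁻¹) := by
    intro s hs e he
    have hf : a⁻¹ * e * a ∈ E := by
      have h0 := (Subgroup.mem_normalizer_iff.mp (Subgroup.inv_mem _ haN) e).mp he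
      rwa [inv_inv] at h0
    have h1 : s⁻¹ * (a⁻¹ * e * a) * s = (a⁻¹ * e * a)⁻¹ := by
      have h0 := hs (a⁻¹ * e * a)⁻¹ (E.inv_mem hf)
      rw [inv_inv] at h0
      calc s⁻¹ * (a⁻¹ * e * a) * s = s⁻¹ * (s * (a⁻¹ * e * a)⁻¹ * s⁻¹) * s := by rw [h0]
        _ = (a⁻¹ * e * a)⁻¹ := by group
    have h2 : s * e⁻¹ * s⁻¹ = e := by
      have h0 := hs e⁻¹ (E.inv_mem he)
      rw [inv_inv] at h0; exact h0
    calc (s * a * s⁻¹ * a⁻¹) * e
        = s * (a * (s⁻¹ * (a⁻¹ * e * a) * s) * a⁻¹) * s⁻¹ * (s * a * s⁻¹ * a⁻¹) := by group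
      _ = s * (a * (a⁻¹ * e * a)⁻¹ * a⁻¹) * s⁻¹ * (s * a * s⁻¹ * a⁻¹) := by rw [h1]
      _ = (s * e⁻¹ * s⁻¹) * (s * a * s⁻¹ * a⁻¹) := by group
      _ = e * (s * a * s⁻¹ * a⁻¹) := by rw [h2]
  obtain ⟨c', hc'C, hc'P⟩ : ∃ c' ∈ Subgroup.centralizer (E : Set G),
      c' * (t * a * t⁻¹) * c'⁻¹ ∈ (P : Subgroup G) := by
    have hPnormC : ∀ x ∈ (P : Subgroup G), ∀ c ∈ Subgroup.centralizer (E : Set G),
        x * c * x⁻¹ ∈ Subgroup.centralizer (E : Set G) := by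
      intro x hx c hc'
      rw [Subgroup.mem_centralizer_iff]
      intro e he
      have hf : x⁻¹ * e * x ∈ E := by
        have h0 := G9 x⁻¹ (Subgroup.inv_mem _ hx) e he
        rwa [inv_inv] at h0
      have h1 : (x⁻¹ * e * x) * c = c * (x⁻¹ * e * x) :=
        Subgroup.mem_centralizer_iff.mp hc' _ hf
      calc e * (x * c * x⁻¹) = x * ((x⁻¹ * e * x) * c) * x⁻¹ := by group
        _ = x * (c * (x⁻¹ * e * x)) * x⁻¹ := by rw [h1]
        _ = x * c * x⁻¹ * e := by group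
    have hcC : t * a * t⁻¹ * a⁻¹ ∈ Subgroup.centralizer (E : Set G) := by
      rw [Subgroup.mem_centralizer_iff]
      intro e he
      exact (hC0 t hinvE e he).symm
    have ha₁J : t * a * t⁻¹ ∈ Subgroup.centralizer (E : Set G) ⊔ (P : Subgroup G) := by
      have e1 : t * a * t⁻¹ = (t * a * t⁻¹ * a⁻¹) * a := by group
      rw [e1]
      exact Subgroup.mul_mem _ (le_sup_left (α := Subgroup G) hcC)
        (le_sup_right (α := Subgroup G) haP)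
    have hPJ : (P : Subgroup G) ≤ Subgroup.centralizer (E : Set G) ⊔ (P : Subgroup G) :=
      le_sup_right
    have hpg : IsPGroup p ↥(Subgroup.zpowers
        (⟨t * a * t⁻¹, ha₁J⟩ : ↥(Subgroup.centralizer (E : Set G) ⊔ (P : Subgroup G)))) := by
      have h2 : (⟨t * a * t⁻¹, ha₁J⟩ :
          ↥(Subgroup.centralizer (E : Set G) ⊔ (P : Subgroup G))) ^ p ^ 2 = 1 := by
        apply Subtype.ext
        show (t * a * t⁻¹) ^ p ^ 2 = 1
        rw [conj_pow, pow_two, pow_mul, G3 _ (G1 a haP)]; group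
      obtain ⟨j, -, hj⟩ := (Nat.dvd_prime_pow hpp).mp (orderOf_dvd_of_pow_eq_one h2)
      exact IsPGroup.of_card (n := j) (by rw [Nat.card_zpowers, hj])
    obtain ⟨Q', hQ'⟩ := hpg.exists_le_sylow
    obtain ⟨j, hj⟩ := MulAction.exists_smul_eq
      (↥(Subgroup.centralizer (E : Set G) ⊔ (P : Subgroup G))) (P.subtype hPJ) Q'
    have h2 : (⟨t * a * t⁻¹, ha₁J⟩ : ↥(Subgroup.centralizer (E : Set G) ⊔ (P : Subgroup G))) ∈
        ((j • P.subtype hPJ : Sylow p _) : Subgroup _) := by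
      rw [hj]; exact hQ' (Subgroup.mem_zpowers _)
    rw [mem_smul_sylow_iff5] at h2
    have h3 : ((j⁻¹ * ⟨t * a * t⁻¹, ha₁J⟩ * j :
        ↥(Subgroup.centralizer (E : Set G) ⊔ (P : Subgroup G))) : G) ∈ (P : Subgroup G) := h2
    simp only [Subgroup.coe_mul, InvMemClass.coe_inv] at h3
    obtain ⟨c'', hc'', x'', hx'', hjeq⟩ := mem_sup_of_normalizes5 _ _ hPnormC (j : G) j.2
    refine ⟨c''⁻¹, Subgroup.inv_mem _ hc'', ?_⟩
    rw [hjeq] at h3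
    have e1 : c''⁻¹ * (t * a * t⁻¹) * c''⁻¹⁻¹ =
        x'' * ((c'' * x'')⁻¹ * (t * a * t⁻¹) * (c'' * x'')) * x''⁻¹ := by group
    rw [e1]
    exact Subgroup.mul_mem _ (Subgroup.mul_mem _ hx'' h3) (Subgroup.inv_mem _ hx'')
  have hinvE' : ∀ e ∈ E, (c' * t) * e * (c' * t)⁻¹ = e⁻¹ := by
    intro e he
    have h1 : e⁻¹ * c' = c' * e⁻¹ := Subgroup.mem_centralizer_iff.mp hc'C _ (E.inv_mem he)
    calc (c' * t) * e * (c' * t)⁻¹ = c' * (t * e * t⁻¹) * c'⁻¹ := by group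
      _ = c' * e⁻¹ * c'⁻¹ := by rw [hinvE e he]
      _ = e⁻¹ := by rw [← h1]; group
  have ha'P : (c' * t) * a * (c' * t)⁻¹ ∈ (P : Subgroup G) := by
    have e1 : (c' * t) * a * (c' * t)⁻¹ = c' * (t * a * t⁻¹) * c'⁻¹ := by group
    rw [e1]; exact hc'P
  have hdE : (c' * t) * a * (c' * t)⁻¹ * a⁻¹ ∈ E := by
    by_contra hd'
    have hdP : (c' * t) * a * (c' * t)⁻¹ * a⁻¹ ∈ (P : Subgroup G) :=
      Subgroup.mul_mem _ ha'P (Subgroup.inv_mem _ haP)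
    have hEZ : E ≤ Z := fun e he => G7 _ hdP hd' e he (hC0 (c' * t) hinvE' e he)
    have h1 := Subgroup.card_le_of_le hEZ
    rw [hEcard, hZcard] at h1
    have h3 : p < p ^ 2 := by
      calc p = p ^ 1 := (pow_one p).symm
        _ < p ^ 2 := Nat.pow_lt_pow_right hpp.one_lt (by norm_num)
    omega
  have hpow1 : ((c' * t) * a * (c' * t)⁻¹) ^ p = a ^ p := by
    have e1 : (c' * t) * a * (c' * t)⁻¹ = ((c' * t) * a * (c' * t)⁻¹ * a⁻¹) * a := by group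
    rw [e1, G4 _ (hEP hdE) a haP, ((hEmem _).mp hdE).2, one_mul]
  have hpow2 : ((c' * t) * a * (c' * t)⁻¹) ^ p = (a ^ p)⁻¹ := by
    rw [conj_pow]; exact hinvE' _ (hZE (G1 a haP))
  have h1 : a ^ p = (a ^ p)⁻¹ := hpow1.symm.trans hpow2
  have h2 : (a ^ p) ^ 2 = 1 := by
    rw [pow_two]; nth_rewrite 1 [h1]; exact inv_mul_cancel _
  have h3 : (a ^ p) ^ p = 1 := G3 _ (G1 a haP)
  have h4 : orderOf (a ^ p) ∣ 2 := orderOf_dvd_of_pow_eq_one h2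
  have h5 : orderOf (a ^ p) ∣ p := orderOf_dvd_of_pow_eq_one h3
  have h6 : orderOf (a ^ p) = 1 := by
    have h7 : orderOf (a ^ p) ∣ Nat.gcd 2 p := Nat.dvd_gcd h4 h5
    have h8 : Nat.gcd 2 p = 1 := (Nat.coprime_primes Nat.prime_two hpp).mpr (Ne.symm hp)
    rw [h8] at h7
    exact Nat.dvd_one.mp h7
  exact hap (orderOf_eq_one_iff.mp h6)

end Cfsg.Agent.Lib.Helper5
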