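import Mathlib
import Cfsg.Prelude
import Cfsg.Agent.Lib.Lead.ExtraCentral
import Cfsg.Agent.Lib.Helper7.ElemAbCount
import Cfsg.Agent.Lib.Helper5.WCCharP
import Cfsg.Agent.Lib.Helper4.Amalgam

set_option autoImplicit false

namespace Cfsg.Agent.Lib.Helper5

universe u

open scoped commutatorElement

/-- elementwise data of an extraspecial 2-subgroup `Q` with centre `⟨z⟩`, normalized by `C(z)`,
in which central automorphisms come from `Q` -/
def ESData5 {G : Type u} [Group G] (Q : Subgroup G) (z : G) : Prop :=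
  z ∈ Q ∧ z ≠ 1 ∧ z ^ 2 = 1 ∧ (∀ q ∈ Q, q * z = z * q) ∧
  (∀ c ∈ Q, (∀ q ∈ Q, q * c = c * q) → c = 1 ∨ c = z) ∧
  (∀ a ∈ Q, ∀ b ∈ Q, a * b * a⁻¹ * b⁻¹ = 1 ∨ a * b * a⁻¹ * b⁻¹ = z) ∧
  (∀ a ∈ Q, a ^ 2 = 1 ∨ a ^ 2 = z) ∧
  (∀ c : G, (∀ q ∈ Q, c * q * c⁻¹ ∈ Q) →
    (∀ q ∈ Q, c * q * c⁻¹ * q⁻¹ = 1 ∨ c * q * c⁻¹ * q⁻¹ = z) → c ∈ Q) ∧
  (∀ c : G, c * z = z * c → ∀ q ∈ Q, c * q * c⁻¹ ∈ Q)

theorem esdata_of5 {G : Type u} [Group G] [Finite G] (Q : Subgroup G) (z : G)
    (hes : Cfsg.IsExtraspecial 2 ↥Q) (hC : Subgroup.centralizer (Q : Set G) ≤ Q)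
    (hzQ : z ∈ Q) (hz1 : z ≠ 1) (hzc : ∀ q ∈ Q, q * z = z * q)
    (hN : ∀ c : G, c * z = z * c → ∀ q ∈ Q, c * q * c⁻¹ ∈ Q) : ESData5 Q z := by
  classical
  haveI : Fact (Nat.Prime 2) := ⟨Nat.prime_two⟩
  have hes' := hes
  obtain ⟨⟨hpg, hfrat, hcomm⟩, hZcard⟩ := hes'
  have hzcen : (⟨z, hzQ⟩ : ↥Q) ∈ Subgroup.center ↥Q := by
    rw [Subgroup.mem_center_iff]
    intro q
    exact Subtype.ext (hzc q q.2)
  obtain ⟨y, hy1, hyu⟩ := (Nat.card_eq_two_iff' (1 : Subgroup.center ↥Q)).1 hZcard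
  have hzy : (⟨⟨z, hzQ⟩, hzcen⟩ : Subgroup.center ↥Q) = y := by
    apply hyu
    intro h
    apply hz1
    have := congrArg (fun c : Subgroup.center ↥Q => ((c : ↥Q) : G)) h
    exact this
  have hcen : ∀ c : ↥Q, c ∈ Subgroup.center ↥Q → (c : G) = 1 ∨ (c : G) = z := by
    intro c hc
    by_cases h : (c : G) = 1
    · exact Or.inl h
    · right
      have h1 : (⟨c, hc⟩ : Subgroup.center ↥Q) ≠ 1 := by
        intro h'
        apply h
        have := congrArg (fun c : Subgroup.center ↥Q => ((c : ↥Q) : G)) h'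
        exact this
      have h2 := hyu _ h1
      rw [← hzy] at h2
      have := congrArg (fun c : Subgroup.center ↥Q => ((c : ↥Q) : G)) h2
      exact this
  have hz2 : z ^ 2 = 1 := by
    have h1 : (⟨⟨z, hzQ⟩, hzcen⟩ : Subgroup.center ↥Q) ^ Nat.card (Subgroup.center ↥Q) = 1 :=
      pow_card_eq_one'
    rw [hZcard] at h1
    have := congrArg (fun c : Subgroup.center ↥Q => ((c : ↥Q) : G)) h1
    exact this
  have hcomQ : ∀ a ∈ Q, ∀ b ∈ Q, a * b * a⁻¹ * b⁻¹ = 1 ∨ a * b * a⁻¹ * b⁻¹ = z := by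
    intro a ha b hb
    have h1 : ⁅(⟨a, ha⟩ : ↥Q), (⟨b, hb⟩ : ↥Q)⁆ ∈ commutator ↥Q := by
      rw [commutator_def]
      exact Subgroup.commutator_mem_commutator (Subgroup.mem_top _) (Subgroup.mem_top _)
    rw [hcomm] at h1
    exact hcen _ h1
  refine ⟨hzQ, hz1, hz2, hzc, ?_, hcomQ, ?_, ?_, hN⟩
  · intro c hc hcc
    have h1 : (⟨c, hc⟩ : ↥Q) ∈ Subgroup.center ↥Q := by
      rw [Subgroup.mem_center_iff]
      intro q
      exact Subtype.ext (hcc q q.2)
    exact hcen _ h1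
  · intro a ha
    have h1 : (⟨a, ha⟩ : ↥Q) ^ 2 ∈ frattini ↥Q := Cfsg.Agent.Lib.Helper7.pow_mem_frattini hpg _
    rw [hfrat] at h1
    exact hcen _ h1
  · intro c hcn hcc
    obtain ⟨φ, hφ⟩ : ∃ φ : ↥Q →* ↥Q, ∀ q : ↥Q, ((φ q : ↥Q) : G) = c * (q : G) * c⁻¹ := by
      refine ⟨MonoidHom.mk' (fun q => ⟨c * (q : G) * c⁻¹, hcn q q.2⟩) ?_, fun q => rfl⟩
      intro a b
      apply Subtype.ext
      show c * ((a : G) * (b : G)) * c⁻¹ = (c * (a : G) * c⁻¹) * (c * (b : G) * c⁻¹)
      group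
    have hφc : ∀ e : ↥Q, φ e * e⁻¹ ∈ Subgroup.center ↥Q := by
      intro e
      rw [Subgroup.mem_center_iff]
      intro q
      apply Subtype.ext
      have hval : ((φ e * e⁻¹ : ↥Q) : G) = c * (e : G) * c⁻¹ * (e : G)⁻¹ := by
        rw [Subgroup.coe_mul, hφ, InvMemClass.coe_inv]
      show (q : G) * ((φ e * e⁻¹ : ↥Q) : G) = ((φ e * e⁻¹ : ↥Q) : G) * (q : G)
      rw [hval]
      rcases hcc e e.2 with h | h
      · rw [h, mul_one, one_mul]
      · rw [h]; exact hzc q q.2
    obtain ⟨w, hw⟩ := Cfsg.Agent.Lib.Lead.extraspecial_central_aut hes φ hφc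
    have hcent : (w : G)⁻¹ * c ∈ Subgroup.centralizer (Q : Set G) := by
      rw [Subgroup.mem_centralizer_iff]
      intro q hq
      have h1 : c * q * c⁻¹ = (w : G) * q * (w : G)⁻¹ := by
        have := congrArg Subtype.val (hw ⟨q, hq⟩)
        rw [hφ] at this
        rw [this]
        simp
      calc q * ((w : G)⁻¹ * c) = (w : G)⁻¹ * ((w : G) * q * (w : G)⁻¹) * c := by group
        _ = (w : G)⁻¹ * (c * q * c⁻¹) * c := by rw [h1]
        _ = (w : G)⁻¹ * c * q := by group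
    have h2 := Q.mul_mem w.2 (hC hcent)
    have e : (w : G) * ((w : G)⁻¹ * c) = c := by group
    rwa [e] at h2

theorem mem_map_conj5 {G : Type u} [Group G] (Q : Subgroup G) (g p : G) :
    p ∈ Q.map (MulAut.conj g).toMonoidHom ↔ g⁻¹ * p * g ∈ Q := by
  constructor
  · rintro ⟨q, hq, rfl⟩
    have e : g⁻¹ * ((MulAut.conj g).toMonoidHom q) * g = q := by
      show g⁻¹ * (g * q * g⁻¹) * g = q
      group
    rw [e]; exact hq
  · intro h
    refine ⟨g⁻¹ * p * g, h, ?_⟩
    show g * (g⁻¹ * p * g) * g⁻¹ = p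
    group

theorem esdata_conj5 {G : Type u} [Group G] (Q : Subgroup G) (z : G) (h : ESData5 Q z) (g : G) :
    ESData5 (Q.map (MulAut.conj g).toMonoidHom) (g * z * g⁻¹) := by
  obtain ⟨hzQ, hz1, hz2, hzc, hZQ, hcomQ, hsqQ, hinQ, hnQ⟩ := h
  have hback1 : ∀ w : G, g⁻¹ * w * g = 1 → w = 1 := by
    intro w hw
    have e : w = g * (g⁻¹ * w * g) * g⁻¹ := by group
    rw [e, hw]; group
  have hbackz : ∀ w : G, g⁻¹ * w * g = z → w = g * z * g⁻¹ := by
    intro w hw
    have e : w = g * (g⁻¹ * w * g) * g⁻¹ := by group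
    rw [e, hw]
  refine ⟨?_, ?_, ?_, ?_, ?_, ?_, ?_, ?_, ?_⟩
  · rw [mem_map_conj5]
    have e : g⁻¹ * (g * z * g⁻¹) * g = z := by group
    rw [e]; exact hzQ
  · intro h
    apply hz1
    have e : z = g⁻¹ * (g * z * g⁻¹) * g := by group
    rw [e, h]; group
  · rw [conj_pow, hz2]; group
  · intro q hq
    rw [mem_map_conj5] at hq
    have h1 := hzc _ hq
    calc q * (g * z * g⁻¹) = g * ((g⁻¹ * q * g) * z) * g⁻¹ := by group
      _ = g * (z * (g⁻¹ * q * g)) * g⁻¹ := by rw [h1]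
      _ = g * z * g⁻¹ * q := by group
  · intro c hc hcc
    rw [mem_map_conj5] at hc
    have h1 : ∀ q ∈ Q, q * (g⁻¹ * c * g) = (g⁻¹ * c * g) * q := by
      intro q hq
      have hq' : g * q * g⁻¹ ∈ Q.map (MulAut.conj g).toMonoidHom := by
        rw [mem_map_conj5]
        have e : g⁻¹ * (g * q * g⁻¹) * g = q := by group
        rw [e]; exact hq
      have h2 := hcc _ hq'
      calc q * (g⁻¹ * c * g) = g⁻¹ * ((g * q * g⁻¹) * c) * g := by group
        _ = g⁻¹ * (c * (g * q * g⁻¹)) * g := by rw [h2]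
        _ = (g⁻¹ * c * g) * q := by group
    rcases hZQ _ hc h1 with h2 | h2
    · exact Or.inl (hback1 c h2)
    · exact Or.inr (hbackz c h2)
  · intro a ha b hb
    rw [mem_map_conj5] at ha hb
    have e : g⁻¹ * (a * b * a⁻¹ * b⁻¹) * g =
        (g⁻¹ * a * g) * (g⁻¹ * b * g) * (g⁻¹ * a * g)⁻¹ * (g⁻¹ * b * g)⁻¹ := by group
    rcases hcomQ _ ha _ hb with h2 | h2
    · left; apply hback1; rw [e, h2]
    · right; apply hbackz; rw [e, h2]
  · intro a ha
    rw [mem_map_conj5] at ha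
    have e : g⁻¹ * a ^ 2 * g = (g⁻¹ * a * g) ^ 2 := by
      rw [pow_two, pow_two]; group
    rcases hsqQ _ ha with h2 | h2
    · left; apply hback1; rw [e, h2]
    · right; apply hbackz; rw [e, h2]
  · intro c hcn hcc
    rw [mem_map_conj5]
    apply hinQ
    · intro q hq
      have hq' : g * q * g⁻¹ ∈ Q.map (MulAut.conj g).toMonoidHom := by
        rw [mem_map_conj5]
        have e : g⁻¹ * (g * q * g⁻¹) * g = q := by group
        rw [e]; exact hq
      have h2 := hcn _ hq'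
      rw [mem_map_conj5] at h2
      have e : g⁻¹ * c * g * q * (g⁻¹ * c * g)⁻¹ = g⁻¹ * (c * (g * q * g⁻¹) * c⁻¹) * g := by group
      rw [e]; exact h2
    · intro q hq
      have hq' : g * q * g⁻¹ ∈ Q.map (MulAut.conj g).toMonoidHom := by
        rw [mem_map_conj5]
        have e : g⁻¹ * (g * q * g⁻¹) * g = q := by group
        rw [e]; exact hq
      have e : g⁻¹ * c * g * q * (g⁻¹ * c * g)⁻¹ * q⁻¹ =
          g⁻¹ * (c * (g * q * g⁻¹) * c⁻¹ * (g * q * g⁻¹)⁻¹) * g := by group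
      rcases hcc _ hq' with h2 | h2
      · left; rw [e, h2]; group
      · right; rw [e, h2]; group
  · intro c hc q hq
    rw [mem_map_conj5] at hq ⊢
    have h1 : (g⁻¹ * c * g) * z = z * (g⁻¹ * c * g) := by
      calc (g⁻¹ * c * g) * z = g⁻¹ * (c * (g * z * g⁻¹)) * g := by group
        _ = g⁻¹ * ((g * z * g⁻¹) * c) * g := by rw [hc]
        _ = z * (g⁻¹ * c * g) := by group
    have h2 := hnQ _ h1 _ hq
    have e : g⁻¹ * (c * q * c⁻¹) * g = (g⁻¹ * c * g) * (g⁻¹ * q * g) * (g⁻¹ * c * g)⁻¹ := by group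
    rw [e]; exact h2

theorem pair_mul5 {G : Type u} [Group G] {x a b : G} (hx : x ^ 2 = 1)
    (ha : a = 1 ∨ a = x) (hb : b = 1 ∨ b = x) : a * b = 1 ∨ a * b = x := by
  rcases ha with ha | ha <;> rcases hb with hb | hb
  · left; rw [ha, hb, mul_one]
  · right; rw [ha, hb, one_mul]
  · right; rw [ha, hb, mul_one]
  · left; rw [ha, hb, ← pow_two]; exact hx

theorem pair_inv5 {G : Type u} [Group G] {x a : G} (hx : x ^ 2 = 1)
    (ha : a = 1 ∨ a = x) : a⁻¹ = 1 ∨ a⁻¹ = x := by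
  rcases ha with ha | ha
  · left; rw [ha, inv_one]
  · right; rw [ha]; exact inv_eq_of_mul_eq_one_left (by rw [← pow_two]; exact hx)

/-- the core of the symmetry of orthogonality of singular involutions -/
theorem es_orth_core5 {G : Type u} [Group G] (Q P : Subgroup G) (z x : G)
    (hQ : ESData5 Q z) (hP : ESData5 P x) (hxQ : x ∈ Q) (hxz : x ≠ z)
    (hcan : ∀ h : G, h * z * h⁻¹ = x → ∀ q ∈ Q, h * q * h⁻¹ ∈ P) : z ∈ P := by
  obtain ⟨hzQ, hz1, hz2, hzc, hZQ, hcomQ, hsqQ, hinQ, hnQ⟩ := hQ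
  obtain ⟨hxP, hx1, hx2, hxc, hZP, hcomP, hsqP, hinP, hnP⟩ := hP
  have hzz : z * z = 1 := by rw [← pow_two]; exact hz2
  have hxx : x * x = 1 := by rw [← pow_two]; exact hx2
  have hzinv : z⁻¹ = z := inv_eq_of_mul_eq_one_left hzz
  have hxinv : x⁻¹ = x := inv_eq_of_mul_eq_one_left hxx
  have hxzc : x * z = z * x := hzc x hxQ
  have hzP : ∀ p ∈ P, z * p * z⁻¹ ∈ P := hnP z hxzc.symm
  have hq₀ex : ∃ q ∈ Q, q * x * q⁻¹ = z * x := by
    by_contra hcon
    push Not at hcon
    have hcen : ∀ q ∈ Q, q * x = x * q := by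
      intro q hq
      rcases hcomQ q hq x hxQ with h | h
      · rw [mul_inv_eq_one, mul_inv_eq_iff_eq_mul] at h; exact h
      · exfalso; apply hcon q hq; rw [mul_inv_eq_iff_eq_mul] at h; exact h
    rcases hZQ x hxQ hcen with h | h
    · exact hx1 h
    · exact hxz h
  obtain ⟨q₀, hq₀Q, hq₀⟩ := hq₀ex
  have hq₀' : q₀ * x = z * x * q₀ := by
    have := hq₀; rw [mul_inv_eq_iff_eq_mul] at this; exact this
  by_cases hH : ∃ p ∈ P, p * z * p⁻¹ = x * z
  · -- an element swapping `x` and `z`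
    obtain ⟨p, hpP, hp⟩ := hH
    have hpx : p * x * p⁻¹ = x := by
      rw [mul_inv_eq_iff_eq_mul]; exact hxc p hpP
    have hpx' : p⁻¹ * x * p = x := by
      have e : p⁻¹ * x * p = p⁻¹ * (p * x * p⁻¹) * p := by rw [hpx]
      rw [e]; group
    have hpz' : p⁻¹ * z * p = x * z := by
      have e1 : z = p⁻¹ * (p * z * p⁻¹) * p := by group
      have e2 : p⁻¹ * (x * z) * p = (p⁻¹ * x * p) * (p⁻¹ * z * p) := by group
      rw [hp, e2, hpx'] at e1
      have e3 : p⁻¹ * z * p = x⁻¹ * z := by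
        rw [eq_inv_mul_iff_mul_eq]; exact e1.symm
      rw [e3, hxinv]
    have hq₀z : q₀ * z * q₀⁻¹ = z := by
      rw [mul_inv_eq_iff_eq_mul]; exact hzc q₀ hq₀Q
    have h1 : (p * q₀ * p⁻¹) * z * (p * q₀ * p⁻¹)⁻¹ = x := by
      calc (p * q₀ * p⁻¹) * z * (p * q₀ * p⁻¹)⁻¹
          = p * (q₀ * (p⁻¹ * z * p) * q₀⁻¹) * p⁻¹ := by group
        _ = p * (q₀ * (x * z) * q₀⁻¹) * p⁻¹ := by rw [hpz']
        _ = p * ((q₀ * x * q₀⁻¹) * (q₀ * z * q₀⁻¹)) * p⁻¹ := by group
        _ = p * ((z * x) * z) * p⁻¹ := by rw [hq₀, hq₀z]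
        _ = p * (z * (x * z)) * p⁻¹ := by group
        _ = p * (z * (z * x)) * p⁻¹ := by rw [hxzc]
        _ = p * ((z * z) * x) * p⁻¹ := by group
        _ = p * x * p⁻¹ := by rw [hzz, one_mul]
        _ = x := hpx
    have h2 : (p * q₀ * p⁻¹) * x * (p * q₀ * p⁻¹)⁻¹ = z := by
      calc (p * q₀ * p⁻¹) * x * (p * q₀ * p⁻¹)⁻¹
          = p * (q₀ * (p⁻¹ * x * p) * q₀⁻¹) * p⁻¹ := by group
        _ = p * (q₀ * x * q₀⁻¹) * p⁻¹ := by rw [hpx']
        _ = p * (z * x) * p⁻¹ := by rw [hq₀]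
        _ = (p * z * p⁻¹) * (p * x * p⁻¹) := by group
        _ = (x * z) * x := by rw [hp, hpx]
        _ = (z * x) * x := by rw [hxzc]
        _ = z * (x * x) := by group
        _ = z := by rw [hxx, mul_one]
    have h3 := hcan _ h1 x hxQ
    rw [h2] at h3
    exact h3
  · push Not at hH
    have H₀ : ∀ p ∈ P, z * p * z⁻¹ * p⁻¹ ≠ x := by
      intro p hp h
      apply hH p⁻¹ (P.inv_mem hp)
      rw [inv_inv]
      have h1 : z * p = x * p * z := by
        rw [mul_inv_eq_iff_eq_mul, mul_inv_eq_iff_eq_mul] at h; exact h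
      have hpx : p * x = x * p := hxc p hp
      calc p⁻¹ * z * p = p⁻¹ * (z * p) := by group
        _ = p⁻¹ * (x * p * z) := by rw [h1]
        _ = p⁻¹ * (p * x) * z := by rw [hpx]; group
        _ = x * z := by group
    by_contra hzP'
    have hQsplit : ∀ a ∈ Q, a * x = x * a ∨ ∃ r ∈ Q, r * x = x * r ∧ a = q₀ * r := by
      intro a ha
      rcases hcomQ a ha x hxQ with h | h
      · left; rw [mul_inv_eq_one, mul_inv_eq_iff_eq_mul] at h; exact h
      · right
        rw [mul_inv_eq_iff_eq_mul] at h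
        have h1 : a * x = z * x * a := by
          rw [mul_inv_eq_iff_eq_mul] at h; exact h
        refine ⟨q₀⁻¹ * a, Q.mul_mem (Q.inv_mem hq₀Q) ha, ?_, by group⟩
        calc q₀⁻¹ * a * x = q₀⁻¹ * (a * x) := by group
          _ = q₀⁻¹ * (z * x * a) := by rw [h1]
          _ = q₀⁻¹ * (z * x * q₀) * (q₀⁻¹ * a) := by group
          _ = q₀⁻¹ * (q₀ * x) * (q₀⁻¹ * a) := by rw [hq₀']
          _ = x * (q₀⁻¹ * a) := by group
    have hxq : x * q₀ = z * q₀ * x := by
      calc x * q₀ = x * q₀ * (x * x) := by rw [hxx, mul_one]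
        _ = x * (q₀ * x) * x := by group
        _ = x * (z * x * q₀) * x := by rw [hq₀']
        _ = (x * z) * x * q₀ * x := by group
        _ = (z * x) * x * q₀ * x := by rw [hxzc]
        _ = z * (x * x) * q₀ * x := by group
        _ = z * q₀ * x := by rw [hxx, mul_one]
    have hZR : ∀ c ∈ Q, c * x = x * c → (∀ r ∈ Q, r * x = x * r → r * c = c * r) →
        c = 1 ∨ c = z ∨ c = x ∨ c = x * z := by
      intro c hc hcx hcR
      rcases hcomQ c hc q₀ hq₀Q with h | h
      · have h1 : c * q₀ = q₀ * c := by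
          rw [mul_inv_eq_one, mul_inv_eq_iff_eq_mul] at h; exact h
        have hcen : ∀ a ∈ Q, a * c = c * a := by
          intro a ha
          rcases hQsplit a ha with h2 | ⟨r, hr, hrx, rfl⟩
          · exact hcR a ha h2
          · have h3 := hcR r hr hrx
            calc q₀ * r * c = q₀ * (r * c) := by group
              _ = q₀ * (c * r) := by rw [h3]
              _ = (q₀ * c) * r := by group
              _ = (c * q₀) * r := by rw [h1]
              _ = c * (q₀ * r) := by group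
        rcases hZQ c hc hcen with h2 | h2
        · exact Or.inl h2
        · exact Or.inr (Or.inl h2)
      · have h1 : c * q₀ = z * q₀ * c := by
          rw [mul_inv_eq_iff_eq_mul, mul_inv_eq_iff_eq_mul] at h; exact h
        have hq₀c : q₀ * (x * c) = (x * c) * q₀ := by
          calc q₀ * (x * c) = (z * z) * q₀ * x * c := by rw [hzz]; group
            _ = z * (z * q₀ * x) * c := by group
            _ = z * (x * q₀) * c := by rw [hxq]
            _ = (z * x) * q₀ * c := by group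
            _ = (x * z) * q₀ * c := by rw [hxzc]
            _ = x * (z * q₀ * c) := by group
            _ = x * (c * q₀) := by rw [h1]
            _ = (x * c) * q₀ := by group
        have hcen : ∀ a ∈ Q, a * (x * c) = (x * c) * a := by
          intro a ha
          rcases hQsplit a ha with h2 | ⟨r, hr, hrx, rfl⟩
          · have h3 := hcR a ha h2
            calc a * (x * c) = (a * x) * c := by group
              _ = (x * a) * c := by rw [h2]
              _ = x * (a * c) := by group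
              _ = x * (c * a) := by rw [h3]
              _ = (x * c) * a := by group
          · have h3 := hcR r hr hrx
            calc q₀ * r * (x * c) = q₀ * ((r * x) * c) := by group
              _ = q₀ * ((x * r) * c) := by rw [hrx]
              _ = q₀ * (x * (r * c)) := by group
              _ = q₀ * (x * (c * r)) := by rw [h3]
              _ = (q₀ * (x * c)) * r := by group
              _ = ((x * c) * q₀) * r := by rw [hq₀c]
              _ = (x * c) * (q₀ * r) := by group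
        rcases hZQ (x * c) (Q.mul_mem hxQ hc) hcen with h2 | h2
        · right; right; left
          have h3 : c = x⁻¹ := eq_inv_of_mul_eq_one_right h2
          rw [h3, hxinv]
        · right; right; right
          have h3 : c = x⁻¹ * z := by rw [← h2]; group
          rw [h3, hxinv]
    have hQP : ∀ a, a ∈ Q → a ∈ P → a = 1 ∨ a = x := by
      intro a haQ haP
      have hax : a * x = x * a := hxc a haP
      have hR : ∀ r ∈ Q, r * x = x * r → r * a = a * r := by
        intro r hr hrx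
        have hmem : a * r * a⁻¹ * r⁻¹ ∈ P := by
          have h1 : r * a⁻¹ * r⁻¹ ∈ P := hnP r hrx a⁻¹ (P.inv_mem haP)
          have e : a * r * a⁻¹ * r⁻¹ = a * (r * a⁻¹ * r⁻¹) := by group
          rw [e]; exact P.mul_mem haP h1
        rcases hcomQ a haQ r hr with h | h
        · rw [mul_inv_eq_one, mul_inv_eq_iff_eq_mul] at h; exact h.symm
        · exfalso; rw [h] at hmem; exact hzP' hmem
      rcases hZR a haQ hax hR with h | h | h | h
      · exact Or.inl h
      · exfalso; rw [h] at haP; exact hzP' haP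
      · exact Or.inr h
      · exfalso
        apply hzP'
        have e : z = x⁻¹ * a := by rw [h]; group
        rw [e]; exact P.mul_mem (P.inv_mem hxP) haP
    have hRP₀ : ∀ r ∈ Q, r * x = x * r → ∀ u ∈ P, u * z = z * u →
        r * u * r⁻¹ * u⁻¹ = 1 ∨ r * u * r⁻¹ * u⁻¹ = x := by
      intro r hr hrx u hu huz
      apply hQP
      · have h1 : u * r⁻¹ * u⁻¹ ∈ Q := hnQ u huz r⁻¹ (Q.inv_mem hr)
        have e : r * u * r⁻¹ * u⁻¹ = r * (u * r⁻¹ * u⁻¹) := by group
        rw [e]; exact Q.mul_mem hr h1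
      · exact P.mul_mem (hnP r hrx u hu) (P.inv_mem hu)
    have hθP : ∀ p ∈ P, z * p * z⁻¹ * p⁻¹ ∈ P := fun p hp =>
      P.mul_mem (hzP p hp) (P.inv_mem hp)
    have hθ : ∀ p ∈ P, (z * p * z⁻¹ * p⁻¹) * z = z * (z * p * z⁻¹ * p⁻¹) := by
      intro p hp
      obtain ⟨t, ht⟩ : ∃ t, t = z * p * z⁻¹ * p⁻¹ := ⟨_, rfl⟩
      rw [← ht]
      have htP : t ∈ P := by rw [ht]; exact hθP p hp
      have h1 : z * t * z⁻¹ = t⁻¹ := by
        rw [ht, hzinv]
        have e : (z * p * z * p⁻¹)⁻¹ = p * z⁻¹ * p⁻¹ * z⁻¹ := by group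
        rw [e, hzinv]
        calc z * (z * p * z * p⁻¹) * z = (z * z) * p * z * p⁻¹ * z := by group
          _ = p * z * p⁻¹ * z := by rw [hzz, one_mul]
      have h2 : z * t * z⁻¹ * t⁻¹ = (t ^ 2)⁻¹ := by rw [h1, pow_two, mul_inv_rev]
      have h3 : z * t * z⁻¹ * t⁻¹ = 1 ∨ z * t * z⁻¹ * t⁻¹ = x := by
        rw [h2]
        exact pair_inv5 hx2 (hsqP t htP)
      rcases h3 with h | h
      · rw [mul_inv_eq_one, mul_inv_eq_iff_eq_mul] at h; exact h.symm
      · exact absurd h (H₀ t htP)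
    have hcent : ∀ c ∈ P,
        (∀ p ∈ P, c * (z * p * z⁻¹ * p⁻¹) = (z * p * z⁻¹ * p⁻¹) * c) → c * z = z * c := by
      intro c hc hcθ
      have hdP := hθP c hc
      have hdcen : ∀ p ∈ P, p * (z * c * z⁻¹ * c⁻¹) = (z * c * z⁻¹ * c⁻¹) * p := by
        intro p hp
        obtain ⟨k, hk⟩ : ∃ k, k = p * c * p⁻¹ * c⁻¹ := ⟨_, rfl⟩
        have hk' : k = 1 ∨ k = x := by rw [hk]; exact hcomP p hp c hc
        have hkz : Commute k z := by
          rcases hk' with h | h
          · rw [h]; exact Commute.one_left z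
          · rw [h]; exact hxzc
        have hkP : ∀ y ∈ P, Commute k y := by
          intro y hy
          rcases hk' with h | h
          · rw [h]; exact Commute.one_left y
          · rw [h]; exact (hxc y hy).symm
        have hpc : p * c = k * c * p := by rw [hk]; group
        have hpc' : p * c⁻¹ = c⁻¹ * k⁻¹ * p := by
          have e1 : p * c⁻¹ = (p * c * p⁻¹)⁻¹ * p := by group
          have e2 : p * c * p⁻¹ = k * c := by rw [hk]; group
          rw [e1, e2]; group
        obtain ⟨p₁, hp₁⟩ : ∃ p₁, p₁ = z * p * z⁻¹ := ⟨_, rfl⟩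
        have hpz : p * z = z * p₁ := by
          rw [hp₁, hzinv]
          calc p * z = (z * z) * p * z := by rw [hzz, one_mul]
            _ = z * (z * p * z) := by group
        have hp₁z : p₁ * z⁻¹ = z⁻¹ * p := by
          rw [hp₁, hzinv]
          calc z * p * z * z = z * p * (z * z) := by group
            _ = z * p := by rw [hzz, mul_one]
        have hp₁c : p₁ * c = k * c * p₁ := by
          have hθc := hcθ p hp
          have e1 : p₁ = (z * p * z⁻¹ * p⁻¹) * p := by rw [hp₁]; group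
          have hkθ := (hkP _ (hθP p hp)).eq
          calc p₁ * c = (z * p * z⁻¹ * p⁻¹) * (p * c) := by rw [e1]; group
            _ = (z * p * z⁻¹ * p⁻¹) * (k * c * p) := by rw [hpc]
            _ = ((z * p * z⁻¹ * p⁻¹) * k) * c * p := by group
            _ = (k * (z * p * z⁻¹ * p⁻¹)) * c * p := by rw [hkθ]
            _ = k * ((z * p * z⁻¹ * p⁻¹) * c) * p := by group
            _ = k * (c * (z * p * z⁻¹ * p⁻¹)) * p := by rw [hθc]
            _ = k * c * ((z * p * z⁻¹ * p⁻¹) * p) := by group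
            _ = k * c * p₁ := by rw [← e1]
        have hkd : Commute k (z * c * z⁻¹ * c⁻¹) :=
          ((hkz.mul_right (hkP c hc)).mul_right hkz.inv_right).mul_right (hkP c hc).inv_right
        calc p * (z * c * z⁻¹ * c⁻¹) = (p * z) * c * z⁻¹ * c⁻¹ := by group
          _ = (z * p₁) * c * z⁻¹ * c⁻¹ := by rw [hpz]
          _ = z * (p₁ * c) * z⁻¹ * c⁻¹ := by group
          _ = z * (k * c * p₁) * z⁻¹ * c⁻¹ := by rw [hp₁c]
          _ = z * k * c * (p₁ * z⁻¹) * c⁻¹ := by group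
          _ = z * k * c * (z⁻¹ * p) * c⁻¹ := by rw [hp₁z]
          _ = z * k * c * z⁻¹ * (p * c⁻¹) := by group
          _ = z * k * c * z⁻¹ * (c⁻¹ * k⁻¹ * p) := by rw [hpc']
          _ = (z * k) * (c * z⁻¹ * c⁻¹) * k⁻¹ * p := by group
          _ = (k * z) * (c * z⁻¹ * c⁻¹) * k⁻¹ * p := by rw [hkz.eq]
          _ = (k * (z * c * z⁻¹ * c⁻¹)) * k⁻¹ * p := by group
          _ = ((z * c * z⁻¹ * c⁻¹) * k) * k⁻¹ * p := by rw [hkd.eq]
          _ = (z * c * z⁻¹ * c⁻¹) * p := by group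
      rcases hZP _ hdP hdcen with h | h
      · rw [mul_inv_eq_one, mul_inv_eq_iff_eq_mul] at h; exact h.symm
      · exact absurd h (H₀ c hc)
    -- three subgroups lemma
    obtain ⟨R, hRdef⟩ : ∃ R : Subgroup G, R = Q ⊓ Subgroup.centralizer ({x} : Set G) :=
      ⟨_, rfl⟩
    obtain ⟨P₀, hP₀def⟩ : ∃ P₀ : Subgroup G, P₀ = P ⊓ Subgroup.centralizer ({z} : Set G) :=
      ⟨_, rfl⟩
    have hRmem : ∀ r : G, r ∈ R ↔ r ∈ Q ∧ r * x = x * r := by
      intro r
      rw [hRdef, Subgroup.mem_inf, Subgroup.mem_centralizer_singleton_iff]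
    have hP₀mem : ∀ u : G, u ∈ P₀ ↔ u ∈ P ∧ u * z = z * u := by
      intro u
      rw [hP₀def, Subgroup.mem_inf, Subgroup.mem_centralizer_singleton_iff]
    have h3s1 : ⁅⁅P, P₀⁆, R⁆ = ⊥ := by
      rw [Subgroup.commutator_eq_bot_iff_le_centralizer, Subgroup.commutator_le]
      intro a ha b hb
      rw [commutatorElement_def, Subgroup.mem_centralizer_iff]
      intro r hr
      rcases hcomP a ha b ((hP₀mem b).1 hb).1 with h | h
      · rw [h, mul_one, one_mul]
      · rw [h]; exact ((hRmem r).1 hr).2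
    have h3s2 : ⁅⁅P₀, R⁆, P⁆ = ⊥ := by
      rw [Subgroup.commutator_eq_bot_iff_le_centralizer, Subgroup.commutator_le]
      intro u hu r hr
      rw [commutatorElement_def, Subgroup.mem_centralizer_iff]
      intro p hp
      obtain ⟨hrQ, hrx⟩ := (hRmem r).1 hr
      obtain ⟨huP, huz⟩ := (hP₀mem u).1 hu
      have h1 := pair_inv5 hx2 (hRP₀ r hrQ hrx u huP huz)
      have e : (r * u * r⁻¹ * u⁻¹)⁻¹ = u * r * u⁻¹ * r⁻¹ := by group
      rw [e] at h1
      rcases h1 with h | h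
      · rw [h, mul_one, one_mul]
      · rw [h]; exact hxc p hp
    have h3s := Subgroup.commutator_commutator_eq_bot_of_rotate h3s1 h3s2
    rw [Subgroup.commutator_eq_bot_iff_le_centralizer] at h3s
    have hδ : ∀ r ∈ Q, r * x = x * r → ∀ p ∈ P,
        (r * p * r⁻¹ * p⁻¹) * z = z * (r * p * r⁻¹ * p⁻¹) := by
      intro r hr hrx p hp
      have hδP : r * p * r⁻¹ * p⁻¹ ∈ P := P.mul_mem (hnP r hrx p hp) (P.inv_mem hp)
      apply hcent _ hδP
      intro p' hp'
      have hu : z * p' * z⁻¹ * p'⁻¹ ∈ P₀ := (hP₀mem _).2 ⟨hθP p' hp', hθ p' hp'⟩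
      have hmem : ⁅r, p⁆ ∈ ⁅R, P⁆ :=
        Subgroup.commutator_mem_commutator ((hRmem r).2 ⟨hr, hrx⟩) hp
      have h4 := (Subgroup.mem_centralizer_iff.mp (h3s hmem)) _ hu
      rw [commutatorElement_def] at h4
      exact h4.symm
    by_cases hRab : ∃ r₁ ∈ Q, r₁ * x = x * r₁ ∧ ∃ r₂ ∈ Q, r₂ * x = x * r₂ ∧
        r₁ * r₂ * r₁⁻¹ * r₂⁻¹ = z
    · obtain ⟨r₁, hr₁, hr₁x, r₂, hr₂, hr₂x, hrz⟩ := hRab
      have hzcP : ∀ p' ∈ P, z * p' * z⁻¹ * p'⁻¹ = 1 := by
        intro p' hp'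
        obtain ⟨w, hw⟩ : ∃ w, w = r₂ * r₁ := ⟨_, rfl⟩
        have hwx : w * x = x * w := by
          rw [hw]
          calc r₂ * r₁ * x = r₂ * (r₁ * x) := by group
            _ = r₂ * (x * r₁) := by rw [hr₁x]
            _ = (r₂ * x) * r₁ := by group
            _ = (x * r₂) * r₁ := by rw [hr₂x]
            _ = x * (r₂ * r₁) := by group
        have hwinvx : w⁻¹ * x = x * w⁻¹ := by
          calc w⁻¹ * x = w⁻¹ * (x * w) * w⁻¹ := by group
            _ = w⁻¹ * (w * x) * w⁻¹ := by rw [hwx]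
            _ = x * w⁻¹ := by group
        obtain ⟨p, hpdef⟩ : ∃ p, p = w⁻¹ * p' * w := ⟨_, rfl⟩
        have hpP : p ∈ P := by
          have := hnP w⁻¹ hwinvx p' hp'
          rw [inv_inv] at this
          rw [hpdef]; exact this
        obtain ⟨d₁, hd₁⟩ : ∃ d₁, d₁ = r₁ * p * r₁⁻¹ * p⁻¹ := ⟨_, rfl⟩
        obtain ⟨d₂, hd₂⟩ : ∃ d₂, d₂ = r₂ * p * r₂⁻¹ * p⁻¹ := ⟨_, rfl⟩
        have hd₁P : d₁ ∈ P := by
          rw [hd₁]; exact P.mul_mem (hnP r₁ hr₁x p hpP) (P.inv_mem hpP)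
        have hd₂P : d₂ ∈ P := by
          rw [hd₂]; exact P.mul_mem (hnP r₂ hr₂x p hpP) (P.inv_mem hpP)
        have hd₁z : d₁ * z = z * d₁ := by rw [hd₁]; exact hδ r₁ hr₁ hr₁x p hpP
        have hd₂z : d₂ * z = z * d₂ := by rw [hd₂]; exact hδ r₂ hr₂ hr₂x p hpP
        have he1 := hRP₀ r₁ hr₁ hr₁x d₂ hd₂P hd₂z
        have he'1 := hRP₀ r₂ hr₂ hr₂x d₁ hd₁P hd₁z
        have hκ1 := hcomP d₂ hd₂P d₁ hd₁P
        have hzw : z * w = r₁ * r₂ := by rw [hw, ← hrz]; group
        have hp'eq : p' = w * p * w⁻¹ := by rw [hpdef]; group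
        have key : z * p' * z⁻¹ * p'⁻¹ =
            (r₁ * d₂ * r₁⁻¹ * d₂⁻¹) * (d₂ * d₁ * d₂⁻¹ * d₁⁻¹) * (r₂ * d₁ * r₂⁻¹ * d₁⁻¹)⁻¹ := by
          have e1 : z * p' * z⁻¹ = (z * w) * p * (z * w)⁻¹ := by rw [hp'eq]; group
          rw [e1, hzw, hp'eq, hw, hd₁, hd₂]
          group
        have hfin := pair_mul5 hx2 (pair_mul5 hx2 he1 hκ1) (pair_inv5 hx2 he'1)
        rw [← key] at hfin
        rcases hfin with h | h
        · exact h
        · exact absurd h (H₀ p' hp')
      apply hzP'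
      exact hinP z hzP (fun p hp => Or.inl (hzcP p hp))
    · push Not at hRab
      have hRcomm : ∀ r₁ ∈ Q, r₁ * x = x * r₁ → ∀ r₂ ∈ Q, r₂ * x = x * r₂ →
          r₁ * r₂ = r₂ * r₁ := by
        intro r₁ hr₁ hr₁x r₂ hr₂ hr₂x
        rcases hcomQ r₁ hr₁ r₂ hr₂ with h | h
        · rw [mul_inv_eq_one, mul_inv_eq_iff_eq_mul] at h; exact h
        · exact absurd h (hRab r₁ hr₁ hr₁x r₂ hr₂ hr₂x)
      have hRsmall : ∀ r ∈ Q, r * x = x * r → r = 1 ∨ r = z ∨ r = x ∨ r = x * z := by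
        intro r hr hrx
        exact hZR r hr hrx (fun r' hr' hr'x => hRcomm r' hr' hr'x r hr hrx)
      have hex : ∃ p ∈ P, z * p * z⁻¹ * p⁻¹ ≠ 1 := by
        by_contra hcon
        push Not at hcon
        exact hzP' (hinP z hzP (fun p hp => Or.inl (hcon p hp)))
      obtain ⟨p, hpP, hp1⟩ := hex
      obtain ⟨u, hu⟩ : ∃ u, u = z * p * z⁻¹ * p⁻¹ := ⟨_, rfl⟩
      rw [← hu] at hp1
      have huP : u ∈ P := by rw [hu]; exact hθP p hpP
      have huz : u * z = z * u := by rw [hu]; exact hθ p hpP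
      have hux : u * x = x * u := hxc u huP
      have huQ : u ∉ Q := by
        intro h
        rcases hQP u h huP with h1 | h1
        · exact hp1 h1
        · rw [hu] at h1; exact H₀ p hpP h1
      have huR : ∀ r ∈ Q, r * x = x * r → u * r = r * u := by
        intro r hr hrx
        rcases hRsmall r hr hrx with h | h | h | h
        · rw [h, mul_one, one_mul]
        · rw [h]; exact huz
        · rw [h]; exact hux
        · rw [h]
          calc u * (x * z) = (u * x) * z := by group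
            _ = (x * u) * z := by rw [hux]
            _ = x * (u * z) := by group
            _ = x * (z * u) := by rw [huz]
            _ = x * z * u := by group
      have huN : ∀ q ∈ Q, u * q * u⁻¹ ∈ Q := hnQ u huz
      obtain ⟨w, hw⟩ : ∃ w, w = u * q₀ * u⁻¹ * q₀⁻¹ := ⟨_, rfl⟩
      have hwQ : w ∈ Q := by
        rw [hw]; exact Q.mul_mem (huN q₀ hq₀Q) (Q.inv_mem hq₀Q)
      have huq : u * q₀ = w * q₀ * u := by rw [hw]; group
      have huinvx : u⁻¹ * x = x * u⁻¹ := by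
        calc u⁻¹ * x = u⁻¹ * (x * u) * u⁻¹ := by group
          _ = u⁻¹ * (u * x) * u⁻¹ := by rw [hux]
          _ = x * u⁻¹ := by group
      have hq₀invx : q₀⁻¹ * x = z * x * q₀⁻¹ := by
        have hq₀z : q₀⁻¹ * z = z * q₀⁻¹ := hzc _ (Q.inv_mem hq₀Q)
        calc q₀⁻¹ * x = (z * z) * q₀⁻¹ * x := by rw [hzz, one_mul]
          _ = z * (z * q₀⁻¹) * x := by group
          _ = z * (q₀⁻¹ * z) * x := by rw [hq₀z]
          _ = z * q₀⁻¹ * (z * x * q₀) * q₀⁻¹ := by group
          _ = z * q₀⁻¹ * (q₀ * x) * q₀⁻¹ := by rw [hq₀']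
          _ = z * x * q₀⁻¹ := by group
      have hwx : w * x = x * w := by
        have ha : (u * q₀ * u⁻¹) * x = z * x * (u * q₀ * u⁻¹) := by
          calc (u * q₀ * u⁻¹) * x = u * q₀ * (u⁻¹ * x) := by group
            _ = u * q₀ * (x * u⁻¹) := by rw [huinvx]
            _ = u * (q₀ * x) * u⁻¹ := by group
            _ = u * (z * x * q₀) * u⁻¹ := by rw [hq₀']
            _ = (u * z) * x * q₀ * u⁻¹ := by group
            _ = (z * u) * x * q₀ * u⁻¹ := by rw [huz]
            _ = z * (u * x) * q₀ * u⁻¹ := by group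
            _ = z * (x * u) * q₀ * u⁻¹ := by rw [hux]
            _ = z * x * (u * q₀ * u⁻¹) := by group
        have haz : (u * q₀ * u⁻¹) * z = z * (u * q₀ * u⁻¹) := hzc _ (huN q₀ hq₀Q)
        rw [hw]
        calc u * q₀ * u⁻¹ * q₀⁻¹ * x = (u * q₀ * u⁻¹) * (q₀⁻¹ * x) := by group
          _ = (u * q₀ * u⁻¹) * (z * x * q₀⁻¹) := by rw [hq₀invx]
          _ = ((u * q₀ * u⁻¹) * z) * x * q₀⁻¹ := by group
          _ = (z * (u * q₀ * u⁻¹)) * x * q₀⁻¹ := by rw [haz]
          _ = z * ((u * q₀ * u⁻¹) * x) * q₀⁻¹ := by group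
          _ = z * (z * x * (u * q₀ * u⁻¹)) * q₀⁻¹ := by rw [ha]
          _ = (z * z) * x * (u * q₀ * u⁻¹ * q₀⁻¹) := by group
          _ = x * (u * q₀ * u⁻¹ * q₀⁻¹) := by rw [hzz, one_mul]
      have hwR := hRsmall w hwQ hwx
      have hq₀sq : q₀ ^ 2 = 1 ∨ q₀ ^ 2 = z := hsqQ q₀ hq₀Q
      have hsq_u : (u * q₀ * u⁻¹) ^ 2 = q₀ ^ 2 := by
        rw [conj_pow]
        rcases hq₀sq with h | h
        · rw [h]; group
        · rw [h, mul_inv_eq_iff_eq_mul]; exact huz
      have hcenQ_of : ∀ v : G, v * q₀ = q₀ * v → (∀ r ∈ Q, r * x = x * r → v * r = r * v) →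
          ∀ a ∈ Q, v * a * v⁻¹ * a⁻¹ = 1 := by
        intro v hv hvR a ha
        rw [mul_inv_eq_one, mul_inv_eq_iff_eq_mul]
        rcases hQsplit a ha with h2 | ⟨r, hr, hrx, rfl⟩
        · exact hvR a ha h2
        · calc v * (q₀ * r) = (v * q₀) * r := by group
            _ = (q₀ * v) * r := by rw [hv]
            _ = q₀ * (v * r) := by group
            _ = q₀ * (r * v) := by rw [hvR r hr hrx]
            _ = q₀ * r * v := by group
      rcases hwR with h | h | h | h
      · have h1 : u * q₀ = q₀ * u := by rw [huq, h, one_mul]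
        have h2 := hcenQ_of u h1 huR
        exact huQ (hinQ u huN (fun a ha => Or.inl (h2 a ha)))
      · have h1 : (x * u) * q₀ = q₀ * (x * u) := by
          calc x * u * q₀ = x * (u * q₀) := by group
            _ = x * (w * q₀ * u) := by rw [huq]
            _ = x * (z * q₀ * u) := by rw [h]
            _ = (x * z) * q₀ * u := by group
            _ = (z * x) * q₀ * u := by rw [hxzc]
            _ = z * (x * q₀) * u := by group
            _ = z * (z * q₀ * x) * u := by rw [hxq]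
            _ = (z * z) * q₀ * (x * u) := by group
            _ = q₀ * (x * u) := by rw [hzz, one_mul]
        have h2R : ∀ r ∈ Q, r * x = x * r → (x * u) * r = r * (x * u) := by
          intro r hr hrx
          calc x * u * r = x * (u * r) := by group
            _ = x * (r * u) := by rw [huR r hr hrx]
            _ = (x * r) * u := by group
            _ = (r * x) * u := by rw [hrx]
            _ = r * (x * u) := by group
        have h3 := hcenQ_of (x * u) h1 h2R
        have hvN : ∀ q ∈ Q, (x * u) * q * (x * u)⁻¹ ∈ Q := by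
          intro q hq
          have e : (x * u) * q * (x * u)⁻¹ = x * (u * q * u⁻¹) * x⁻¹ := by group
          rw [e]; exact Q.mul_mem (Q.mul_mem hxQ (huN q hq)) (Q.inv_mem hxQ)
        have h4 := hinQ (x * u) hvN (fun a ha => Or.inl (h3 a ha))
        apply huQ
        have e : u = x⁻¹ * (x * u) := by group
        rw [e]; exact Q.mul_mem (Q.inv_mem hxQ) h4
      · have h1 : u * q₀ * u⁻¹ = x * q₀ := by rw [← h, hw]; group
        rw [h1] at hsq_u
        have h2 : (x * q₀) ^ 2 = z * q₀ ^ 2 := by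
          rw [pow_two, pow_two]
          calc x * q₀ * (x * q₀) = x * (q₀ * x) * q₀ := by group
            _ = x * (z * x * q₀) * q₀ := by rw [hq₀']
            _ = (x * z) * x * (q₀ * q₀) := by group
            _ = (z * x) * x * (q₀ * q₀) := by rw [hxzc]
            _ = z * (x * x) * (q₀ * q₀) := by group
            _ = z * (q₀ * q₀) := by rw [hxx, mul_one]
        rw [h2] at hsq_u
        exact hz1 (mul_eq_right.mp hsq_u)
      · have h1 : u * q₀ * u⁻¹ = x * z * q₀ := by rw [← h, hw]; group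
        rw [h1] at hsq_u
        have h2 : (x * z * q₀) ^ 2 = z * q₀ ^ 2 := by
          rw [pow_two, pow_two]
          calc x * z * q₀ * (x * z * q₀) = x * z * (q₀ * x) * (z * q₀) := by group
            _ = x * z * (z * x * q₀) * (z * q₀) := by rw [hq₀']
            _ = x * (z * z) * x * (q₀ * z) * q₀ := by group
            _ = x * x * (q₀ * z) * q₀ := by rw [hzz, mul_one]
            _ = (q₀ * z) * q₀ := by rw [hxx, one_mul]
            _ = (z * q₀) * q₀ := by rw [hzc q₀ hq₀Q]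
            _ = z * (q₀ * q₀) := by group
        rw [h2] at hsq_u
        exact hz1 (mul_eq_right.mp hsq_u)

theorem centralizer_conj5 {G : Type u} [Group G] (z h : G) :
    Subgroup.centralizer ({h * z * h⁻¹} : Set G) =
      (Subgroup.centralizer ({z} : Set G)).map (MulAut.conj h).toMonoidHom := by
  ext c
  rw [mem_map_conj5, Subgroup.mem_centralizer_singleton_iff,
    Subgroup.mem_centralizer_singleton_iff]
  constructor
  · intro hc
    calc h⁻¹ * c * h * z = h⁻¹ * (c * (h * z * h⁻¹)) * h := by group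
      _ = h⁻¹ * ((h * z * h⁻¹) * c) * h := by rw [hc]
      _ = z * (h⁻¹ * c * h) := by group
  · intro hc
    calc c * (h * z * h⁻¹) = h * ((h⁻¹ * c * h) * z) * h⁻¹ := by group
      _ = h * (z * (h⁻¹ * c * h)) * h⁻¹ := by rw [hc]
      _ = h * z * h⁻¹ * c := by group

/-- orthogonality of singular involutions is symmetric -/
theorem es_orth5 {G : Type u} [Group G] [Finite G]
    (Q : G → Subgroup G)
    (hQ : ∀ x : G, Q x = (Cfsg.pCore 2 ↥(Subgroup.centralizer ({x} : Set G))).map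
      (Subgroup.centralizer ({x} : Set G)).subtype)
    (z : G) (hz : orderOf z = 2) (hE : Cfsg.IsExtraspecial 2 ↥(Q z))
    (hC : Subgroup.centralizer ((Q z : Subgroup G) : Set G) ≤ Q z)
    (g : G) (hx : g * z * g⁻¹ ∈ Q z) : z ∈ Q (g * z * g⁻¹) := by
  haveI : Fact (Nat.Prime 2) := ⟨Nat.prime_two⟩
  have hQ' : ∀ x : G, Q x = Cfsg.pCoreOf 2 (Subgroup.centralizer ({x} : Set G)) :=
    fun x => hQ x
  have hz1 : z ≠ 1 := by
    intro h; rw [h, orderOf_one] at hz; omega
  have hQcent : ∀ q ∈ Q z, q * z = z * q := by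
    intro q hq
    rw [hQ'] at hq
    have := pCoreOf_le5 (p := 2) _ hq
    rwa [Subgroup.mem_centralizer_singleton_iff] at this
  have hzQ : z ∈ Q z := by
    rw [hQ']
    have hle : Subgroup.zpowers z ≤ Subgroup.centralizer ({z} : Set G) := by
      rw [Subgroup.zpowers_le, Subgroup.mem_centralizer_singleton_iff]
    have hn : Subgroup.centralizer ({z} : Set G) ≤
        Subgroup.normalizer ((Subgroup.zpowers z : Subgroup G) : Set G) := by
      intro c hc
      rw [Subgroup.mem_centralizer_singleton_iff] at hc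
      have hfix : ∀ (d : G), d * z = z * d → ∀ y ∈ Subgroup.zpowers z, d * y * d⁻¹ = y := by
        intro d hd y hy
        obtain ⟨k, rfl⟩ := Subgroup.mem_zpowers_iff.mp hy
        have h1 : Commute d (z ^ k) := Commute.zpow_right hd k
        rw [mul_inv_eq_iff_eq_mul]; exact h1.eq
      have hcinv : c⁻¹ * z = z * c⁻¹ := by
        calc c⁻¹ * z = c⁻¹ * (z * c) * c⁻¹ := by group
          _ = c⁻¹ * (c * z) * c⁻¹ := by rw [hc]
          _ = z * c⁻¹ := by group
      rw [Subgroup.mem_normalizer_iff]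
      intro y
      constructor
      · intro hy
        rw [hfix c hc y hy]; exact hy
      · intro hy
        have h2 := hfix c⁻¹ hcinv _ hy
        rw [inv_inv] at h2
        have e : c⁻¹ * (c * y * c⁻¹) * c = y := by group
        rw [e] at h2
        rw [h2]; exact hy
    have hp : IsPGroup 2 ↥(Subgroup.zpowers z) := by
      apply IsPGroup.of_card (n := 1)
      rw [Nat.card_zpowers, hz, pow_one]
    exact le_pCoreOf5 hle hn hp (Subgroup.mem_zpowers z)
  have hN : ∀ c : G, c * z = z * c → ∀ q ∈ Q z, c * q * c⁻¹ ∈ Q z := by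
    intro c hc q hq
    have hcC : c ∈ Subgroup.centralizer ({z} : Set G) :=
      Subgroup.mem_centralizer_singleton_iff.2 hc
    have h1 := normalizer_le_normalizer_pCoreOf5 (p := 2)
      (Subgroup.centralizer ({z} : Set G)) (Subgroup.le_normalizer hcC)
    rw [hQ'] at hq ⊢
    exact (Subgroup.mem_normalizer_iff.mp h1 q).1 hq
  have data := esdata_of5 (Q z) z hE hC hzQ hz1 hQcent hN
  by_cases hxz : g * z * g⁻¹ = z
  · rw [hxz]; exact hzQ
  have hconjQ : ∀ h : G, Q (h * z * h⁻¹) = (Q z).map (MulAut.conj h).toMonoidHom := by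
    intro h
    rw [hQ', hQ', centralizer_conj5, Cfsg.Agent.Lib.Helper4.pCoreOf_map_conj]
  have hP : ESData5 (Q (g * z * g⁻¹)) (g * z * g⁻¹) := by
    rw [hconjQ g]; exact esdata_conj5 (Q z) z data g
  apply es_orth_core5 (Q z) (Q (g * z * g⁻¹)) z (g * z * g⁻¹) data hP hx hxz
  intro h hh q hq
  rw [← hh, hconjQ h, mem_map_conj5]
  have e : h⁻¹ * (h * q * h⁻¹) * h = q := by group
  rw [e]; exact hq

end Cfsg.Agent.Lib.Helper5
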