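import Mathlib
import Cfsg.Prelude
import Cfsg.Agent.Lib.Helper5.ESOrth5
import Cfsg.Agent.Lib.Helper5.PPrimeCore5
import Cfsg.Agent.Lib.Helper5.PGroupBasics
import Cfsg.Agent.Lib.Helper2.GenCoprime2

set_option autoImplicit false

namespace Cfsg.Agent.Lib.Helper5

universe u

/-- the index of a point stabilizer under conjugation by a subgroup `N` is the size of the orbit -/
theorem relIndex_conj_orbit5 {G : Type u} [Group G] (N C : Subgroup G) (v : G)
    (hstab : ∀ n ∈ N, (n * v * n⁻¹ = v ↔ n ∈ C)) :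
    C.relIndex N = {w : G | ∃ n ∈ N, w = n * v * n⁻¹}.ncard := by
  letI : MulAction ↥N G := MulAction.compHom G ((MulAut.conj : G →* MulAut G).comp N.subtype)
  have hsmul : ∀ (n : ↥N) (w : G), n • w = (n : G) * w * (n : G)⁻¹ := fun n w => rfl
  have h1 := MulAction.index_stabilizer ↥N v
  have h2 : MulAction.stabilizer ↥N v = C.subgroupOf N := by
    ext n
    rw [MulAction.mem_stabilizer_iff, hsmul, Subgroup.mem_subgroupOf]
    exact hstab n n.2
  have h3 : MulAction.orbit ↥N v = {w : G | ∃ n ∈ N, w = n * v * n⁻¹} := by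
    ext w
    constructor
    · rintro ⟨n, rfl⟩
      exact ⟨n, n.2, hsmul n v⟩
    · rintro ⟨n, hn, rfl⟩
      exact ⟨⟨n, hn⟩, hsmul _ v⟩
  rw [h2, h3] at h1
  exact h1

/-- a four-group of commuting involutions as an explicit subgroup -/
theorem four_group5 {G : Type u} [Group G] (z x : G) (hz2 : z ^ 2 = 1) (hx2 : x ^ 2 = 1)
    (hxzc : x * z = z * x) :
    ∃ S : Subgroup G, ∀ v : G, v ∈ S ↔ ∃ a b : G, (a = 1 ∨ a = z) ∧ (b = 1 ∨ b = x) ∧ v = a * b := by
  refine ⟨{ carrier := {v | ∃ a b : G, (a = 1 ∨ a = z) ∧ (b = 1 ∨ b = x) ∧ v = a * b}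
            mul_mem' := ?_
            one_mem' := ⟨1, 1, Or.inl rfl, Or.inl rfl, (mul_one 1).symm⟩
            inv_mem' := ?_ }, fun v => Iff.rfl⟩
  · rintro u v ⟨a, b, ha, hb, rfl⟩ ⟨a', b', ha', hb', rfl⟩
    refine ⟨a * a', b * b', pair_mul5 hz2 ha ha', pair_mul5 hx2 hb hb', ?_⟩
    have hcomm : b * a' = a' * b := by
      rcases hb with h | h <;> rcases ha' with h' | h'
      · rw [h, h']
      · rw [h, mul_one, one_mul]
      · rw [h', mul_one, one_mul]
      · rw [h, h']; exact hxzc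
    calc a * b * (a' * b') = a * (b * a') * b' := by group
      _ = a * (a' * b) * b' := by rw [hcomm]
      _ = a * a' * (b * b') := by group
  · rintro u ⟨a, b, ha, hb, rfl⟩
    refine ⟨a⁻¹, b⁻¹, pair_inv5 hz2 ha, pair_inv5 hx2 hb, ?_⟩
    have hcomm : b * a = a * b := by
      rcases hb with h | h <;> rcases ha with h' | h'
      · rw [h, h']
      · rw [h, mul_one, one_mul]
      · rw [h', mul_one, one_mul]
      · rw [h, h']; exact hxzc
    calc (a * b)⁻¹ = (b * a)⁻¹ := by rw [hcomm]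
      _ = a⁻¹ * b⁻¹ := by group

/-- a large extraspecial subgroup from a conjugate of its centre inside it -/
theorem es_large_of_conj5 {G : Type u} [Group G] [Finite G] (Q : Subgroup G)
    (hL1 : Cfsg.IsExtraspecial 2 ↥Q)
    (hL2 : Subgroup.centralizer (Q : Set G) = ((Subgroup.center ↥Q).map Q.subtype))
    (hL3 : Subgroup.centralizer (((Subgroup.center ↥Q).map Q.subtype) : Set G) ≤
      Subgroup.normalizer (Q : Set G))
    (g : G) (hg : g ∉ Subgroup.normalizer (((Subgroup.center ↥Q).map Q.subtype) : Set G))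
    (hZg : (((Subgroup.center ↥Q).map Q.subtype)).map (MulAut.conj g).toMonoidHom ≤ Q) :
    ((Subgroup.center ↥Q).map Q.subtype) ≤ (Q).map (MulAut.conj g).toMonoidHom ∧
    (Subgroup.centralizer ((((Subgroup.center ↥Q).map Q.subtype) ⊔
      (((Subgroup.center ↥Q).map Q.subtype)).map (MulAut.conj g).toMonoidHom : Subgroup G) :
        Set G)).relIndex
      (Subgroup.normalizer ((((Subgroup.center ↥Q).map Q.subtype) ⊔
      (((Subgroup.center ↥Q).map Q.subtype)).map (MulAut.conj g).toMonoidHom : Subgroup G) :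
        Set G)) = 6 ∧
    Cfsg.IsLargeExtraspecial Q := by
  classical
  haveI : Fact (Nat.Prime 2) := ⟨Nat.prime_two⟩
  have hL2' := hL2
  have hL3' := hL3
  obtain ⟨Z, hZdef⟩ : ∃ Z : Subgroup G, Z = (Subgroup.center ↥Q).map Q.subtype := ⟨_, rfl⟩
  rw [← hZdef] at hL2 hL3 hg hZg ⊢
  obtain ⟨y, hy1, hyu⟩ := (Nat.card_eq_two_iff' (1 : Subgroup.center ↥Q)).1 hL1.2
  obtain ⟨z, hzdef⟩ : ∃ z : G, z = ((y : ↥Q) : G) := ⟨_, rfl⟩
  have hzQ : z ∈ Q := by rw [hzdef]; exact (y : ↥Q).2
  have hz1 : z ≠ 1 := by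
    intro h
    apply hy1
    apply Subtype.ext
    apply Subtype.ext
    rw [← hzdef, h]; rfl
  have hzZ : z ∈ Z := by
    rw [hZdef, hzdef]
    exact ⟨(y : ↥Q), y.2, rfl⟩
  have hZmem : ∀ c : G, c ∈ Z → c = 1 ∨ c = z := by
    intro c hc
    rw [hZdef] at hc
    obtain ⟨c', hc', rfl⟩ := hc
    by_cases h : (⟨c', hc'⟩ : Subgroup.center ↥Q) = 1
    · left
      have := congrArg (fun c : Subgroup.center ↥Q => ((c : ↥Q) : G)) h
      exact this
    · right
      have h2 := hyu _ h
      have := congrArg (fun c : Subgroup.center ↥Q => ((c : ↥Q) : G)) h2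
      rw [hzdef]; exact this
  have hzc : ∀ q ∈ Q, q * z = z * q := by
    intro q hq
    have h1 := y.2
    rw [Subgroup.mem_center_iff] at h1
    have h2 := congrArg Subtype.val (h1 ⟨q, hq⟩)
    rw [hzdef]; exact h2
  have hC : Subgroup.centralizer (Q : Set G) ≤ Q := by
    rw [hL2]
    intro c hc
    rcases hZmem c hc with h | h
    · rw [h]; exact Q.one_mem
    · rw [h]; exact hzQ
  have hcentZ : ∀ c : G, c * z = z * c → c ∈ Subgroup.centralizer (Z : Set G) := by
    intro c hc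
    rw [Subgroup.mem_centralizer_iff]
    intro d hd
    rcases hZmem d hd with h | h
    · rw [h, mul_one, one_mul]
    · rw [h]; exact hc.symm
  have hN : ∀ c : G, c * z = z * c → ∀ q ∈ Q, c * q * c⁻¹ ∈ Q := by
    intro c hc q hq
    have h1 := hL3 (hcentZ c hc)
    exact (Subgroup.mem_normalizer_iff.mp h1 q).1 hq
  have data := esdata_of5 Q z hL1 hC hzQ hz1 hzc hN
  obtain ⟨x, hxdef⟩ : ∃ x : G, x = g * z * g⁻¹ := ⟨_, rfl⟩
  have hxZg : x ∈ Z.map (MulAut.conj g).toMonoidHom := by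
    rw [hxdef]; exact ⟨z, hzZ, rfl⟩
  have hxQ : x ∈ Q := hZg hxZg
  have hxz : x ≠ z := by
    intro h
    apply hg
    rw [Subgroup.mem_normalizer_iff]
    intro c
    constructor
    · intro hc
      rcases hZmem c hc with h1 | h1
      · rw [h1]
        have e : g * 1 * g⁻¹ = 1 := by group
        rw [e]; exact Z.one_mem
      · rw [h1, ← hxdef, h]; exact hzZ
    · intro hc
      have e : c = g⁻¹ * (g * c * g⁻¹) * g := by group
      rcases hZmem _ hc with h1 | h1
      · rw [e, h1]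
        have e2 : g⁻¹ * 1 * g = 1 := by group
        rw [e2]; exact Z.one_mem
      · rw [e, h1, ← h, hxdef]
        have e2 : g⁻¹ * (g * z * g⁻¹) * g = z := by group
        rw [e2]; exact hzZ
  obtain ⟨P, hPdef⟩ : ∃ P : Subgroup G, P = Q.map (MulAut.conj g).toMonoidHom := ⟨_, rfl⟩
  rw [← hPdef]
  have hP : ESData5 P x := by
    rw [hPdef, hxdef]; exact esdata_conj5 Q z data g
  have hcan : ∀ h : G, h * z * h⁻¹ = x → ∀ q ∈ Q, h * q * h⁻¹ ∈ P := by
    intro h hh q hq
    rw [hPdef, mem_map_conj5]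
    have hc : (g⁻¹ * h) * z = z * (g⁻¹ * h) := by
      have e1 : h * z = x * h := by rw [← hh]; group
      calc (g⁻¹ * h) * z = g⁻¹ * (h * z) := by group
        _ = g⁻¹ * (x * h) := by rw [e1]
        _ = g⁻¹ * (g * z * g⁻¹ * h) := by rw [hxdef]
        _ = z * (g⁻¹ * h) := by group
    have h1 := hN _ hc q hq
    have e : g⁻¹ * (h * q * h⁻¹) * g = (g⁻¹ * h) * q * (g⁻¹ * h)⁻¹ := by group
    rw [e]; exact h1
  have hzP : z ∈ P := es_orth_core5 Q P z x data hP hxQ hxz hcan
  obtain ⟨-, -, hz2, -, hZQ, hcomQ, hsqQ, hinQ, hnQ⟩ := data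
  obtain ⟨hxP, hx1, hx2, hxc, hZP, hcomP, hsqP, hinP, hnP⟩ := hP
  have hzz : z * z = 1 := by rw [← pow_two]; exact hz2
  have hxx : x * x = 1 := by rw [← pow_two]; exact hx2
  have hzinv : z⁻¹ = z := inv_eq_of_mul_eq_one_left hzz
  have hxinv : x⁻¹ = x := inv_eq_of_mul_eq_one_left hxx
  have hxzc : x * z = z * x := hzc x hxQ
  have hq₀ex : ∃ q ∈ Q, q * x * q⁻¹ = z * x := by
    by_contra hcon
    push Not at hcon
    have hcen : ∀ q ∈ Q, q * x = x * q := by
      intro q hq
      rcases hcomQ q hq x hxQ with h | h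
      · rw [mul_inv_eq_one, mul_inv_eq_iff_eq_mul] at h; exact h
      · exfalso; apply hcon q hq; rw [mul_inv_eq_iff_eq_mul] at h; exact h
    rcases hZQ x hxQ hcen with h | h
    · exact hx1 h
    · exact hxz h
  obtain ⟨q₀, hq₀Q, hq₀⟩ := hq₀ex
  have hq₀z : q₀ * z * q₀⁻¹ = z := by
    rw [mul_inv_eq_iff_eq_mul]; exact hzc q₀ hq₀Q
  have hpex : ∃ p ∈ P, p * z * p⁻¹ = x * z := by
    by_contra hcon
    push Not at hcon
    have hcen : ∀ p ∈ P, p * z = z * p := by
      intro p hp
      rcases hcomP p hp z hzP with h | h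
      · rw [mul_inv_eq_one, mul_inv_eq_iff_eq_mul] at h; exact h
      · exfalso; apply hcon p hp; rw [mul_inv_eq_iff_eq_mul] at h; exact h
    rcases hZP z hzP hcen with h | h
    · exact hz1 h
    · exact hxz h.symm
  obtain ⟨p, hpP, hp⟩ := hpex
  have hpx : p * x * p⁻¹ = x := by
    rw [mul_inv_eq_iff_eq_mul]; exact hxc p hpP
  have hpx' : p⁻¹ * x * p = x := by
    have e : p⁻¹ * x * p = p⁻¹ * (p * x * p⁻¹) * p := by rw [hpx]
    rw [e]; group
  have hpz' : p⁻¹ * z * p = x * z := by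
    have e1 : z = p⁻¹ * (p * z * p⁻¹) * p := by group
    have e2 : p⁻¹ * (x * z) * p = (p⁻¹ * x * p) * (p⁻¹ * z * p) := by group
    rw [hp, e2, hpx'] at e1
    have e3 : p⁻¹ * z * p = x⁻¹ * z := by
      rw [eq_inv_mul_iff_mul_eq]; exact e1.symm
    rw [e3, hxinv]
  obtain ⟨h₀, hh₀def⟩ : ∃ h₀ : G, h₀ = p * q₀ * p⁻¹ := ⟨_, rfl⟩
  have hh1 : h₀ * z * h₀⁻¹ = x := by
    rw [hh₀def]
    calc (p * q₀ * p⁻¹) * z * (p * q₀ * p⁻¹)⁻¹
        = p * (q₀ * (p⁻¹ * z * p) * q₀⁻¹) * p⁻¹ := by group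
      _ = p * (q₀ * (x * z) * q₀⁻¹) * p⁻¹ := by rw [hpz']
      _ = p * ((q₀ * x * q₀⁻¹) * (q₀ * z * q₀⁻¹)) * p⁻¹ := by group
      _ = p * ((z * x) * z) * p⁻¹ := by rw [hq₀, hq₀z]
      _ = p * (z * (x * z)) * p⁻¹ := by group
      _ = p * (z * (z * x)) * p⁻¹ := by rw [hxzc]
      _ = p * ((z * z) * x) * p⁻¹ := by group
      _ = p * x * p⁻¹ := by rw [hzz, one_mul]
      _ = x := hpx
  have hh2 : h₀ * x * h₀⁻¹ = z := by
    rw [hh₀def]
    calc (p * q₀ * p⁻¹) * x * (p * q₀ * p⁻¹)⁻¹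
        = p * (q₀ * (p⁻¹ * x * p) * q₀⁻¹) * p⁻¹ := by group
      _ = p * (q₀ * x * q₀⁻¹) * p⁻¹ := by rw [hpx']
      _ = p * (z * x) * p⁻¹ := by rw [hq₀]
      _ = (p * z * p⁻¹) * (p * x * p⁻¹) := by group
      _ = (x * z) * x := by rw [hp, hpx]
      _ = (z * x) * x := by rw [hxzc]
      _ = z * (x * x) := by group
      _ = z := by rw [hxx, mul_one]
  -- the four-group
  obtain ⟨V, hVdef⟩ : ∃ V : Subgroup G, V = Z ⊔ Z.map (MulAut.conj g).toMonoidHom := ⟨_, rfl⟩
  rw [← hVdef]
  have hzV : z ∈ V := by rw [hVdef]; exact Subgroup.mem_sup_left hzZ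
  have hxV : x ∈ V := by rw [hVdef]; exact Subgroup.mem_sup_right hxZg
  have hVsub : ∀ v ∈ V, v = 1 ∨ v = z ∨ v = x ∨ v = z * x := by
    obtain ⟨S, hS⟩ := four_group5 z x hz2 hx2 hxzc
    have hVS : V ≤ S := by
      rw [hVdef]
      apply sup_le
      · intro c hc
        rw [hS]
        rcases hZmem c hc with h | h
        · exact ⟨1, 1, Or.inl rfl, Or.inl rfl, by rw [h, mul_one]⟩
        · exact ⟨z, 1, Or.inr rfl, Or.inl rfl, by rw [h, mul_one]⟩
      · rintro _ ⟨c, hc, rfl⟩
        rw [hS]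
        rcases hZmem c hc with h | h
        · refine ⟨1, 1, Or.inl rfl, Or.inl rfl, ?_⟩
          rw [h, map_one, mul_one]
        · refine ⟨1, x, Or.inl rfl, Or.inr rfl, ?_⟩
          rw [h, one_mul, hxdef]; rfl
    intro v hv
    obtain ⟨a, b, ha, hb, hv'⟩ := (hS v).1 (hVS hv)
    rcases ha with ha | ha <;> rcases hb with hb | hb
    · left; rw [hv', ha, hb, mul_one]
    · right; right; left; rw [hv', ha, hb, one_mul]
    · right; left; rw [hv', ha, hb, mul_one]
    · right; right; right; rw [hv', ha, hb]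
  have hCmem : ∀ n : G, n ∈ Subgroup.centralizer (V : Set G) ↔
      n * z = z * n ∧ n * x = x * n := by
    intro n
    rw [Subgroup.mem_centralizer_iff]
    constructor
    · intro h
      exact ⟨(h z hzV).symm, (h x hxV).symm⟩
    · rintro ⟨h1, h2⟩ v hv
      rcases hVsub v hv with h | h | h | h
      · rw [h, mul_one, one_mul]
      · rw [h]; exact h1.symm
      · rw [h]; exact h2.symm
      · rw [h]
        calc z * x * n = z * (x * n) := by group
          _ = z * (n * x) := by rw [h2]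
          _ = (z * n) * x := by group
          _ = (n * z) * x := by rw [h1]
          _ = n * (z * x) := by group
  have hNmem : ∀ n : G, n * z * n⁻¹ ∈ V → n * x * n⁻¹ ∈ V →
      n ∈ Subgroup.normalizer (V : Set G) := by
    intro n h1 h2
    apply mem_normalizer_of_conj_mem5
    intro a ha
    rcases hVsub a ha with h | h | h | h
    · rw [h]
      have e : n * 1 * n⁻¹ = 1 := by group
      rw [e]; exact V.one_mem
    · rw [h]; exact h1
    · rw [h]; exact h2
    · rw [h]
      have e : n * (z * x) * n⁻¹ = (n * z * n⁻¹) * (n * x * n⁻¹) := by group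
      rw [e]; exact V.mul_mem h1 h2
  have hzxnez : z * x ≠ z := by
    intro h; exact hx1 (mul_eq_left.mp h)
  have hzxnex : z * x ≠ x := by
    intro h; exact hz1 (mul_eq_right.mp h)
  obtain ⟨N, hNdef⟩ : ∃ N : Subgroup G, N = Subgroup.normalizer (V : Set G) := ⟨_, rfl⟩
  rw [← hNdef]
  obtain ⟨Nz, hNzdef⟩ : ∃ Nz : Subgroup G, Nz = N ⊓ Subgroup.centralizer ({z} : Set G) :=
    ⟨_, rfl⟩
  have hNzmem : ∀ n, n ∈ Nz ↔ n ∈ N ∧ n * z = z * n := by
    intro n; rw [hNzdef, Subgroup.mem_inf, Subgroup.mem_centralizer_singleton_iff]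
  have hconjV : ∀ n ∈ N, ∀ v ∈ V, n * v * n⁻¹ ∈ V := by
    intro n hn v hv
    rw [hNdef] at hn
    exact (Subgroup.mem_normalizer_iff.mp hn v).1 hv
  have hq₀N : q₀ ∈ N := by
    rw [hNdef]
    apply hNmem
    · rw [hq₀z]; exact hzV
    · rw [hq₀]; exact V.mul_mem hzV hxV
  have hq₀Nz : q₀ ∈ Nz := (hNzmem q₀).2 ⟨hq₀N, hzc q₀ hq₀Q⟩
  have hh₀N : h₀ ∈ N := by
    rw [hNdef]
    apply hNmem
    · rw [hh1]; exact hxV
    · rw [hh2]; exact hzV
  have hA : Nz.relIndex N = 3 := by
    rw [relIndex_conj_orbit5 N Nz z]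
    · rw [Set.ncard_eq_three]
      refine ⟨z, x, z * x, hxz.symm, (fun h => hzxnez h.symm), (fun h => hzxnex h.symm), ?_⟩
      ext w
      simp only [Set.mem_setOf_eq, Set.mem_insert_iff, Set.mem_singleton_iff]
      constructor
      · rintro ⟨n, hn, rfl⟩
        rcases hVsub _ (hconjV n hn z hzV) with h | h | h | h
        · exfalso; apply hz1
          have e : z = n⁻¹ * (n * z * n⁻¹) * n := by group
          rw [e, h]; group
        · exact Or.inl h
        · exact Or.inr (Or.inl h)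
        · exact Or.inr (Or.inr h)
      · rintro (h | h | h)
        · exact ⟨1, N.one_mem, by rw [h]; group⟩
        · exact ⟨h₀, hh₀N, by rw [h, hh1]⟩
        · refine ⟨q₀ * h₀, N.mul_mem hq₀N hh₀N, ?_⟩
          rw [h]
          calc z * x = q₀ * x * q₀⁻¹ := hq₀.symm
            _ = q₀ * (h₀ * z * h₀⁻¹) * q₀⁻¹ := by rw [hh1]
            _ = q₀ * h₀ * z * (q₀ * h₀)⁻¹ := by group
    · intro n hn
      rw [hNzmem, mul_inv_eq_iff_eq_mul]
      constructor
      · intro h; exact ⟨hn, h⟩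
      · intro h; exact h.2
  have hB : (Subgroup.centralizer (V : Set G)).relIndex Nz = 2 := by
    rw [relIndex_conj_orbit5 Nz (Subgroup.centralizer (V : Set G)) x]
    · have hset : {w : G | ∃ n ∈ Nz, w = n * x * n⁻¹} = {x, z * x} := by
        ext w
        simp only [Set.mem_setOf_eq, Set.mem_insert_iff, Set.mem_singleton_iff]
        constructor
        · rintro ⟨n, hn, rfl⟩
          obtain ⟨hnN, hnz⟩ := (hNzmem n).1 hn
          rcases hVsub _ (hconjV n hnN x hxV) with h | h | h | h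
          · exfalso; apply hx1
            have e : x = n⁻¹ * (n * x * n⁻¹) * n := by group
            rw [e, h]; group
          · exfalso; apply hxz
            have e : x = n⁻¹ * (n * x * n⁻¹) * n := by group
            rw [e, h]
            calc n⁻¹ * z * n = n⁻¹ * (z * n) := by group
              _ = n⁻¹ * (n * z) := by rw [hnz]
              _ = z := by group
          · exact Or.inl h
          · exact Or.inr h
        · rintro (h | h)
          · exact ⟨1, Nz.one_mem, by rw [h]; group⟩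
          · exact ⟨q₀, hq₀Nz, by rw [h, hq₀]⟩
      rw [hset]
      exact Set.ncard_pair (fun h => hzxnex h.symm)
    · intro n hn
      obtain ⟨hnN, hnz⟩ := (hNzmem n).1 hn
      rw [hCmem, mul_inv_eq_iff_eq_mul]
      constructor
      · intro h; exact ⟨hnz, h⟩
      · intro h; exact h.2
  have hCNz : Subgroup.centralizer (V : Set G) ≤ Nz := by
    intro n hn
    rw [hNzmem]
    refine ⟨?_, ((hCmem n).1 hn).1⟩
    rw [hNdef]; exact Subgroup.centralizer_le_normalizer _ hn
  have hNzN : Nz ≤ N := by rw [hNzdef]; exact inf_le_left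
  have hb : (Subgroup.centralizer (V : Set G)).relIndex N = 6 := by
    rw [← Subgroup.relIndex_mul_relIndex _ _ _ hCNz hNzN, hA, hB]
  have hLarge : Cfsg.IsLargeExtraspecial Q := by
    refine ⟨hL1, hL2', hL3', ?_⟩
    intro K hKodd hQK
    have hKcop : (Nat.card ↥K).Coprime 2 := (Nat.coprime_two_left.2 hKodd).symm
    have hQp : IsPGroup 2 ↥Q := hL1.1.1
    have hQK0 : Q ⊓ K = ⊥ := inf_eq_bot_of_pGroup_of_coprime Q K hQp hKcop
    have hPp : IsPGroup 2 ↥P := by rw [hPdef]; exact hQp.map _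
    have hPK0 : P ⊓ K = ⊥ := inf_eq_bot_of_pGroup_of_coprime P K hPp hKcop
    have hnormK : ∀ q ∈ Q, ∀ k ∈ K, q * k * q⁻¹ ∈ K := by
      intro q hq k hk
      exact (Subgroup.mem_normalizer_iff.mp (hQK hq) k).1 hk
    have hCz : ∀ k ∈ K, k * z = z * k → k = 1 := by
      intro k hk hkz
      have hkQ : k ∈ Subgroup.centralizer (Q : Set G) := by
        rw [Subgroup.mem_centralizer_iff]
        intro q hq
        have h1 : k * q * k⁻¹ * q⁻¹ ∈ Q ⊓ K := by
          refine ⟨Q.mul_mem (hN k hkz q hq) (Q.inv_mem hq), ?_⟩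
          have e : k * q * k⁻¹ * q⁻¹ = k * (q * k⁻¹ * q⁻¹) := by group
          rw [e]; exact K.mul_mem hk (hnormK q hq _ (K.inv_mem hk))
        rw [hQK0, Subgroup.mem_bot] at h1
        rw [mul_inv_eq_one, mul_inv_eq_iff_eq_mul] at h1
        exact h1.symm
      have h2 : k ∈ Q ⊓ K := ⟨hC hkQ, hk⟩
      rw [hQK0, Subgroup.mem_bot] at h2
      exact h2
    have hCx : ∀ k ∈ K, k * x = x * k → k = 1 := by
      intro k hk hkx
      apply hCz k hk
      have h1 : k * z * k⁻¹ * z⁻¹ ∈ P ⊓ K := by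
        refine ⟨P.mul_mem (hnP k hkx z hzP) (P.inv_mem hzP), ?_⟩
        have e : k * z * k⁻¹ * z⁻¹ = k * (z * k⁻¹ * z⁻¹) := by group
        rw [e]; exact K.mul_mem hk (hnormK z hzQ _ (K.inv_mem hk))
      rw [hPK0, Subgroup.mem_bot] at h1
      rw [mul_inv_eq_one, mul_inv_eq_iff_eq_mul] at h1
      exact h1
    have hCzx : ∀ k ∈ K, k * (z * x) = (z * x) * k → k = 1 := by
      intro k hk hkzx
      have h1 : q₀ * k * q₀⁻¹ = 1 := by
        apply hCx _ (hnormK q₀ hq₀Q k hk)
        have e1 : q₀ * (z * x) * q₀⁻¹ = x := by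
          calc q₀ * (z * x) * q₀⁻¹ = (q₀ * z * q₀⁻¹) * (q₀ * x * q₀⁻¹) := by group
            _ = z * (z * x) := by rw [hq₀z, hq₀]
            _ = (z * z) * x := by group
            _ = x := by rw [hzz, one_mul]
        calc q₀ * k * q₀⁻¹ * x = q₀ * k * q₀⁻¹ * (q₀ * (z * x) * q₀⁻¹) := by rw [e1]
          _ = q₀ * (k * (z * x)) * q₀⁻¹ := by group
          _ = q₀ * ((z * x) * k) * q₀⁻¹ := by rw [hkzx]
          _ = (q₀ * (z * x) * q₀⁻¹) * (q₀ * k * q₀⁻¹) := by group
          _ = x * (q₀ * k * q₀⁻¹) := by rw [e1]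
      have e : k = q₀⁻¹ * (q₀ * k * q₀⁻¹) * q₀ := by group
      rw [e, h1]; group
    have hVQ : V ≤ Q := by
      intro v hv
      rcases hVsub v hv with h | h | h | h
      · rw [h]; exact Q.one_mem
      · rw [h]; exact hzQ
      · rw [h]; exact hxQ
      · rw [h]; exact Q.mul_mem hzQ hxQ
    have hVC : V ≤ Subgroup.centralizer (V : Set G) := by
      intro a ha
      rw [hCmem]
      rcases hVsub a ha with h | h | h | h
      · rw [h]; exact ⟨by rw [mul_one, one_mul], by rw [mul_one, one_mul]⟩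
      · rw [h]; exact ⟨rfl, hxzc.symm⟩
      · rw [h]; exact ⟨hxzc, rfl⟩
      · rw [h]
        constructor
        · calc z * x * z = z * (x * z) := by group
            _ = z * (z * x) := by rw [hxzc]
        · calc z * x * x = (x * z) * x := by rw [hxzc]
            _ = x * (z * x) := by group
    have hVcomm : ∀ a ∈ V, ∀ b ∈ V, a * b = b * a := by
      intro a ha b hb
      exact (Subgroup.mem_centralizer_iff.mp (hVC hb) a ha)
    have hVexp : ∀ a ∈ V, a ^ 2 = 1 := by
      intro a ha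
      rcases hVsub a ha with h | h | h | h
      · rw [h, one_pow]
      · rw [h]; exact hz2
      · rw [h]; exact hx2
      · rw [h, pow_two]
        calc z * x * (z * x) = z * (x * z) * x := by group
          _ = z * (z * x) * x := by rw [hxzc]
          _ = (z * z) * (x * x) := by group
          _ = 1 := by rw [hzz, hxx, one_mul]
    have hX : ¬ 2 ∣ Nat.card ↥K := by
      intro h; exact (Nat.not_even_iff_odd.mpr hKodd) (even_iff_two_dvd.mpr h)
    have hKle : K ≤ ⊥ := by
      apply Cfsg.Agent.Lib.Helper2.gen_coprime 2 V K ⊥ hVcomm hVexp hX (hVQ.trans hQK)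
      intro B hBV ⟨a, haV, hVB⟩
      have hBne : ∃ t ∈ B, t = z ∨ t = x ∨ t = z * x := by
        by_contra hcon
        push Not at hcon
        have hB0 : B = ⊥ := by
          rw [eq_bot_iff]
          intro b hb
          rw [Subgroup.mem_bot]
          rcases hVsub b (hBV hb) with h | h | h | h
          · exact h
          · exact absurd h (hcon b hb).1
          · exact absurd h (hcon b hb).2.1
          · exact absurd h (hcon b hb).2.2
        rw [hB0, bot_sup_eq] at hVB
        have hpow : ∀ t ∈ Subgroup.zpowers a, t = 1 ∨ t = a := by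
          intro t ht
          obtain ⟨k, rfl⟩ := Subgroup.mem_zpowers_iff.mp ht
          rcases Int.even_or_odd' k with ⟨m, rfl | rfl⟩
          · left
            rw [zpow_mul, zpow_ofNat, hVexp a haV, one_zpow]
          · right
            rw [zpow_add, zpow_mul, zpow_ofNat, hVexp a haV, one_zpow, one_mul, zpow_one]
        have h1 := hpow z (hVB hzV)
        have h2 := hpow x (hVB hxV)
        rcases h1 with h1 | h1
        · exact hz1 h1
        · rcases h2 with h2 | h2
          · exact hx1 h2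
          · exact hxz (h2.trans h1.symm)
      obtain ⟨t, htB, ht⟩ := hBne
      intro k hk
      rw [Subgroup.mem_inf] at hk
      obtain ⟨hkK, hkB⟩ := hk
      rw [Subgroup.mem_bot]
      have hkt : k * t = t * k := (Subgroup.mem_centralizer_iff.mp hkB t htB).symm
      rcases ht with h | h | h
      · rw [h] at hkt; exact hCz k hkK hkt
      · rw [h] at hkt; exact hCx k hkK hkt
      · rw [h] at hkt; exact hCzx k hkK hkt
    exact eq_bot_iff.mpr hKle
  refine ⟨?_, hb, hLarge⟩
  intro c hc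
  rcases hZmem c hc with h | h
  · rw [h]; exact P.one_mem
  · rw [h]; exact hzP

end Cfsg.Agent.Lib.Helper5
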