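import Mathlib
import Cfsg.Prelude
import Cfsg.Agent.Lib.Helper5.ESLarge5

set_option autoImplicit false

namespace Cfsg.Agent.Lib.Helper5

universe u

open scoped commutatorElement

/-- an element of `C(z)` centralizing `C_Q(x)` lies in the four-group `⟨z, x⟩` -/
theorem es_cent_cx5 {G : Type u} [Group G] (Q : Subgroup G) (z x : G) (hQ : ESData5 Q z)
    (hxQ : x ∈ Q) (hx1 : x ≠ 1) (hxz : x ≠ z) (hx2 : x ^ 2 = 1)
    (u : G) (huz : u * z = z * u) (huR : ∀ r ∈ Q, r * x = x * r → u * r = r * u) :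
    u = 1 ∨ u = z ∨ u = x ∨ u = x * z := by
  obtain ⟨hzQ, hz1, hz2, hzc, hZQ, hcomQ, hsqQ, hinQ, hnQ⟩ := hQ
  have hzz : z * z = 1 := by rw [← pow_two]; exact hz2
  have hxx : x * x = 1 := by rw [← pow_two]; exact hx2
  have hzinv : z⁻¹ = z := inv_eq_of_mul_eq_one_left hzz
  have hxinv : x⁻¹ = x := inv_eq_of_mul_eq_one_left hxx
  have hxzc : x * z = z * x := hzc x hxQ
  have hux : u * x = x * u := huR x hxQ rfl
  have hq₀ex : ∃ q ∈ Q, q * x * q⁻¹ = z * x := by
    by_contra hcon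
    push Not at hcon
    have hcen : ∀ q ∈ Q, q * x = x * q := by
      intro q hq
      rcases hcomQ q hq x hxQ with h | h
      · rw [mul_inv_eq_one, mul_inv_eq_iff_eq_mul] at h; exact h
      · exfalso; apply hcon q hq; rw [mul_inv_eq_iff_eq_mul] at h; exact h
    rcases hZQ x hxQ hcen with h | h
    · exact hx1 h
    · exact hxz h
  obtain ⟨q₀, hq₀Q, hq₀⟩ := hq₀ex
  have hq₀' : q₀ * x = z * x * q₀ := by
    have := hq₀; rw [mul_inv_eq_iff_eq_mul] at this; exact this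
  have hQsplit : ∀ a ∈ Q, a * x = x * a ∨ ∃ r ∈ Q, r * x = x * r ∧ a = q₀ * r := by
    intro a ha
    rcases hcomQ a ha x hxQ with h | h
    · left; rw [mul_inv_eq_one, mul_inv_eq_iff_eq_mul] at h; exact h
    · right
      rw [mul_inv_eq_iff_eq_mul] at h
      have h1 : a * x = z * x * a := by
        rw [mul_inv_eq_iff_eq_mul] at h; exact h
      refine ⟨q₀⁻¹ * a, Q.mul_mem (Q.inv_mem hq₀Q) ha, ?_, by group⟩
      calc q₀⁻¹ * a * x = q₀⁻¹ * (a * x) := by group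
        _ = q₀⁻¹ * (z * x * a) := by rw [h1]
        _ = q₀⁻¹ * (z * x * q₀) * (q₀⁻¹ * a) := by group
        _ = q₀⁻¹ * (q₀ * x) * (q₀⁻¹ * a) := by rw [hq₀']
        _ = x * (q₀⁻¹ * a) := by group
  have hxq : x * q₀ = z * q₀ * x := by
    calc x * q₀ = x * q₀ * (x * x) := by rw [hxx, mul_one]
      _ = x * (q₀ * x) * x := by group
      _ = x * (z * x * q₀) * x := by rw [hq₀']
      _ = (x * z) * x * q₀ * x := by group
      _ = (z * x) * x * q₀ * x := by rw [hxzc]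
      _ = z * (x * x) * q₀ * x := by group
      _ = z * q₀ * x := by rw [hxx, mul_one]
  have hZR : ∀ c ∈ Q, c * x = x * c → (∀ r ∈ Q, r * x = x * r → r * c = c * r) →
      c = 1 ∨ c = z ∨ c = x ∨ c = x * z := by
    intro c hc hcx hcR
    rcases hcomQ c hc q₀ hq₀Q with h | h
    · have h1 : c * q₀ = q₀ * c := by
        rw [mul_inv_eq_one, mul_inv_eq_iff_eq_mul] at h; exact h
      have hcen : ∀ a ∈ Q, a * c = c * a := by
        intro a ha
        rcases hQsplit a ha with h2 | ⟨r, hr, hrx, rfl⟩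
        · exact hcR a ha h2
        · have h3 := hcR r hr hrx
          calc q₀ * r * c = q₀ * (r * c) := by group
            _ = q₀ * (c * r) := by rw [h3]
            _ = (q₀ * c) * r := by group
            _ = (c * q₀) * r := by rw [h1]
            _ = c * (q₀ * r) := by group
      rcases hZQ c hc hcen with h2 | h2
      · exact Or.inl h2
      · exact Or.inr (Or.inl h2)
    · have h1 : c * q₀ = z * q₀ * c := by
        rw [mul_inv_eq_iff_eq_mul, mul_inv_eq_iff_eq_mul] at h; exact h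
      have hq₀c : q₀ * (x * c) = (x * c) * q₀ := by
        calc q₀ * (x * c) = (z * z) * q₀ * x * c := by rw [hzz]; group
          _ = z * (z * q₀ * x) * c := by group
          _ = z * (x * q₀) * c := by rw [hxq]
          _ = (z * x) * q₀ * c := by group
          _ = (x * z) * q₀ * c := by rw [hxzc]
          _ = x * (z * q₀ * c) := by group
          _ = x * (c * q₀) := by rw [h1]
          _ = (x * c) * q₀ := by group
      have hcen : ∀ a ∈ Q, a * (x * c) = (x * c) * a := by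
        intro a ha
        rcases hQsplit a ha with h2 | ⟨r, hr, hrx, rfl⟩
        · have h3 := hcR a ha h2
          calc a * (x * c) = (a * x) * c := by group
            _ = (x * a) * c := by rw [h2]
            _ = x * (a * c) := by group
            _ = x * (c * a) := by rw [h3]
            _ = (x * c) * a := by group
        · have h3 := hcR r hr hrx
          calc q₀ * r * (x * c) = q₀ * ((r * x) * c) := by group
            _ = q₀ * ((x * r) * c) := by rw [hrx]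
            _ = q₀ * (x * (r * c)) := by group
            _ = q₀ * (x * (c * r)) := by rw [h3]
            _ = (q₀ * (x * c)) * r := by group
            _ = ((x * c) * q₀) * r := by rw [hq₀c]
            _ = (x * c) * (q₀ * r) := by group
      rcases hZQ (x * c) (Q.mul_mem hxQ hc) hcen with h2 | h2
      · right; right; left
        have h3 : c = x⁻¹ := eq_inv_of_mul_eq_one_right h2
        rw [h3, hxinv]
      · right; right; right
        have h3 : c = x⁻¹ * z := by rw [← h2]; group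
        rw [h3, hxinv]
  have huN : ∀ q ∈ Q, u * q * u⁻¹ ∈ Q := hnQ u huz
  obtain ⟨w, hw⟩ : ∃ w, w = u * q₀ * u⁻¹ * q₀⁻¹ := ⟨_, rfl⟩
  have hwQ : w ∈ Q := by
    rw [hw]; exact Q.mul_mem (huN q₀ hq₀Q) (Q.inv_mem hq₀Q)
  have huq : u * q₀ = w * q₀ * u := by rw [hw]; group
  have huinvx : u⁻¹ * x = x * u⁻¹ := by
    calc u⁻¹ * x = u⁻¹ * (x * u) * u⁻¹ := by group
      _ = u⁻¹ * (u * x) * u⁻¹ := by rw [hux]
      _ = x * u⁻¹ := by group
  have hq₀invx : q₀⁻¹ * x = z * x * q₀⁻¹ := by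
    have hq₀z : q₀⁻¹ * z = z * q₀⁻¹ := hzc _ (Q.inv_mem hq₀Q)
    calc q₀⁻¹ * x = (z * z) * q₀⁻¹ * x := by rw [hzz, one_mul]
      _ = z * (z * q₀⁻¹) * x := by group
      _ = z * (q₀⁻¹ * z) * x := by rw [hq₀z]
      _ = z * q₀⁻¹ * (z * x * q₀) * q₀⁻¹ := by group
      _ = z * q₀⁻¹ * (q₀ * x) * q₀⁻¹ := by rw [hq₀']
      _ = z * x * q₀⁻¹ := by group
  have hwx : w * x = x * w := by
    have ha : (u * q₀ * u⁻¹) * x = z * x * (u * q₀ * u⁻¹) := by
      calc (u * q₀ * u⁻¹) * x = u * q₀ * (u⁻¹ * x) := by group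
        _ = u * q₀ * (x * u⁻¹) := by rw [huinvx]
        _ = u * (q₀ * x) * u⁻¹ := by group
        _ = u * (z * x * q₀) * u⁻¹ := by rw [hq₀']
        _ = (u * z) * x * q₀ * u⁻¹ := by group
        _ = (z * u) * x * q₀ * u⁻¹ := by rw [huz]
        _ = z * (u * x) * q₀ * u⁻¹ := by group
        _ = z * (x * u) * q₀ * u⁻¹ := by rw [hux]
        _ = z * x * (u * q₀ * u⁻¹) := by group
    have haz : (u * q₀ * u⁻¹) * z = z * (u * q₀ * u⁻¹) := hzc _ (huN q₀ hq₀Q)
    rw [hw]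
    calc u * q₀ * u⁻¹ * q₀⁻¹ * x = (u * q₀ * u⁻¹) * (q₀⁻¹ * x) := by group
      _ = (u * q₀ * u⁻¹) * (z * x * q₀⁻¹) := by rw [hq₀invx]
      _ = ((u * q₀ * u⁻¹) * z) * x * q₀⁻¹ := by group
      _ = (z * (u * q₀ * u⁻¹)) * x * q₀⁻¹ := by rw [haz]
      _ = z * ((u * q₀ * u⁻¹) * x) * q₀⁻¹ := by group
      _ = z * (z * x * (u * q₀ * u⁻¹)) * q₀⁻¹ := by rw [ha]
      _ = (z * z) * x * (u * q₀ * u⁻¹ * q₀⁻¹) := by group
      _ = x * (u * q₀ * u⁻¹ * q₀⁻¹) := by rw [hzz, one_mul]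
  have hwR : ∀ r ∈ Q, r * x = x * r → r * w = w * r := by
    intro r hr hrx
    obtain ⟨ε, hε⟩ : ∃ ε, ε = r * q₀ * r⁻¹ * q₀⁻¹ := ⟨_, rfl⟩
    have hε' : ε = 1 ∨ ε = z := by rw [hε]; exact hcomQ r hr q₀ hq₀Q
    have hεQ : ∀ q ∈ Q, q * ε = ε * q := by
      intro q hq
      rcases hε' with h | h
      · rw [h, mul_one, one_mul]
      · rw [h]; exact hzc q hq
    have hεu : u * ε = ε * u := by
      rcases hε' with h | h
      · rw [h, mul_one, one_mul]
      · rw [h]; exact huz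
    have hεinv : ε⁻¹ = ε := by
      rcases hε' with h | h
      · rw [h, inv_one]
      · rw [h]; exact hzinv
    have hεε : ε * ε = 1 := by
      rcases hε' with h | h
      · rw [h, mul_one]
      · rw [h]; exact hzz
    have h1 : r * q₀ = ε * q₀ * r := by rw [hε]; group
    have h2 : r * q₀⁻¹ = ε * q₀⁻¹ * r := by
      calc r * q₀⁻¹ = q₀⁻¹ * (r * q₀ * r⁻¹ * q₀⁻¹)⁻¹ * r := by group
        _ = q₀⁻¹ * ε⁻¹ * r := by rw [← hε]
        _ = (q₀⁻¹ * ε) * r := by rw [hεinv]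
        _ = ε * q₀⁻¹ * r := by rw [hεQ _ (Q.inv_mem hq₀Q)]
    have hur : u * r = r * u := huR r hr hrx
    have hur' : r * u⁻¹ = u⁻¹ * r := by
      calc r * u⁻¹ = u⁻¹ * (u * r) * u⁻¹ := by group
        _ = u⁻¹ * (r * u) * u⁻¹ := by rw [hur]
        _ = u⁻¹ * r := by group
    have hεc : (u * q₀ * u⁻¹) * ε = ε * (u * q₀ * u⁻¹) := hεQ _ (huN q₀ hq₀Q)
    rw [hw]
    calc r * (u * q₀ * u⁻¹ * q₀⁻¹) = (r * u) * q₀ * u⁻¹ * q₀⁻¹ := by group
      _ = (u * r) * q₀ * u⁻¹ * q₀⁻¹ := by rw [hur]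
      _ = u * (r * q₀) * u⁻¹ * q₀⁻¹ := by group
      _ = u * (ε * q₀ * r) * u⁻¹ * q₀⁻¹ := by rw [h1]
      _ = (u * ε) * q₀ * (r * u⁻¹) * q₀⁻¹ := by group
      _ = (ε * u) * q₀ * (u⁻¹ * r) * q₀⁻¹ := by rw [hεu, hur']
      _ = ε * (u * q₀ * u⁻¹) * (r * q₀⁻¹) := by group
      _ = ε * (u * q₀ * u⁻¹) * (ε * q₀⁻¹ * r) := by rw [h2]
      _ = ε * ((u * q₀ * u⁻¹) * ε) * q₀⁻¹ * r := by group
      _ = ε * (ε * (u * q₀ * u⁻¹)) * q₀⁻¹ * r := by rw [hεc]
      _ = (ε * ε) * (u * q₀ * u⁻¹) * q₀⁻¹ * r := by group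
      _ = u * q₀ * u⁻¹ * q₀⁻¹ * r := by rw [hεε, one_mul]
  have hwV := hZR w hwQ hwx hwR
  have hq₀sq : q₀ ^ 2 = 1 ∨ q₀ ^ 2 = z := hsqQ q₀ hq₀Q
  have hsq_u : (u * q₀ * u⁻¹) ^ 2 = q₀ ^ 2 := by
    rw [conj_pow]
    rcases hq₀sq with h | h
    · rw [h]; group
    · rw [h, mul_inv_eq_iff_eq_mul]; exact huz
  have hcenQ_of : ∀ v : G, v * q₀ = q₀ * v → (∀ r ∈ Q, r * x = x * r → v * r = r * v) →
      ∀ a ∈ Q, v * a * v⁻¹ * a⁻¹ = 1 := by
    intro v hv hvR a ha
    rw [mul_inv_eq_one, mul_inv_eq_iff_eq_mul]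
    rcases hQsplit a ha with h2 | ⟨r, hr, hrx, rfl⟩
    · exact hvR a ha h2
    · calc v * (q₀ * r) = (v * q₀) * r := by group
        _ = (q₀ * v) * r := by rw [hv]
        _ = q₀ * (v * r) := by group
        _ = q₀ * (r * v) := by rw [hvR r hr hrx]
        _ = q₀ * r * v := by group
  have hcenfin : ∀ v : G, (∀ q ∈ Q, v * q * v⁻¹ ∈ Q) → (∀ a ∈ Q, v * a * v⁻¹ * a⁻¹ = 1) →
      v = 1 ∨ v = z := by
    intro v hvN hv
    have hvQ := hinQ v hvN (fun a ha => Or.inl (hv a ha))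
    apply hZQ v hvQ
    intro q hq
    have := hv q hq
    rw [mul_inv_eq_one, mul_inv_eq_iff_eq_mul] at this
    exact this.symm
  rcases hwV with h | h | h | h
  · have h1 : u * q₀ = q₀ * u := by rw [huq, h, one_mul]
    have h2 := hcenQ_of u h1 huR
    rcases hcenfin u huN h2 with h3 | h3
    · exact Or.inl h3
    · exact Or.inr (Or.inl h3)
  · have h1 : (x * u) * q₀ = q₀ * (x * u) := by
      calc x * u * q₀ = x * (u * q₀) := by group
        _ = x * (w * q₀ * u) := by rw [huq]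
        _ = x * (z * q₀ * u) := by rw [h]
        _ = (x * z) * q₀ * u := by group
        _ = (z * x) * q₀ * u := by rw [hxzc]
        _ = z * (x * q₀) * u := by group
        _ = z * (z * q₀ * x) * u := by rw [hxq]
        _ = (z * z) * q₀ * (x * u) := by group
        _ = q₀ * (x * u) := by rw [hzz, one_mul]
    have h2R : ∀ r ∈ Q, r * x = x * r → (x * u) * r = r * (x * u) := by
      intro r hr hrx
      calc x * u * r = x * (u * r) := by group
        _ = x * (r * u) := by rw [huR r hr hrx]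
        _ = (x * r) * u := by group
        _ = (r * x) * u := by rw [hrx]
        _ = r * (x * u) := by group
    have h3 := hcenQ_of (x * u) h1 h2R
    have hvN : ∀ q ∈ Q, (x * u) * q * (x * u)⁻¹ ∈ Q := by
      intro q hq
      have e : (x * u) * q * (x * u)⁻¹ = x * (u * q * u⁻¹) * x⁻¹ := by group
      rw [e]; exact Q.mul_mem (Q.mul_mem hxQ (huN q hq)) (Q.inv_mem hxQ)
    rcases hcenfin (x * u) hvN h3 with h4 | h4
    · right; right; left
      have h5 : u = x⁻¹ := eq_inv_of_mul_eq_one_right h4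
      rw [h5, hxinv]
    · right; right; right
      have e : u = x⁻¹ * (x * u) := by group
      rw [e, h4, hxinv]
  · exfalso
    have h1 : u * q₀ * u⁻¹ = x * q₀ := by rw [← h, hw]; group
    rw [h1] at hsq_u
    have h2 : (x * q₀) ^ 2 = z * q₀ ^ 2 := by
      rw [pow_two, pow_two]
      calc x * q₀ * (x * q₀) = x * (q₀ * x) * q₀ := by group
        _ = x * (z * x * q₀) * q₀ := by rw [hq₀']
        _ = (x * z) * x * (q₀ * q₀) := by group
        _ = (z * x) * x * (q₀ * q₀) := by rw [hxzc]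
        _ = z * (x * x) * (q₀ * q₀) := by group
        _ = z * (q₀ * q₀) := by rw [hxx, mul_one]
    rw [h2] at hsq_u
    exact hz1 (mul_eq_right.mp hsq_u)
  · exfalso
    have h1 : u * q₀ * u⁻¹ = x * z * q₀ := by rw [← h, hw]; group
    rw [h1] at hsq_u
    have h2 : (x * z * q₀) ^ 2 = z * q₀ ^ 2 := by
      rw [pow_two, pow_two]
      calc x * z * q₀ * (x * z * q₀) = x * z * (q₀ * x) * (z * q₀) := by group
        _ = x * z * (z * x * q₀) * (z * q₀) := by rw [hq₀']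
        _ = x * (z * z) * x * (q₀ * z) * q₀ := by group
        _ = x * x * (q₀ * z) * q₀ := by rw [hzz, mul_one]
        _ = (q₀ * z) * q₀ := by rw [hxx, one_mul]
        _ = (z * q₀) * q₀ := by rw [hzc q₀ hq₀Q]
        _ = z * (q₀ * q₀) := by group
    rw [h2] at hsq_u
    exact hz1 (mul_eq_right.mp hsq_u)

/-- the elementwise extraspecial data from a large extraspecial subgroup with centre `⟨z⟩` -/
theorem esdata_of_large5 {G : Type u} [Group G] [Finite G] (Q : Subgroup G)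
    (hQ : Cfsg.IsLargeExtraspecial Q) (z : G)
    (hz : ((Subgroup.center ↥Q).map Q.subtype) = Subgroup.zpowers z) (hz2 : orderOf z = 2) :
    ESData5 Q z := by
  obtain ⟨hL1, hL2, hL3, -⟩ := hQ
  have hzZ : z ∈ (Subgroup.center ↥Q).map Q.subtype := by
    rw [hz]; exact Subgroup.mem_zpowers z
  obtain ⟨c, hc, hcz⟩ := hzZ
  have hzQ : z ∈ Q := by rw [← hcz]; exact c.2
  have hz1 : z ≠ 1 := by
    intro h; rw [h, orderOf_one] at hz2; omega
  have hzc : ∀ q ∈ Q, q * z = z * q := by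
    intro q hq
    have hc' : c ∈ Subgroup.center ↥Q := hc
    rw [Subgroup.mem_center_iff] at hc'
    have h2 := congrArg Subtype.val (hc' ⟨q, hq⟩)
    rw [← hcz]; exact h2
  have hC : Subgroup.centralizer (Q : Set G) ≤ Q := by
    rw [hL2]
    rintro _ ⟨d, -, rfl⟩
    exact d.2
  have hN : ∀ c : G, c * z = z * c → ∀ q ∈ Q, c * q * c⁻¹ ∈ Q := by
    intro c hc q hq
    have hcZ : c ∈ Subgroup.centralizer
        (((Subgroup.center ↥Q).map Q.subtype : Subgroup G) : Set G) := by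
      rw [hz, Subgroup.mem_centralizer_iff]
      intro d hd
      obtain ⟨k, rfl⟩ := Subgroup.mem_zpowers_iff.mp hd
      have h1 : Commute c (z ^ k) := Commute.zpow_right hc k
      exact h1.eq.symm
    exact (Subgroup.mem_normalizer_iff.mp (hL3 hcZ) q).1 hq
  exact esdata_of5 Q z hL1 hC hzQ hz1 hzc hN

/-- the subgroup of elements normalizing `E` and commuting with `a` modulo `E` -/
theorem comm_mod_subgroup5 {G : Type u} [Group G] (E : Subgroup G) (a : G) :
    ∃ M : Subgroup G, ∀ r : G, r ∈ M ↔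
      (r ∈ Subgroup.normalizer (E : Set G) ∧ r * a * r⁻¹ * a⁻¹ ∈ E) := by
  refine ⟨{ carrier := {r | r ∈ Subgroup.normalizer (E : Set G) ∧ r * a * r⁻¹ * a⁻¹ ∈ E}
            mul_mem' := ?_
            one_mem' := ?_
            inv_mem' := ?_ }, fun r => Iff.rfl⟩
  · rintro r s ⟨hr, hra⟩ ⟨hs, hsa⟩
    refine ⟨Subgroup.mul_mem _ hr hs, ?_⟩
    have e : r * s * a * (r * s)⁻¹ * a⁻¹ =
        (r * (s * a * s⁻¹ * a⁻¹) * r⁻¹) * (r * a * r⁻¹ * a⁻¹) := by group
    rw [e]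
    exact E.mul_mem ((Subgroup.mem_normalizer_iff.mp hr _).1 hsa) hra
  · refine ⟨Subgroup.one_mem _, ?_⟩
    have e : (1 : G) * a * 1⁻¹ * a⁻¹ = 1 := by group
    rw [e]; exact E.one_mem
  · rintro r ⟨hr, hra⟩
    refine ⟨Subgroup.inv_mem _ hr, ?_⟩
    have e : r⁻¹ * a * r⁻¹⁻¹ * a⁻¹ = r⁻¹ * (r * a * r⁻¹ * a⁻¹)⁻¹ * r⁻¹⁻¹ := by group
    rw [e]
    exact (Subgroup.mem_normalizer_iff.mp (Subgroup.inv_mem _ hr) _).1 (E.inv_mem hra)

/-- structure of `R = C_{Q^g}(z) C_Q(z^g)` for `z^g ∈ Q`, in elementwise form -/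
theorem es_R_structure5 {G : Type u} [Group G] [Finite G] (Q : Subgroup G) (z g : G)
    (data : ESData5 Q z) (hgz : g * z ≠ z * g) (hgQ : g * z * g⁻¹ ∈ Q)
    (V X R E : Subgroup G) (hV : V = Subgroup.closure ({z, g * z * g⁻¹} : Set G))
    (hX : X = Q ⊔ (Q).map (MulAut.conj g).toMonoidHom)
    (hR : R = ((Q).map (MulAut.conj g).toMonoidHom ⊓ Subgroup.centralizer ({z} : Set G)) ⊔
      (Q ⊓ Subgroup.centralizer ({g * z * g⁻¹} : Set G)))
    (hE : E = Q ⊓ (Q).map (MulAut.conj g).toMonoidHom) :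
    (Subgroup.center ↥R).map R.subtype = V ∧
    E ≤ (Subgroup.upperCentralSeries ↥R 2).map R.subtype ∧
    Subgroup.upperCentralSeries ↥R 3 = ⊤ ∧ Cfsg.IsElementaryAbelian 2 E ∧
    (∀ x ∈ R, ∀ y ∈ R, x * y * x⁻¹ * y⁻¹ ∈ E ∧ x ^ 2 ∈ E) ∧
    ((Q).map (MulAut.conj g).toMonoidHom ⊓ Subgroup.centralizer ({z} : Set G)) ⊓
      (Q ⊓ Subgroup.centralizer ({g * z * g⁻¹} : Set G)) = E ∧ ⁅X, E⁆ ≤ V := by
  obtain ⟨x, hxdef⟩ : ∃ x : G, x = g * z * g⁻¹ := ⟨_, rfl⟩
  obtain ⟨P, hPdef⟩ : ∃ P : Subgroup G, P = Q.map (MulAut.conj g).toMonoidHom := ⟨_, rfl⟩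
  rw [← hxdef] at hgQ hV hR
  rw [← hPdef] at hX hR hE
  rw [← hxdef, ← hPdef]
  have hxz : x ≠ z := by
    intro h
    apply hgz
    rw [hxdef] at h
    calc g * z = (g * z * g⁻¹) * g := by group
      _ = z * g := by rw [h]
  have hP : ESData5 P x := by rw [hPdef, hxdef]; exact esdata_conj5 Q z data g
  have hN := data.2.2.2.2.2.2.2.2
  have hcan : ∀ h : G, h * z * h⁻¹ = x → ∀ q ∈ Q, h * q * h⁻¹ ∈ P := by
    intro h hh q hq
    rw [hPdef, mem_map_conj5]
    have hc : (g⁻¹ * h) * z = z * (g⁻¹ * h) := by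
      have e1 : h * z = x * h := by rw [← hh]; group
      calc (g⁻¹ * h) * z = g⁻¹ * (h * z) := by group
        _ = g⁻¹ * (x * h) := by rw [e1]
        _ = g⁻¹ * (g * z * g⁻¹ * h) := by rw [hxdef]
        _ = z * (g⁻¹ * h) := by group
    have h1 := hN _ hc q hq
    have e : g⁻¹ * (h * q * h⁻¹) * g = (g⁻¹ * h) * q * (g⁻¹ * h)⁻¹ := by group
    rw [e]; exact h1
  have hzP : z ∈ P := es_orth_core5 Q P z x data hP hgQ hxz hcan
  have data' := data
  obtain ⟨hzQ, hz1, hz2, hzc, hZQ, hcomQ, hsqQ, hinQ, hnQ⟩ := data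
  obtain ⟨hxP, hx1, hx2, hxc, hZP, hcomP, hsqP, hinP, hnP⟩ := hP
  have hxQ := hgQ
  have hzz : z * z = 1 := by rw [← pow_two]; exact hz2
  have hxx : x * x = 1 := by rw [← pow_two]; exact hx2
  have hzinv : z⁻¹ = z := inv_eq_of_mul_eq_one_left hzz
  have hxinv : x⁻¹ = x := inv_eq_of_mul_eq_one_left hxx
  have hxzc : x * z = z * x := hzc x hxQ
  obtain ⟨Qx, hQxdef⟩ : ∃ Qx : Subgroup G, Qx = Q ⊓ Subgroup.centralizer ({x} : Set G) :=
    ⟨_, rfl⟩
  obtain ⟨Pz, hPzdef⟩ : ∃ Pz : Subgroup G, Pz = P ⊓ Subgroup.centralizer ({z} : Set G) :=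
    ⟨_, rfl⟩
  rw [← hQxdef, ← hPzdef] at hR
  rw [← hQxdef, ← hPzdef]
  have hQxmem : ∀ r : G, r ∈ Qx ↔ r ∈ Q ∧ r * x = x * r := by
    intro r
    rw [hQxdef, Subgroup.mem_inf, Subgroup.mem_centralizer_singleton_iff]
  have hPzmem : ∀ u : G, u ∈ Pz ↔ u ∈ P ∧ u * z = z * u := by
    intro u
    rw [hPzdef, Subgroup.mem_inf, Subgroup.mem_centralizer_singleton_iff]
  have hEmem : ∀ e : G, e ∈ E ↔ e ∈ Q ∧ e ∈ P := by
    intro e; rw [hE, Subgroup.mem_inf]
  have hzE : z ∈ E := (hEmem z).2 ⟨hzQ, hzP⟩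
  have hxE : x ∈ E := (hEmem x).2 ⟨hxQ, hxP⟩
  have hEQx : E ≤ Qx := fun e he =>
    (hQxmem e).2 ⟨((hEmem e).1 he).1, hxc e ((hEmem e).1 he).2⟩
  have hEPz : E ≤ Pz := fun e he =>
    (hPzmem e).2 ⟨((hEmem e).1 he).2, hzc e ((hEmem e).1 he).1⟩
  have hQxR : Qx ≤ R := by rw [hR]; exact le_sup_right
  have hPzR : Pz ≤ R := by rw [hR]; exact le_sup_left
  have h6 : Pz ⊓ Qx = E := by
    apply le_antisymm
    · intro e he
      rw [Subgroup.mem_inf] at he
      exact (hEmem e).2 ⟨((hQxmem e).1 he.2).1, ((hPzmem e).1 he.1).1⟩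
    · exact le_inf hEPz hEQx
  have hE1x : ∀ a : G, (a = 1 ∨ a = z) → (a = 1 ∨ a = x) → a = 1 := by
    intro a h1 h2
    rcases h1 with h1 | h1
    · exact h1
    · rcases h2 with h2 | h2
      · exact h2
      · exact absurd (h2.symm.trans h1) hxz
  have hEcomm : ∀ a ∈ E, ∀ b ∈ E, a * b = b * a := by
    intro a ha b hb
    obtain ⟨haQ, haP⟩ := (hEmem a).1 ha
    obtain ⟨hbQ, hbP⟩ := (hEmem b).1 hb
    have h := hE1x _ (hcomQ a haQ b hbQ) (hcomP a haP b hbP)
    rw [mul_inv_eq_one, mul_inv_eq_iff_eq_mul] at h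
    exact h
  have hEsq : ∀ a ∈ E, a ^ 2 = 1 := by
    intro a ha
    obtain ⟨haQ, haP⟩ := (hEmem a).1 ha
    exact hE1x _ (hsqQ a haQ) (hsqP a haP)
  have h4 : Cfsg.IsElementaryAbelian 2 E :=
    ⟨IsMulCommutative.of_setLike_mul_comm (fun a ha b hb => hEcomm a ha b hb), hEsq⟩
  have hN1 : ∀ p ∈ Pz, ∀ q ∈ Qx, p * q * p⁻¹ ∈ Qx := by
    intro p hp q hq
    obtain ⟨hpP, hpz⟩ := (hPzmem p).1 hp
    obtain ⟨hqQ, hqx⟩ := (hQxmem q).1 hq
    rw [hQxmem]
    refine ⟨hnQ p hpz q hqQ, ?_⟩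
    have hpx : p * x = x * p := hxc p hpP
    have hpx' : p⁻¹ * x = x * p⁻¹ := hxc _ (P.inv_mem hpP)
    calc p * q * p⁻¹ * x = p * q * (p⁻¹ * x) := by group
      _ = p * q * (x * p⁻¹) := by rw [hpx']
      _ = p * (q * x) * p⁻¹ := by group
      _ = p * (x * q) * p⁻¹ := by rw [hqx]
      _ = (p * x) * q * p⁻¹ := by group
      _ = (x * p) * q * p⁻¹ := by rw [hpx]
      _ = x * (p * q * p⁻¹) := by group
  have hN2 : ∀ q ∈ Qx, ∀ p ∈ Pz, q * p * q⁻¹ ∈ Pz := by
    intro q hq p hp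
    obtain ⟨hpP, hpz⟩ := (hPzmem p).1 hp
    obtain ⟨hqQ, hqx⟩ := (hQxmem q).1 hq
    rw [hPzmem]
    refine ⟨hnP q hqx p hpP, ?_⟩
    have hqz : q * z = z * q := hzc q hqQ
    have hqz' : q⁻¹ * z = z * q⁻¹ := hzc _ (Q.inv_mem hqQ)
    calc q * p * q⁻¹ * z = q * p * (q⁻¹ * z) := by group
      _ = q * p * (z * q⁻¹) := by rw [hqz']
      _ = q * (p * z) * q⁻¹ := by group
      _ = q * (z * p) * q⁻¹ := by rw [hpz]
      _ = (q * z) * p * q⁻¹ := by group
      _ = (z * q) * p * q⁻¹ := by rw [hqz]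
      _ = z * (q * p * q⁻¹) := by group
  have hN3 : ∀ p ∈ Pz, ∀ q ∈ Qx, p * q * p⁻¹ * q⁻¹ ∈ E := by
    intro p hp q hq
    rw [hEmem]
    constructor
    · exact Q.mul_mem ((hQxmem _).1 (hN1 p hp q hq)).1 (Q.inv_mem ((hQxmem q).1 hq).1)
    · have e : p * q * p⁻¹ * q⁻¹ = p * (q * p⁻¹ * q⁻¹) := by group
      rw [e]
      exact P.mul_mem ((hPzmem p).1 hp).1 ((hPzmem _).1 (hN2 q hq p⁻¹ (Pz.inv_mem hp))).1
  have hE1z : ∀ a : G, (a = 1 ∨ a = z) → a ∈ E := by
    intro a h; rcases h with h | h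
    · rw [h]; exact E.one_mem
    · rw [h]; exact hzE
  have hE1x' : ∀ a : G, (a = 1 ∨ a = x) → a ∈ E := by
    intro a h; rcases h with h | h
    · rw [h]; exact E.one_mem
    · rw [h]; exact hxE
  have hPzNE : Pz ≤ Subgroup.normalizer (E : Set G) := by
    intro p hp
    obtain ⟨hpP, hpz⟩ := (hPzmem p).1 hp
    apply mem_normalizer_of_conj_mem5
    intro e he
    obtain ⟨heQ, heP⟩ := (hEmem e).1 he
    exact (hEmem _).2 ⟨hnQ p hpz e heQ, P.mul_mem (P.mul_mem hpP heP) (P.inv_mem hpP)⟩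
  have hQxNE : Qx ≤ Subgroup.normalizer (E : Set G) := by
    intro q hq
    obtain ⟨hqQ, hqx⟩ := (hQxmem q).1 hq
    apply mem_normalizer_of_conj_mem5
    intro e he
    obtain ⟨heQ, heP⟩ := (hEmem e).1 he
    exact (hEmem _).2 ⟨Q.mul_mem (Q.mul_mem hqQ heQ) (Q.inv_mem hqQ), hnP q hqx e heP⟩
  have hgen : ∀ a : G, (a ∈ Pz ∨ a ∈ Qx) → ∀ r ∈ R, r * a * r⁻¹ * a⁻¹ ∈ E := by
    intro a ha
    obtain ⟨M, hM⟩ := comm_mod_subgroup5 E a
    have hRM : R ≤ M := by
      rw [hR]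
      apply sup_le
      · intro p hp
        rw [hM]
        refine ⟨hPzNE hp, ?_⟩
        rcases ha with ha | ha
        · exact hE1x' _ (hcomP p ((hPzmem p).1 hp).1 a ((hPzmem a).1 ha).1)
        · exact hN3 p hp a ha
      · intro q hq
        rw [hM]
        refine ⟨hQxNE hq, ?_⟩
        rcases ha with ha | ha
        · have e : q * a * q⁻¹ * a⁻¹ = (a * q * a⁻¹ * q⁻¹)⁻¹ := by group
          rw [e]; exact E.inv_mem (hN3 a ha q hq)
        · exact hE1z _ (hcomQ q ((hQxmem q).1 hq).1 a ((hQxmem a).1 ha).1)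
    intro r hr
    exact ((hM r).1 (hRM hr)).2
  have hcommR : ∀ r ∈ R, ∀ s ∈ R, s * r * s⁻¹ * r⁻¹ ∈ E := by
    intro r hr
    obtain ⟨M, hM⟩ := comm_mod_subgroup5 E r
    have hRM : R ≤ M := by
      rw [hR]
      apply sup_le
      · intro p hp
        rw [hM]
        refine ⟨hPzNE hp, ?_⟩
        have e : p * r * p⁻¹ * r⁻¹ = (r * p * r⁻¹ * p⁻¹)⁻¹ := by group
        rw [e]; exact E.inv_mem (hgen p (Or.inl hp) r hr)
      · intro q hq
        rw [hM]
        refine ⟨hQxNE hq, ?_⟩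
        have e : q * r * q⁻¹ * r⁻¹ = (r * q * r⁻¹ * q⁻¹)⁻¹ := by group
        rw [e]; exact E.inv_mem (hgen q (Or.inr hq) r hr)
    intro s hs
    exact ((hM s).1 (hRM hs)).2
  have hsqR : ∀ r ∈ R, r ^ 2 ∈ E := by
    let T : Subgroup G :=
      { carrier := {r | r ∈ R ∧ r ^ 2 ∈ E}
        mul_mem' := by
          rintro r s ⟨hr, hr2⟩ ⟨hs, hs2⟩
          refine ⟨R.mul_mem hr hs, ?_⟩
          have e : (r * s) ^ 2 = r ^ 2 * (r⁻¹ * s * r⁻¹⁻¹ * s⁻¹) * s ^ 2 := by
            rw [pow_two, pow_two, pow_two]; group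
          rw [e]
          exact E.mul_mem (E.mul_mem hr2 (hcommR s hs r⁻¹ (R.inv_mem hr))) hs2
        one_mem' := ⟨R.one_mem, by rw [one_pow]; exact E.one_mem⟩
        inv_mem' := by
          rintro r ⟨hr, hr2⟩
          refine ⟨R.inv_mem hr, ?_⟩
          rw [inv_pow]; exact E.inv_mem hr2 }
    have hRT : R ≤ T := by
      rw [hR]
      apply sup_le
      · intro p hp
        exact ⟨hPzR hp, hE1x' _ (hsqP p ((hPzmem p).1 hp).1)⟩
      · intro q hq
        exact ⟨hQxR hq, hE1z _ (hsqQ q ((hQxmem q).1 hq).1)⟩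
    intro r hr
    exact (hRT hr).2
  have h5 : ∀ a ∈ R, ∀ b ∈ R, a * b * a⁻¹ * b⁻¹ ∈ E ∧ a ^ 2 ∈ E :=
    fun a ha b hb => ⟨hcommR b hb a ha, hsqR a ha⟩
  obtain ⟨S, hS⟩ := four_group5 z x hz2 hx2 hxzc
  have hVS : V = S := by
    rw [hV]
    apply le_antisymm
    · rw [Subgroup.closure_le]
      intro v hv
      rcases hv with hv | hv
      · exact (hS v).2 ⟨z, 1, Or.inr rfl, Or.inl rfl, by rw [hv, mul_one]⟩
      · exact (hS v).2 ⟨1, x, Or.inl rfl, Or.inr rfl, by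
          rw [Set.mem_singleton_iff.mp hv, one_mul]⟩
    · intro v hv
      obtain ⟨a, b, ha, hb, rfl⟩ := (hS v).1 hv
      apply Subgroup.mul_mem
      · rcases ha with h | h
        · rw [h]; exact Subgroup.one_mem _
        · rw [h]; exact Subgroup.subset_closure (Set.mem_insert _ _)
      · rcases hb with h | h
        · rw [h]; exact Subgroup.one_mem _
        · rw [h]; exact Subgroup.subset_closure (Set.mem_insert_of_mem _ rfl)
  have hVmem : ∀ v, v ∈ V ↔ (v = 1 ∨ v = z ∨ v = x ∨ v = x * z) := by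
    intro v
    rw [hVS, hS]
    constructor
    · rintro ⟨a, b, ha, hb, rfl⟩
      rcases ha with ha | ha <;> rcases hb with hb | hb
      · left; rw [ha, hb, mul_one]
      · right; right; left; rw [ha, hb, one_mul]
      · right; left; rw [ha, hb, mul_one]
      · right; right; right; rw [ha, hb, hxzc]
    · rintro (h | h | h | h)
      · exact ⟨1, 1, Or.inl rfl, Or.inl rfl, by rw [h, mul_one]⟩
      · exact ⟨z, 1, Or.inr rfl, Or.inl rfl, by rw [h, mul_one]⟩
      · exact ⟨1, x, Or.inl rfl, Or.inr rfl, by rw [h, one_mul]⟩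
      · exact ⟨z, x, Or.inr rfl, Or.inr rfl, by rw [h, hxzc]⟩
  have hzV : z ∈ V := (hVmem z).2 (Or.inr (Or.inl rfl))
  have hxV : x ∈ V := (hVmem x).2 (Or.inr (Or.inr (Or.inl rfl)))
  have hxzV : x * z ∈ V := (hVmem _).2 (Or.inr (Or.inr (Or.inr rfl)))
  have hRcz : ∀ r ∈ R, r * z = z * r ∧ r * x = x * r := by
    have hle : R ≤ Subgroup.centralizer ({z} : Set G) ⊓ Subgroup.centralizer ({x} : Set G) := by
      rw [hR]
      apply sup_le
      · intro p hp
        obtain ⟨hpP, hpz⟩ := (hPzmem p).1 hp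
        exact ⟨Subgroup.mem_centralizer_singleton_iff.2 hpz,
          Subgroup.mem_centralizer_singleton_iff.2 (hxc p hpP)⟩
      · intro q hq
        obtain ⟨hqQ, hqx⟩ := (hQxmem q).1 hq
        exact ⟨Subgroup.mem_centralizer_singleton_iff.2 (hzc q hqQ),
          Subgroup.mem_centralizer_singleton_iff.2 hqx⟩
    intro r hr
    have := hle hr
    rw [Subgroup.mem_inf, Subgroup.mem_centralizer_singleton_iff,
      Subgroup.mem_centralizer_singleton_iff] at this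
    exact this
  have hzR : z ∈ R := hQxR ((hQxmem z).2 ⟨hzQ, hxzc.symm⟩)
  have hxR : x ∈ R := hPzR ((hPzmem x).2 ⟨hxP, hxzc⟩)
  have hVR : V ≤ R := by
    intro v hv
    rcases (hVmem v).1 hv with h | h | h | h
    · rw [h]; exact R.one_mem
    · rw [h]; exact hzR
    · rw [h]; exact hxR
    · rw [h]; exact R.mul_mem hxR hzR
  have hVcent : ∀ v ∈ V, ∀ r ∈ R, r * v = v * r := by
    intro v hv r hr
    obtain ⟨h1, h2⟩ := hRcz r hr
    rcases (hVmem v).1 hv with h | h | h | h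
    · rw [h, mul_one, one_mul]
    · rw [h]; exact h1
    · rw [h]; exact h2
    · rw [h]
      calc r * (x * z) = (r * x) * z := by group
        _ = (x * r) * z := by rw [h2]
        _ = x * (r * z) := by group
        _ = x * (z * r) := by rw [h1]
        _ = x * z * r := by group
  have h1 : (Subgroup.center ↥R).map R.subtype = V := by
    apply le_antisymm
    · rintro _ ⟨c, hc, rfl⟩
      have hc' : c ∈ Subgroup.center ↥R := hc
      rw [Subgroup.mem_center_iff] at hc'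
      have hcR : (c : G) ∈ R := c.2
      have hcz := (hRcz c hcR).1
      have hcQx : ∀ r ∈ Q, r * x = x * r → (c : G) * r = r * (c : G) := by
        intro r hr hrx
        have hrR : r ∈ R := hQxR ((hQxmem r).2 ⟨hr, hrx⟩)
        have := congrArg Subtype.val (hc' ⟨r, hrR⟩)
        exact this.symm
      show (c : G) ∈ V
      exact (hVmem _).2 (es_cent_cx5 Q z x data' hxQ hx1 hxz hx2 (c : G) hcz hcQx)
    · intro v hv
      refine ⟨⟨v, hVR hv⟩, ?_, rfl⟩
      show (⟨v, hVR hv⟩ : ↥R) ∈ Subgroup.center ↥R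
      rw [Subgroup.mem_center_iff]
      intro r
      apply Subtype.ext
      exact hVcent v hv r r.2
  have hNVgen : ∀ y : G, y * z * y⁻¹ ∈ V → y * x * y⁻¹ ∈ V →
      y ∈ Subgroup.normalizer (V : Set G) := by
    intro n h1 h2
    apply mem_normalizer_of_conj_mem5
    intro a ha
    rcases (hVmem a).1 ha with h | h | h | h
    · rw [h]
      have e : n * 1 * n⁻¹ = 1 := by group
      rw [e]; exact V.one_mem
    · rw [h]; exact h1
    · rw [h]; exact h2
    · rw [h]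
      have e : n * (x * z) * n⁻¹ = (n * x * n⁻¹) * (n * z * n⁻¹) := by group
      rw [e]; exact V.mul_mem h2 h1
  have hQNV : Q ≤ Subgroup.normalizer (V : Set G) := by
    intro q hq
    apply hNVgen
    · have hqz : q * z * q⁻¹ = z := by rw [mul_inv_eq_iff_eq_mul]; exact hzc q hq
      rw [hqz]; exact hzV
    · rcases hcomQ q hq x hxQ with h | h
      · have h' : q * x * q⁻¹ = x := by rw [mul_inv_eq_one] at h; exact h
        rw [h']; exact hxV
      · have h' : q * x * q⁻¹ = z * x := by rw [mul_inv_eq_iff_eq_mul] at h; exact h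
        rw [h', ← hxzc]; exact hxzV
  have hPNV : P ≤ Subgroup.normalizer (V : Set G) := by
    intro p hp
    apply hNVgen
    · rcases hcomP p hp z hzP with h | h
      · have h' : p * z * p⁻¹ = z := by rw [mul_inv_eq_one] at h; exact h
        rw [h']; exact hzV
      · have h' : p * z * p⁻¹ = x * z := by rw [mul_inv_eq_iff_eq_mul] at h; exact h
        rw [h']; exact hxzV
    · have hpx : p * x * p⁻¹ = x := by rw [mul_inv_eq_iff_eq_mul]; exact hxc p hp
      rw [hpx]; exact hxV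
  have hXE : ∀ e ∈ E, ∀ y ∈ X, y * e * y⁻¹ * e⁻¹ ∈ V := by
    intro e he
    obtain ⟨heQ, heP⟩ := (hEmem e).1 he
    obtain ⟨M, hM⟩ := comm_mod_subgroup5 V e
    have hXM : X ≤ M := by
      rw [hX]
      apply sup_le
      · intro q hq
        rw [hM]
        refine ⟨hQNV hq, ?_⟩
        rcases hcomQ q hq e heQ with h | h
        · rw [h]; exact V.one_mem
        · rw [h]; exact hzV
      · intro p hp
        rw [hM]
        refine ⟨hPNV hp, ?_⟩
        rcases hcomP p hp e heP with h | h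
        · rw [h]; exact V.one_mem
        · rw [h]; exact hxV
    intro y hy
    exact ((hM y).1 (hXM hy)).2
  have h7 : ⁅X, E⁆ ≤ V := by
    rw [Subgroup.commutator_le]
    intro y hy e he
    rw [commutatorElement_def]
    exact hXE e he y hy
  have hRX : R ≤ X := by
    rw [hR, hX]
    apply sup_le
    · exact le_trans (by rw [hPzdef]; exact inf_le_left) le_sup_right
    · exact le_trans (by rw [hQxdef]; exact inf_le_left) le_sup_left
  have hER : E ≤ R := hEQx.trans hQxR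
  have hZ1 : ∀ (e : ↥R), (e : G) ∈ V → e ∈ Subgroup.upperCentralSeries ↥R 1 := by
    intro e he
    rw [Subgroup.upperCentralSeries_one, Subgroup.mem_center_iff]
    intro r
    apply Subtype.ext
    exact hVcent _ he r r.2
  have hZ2 : ∀ (e : ↥R), (e : G) ∈ E → e ∈ Subgroup.upperCentralSeries ↥R 2 := by
    intro e he
    refine (Subgroup.mem_upperCentralSeries_succ_iff (n := 1)).2 ?_
    intro y
    apply hZ1
    have e1 : ((⁅e, y⁆ : ↥R) : G) =
        ((y : G) * (e : G) * (y : G)⁻¹ * (e : G)⁻¹)⁻¹ := by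
      have e2 : ((⁅e, y⁆ : ↥R) : G) = (e : G) * (y : G) * (e : G)⁻¹ * (y : G)⁻¹ := by
        rw [commutatorElement_def]; rfl
      rw [e2]; group
    rw [e1]
    exact V.inv_mem (hXE _ he _ (hRX y.2))
  have h2 : E ≤ (Subgroup.upperCentralSeries ↥R 2).map R.subtype := by
    intro e he
    exact ⟨⟨e, hER he⟩, hZ2 _ he, rfl⟩
  have h3 : Subgroup.upperCentralSeries ↥R 3 = ⊤ := by
    rw [eq_top_iff]
    intro r _
    refine (Subgroup.mem_upperCentralSeries_succ_iff (n := 2)).2 ?_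
    intro y
    apply hZ2
    have e1 : ((⁅r, y⁆ : ↥R) : G) = (r : G) * (y : G) * (r : G)⁻¹ * (y : G)⁻¹ := by
      rw [commutatorElement_def]; rfl
    rw [e1]
    exact hcommR _ y.2 _ r.2
  exact ⟨h1, h2, h3, h4, h5, h6, h7⟩

/-- structure of `R` for a large extraspecial subgroup -/
theorem es_large_R_structure5 {G : Type u} [Group G] [Finite G] (Q : Subgroup G)
    (hQ : Cfsg.IsLargeExtraspecial Q) (z : G)
    (hz : ((Subgroup.center ↥Q).map Q.subtype) = Subgroup.zpowers z) (hz2 : orderOf z = 2)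
    (g : G) (hgH : g ∉ Subgroup.centralizer ({z} : Set G)) (hgQ : g * z * g⁻¹ ∈ Q)
    (V X R E : Subgroup G) (hV : V = Subgroup.closure ({z, g * z * g⁻¹} : Set G))
    (hX : X = Q ⊔ (Q).map (MulAut.conj g).toMonoidHom)
    (hR : R = ((Q).map (MulAut.conj g).toMonoidHom ⊓ Subgroup.centralizer ({z} : Set G)) ⊔
      (Q ⊓ Subgroup.centralizer ({g * z * g⁻¹} : Set G)))
    (hE : E = Q ⊓ (Q).map (MulAut.conj g).toMonoidHom) :
    (Subgroup.center ↥R).map R.subtype = V ∧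
    E ≤ (Subgroup.upperCentralSeries ↥R 2).map R.subtype ∧
    Subgroup.upperCentralSeries ↥R 3 = ⊤ ∧ Cfsg.IsElementaryAbelian 2 E ∧
    (∀ x ∈ R, ∀ y ∈ R, x * y * x⁻¹ * y⁻¹ ∈ E ∧ x ^ 2 ∈ E) ∧
    ((Q).map (MulAut.conj g).toMonoidHom ⊓ Subgroup.centralizer ({z} : Set G)) ⊓
      (Q ⊓ Subgroup.centralizer ({g * z * g⁻¹} : Set G)) = E ∧ ⁅X, E⁆ ≤ V :=
  es_R_structure5 Q z g (esdata_of_large5 Q hQ z hz hz2)
    (fun h => hgH (Subgroup.mem_centralizer_singleton_iff.2 h)) hgQ V X R E hV hX hR hE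

end Cfsg.Agent.Lib.Helper5
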