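import Mathlib
import Cfsg.Prelude
import Cfsg.Agent.Lib.Helper5.ESRStruct5
import Cfsg.Agent.Lib.Helper5.DStarOf
import Cfsg.Agent.Lib.Helper5.WCCharP

set_option autoImplicit false

namespace Cfsg.Agent.Lib.Helper5

universe u

open scoped commutatorElement

/-- `Q` normalizes `C_P(z) C_Q(x)` -/
theorem espair_norm5 {G : Type u} [Group G] (Q P : Subgroup G) (z x : G)
    (hQ : ESData5 Q z) (hP : ESData5 P x) (hxQ : x ∈ Q) :
    ∀ q ∈ Q, ∀ r ∈ (P ⊓ Subgroup.centralizer ({z} : Set G)) ⊔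
        (Q ⊓ Subgroup.centralizer ({x} : Set G)),
      q * r * q⁻¹ ∈ (P ⊓ Subgroup.centralizer ({z} : Set G)) ⊔
        (Q ⊓ Subgroup.centralizer ({x} : Set G)) := by
  obtain ⟨hzQ, hz1, hz2, hzc, hZQ, hcomQ, hsqQ, hinQ, hnQ⟩ := hQ
  obtain ⟨hxP, hx1, hx2, hxc, hZP, hcomP, hsqP, hinP, hnP⟩ := hP
  have hzz : z * z = 1 := by rw [← pow_two]; exact hz2
  have hxzc : x * z = z * x := hzc x hxQ
  obtain ⟨Qx, hQxdef⟩ : ∃ Qx : Subgroup G, Qx = Q ⊓ Subgroup.centralizer ({x} : Set G) :=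
    ⟨_, rfl⟩
  obtain ⟨Pz, hPzdef⟩ : ∃ Pz : Subgroup G, Pz = P ⊓ Subgroup.centralizer ({z} : Set G) :=
    ⟨_, rfl⟩
  rw [← hQxdef, ← hPzdef]
  have hQxmem : ∀ r : G, r ∈ Qx ↔ r ∈ Q ∧ r * x = x * r := by
    intro r
    rw [hQxdef, Subgroup.mem_inf, Subgroup.mem_centralizer_singleton_iff]
  have hPzmem : ∀ u : G, u ∈ Pz ↔ u ∈ P ∧ u * z = z * u := by
    intro u
    rw [hPzdef, Subgroup.mem_inf, Subgroup.mem_centralizer_singleton_iff]
  intro q hq
  have hmap : (Pz ⊔ Qx).map (MulAut.conj q).toMonoidHom ≤ Pz ⊔ Qx := by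
    rw [Subgroup.map_sup]
    apply sup_le
    · rintro _ ⟨p, hp, rfl⟩
      show q * p * q⁻¹ ∈ Pz ⊔ Qx
      obtain ⟨hpP, hpz⟩ := (hPzmem p).1 hp
      have hqz : q * z = z * q := hzc q hq
      have hqinvz : q⁻¹ * z = z * q⁻¹ := hzc _ (Q.inv_mem hq)
      rcases hcomQ q hq x hxQ with h | h
      · have hqx : q * x = x * q := by
          rw [mul_inv_eq_one, mul_inv_eq_iff_eq_mul] at h; exact h
        apply Subgroup.mem_sup_left
        rw [hPzmem]
        refine ⟨hnP q hqx p hpP, ?_⟩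
        calc q * p * q⁻¹ * z = q * p * (q⁻¹ * z) := by group
          _ = q * p * (z * q⁻¹) := by rw [hqinvz]
          _ = q * (p * z) * q⁻¹ := by group
          _ = q * (z * p) * q⁻¹ := by rw [hpz]
          _ = (q * z) * p * q⁻¹ := by group
          _ = (z * q) * p * q⁻¹ := by rw [hqz]
          _ = z * (q * p * q⁻¹) := by group
      · have hqx : q * x = z * x * q := by
          rw [mul_inv_eq_iff_eq_mul, mul_inv_eq_iff_eq_mul] at h; exact h
        have hd : q * p * q⁻¹ * p⁻¹ ∈ Qx := by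
          rw [hQxmem]
          constructor
          · have e : q * p * q⁻¹ * p⁻¹ = q * (p * q⁻¹ * p⁻¹) := by group
            rw [e]; exact Q.mul_mem hq (hnQ p hpz _ (Q.inv_mem hq))
          · have hqinvx : q⁻¹ * x = z * x * q⁻¹ := by
              calc q⁻¹ * x = (z * z) * q⁻¹ * x := by rw [hzz, one_mul]
                _ = z * (z * q⁻¹) * x := by group
                _ = z * (q⁻¹ * z) * x := by rw [hqinvz]
                _ = z * q⁻¹ * (z * x * q) * q⁻¹ := by group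
                _ = z * q⁻¹ * (q * x) * q⁻¹ := by rw [hqx]
                _ = z * x * q⁻¹ := by group
            have hpx : p * x = x * p := hxc p hpP
            have hpinvx : p⁻¹ * x = x * p⁻¹ := hxc _ (P.inv_mem hpP)
            have hpzx : p * (z * x) = (z * x) * p := by
              calc p * (z * x) = (p * z) * x := by group
                _ = (z * p) * x := by rw [hpz]
                _ = z * (p * x) := by group
                _ = z * (x * p) := by rw [hpx]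
                _ = (z * x) * p := by group
            have hqzx : q * (z * x) = x * q := by
              calc q * (z * x) = (q * z) * x := by group
                _ = (z * q) * x := by rw [hqz]
                _ = z * (q * x) := by group
                _ = z * (z * x * q) := by rw [hqx]
                _ = (z * z) * x * q := by group
                _ = x * q := by rw [hzz, one_mul]
            calc q * p * q⁻¹ * p⁻¹ * x = q * p * q⁻¹ * (p⁻¹ * x) := by group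
              _ = q * p * q⁻¹ * (x * p⁻¹) := by rw [hpinvx]
              _ = q * p * (q⁻¹ * x) * p⁻¹ := by group
              _ = q * p * (z * x * q⁻¹) * p⁻¹ := by rw [hqinvx]
              _ = q * (p * (z * x)) * q⁻¹ * p⁻¹ := by group
              _ = q * ((z * x) * p) * q⁻¹ * p⁻¹ := by rw [hpzx]
              _ = (q * (z * x)) * p * q⁻¹ * p⁻¹ := by group
              _ = (x * q) * p * q⁻¹ * p⁻¹ := by rw [hqzx]
              _ = x * (q * p * q⁻¹ * p⁻¹) := by group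
        have e : q * p * q⁻¹ = (q * p * q⁻¹ * p⁻¹) * p := by group
        rw [e]
        exact Subgroup.mul_mem _ (Subgroup.mem_sup_right hd) (Subgroup.mem_sup_left hp)
    · rintro _ ⟨r, hr, rfl⟩
      show q * r * q⁻¹ ∈ Pz ⊔ Qx
      apply Subgroup.mem_sup_right
      obtain ⟨hrQ, hrx⟩ := (hQxmem r).1 hr
      rw [hQxmem]
      refine ⟨Q.mul_mem (Q.mul_mem hq hrQ) (Q.inv_mem hq), ?_⟩
      have e : q * r * q⁻¹ = (q * r * q⁻¹ * r⁻¹) * r := by group
      rw [e]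
      rcases hcomQ q hq r hrQ with h | h
      · rw [h, one_mul]; exact hrx
      · rw [h]
        calc z * r * x = z * (r * x) := by group
          _ = z * (x * r) := by rw [hrx]
          _ = (z * x) * r := by group
          _ = (x * z) * r := by rw [hxzc]
          _ = x * (z * r) := by group
  intro r hr
  exact hmap ⟨r, hr, rfl⟩

/-- the closure of two commuting involutions -/
theorem four_closure5 {G : Type u} [Group G] (z x : G) (hz2 : z ^ 2 = 1) (hx2 : x ^ 2 = 1)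
    (hxzc : x * z = z * x) (v : G) :
    v ∈ Subgroup.closure ({z, x} : Set G) ↔ (v = 1 ∨ v = z ∨ v = x ∨ v = x * z) := by
  obtain ⟨S, hS⟩ := four_group5 z x hz2 hx2 hxzc
  have hVS : Subgroup.closure ({z, x} : Set G) = S := by
    apply le_antisymm
    · rw [Subgroup.closure_le]
      intro v hv
      rcases hv with hv | hv
      · exact (hS v).2 ⟨z, 1, Or.inr rfl, Or.inl rfl, by rw [hv, mul_one]⟩
      · exact (hS v).2 ⟨1, x, Or.inl rfl, Or.inr rfl, by
          rw [Set.mem_singleton_iff.mp hv, one_mul]⟩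
    · intro v hv
      obtain ⟨a, b, ha, hb, rfl⟩ := (hS v).1 hv
      apply Subgroup.mul_mem
      · rcases ha with h | h
        · rw [h]; exact Subgroup.one_mem _
        · rw [h]; exact Subgroup.subset_closure (Set.mem_insert _ _)
      · rcases hb with h | h
        · rw [h]; exact Subgroup.one_mem _
        · rw [h]; exact Subgroup.subset_closure (Set.mem_insert_of_mem _ rfl)
  rw [hVS, hS]
  constructor
  · rintro ⟨a, b, ha, hb, rfl⟩
    rcases ha with ha | ha <;> rcases hb with hb | hb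
    · left; rw [ha, hb, mul_one]
    · right; right; left; rw [ha, hb, one_mul]
    · right; left; rw [ha, hb, mul_one]
    · right; right; right; rw [ha, hb, hxzc]
  · rintro (h | h | h | h)
    · exact ⟨1, 1, Or.inl rfl, Or.inl rfl, by rw [h, mul_one]⟩
    · exact ⟨z, 1, Or.inr rfl, Or.inl rfl, by rw [h, mul_one]⟩
    · exact ⟨1, x, Or.inl rfl, Or.inr rfl, by rw [h, one_mul]⟩
    · exact ⟨z, x, Or.inr rfl, Or.inr rfl, by rw [h, hxzc]⟩

/-- a subgroup inducing the full automorphism group on a four-group -/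
theorem four_relIndex5 {G : Type u} [Group G] (N V : Subgroup G) (z x : G)
    (hVmem : ∀ v, v ∈ V ↔ (v = 1 ∨ v = z ∨ v = x ∨ v = x * z))
    (hz1 : z ≠ 1) (hx1 : x ≠ 1) (hxz : x ≠ z) (hxzc : x * z = z * x)
    (hconjV : ∀ n ∈ N, ∀ v ∈ V, n * v * n⁻¹ ∈ V)
    (q₀ : G) (hq₀N : q₀ ∈ N) (hq₀z : q₀ * z * q₀⁻¹ = z) (hq₀ : q₀ * x * q₀⁻¹ = z * x)
    (h₀ : G) (hh₀N : h₀ ∈ N) (hh1 : h₀ * z * h₀⁻¹ = x) :
    (Subgroup.centralizer (V : Set G)).relIndex N = 6 := by
  have hzV : z ∈ V := (hVmem z).2 (Or.inr (Or.inl rfl))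
  have hxV : x ∈ V := (hVmem x).2 (Or.inr (Or.inr (Or.inl rfl)))
  have hVsub : ∀ v ∈ V, v = 1 ∨ v = z ∨ v = x ∨ v = z * x := by
    intro v hv
    rcases (hVmem v).1 hv with h | h | h | h
    · exact Or.inl h
    · exact Or.inr (Or.inl h)
    · exact Or.inr (Or.inr (Or.inl h))
    · exact Or.inr (Or.inr (Or.inr (by rw [h, hxzc])))
  have hCmem : ∀ n : G, n ∈ Subgroup.centralizer (V : Set G) ↔
      n * z = z * n ∧ n * x = x * n := by
    intro n
    rw [Subgroup.mem_centralizer_iff]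
    constructor
    · intro h
      exact ⟨(h z hzV).symm, (h x hxV).symm⟩
    · rintro ⟨h1, h2⟩ v hv
      rcases hVsub v hv with h | h | h | h
      · rw [h, mul_one, one_mul]
      · rw [h]; exact h1.symm
      · rw [h]; exact h2.symm
      · rw [h]
        calc z * x * n = z * (x * n) := by group
          _ = z * (n * x) := by rw [h2]
          _ = (z * n) * x := by group
          _ = (n * z) * x := by rw [h1]
          _ = n * (z * x) := by group
  have hzxnez : z * x ≠ z := by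
    intro h; exact hx1 (mul_eq_left.mp h)
  have hzxnex : z * x ≠ x := by
    intro h; exact hz1 (mul_eq_right.mp h)
  obtain ⟨Nz, hNzdef⟩ : ∃ Nz : Subgroup G, Nz = N ⊓ Subgroup.centralizer ({z} : Set G) :=
    ⟨_, rfl⟩
  have hNzmem : ∀ n, n ∈ Nz ↔ n ∈ N ∧ n * z = z * n := by
    intro n; rw [hNzdef, Subgroup.mem_inf, Subgroup.mem_centralizer_singleton_iff]
  have hq₀Nz : q₀ ∈ Nz := by
    rw [hNzmem]
    refine ⟨hq₀N, ?_⟩
    rw [mul_inv_eq_iff_eq_mul] at hq₀z; exact hq₀z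
  have hA : Nz.relIndex N = 3 := by
    rw [relIndex_conj_orbit5 N Nz z]
    · rw [Set.ncard_eq_three]
      refine ⟨z, x, z * x, hxz.symm, (fun h => hzxnez h.symm), (fun h => hzxnex h.symm), ?_⟩
      ext w
      simp only [Set.mem_setOf_eq, Set.mem_insert_iff, Set.mem_singleton_iff]
      constructor
      · rintro ⟨n, hn, rfl⟩
        rcases hVsub _ (hconjV n hn z hzV) with h | h | h | h
        · exfalso; apply hz1
          have e : z = n⁻¹ * (n * z * n⁻¹) * n := by group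
          rw [e, h]; group
        · exact Or.inl h
        · exact Or.inr (Or.inl h)
        · exact Or.inr (Or.inr h)
      · rintro (h | h | h)
        · exact ⟨1, N.one_mem, by rw [h]; group⟩
        · exact ⟨h₀, hh₀N, by rw [h, hh1]⟩
        · refine ⟨q₀ * h₀, N.mul_mem hq₀N hh₀N, ?_⟩
          rw [h]
          calc z * x = q₀ * x * q₀⁻¹ := hq₀.symm
            _ = q₀ * (h₀ * z * h₀⁻¹) * q₀⁻¹ := by rw [hh1]
            _ = q₀ * h₀ * z * (q₀ * h₀)⁻¹ := by group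
    · intro n hn
      rw [hNzmem, mul_inv_eq_iff_eq_mul]
      constructor
      · intro h; exact ⟨hn, h⟩
      · intro h; exact h.2
  have hB : (Subgroup.centralizer (V : Set G) ⊓ N).relIndex Nz = 2 := by
    rw [relIndex_conj_orbit5 Nz (Subgroup.centralizer (V : Set G) ⊓ N) x]
    · have hset : {w : G | ∃ n ∈ Nz, w = n * x * n⁻¹} = {x, z * x} := by
        ext w
        simp only [Set.mem_setOf_eq, Set.mem_insert_iff, Set.mem_singleton_iff]
        constructor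
        · rintro ⟨n, hn, rfl⟩
          obtain ⟨hnN, hnz⟩ := (hNzmem n).1 hn
          rcases hVsub _ (hconjV n hnN x hxV) with h | h | h | h
          · exfalso; apply hx1
            have e : x = n⁻¹ * (n * x * n⁻¹) * n := by group
            rw [e, h]; group
          · exfalso; apply hxz
            have e : x = n⁻¹ * (n * x * n⁻¹) * n := by group
            rw [e, h]
            calc n⁻¹ * z * n = n⁻¹ * (z * n) := by group
              _ = n⁻¹ * (n * z) := by rw [hnz]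
              _ = z := by group
          · exact Or.inl h
          · exact Or.inr h
        · rintro (h | h)
          · exact ⟨1, Nz.one_mem, by rw [h]; group⟩
          · exact ⟨q₀, hq₀Nz, by rw [h, hq₀]⟩
      rw [hset]
      exact Set.ncard_pair (fun h => hzxnex h.symm)
    · intro n hn
      obtain ⟨hnN, hnz⟩ := (hNzmem n).1 hn
      rw [Subgroup.mem_inf, hCmem, mul_inv_eq_iff_eq_mul]
      constructor
      · intro h; exact ⟨⟨hnz, h⟩, hnN⟩
      · intro h; exact h.1.2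
  have hCNz : Subgroup.centralizer (V : Set G) ⊓ N ≤ Nz := by
    intro n hn
    rw [Subgroup.mem_inf] at hn
    rw [hNzmem]
    exact ⟨hn.2, ((hCmem n).1 hn.1).1⟩
  have hNzN : Nz ≤ N := by rw [hNzdef]; exact inf_le_left
  rw [← Subgroup.inf_relIndex_right, ← Subgroup.relIndex_mul_relIndex _ _ _ hCNz hNzN, hA, hB]

/-- a group generated by two involutions satisfying the braid relation has at most 6 elements -/
theorem s3_rel_card5 {K : Type u} [Group K] (a b : K) (ha : a * a = 1) (hb : b * b = 1)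
    (hab : a * b * a = b * a * b) (hgen : ∀ k : K, k ∈ Subgroup.closure ({a, b} : Set K)) :
    Nat.card K ≤ 6 := by
  have hainv : a⁻¹ = a := inv_eq_of_mul_eq_one_left ha
  have hbinv : b⁻¹ = b := inv_eq_of_mul_eq_one_left hb
  have hra : ∀ k : K, (k = 1 ∨ k = a ∨ k = b ∨ k = a * b ∨ k = b * a ∨ k = a * b * a) →
      (k * a = 1 ∨ k * a = a ∨ k * a = b ∨ k * a = a * b ∨ k * a = b * a ∨
        k * a = a * b * a) := by
    rintro k (h | h | h | h | h | h)
    · right; left; rw [h, one_mul]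
    · left; rw [h, ha]
    · right; right; right; right; left; rw [h]
    · right; right; right; right; right; rw [h]
    · right; right; left; rw [h, mul_assoc, ha, mul_one]
    · right; right; right; left; rw [h, mul_assoc, ha, mul_one]
  have hrb : ∀ k : K, (k = 1 ∨ k = a ∨ k = b ∨ k = a * b ∨ k = b * a ∨ k = a * b * a) →
      (k * b = 1 ∨ k * b = a ∨ k * b = b ∨ k * b = a * b ∨ k * b = b * a ∨
        k * b = a * b * a) := by
    rintro k (h | h | h | h | h | h)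
    · right; right; left; rw [h, one_mul]
    · right; right; right; left; rw [h]
    · left; rw [h, hb]
    · right; left; rw [h, mul_assoc, hb, mul_one]
    · right; right; right; right; right; rw [h, hab]
    · right; right; right; right; left; rw [h, hab, mul_assoc, hb, mul_one]
  have key : ∀ k : K, k = 1 ∨ k = a ∨ k = b ∨ k = a * b ∨ k = b * a ∨ k = a * b * a := by
    intro k
    refine Subgroup.closure_induction_right
      (p := fun k _ => k = 1 ∨ k = a ∨ k = b ∨ k = a * b ∨ k = b * a ∨ k = a * b * a)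
      (Or.inl rfl) ?_ ?_ (hgen k)
    · intro y _ s hs hy
      rcases hs with hs | hs
      · rw [hs]; exact hra y hy
      · rw [Set.mem_singleton_iff.mp hs]; exact hrb y hy
    · intro y _ s hs hy
      rcases hs with hs | hs
      · rw [hs, hainv]; exact hra y hy
      · rw [Set.mem_singleton_iff.mp hs, hbinv]; exact hrb y hy
  have hsub : (Set.univ : Set K) ⊆ {1, a, b, a * b, b * a, a * b * a} := by
    intro k _
    simp only [Set.mem_insert_iff, Set.mem_singleton_iff]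
    exact key k
  have hfin : ({1, a, b, a * b, b * a, a * b * a} : Set K).Finite := by
    simp
  have h1 := Set.ncard_le_ncard hsub hfin
  rw [Set.ncard_univ] at h1
  have h2 : ({1, a, b, a * b, b * a, a * b * a} : Set K).ncard ≤ 6 := by
    refine le_trans (Set.ncard_insert_le _ _) ?_
    refine Nat.succ_le_succ (le_trans (Set.ncard_insert_le _ _) ?_)
    refine Nat.succ_le_succ (le_trans (Set.ncard_insert_le _ _) ?_)
    refine Nat.succ_le_succ (le_trans (Set.ncard_insert_le _ _) ?_)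
    refine Nat.succ_le_succ (le_trans (Set.ncard_insert_le _ _) ?_)
    rw [Set.ncard_singleton]
  exact le_trans h1 h2

theorem pow_coprime_one5 {K : Type u} [Group K] (x : K) (k : ℕ) (h3 : x ^ 3 = 1)
    (h2 : x ^ 2 ^ k = 1) : x = 1 := by
  have h1 : orderOf x ∣ Nat.gcd 3 (2 ^ k) :=
    Nat.dvd_gcd (orderOf_dvd_of_pow_eq_one h3) (orderOf_dvd_of_pow_eq_one h2)
  have hc : Nat.Coprime 3 (2 ^ k) := Nat.Coprime.pow_right k (by decide)
  rw [hc] at h1
  exact orderOf_eq_one_iff.mp (Nat.dvd_one.mp h1)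

set_option maxRecDepth 100000 in
theorem s3_dec5 : ∀ σ : Equiv.Perm (Fin 3), σ ≠ 1 →
    (σ ^ 2 = 1 → ∃ τ : Equiv.Perm (Fin 3),
      (σ * (τ * σ * τ⁻¹)) ≠ 1 ∧ (σ * (τ * σ * τ⁻¹)) ^ 3 = 1) ∧
    (σ ^ 2 ≠ 1 → σ ^ 3 = 1) := by
  decide +kernel

/-- a normal 2-subgroup lies in the kernel of any surjection onto `S₃` -/
theorem normal_two_le_ker_S3_5 {H : Type u} [Group H] (ψ : H →* Equiv.Perm (Fin 3))
    (hψ : Function.Surjective ψ) (O : Subgroup H) (hOn : O.Normal) (hO : IsPGroup 2 ↥O) :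
    O ≤ ψ.ker := by
  intro o ho
  rw [MonoidHom.mem_ker]
  by_contra hne
  have hpow : ∀ y ∈ O, ∃ k : ℕ, (ψ y) ^ 2 ^ k = 1 := by
    intro y hy
    obtain ⟨k, hk⟩ := hO ⟨y, hy⟩
    refine ⟨k, ?_⟩
    have h1 : y ^ 2 ^ k = 1 := by
      have := congrArg Subtype.val hk
      exact this
    rw [← map_pow, h1, map_one]
  obtain ⟨hinv, h3⟩ := s3_dec5 (ψ o) hne
  by_cases h2 : (ψ o) ^ 2 = 1
  · obtain ⟨τ, hτ1, hτ3⟩ := hinv h2
    obtain ⟨t, rfl⟩ := hψ τ
    have hmem : o * (t * o * t⁻¹) ∈ O := O.mul_mem ho (hOn.conj_mem o ho t)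
    obtain ⟨k, hk⟩ := hpow _ hmem
    have e : ψ (o * (t * o * t⁻¹)) = ψ o * (ψ t * ψ o * (ψ t)⁻¹) := by
      rw [map_mul, map_mul, map_mul, map_inv]
    rw [e] at hk
    exact hτ1 (pow_coprime_one5 _ k hτ3 hk)
  · obtain ⟨k, hk⟩ := hpow o ho
    exact hne (pow_coprime_one5 _ k (h3 h2) hk)

/-- structure of `X = ⟨Q, Q^g⟩` for `z^g ∈ Q`, in elementwise form -/
theorem es_X_structure5 {G : Type u} [Group G] [Finite G] (Q : Subgroup G) (z g : G)
    (data : ESData5 Q z) (hgz : g * z ≠ z * g) (hgQ : g * z * g⁻¹ ∈ Q)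
    (V X R E : Subgroup G) (hV : V = Subgroup.closure ({z, g * z * g⁻¹} : Set G))
    (hX : X = Q ⊔ (Q).map (MulAut.conj g).toMonoidHom)
    (hR : R = ((Q).map (MulAut.conj g).toMonoidHom ⊓ Subgroup.centralizer ({z} : Set G)) ⊔
      (Q ⊓ Subgroup.centralizer ({g * z * g⁻¹} : Set G)))
    (hE : E = Q ⊓ (Q).map (MulAut.conj g).toMonoidHom) :
    R = X ⊓ Subgroup.centralizer (V : Set G) ∧
    R = (Cfsg.pCore 2 ↥X).map X.subtype ∧
    (∃ h : (R.subgroupOf X).Normal, Nonempty (↥X ⧸ R.subgroupOf X ≃* Equiv.Perm (Fin 3))) ∧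
    Subgroup.normalizer (V : Set G) =
      X ⊔ (Subgroup.centralizer ({z} : Set G) ⊓ Subgroup.centralizer (V : Set G)) ∧
    (∀ y ∈ Subgroup.normalizer (V : Set G), ∀ x ∈ X, y * x * y⁻¹ ∈ X) ∧
    R ≤ Subgroup.centralizer ({z} : Set G) ⊓ Subgroup.centralizer (V : Set G) ∧
    (∀ x ∈ X, ∀ c ∈ Subgroup.centralizer ({z} : Set G) ⊓ Subgroup.centralizer (V : Set G),
      x * c * x⁻¹ * c⁻¹ ∈ R) ∧
    X ⊓ (Subgroup.centralizer ({z} : Set G) ⊓ Subgroup.centralizer (V : Set G)) = R := by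
  classical
  haveI : Fact (Nat.Prime 2) := ⟨Nat.prime_two⟩
  obtain ⟨-, -, -, ⟨-, hEsq⟩, hR5, -, -⟩ :=
    es_R_structure5 Q z g data hgz hgQ V X R E hV hX hR hE
  obtain ⟨x, hxdef⟩ : ∃ x : G, x = g * z * g⁻¹ := ⟨_, rfl⟩
  obtain ⟨P, hPdef⟩ : ∃ P : Subgroup G, P = Q.map (MulAut.conj g).toMonoidHom := ⟨_, rfl⟩
  rw [← hxdef] at hgQ hV hR
  rw [← hPdef] at hX hR hE
  have hxz : x ≠ z := by
    intro h
    apply hgz
    rw [hxdef] at h
    calc g * z = (g * z * g⁻¹) * g := by group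
      _ = z * g := by rw [h]
  have hP : ESData5 P x := by rw [hPdef, hxdef]; exact esdata_conj5 Q z data g
  have hN := data.2.2.2.2.2.2.2.2
  have hcan : ∀ h : G, h * z * h⁻¹ = x → ∀ q ∈ Q, h * q * h⁻¹ ∈ P := by
    intro h hh q hq
    rw [hPdef, mem_map_conj5]
    have hc : (g⁻¹ * h) * z = z * (g⁻¹ * h) := by
      have e1 : h * z = x * h := by rw [← hh]; group
      calc (g⁻¹ * h) * z = g⁻¹ * (h * z) := by group
        _ = g⁻¹ * (x * h) := by rw [e1]
        _ = g⁻¹ * (g * z * g⁻¹ * h) := by rw [hxdef]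
        _ = z * (g⁻¹ * h) := by group
    have h1 := hN _ hc q hq
    have e : g⁻¹ * (h * q * h⁻¹) * g = (g⁻¹ * h) * q * (g⁻¹ * h)⁻¹ := by group
    rw [e]; exact h1
  have hzP : z ∈ P := es_orth_core5 Q P z x data hP hgQ hxz hcan
  have data' := data
  have hP' := hP
  obtain ⟨hzQ, hz1, hz2, hzc, hZQ, hcomQ, hsqQ, hinQ, hnQ⟩ := data
  obtain ⟨hxP, hx1, hx2, hxc, hZP, hcomP, hsqP, hinP, hnP⟩ := hP
  have hxQ := hgQ
  have hzz : z * z = 1 := by rw [← pow_two]; exact hz2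
  have hxx : x * x = 1 := by rw [← pow_two]; exact hx2
  have hzinv : z⁻¹ = z := inv_eq_of_mul_eq_one_left hzz
  have hxinv : x⁻¹ = x := inv_eq_of_mul_eq_one_left hxx
  have hxzc : x * z = z * x := hzc x hxQ
  obtain ⟨Qx, hQxdef⟩ : ∃ Qx : Subgroup G, Qx = Q ⊓ Subgroup.centralizer ({x} : Set G) :=
    ⟨_, rfl⟩
  obtain ⟨Pz, hPzdef⟩ : ∃ Pz : Subgroup G, Pz = P ⊓ Subgroup.centralizer ({z} : Set G) :=
    ⟨_, rfl⟩
  rw [← hQxdef, ← hPzdef] at hR
  have hQxmem : ∀ r : G, r ∈ Qx ↔ r ∈ Q ∧ r * x = x * r := by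
    intro r
    rw [hQxdef, Subgroup.mem_inf, Subgroup.mem_centralizer_singleton_iff]
  have hPzmem : ∀ u : G, u ∈ Pz ↔ u ∈ P ∧ u * z = z * u := by
    intro u
    rw [hPzdef, Subgroup.mem_inf, Subgroup.mem_centralizer_singleton_iff]
  have hQxR : Qx ≤ R := by rw [hR]; exact le_sup_right
  have hPzR : Pz ≤ R := by rw [hR]; exact le_sup_left
  have hVmem : ∀ v, v ∈ V ↔ (v = 1 ∨ v = z ∨ v = x ∨ v = x * z) := by
    intro v; rw [hV]; exact four_closure5 z x hz2 hx2 hxzc v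
  have hzV : z ∈ V := (hVmem z).2 (Or.inr (Or.inl rfl))
  have hxV : x ∈ V := (hVmem x).2 (Or.inr (Or.inr (Or.inl rfl)))
  have hxzV : x * z ∈ V := (hVmem _).2 (Or.inr (Or.inr (Or.inr rfl)))
  have hRcz : ∀ r ∈ R, r * z = z * r ∧ r * x = x * r := by
    have hle : R ≤ Subgroup.centralizer ({z} : Set G) ⊓ Subgroup.centralizer ({x} : Set G) := by
      rw [hR]
      apply sup_le
      · intro p hp
        obtain ⟨hpP, hpz⟩ := (hPzmem p).1 hp
        exact ⟨Subgroup.mem_centralizer_singleton_iff.2 hpz,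
          Subgroup.mem_centralizer_singleton_iff.2 (hxc p hpP)⟩
      · intro q hq
        obtain ⟨hqQ, hqx⟩ := (hQxmem q).1 hq
        exact ⟨Subgroup.mem_centralizer_singleton_iff.2 (hzc q hqQ),
          Subgroup.mem_centralizer_singleton_iff.2 hqx⟩
    intro r hr
    have := hle hr
    rw [Subgroup.mem_inf, Subgroup.mem_centralizer_singleton_iff,
      Subgroup.mem_centralizer_singleton_iff] at this
    exact this
  have hCmem : ∀ n : G, n ∈ Subgroup.centralizer (V : Set G) ↔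
      n * z = z * n ∧ n * x = x * n := by
    intro n
    rw [Subgroup.mem_centralizer_iff]
    constructor
    · intro h
      exact ⟨(h z hzV).symm, (h x hxV).symm⟩
    · rintro ⟨h1, h2⟩ v hv
      rcases (hVmem v).1 hv with h | h | h | h
      · rw [h, mul_one, one_mul]
      · rw [h]; exact h1.symm
      · rw [h]; exact h2.symm
      · rw [h]
        calc x * z * n = x * (z * n) := by group
          _ = x * (n * z) := by rw [h1]
          _ = (x * n) * z := by group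
          _ = (n * x) * z := by rw [h2]
          _ = n * (x * z) := by group
  have hRCV : R ≤ Subgroup.centralizer (V : Set G) := fun r hr => (hCmem r).2 (hRcz r hr)
  have hzR : z ∈ R := hQxR ((hQxmem z).2 ⟨hzQ, hxzc.symm⟩)
  have hxR : x ∈ R := hPzR ((hPzmem x).2 ⟨hxP, hxzc⟩)
  -- the elements `q₀`, `p₀`, `h₀`
  have hq₀ex : ∃ q ∈ Q, q * x * q⁻¹ = z * x := by
    by_contra hcon
    push Not at hcon
    have hcen : ∀ q ∈ Q, q * x = x * q := by
      intro q hq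
      rcases hcomQ q hq x hxQ with h | h
      · rw [mul_inv_eq_one, mul_inv_eq_iff_eq_mul] at h; exact h
      · exfalso; apply hcon q hq; rw [mul_inv_eq_iff_eq_mul] at h; exact h
    rcases hZQ x hxQ hcen with h | h
    · exact hx1 h
    · exact hxz h
  obtain ⟨q₀, hq₀Q, hq₀⟩ := hq₀ex
  have hq₀' : q₀ * x = z * x * q₀ := by
    have := hq₀; rw [mul_inv_eq_iff_eq_mul] at this; exact this
  have hq₀z : q₀ * z * q₀⁻¹ = z := by
    rw [mul_inv_eq_iff_eq_mul]; exact hzc q₀ hq₀Q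
  have hpex : ∃ p ∈ P, p * z * p⁻¹ = x * z := by
    by_contra hcon
    push Not at hcon
    have hcen : ∀ p ∈ P, p * z = z * p := by
      intro p hp
      rcases hcomP p hp z hzP with h | h
      · rw [mul_inv_eq_one, mul_inv_eq_iff_eq_mul] at h; exact h
      · exfalso; apply hcon p hp; rw [mul_inv_eq_iff_eq_mul] at h; exact h
    rcases hZP z hzP hcen with h | h
    · exact hz1 h
    · exact hxz h.symm
  obtain ⟨p₀, hp₀P, hp₀⟩ := hpex
  have hp₀' : p₀ * z = x * z * p₀ := by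
    have := hp₀; rw [mul_inv_eq_iff_eq_mul] at this; exact this
  have hpx : p₀ * x * p₀⁻¹ = x := by
    rw [mul_inv_eq_iff_eq_mul]; exact hxc p₀ hp₀P
  have hpx' : p₀⁻¹ * x * p₀ = x := by
    have e : p₀⁻¹ * x * p₀ = p₀⁻¹ * (p₀ * x * p₀⁻¹) * p₀ := by rw [hpx]
    rw [e]; group
  have hpz' : p₀⁻¹ * z * p₀ = x * z := by
    have e1 : z = p₀⁻¹ * (p₀ * z * p₀⁻¹) * p₀ := by group
    have e2 : p₀⁻¹ * (x * z) * p₀ = (p₀⁻¹ * x * p₀) * (p₀⁻¹ * z * p₀) := by group
    rw [hp₀, e2, hpx'] at e1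
    have e3 : p₀⁻¹ * z * p₀ = x⁻¹ * z := by
      rw [eq_inv_mul_iff_mul_eq]; exact e1.symm
    rw [e3, hxinv]
  obtain ⟨h₀, hh₀def⟩ : ∃ h₀ : G, h₀ = p₀ * q₀ * p₀⁻¹ := ⟨_, rfl⟩
  have hh1 : h₀ * z * h₀⁻¹ = x := by
    rw [hh₀def]
    calc (p₀ * q₀ * p₀⁻¹) * z * (p₀ * q₀ * p₀⁻¹)⁻¹
        = p₀ * (q₀ * (p₀⁻¹ * z * p₀) * q₀⁻¹) * p₀⁻¹ := by group
      _ = p₀ * (q₀ * (x * z) * q₀⁻¹) * p₀⁻¹ := by rw [hpz']
      _ = p₀ * ((q₀ * x * q₀⁻¹) * (q₀ * z * q₀⁻¹)) * p₀⁻¹ := by group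
      _ = p₀ * ((z * x) * z) * p₀⁻¹ := by rw [hq₀, hq₀z]
      _ = p₀ * (z * (x * z)) * p₀⁻¹ := by group
      _ = p₀ * (z * (z * x)) * p₀⁻¹ := by rw [hxzc]
      _ = p₀ * ((z * z) * x) * p₀⁻¹ := by group
      _ = p₀ * x * p₀⁻¹ := by rw [hzz, one_mul]
      _ = x := hpx
  have hh2 : h₀ * x * h₀⁻¹ = z := by
    rw [hh₀def]
    calc (p₀ * q₀ * p₀⁻¹) * x * (p₀ * q₀ * p₀⁻¹)⁻¹
        = p₀ * (q₀ * (p₀⁻¹ * x * p₀) * q₀⁻¹) * p₀⁻¹ := by group
      _ = p₀ * (q₀ * x * q₀⁻¹) * p₀⁻¹ := by rw [hpx']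
      _ = p₀ * (z * x) * p₀⁻¹ := by rw [hq₀]
      _ = (p₀ * z * p₀⁻¹) * (p₀ * x * p₀⁻¹) := by group
      _ = (x * z) * x := by rw [hp₀, hpx]
      _ = (z * x) * x := by rw [hxzc]
      _ = z * (x * x) := by group
      _ = z := by rw [hxx, mul_one]
  have hQX : Q ≤ X := by rw [hX]; exact le_sup_left
  have hPX : P ≤ X := by rw [hX]; exact le_sup_right
  have hq₀X : q₀ ∈ X := hQX hq₀Q
  have hp₀X : p₀ ∈ X := hPX hp₀P
  have hh₀X : h₀ ∈ X := by
    rw [hh₀def]; exact X.mul_mem (X.mul_mem hp₀X hq₀X) (X.inv_mem hp₀X)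
  have hNVgen : ∀ y : G, y * z * y⁻¹ ∈ V → y * x * y⁻¹ ∈ V →
      y ∈ Subgroup.normalizer (V : Set G) := by
    intro n h1 h2
    apply mem_normalizer_of_conj_mem5
    intro a ha
    rcases (hVmem a).1 ha with h | h | h | h
    · rw [h]
      have e : n * 1 * n⁻¹ = 1 := by group
      rw [e]; exact V.one_mem
    · rw [h]; exact h1
    · rw [h]; exact h2
    · rw [h]
      have e : n * (x * z) * n⁻¹ = (n * x * n⁻¹) * (n * z * n⁻¹) := by group
      rw [e]; exact V.mul_mem h2 h1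
  have hQNV : Q ≤ Subgroup.normalizer (V : Set G) := by
    intro q hq
    apply hNVgen
    · have hqz : q * z * q⁻¹ = z := by rw [mul_inv_eq_iff_eq_mul]; exact hzc q hq
      rw [hqz]; exact hzV
    · rcases hcomQ q hq x hxQ with h | h
      · have h' : q * x * q⁻¹ = x := by rw [mul_inv_eq_one] at h; exact h
        rw [h']; exact hxV
      · have h' : q * x * q⁻¹ = z * x := by rw [mul_inv_eq_iff_eq_mul] at h; exact h
        rw [h', ← hxzc]; exact hxzV
  have hPNV : P ≤ Subgroup.normalizer (V : Set G) := by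
    intro p hp
    apply hNVgen
    · rcases hcomP p hp z hzP with h | h
      · have h' : p * z * p⁻¹ = z := by rw [mul_inv_eq_one] at h; exact h
        rw [h']; exact hzV
      · have h' : p * z * p⁻¹ = x * z := by rw [mul_inv_eq_iff_eq_mul] at h; exact h
        rw [h']; exact hxzV
    · have hpx : p * x * p⁻¹ = x := by rw [mul_inv_eq_iff_eq_mul]; exact hxc p hp
      rw [hpx]; exact hxV
  have hXNV : X ≤ Subgroup.normalizer (V : Set G) := by
    rw [hX]; exact sup_le hQNV hPNV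
  have hconjV : ∀ n ∈ X, ∀ v ∈ V, n * v * n⁻¹ ∈ V := fun n hn v hv =>
    (Subgroup.mem_normalizer_iff.mp (hXNV hn) v).1 hv
  have hidx : (Subgroup.centralizer (V : Set G)).relIndex X = 6 :=
    four_relIndex5 X V z x hVmem hz1 hx1 hxz hxzc hconjV q₀ hq₀X hq₀z hq₀ h₀ hh₀X hh1
  -- `R` is normal in `X`
  have hQNR : ∀ q ∈ Q, ∀ r ∈ R, q * r * q⁻¹ ∈ R := by
    rw [hR, hPzdef, hQxdef]; exact espair_norm5 Q P z x data' hP' hxQ
  have hPNR : ∀ p ∈ P, ∀ r ∈ R, p * r * p⁻¹ ∈ R := by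
    rw [hR, hPzdef, hQxdef, sup_comm]; exact espair_norm5 P Q x z hP' data' hzP
  have hXNR : X ≤ Subgroup.normalizer (R : Set G) := by
    rw [hX]
    apply sup_le
    · intro q hq; exact mem_normalizer_of_conj_mem5 R q (hQNR q hq)
    · intro p hp; exact mem_normalizer_of_conj_mem5 R p (hPNR p hp)
  have hRX : R ≤ X := by
    rw [hR]
    apply sup_le
    · exact le_trans (by rw [hPzdef]; exact inf_le_left) hPX
    · exact le_trans (by rw [hQxdef]; exact inf_le_left) hQX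
  have hRn : (R.subgroupOf X).Normal :=
    (Subgroup.normal_subgroupOf_iff_le_normalizer hRX).mpr hXNR
  haveI := hRn
  -- the quotient `X / R` has at most 6 elements
  obtain ⟨Q₀, hQ₀⟩ : ∃ Q₀ : ↥X, (Q₀ : G) = q₀ := ⟨⟨q₀, hq₀X⟩, rfl⟩
  obtain ⟨P₀, hP₀⟩ : ∃ P₀ : ↥X, (P₀ : G) = p₀ := ⟨⟨p₀, hp₀X⟩, rfl⟩
  obtain ⟨π, hπdef⟩ : ∃ π : ↥X →* ↥X ⧸ R.subgroupOf X,
      π = QuotientGroup.mk' (R.subgroupOf X) := ⟨_, rfl⟩
  have hπ1 : ∀ y : ↥X, (y : G) ∈ R → π y = 1 := by
    intro y hy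
    rw [hπdef]
    exact (QuotientGroup.eq_one_iff y).2 (Subgroup.mem_subgroupOf.mpr hy)
  have hπsurj : Function.Surjective π := by
    rw [hπdef]; exact QuotientGroup.mk'_surjective _
  obtain ⟨a, hadef⟩ : ∃ a, a = π Q₀ := ⟨_, rfl⟩
  obtain ⟨b, hbdef⟩ : ∃ b, b = π P₀ := ⟨_, rfl⟩
  have ha2 : a * a = 1 := by
    rw [hadef, ← map_mul]
    apply hπ1
    rw [Subgroup.coe_mul, hQ₀, ← pow_two]
    rcases hsqQ q₀ hq₀Q with h | h
    · rw [h]; exact R.one_mem
    · rw [h]; exact hzR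
  have hb2 : b * b = 1 := by
    rw [hbdef, ← map_mul]
    apply hπ1
    rw [Subgroup.coe_mul, hP₀, ← pow_two]
    rcases hsqP p₀ hp₀P with h | h
    · rw [h]; exact R.one_mem
    · rw [h]; exact hxR
  have hainv : a⁻¹ = a := inv_eq_of_mul_eq_one_left ha2
  have hbinv : b⁻¹ = b := inv_eq_of_mul_eq_one_left hb2
  have hh₀inv : h₀⁻¹ * z * h₀ = x := by
    calc h₀⁻¹ * z * h₀ = h₀⁻¹ * (h₀ * x * h₀⁻¹) * h₀ := by rw [hh2]
      _ = x := by group
  obtain ⟨t, htdef⟩ : ∃ t : G, t = h₀ * q₀ * h₀⁻¹ := ⟨_, rfl⟩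
  have htz : t * z * t⁻¹ = x * z := by
    rw [htdef]
    calc h₀ * q₀ * h₀⁻¹ * z * (h₀ * q₀ * h₀⁻¹)⁻¹
        = h₀ * (q₀ * (h₀⁻¹ * z * h₀) * q₀⁻¹) * h₀⁻¹ := by group
      _ = h₀ * (q₀ * x * q₀⁻¹) * h₀⁻¹ := by rw [hh₀inv]
      _ = h₀ * (z * x) * h₀⁻¹ := by rw [hq₀]
      _ = (h₀ * z * h₀⁻¹) * (h₀ * x * h₀⁻¹) := by group
      _ = x * z := by rw [hh1, hh2]
  have htPz : p₀⁻¹ * t ∈ Pz := by
    rw [hPzmem]
    constructor
    · apply P.mul_mem (P.inv_mem hp₀P)
      rw [htdef]; exact hcan h₀ hh1 q₀ hq₀Q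
    · calc (p₀⁻¹ * t) * z = p₀⁻¹ * (t * z * t⁻¹) * t := by group
        _ = p₀⁻¹ * (x * z) * t := by rw [htz]
        _ = p₀⁻¹ * (p₀ * z * p₀⁻¹) * t := by rw [hp₀]
        _ = z * (p₀⁻¹ * t) := by group
  have hbr0 : π (P₀ * Q₀ * P₀⁻¹ * Q₀ * (P₀ * Q₀ * P₀⁻¹)⁻¹) = π P₀ := by
    have e : P₀ * Q₀ * P₀⁻¹ * Q₀ * (P₀ * Q₀ * P₀⁻¹)⁻¹ =
        P₀ * (P₀⁻¹ * (P₀ * Q₀ * P₀⁻¹ * Q₀ * (P₀ * Q₀ * P₀⁻¹)⁻¹)) := by group
    have hT : ((P₀⁻¹ * (P₀ * Q₀ * P₀⁻¹ * Q₀ * (P₀ * Q₀ * P₀⁻¹)⁻¹) : ↥X) : G) = p₀⁻¹ * t := by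
      rw [htdef, hh₀def]
      simp only [Subgroup.coe_mul, InvMemClass.coe_inv, hQ₀, hP₀]
    have hmem : ((P₀⁻¹ * (P₀ * Q₀ * P₀⁻¹ * Q₀ * (P₀ * Q₀ * P₀⁻¹)⁻¹) : ↥X) : G) ∈ R := by
      rw [hT]; exact hPzR htPz
    rw [e, map_mul, hπ1 _ hmem, mul_one]
  have hbr : b * a * b⁻¹ * a * (b * a * b⁻¹)⁻¹ = b := by
    rw [hadef, hbdef]
    simpa only [map_mul, map_inv] using hbr0
  have hab : a * b * a = b * a * b := by
    have h1 : a * b⁻¹ * a = b * a * b⁻¹ := by
      calc a * b⁻¹ * a = b⁻¹ * (b * a * b⁻¹ * a * (b * a * b⁻¹)⁻¹) * (b * a * b⁻¹) := by group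
        _ = b⁻¹ * b * (b * a * b⁻¹) := by rw [hbr]
        _ = b * a * b⁻¹ := by group
    rw [hbinv] at h1
    exact h1
  have hgen : ∀ k : ↥X ⧸ R.subgroupOf X, k ∈ Subgroup.closure ({a, b} : Set _) := by
    obtain ⟨W, hWdef⟩ : ∃ W : Subgroup (↥X ⧸ R.subgroupOf X),
        W = Subgroup.closure ({a, b} : Set _) := ⟨_, rfl⟩
    rw [← hWdef]
    have haW : a ∈ W := by rw [hWdef]; exact Subgroup.subset_closure (Set.mem_insert _ _)
    have hbW : b ∈ W := by
      rw [hWdef]; exact Subgroup.subset_closure (Set.mem_insert_of_mem _ rfl)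
    have hle : Q ⊔ P ≤ (W.comap π).map X.subtype := by
      apply sup_le
      · intro q hq
        refine ⟨⟨q, hQX hq⟩, ?_, rfl⟩
        show π ⟨q, hQX hq⟩ ∈ W
        rcases hcomQ q hq x hxQ with h | h
        · have hqx : q * x = x * q := by
            rw [mul_inv_eq_one, mul_inv_eq_iff_eq_mul] at h; exact h
          rw [hπ1 ⟨q, hQX hq⟩ (hQxR ((hQxmem q).2 ⟨hq, hqx⟩))]; exact W.one_mem
        · have hqx : q * x = z * x * q := by
            rw [mul_inv_eq_iff_eq_mul, mul_inv_eq_iff_eq_mul] at h; exact h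
          have hr : q₀⁻¹ * q ∈ Qx := by
            rw [hQxmem]
            refine ⟨Q.mul_mem (Q.inv_mem hq₀Q) hq, ?_⟩
            calc q₀⁻¹ * q * x = q₀⁻¹ * (q * x) := by group
              _ = q₀⁻¹ * (z * x * q) := by rw [hqx]
              _ = q₀⁻¹ * (z * x * q₀) * (q₀⁻¹ * q) := by group
              _ = q₀⁻¹ * (q₀ * x) * (q₀⁻¹ * q) := by rw [hq₀']
              _ = x * (q₀⁻¹ * q) := by group
          have e : (⟨q, hQX hq⟩ : ↥X) =
              Q₀ * ⟨q₀⁻¹ * q, X.mul_mem (X.inv_mem hq₀X) (hQX hq)⟩ := by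
            apply Subtype.ext
            show q = (Q₀ : G) * (q₀⁻¹ * q)
            rw [hQ₀]; group
          rw [e, map_mul, hπ1 ⟨q₀⁻¹ * q, X.mul_mem (X.inv_mem hq₀X) (hQX hq)⟩ (hQxR hr),
            mul_one, ← hadef]
          exact haW
      · intro p hp
        refine ⟨⟨p, hPX hp⟩, ?_, rfl⟩
        show π ⟨p, hPX hp⟩ ∈ W
        rcases hcomP p hp z hzP with h | h
        · have hpz : p * z = z * p := by
            rw [mul_inv_eq_one, mul_inv_eq_iff_eq_mul] at h; exact h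
          rw [hπ1 ⟨p, hPX hp⟩ (hPzR ((hPzmem p).2 ⟨hp, hpz⟩))]; exact W.one_mem
        · have hpz : p * z = x * z * p := by
            rw [mul_inv_eq_iff_eq_mul, mul_inv_eq_iff_eq_mul] at h; exact h
          have hr : p₀⁻¹ * p ∈ Pz := by
            rw [hPzmem]
            refine ⟨P.mul_mem (P.inv_mem hp₀P) hp, ?_⟩
            calc p₀⁻¹ * p * z = p₀⁻¹ * (p * z) := by group
              _ = p₀⁻¹ * (x * z * p) := by rw [hpz]
              _ = p₀⁻¹ * (x * z * p₀) * (p₀⁻¹ * p) := by group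
              _ = p₀⁻¹ * (p₀ * z) * (p₀⁻¹ * p) := by rw [hp₀']
              _ = z * (p₀⁻¹ * p) := by group
          have e : (⟨p, hPX hp⟩ : ↥X) =
              P₀ * ⟨p₀⁻¹ * p, X.mul_mem (X.inv_mem hp₀X) (hPX hp)⟩ := by
            apply Subtype.ext
            show p = (P₀ : G) * (p₀⁻¹ * p)
            rw [hP₀]; group
          rw [e, map_mul, hπ1 ⟨p₀⁻¹ * p, X.mul_mem (X.inv_mem hp₀X) (hPX hp)⟩ (hPzR hr),
            mul_one, ← hbdef]
          exact hbW
    intro k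
    obtain ⟨y, rfl⟩ := hπsurj k
    have hyQP : (y : G) ∈ Q ⊔ P := by rw [← hX]; exact y.2
    obtain ⟨y', hy', hyy'⟩ := hle hyQP
    have hyeq : y' = y := Subtype.ext hyy'
    rw [← hyeq]; exact hy'
  have hcard6 : Nat.card (↥X ⧸ R.subgroupOf X) ≤ 6 := s3_rel_card5 a b ha2 hb2 hab hgen
  -- `R = C_X(V)`
  have hXCV : (X ⊓ Subgroup.centralizer (V : Set G)).relIndex X = 6 := by
    rw [inf_comm, Subgroup.inf_relIndex_right]; exact hidx
  have hY : X ⊓ Subgroup.centralizer (V : Set G) ≤ R := by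
    have hRY : R ≤ X ⊓ Subgroup.centralizer (V : Set G) := le_inf hRX hRCV
    have h1 : R.relIndex X ≤ 6 := hcard6
    have h2 := Subgroup.relIndex_mul_relIndex R (X ⊓ Subgroup.centralizer (V : Set G)) X hRY
      inf_le_left
    rw [hXCV] at h2
    have hne : R.relIndex (X ⊓ Subgroup.centralizer (V : Set G)) ≠ 0 :=
      Subgroup.index_ne_zero_of_finite
    have h4 : R.relIndex (X ⊓ Subgroup.centralizer (V : Set G)) = 1 := by omega
    exact Subgroup.relIndex_eq_one.mp h4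
  have g1 : R = X ⊓ Subgroup.centralizer (V : Set G) := le_antisymm (le_inf hRX hRCV) hY
  have hRidx : R.relIndex X = 6 := by rw [g1]; exact hXCV
  -- the action on the involutions of `V`
  letI act : MulAction ↥X {v : G // v ∈ V ∧ v ≠ 1} :=
    { smul := fun y v => ⟨(y : G) * v.1 * (y : G)⁻¹, hconjV y y.2 v.1 v.2.1, by
          intro h; apply v.2.2
          have e : v.1 = (y : G)⁻¹ * ((y : G) * v.1 * (y : G)⁻¹) * (y : G) := by group
          rw [e, h]; group⟩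
      one_smul := fun v => Subtype.ext (by
        show ((1 : ↥X) : G) * v.1 * ((1 : ↥X) : G)⁻¹ = v.1
        rw [Subgroup.coe_one]; group)
      mul_smul := fun y y' v => Subtype.ext (by
        show ((y * y' : ↥X) : G) * v.1 * ((y * y' : ↥X) : G)⁻¹ =
          (y : G) * ((y' : G) * v.1 * (y' : G)⁻¹) * (y : G)⁻¹
        rw [Subgroup.coe_mul]; group) }
  obtain ⟨ψ₀, hψ₀def⟩ : ∃ ψ₀ : ↥X →* Equiv.Perm {v : G // v ∈ V ∧ v ≠ 1},
      ψ₀ = MulAction.toPermHom ↥X {v : G // v ∈ V ∧ v ≠ 1} := ⟨_, rfl⟩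
  have hψ₀ : ∀ (y : ↥X) (ω : {v : G // v ∈ V ∧ v ≠ 1}),
      ((ψ₀ y ω : {v : G // v ∈ V ∧ v ≠ 1}) : G) = (y : G) * ω.1 * (y : G)⁻¹ := by
    intro y ω; rw [hψ₀def]; rfl
  have hcardΩ : Nat.card {v : G // v ∈ V ∧ v ≠ 1} = 3 := by
    have hset : {v : G | v ∈ V ∧ v ≠ 1} = {z, x, x * z} := by
      ext v
      simp only [Set.mem_setOf_eq, Set.mem_insert_iff, Set.mem_singleton_iff]
      constructor
      · rintro ⟨hv, hv1⟩
        rcases (hVmem v).1 hv with h | h | h | h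
        · exact absurd h hv1
        · exact Or.inl h
        · exact Or.inr (Or.inl h)
        · exact Or.inr (Or.inr h)
      · rintro (h | h | h)
        · rw [h]; exact ⟨hzV, hz1⟩
        · rw [h]; exact ⟨hxV, hx1⟩
        · rw [h]; refine ⟨hxzV, ?_⟩
          intro h'
          apply hxz
          have : x = z⁻¹ := eq_inv_of_mul_eq_one_left h'
          rw [this, hzinv]
    have h1 : Nat.card {v : G // v ∈ V ∧ v ≠ 1} = {v : G | v ∈ V ∧ v ≠ 1}.ncard := rfl
    rw [h1, hset, Set.ncard_eq_three]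
    refine ⟨z, x, x * z, hxz.symm, ?_, ?_, rfl⟩
    · intro h
      exact hx1 (mul_eq_right.mp h.symm)
    · intro h
      exact hz1 (mul_eq_left.mp h.symm)
  obtain ⟨e⟩ : Nonempty ({v : G // v ∈ V ∧ v ≠ 1} ≃ Fin 3) := ⟨Finite.equivFinOfCardEq hcardΩ⟩
  obtain ⟨ψ, hψdef⟩ : ∃ ψ : ↥X →* Equiv.Perm (Fin 3),
      ψ = (e.permCongrHom).toMonoidHom.comp ψ₀ := ⟨_, rfl⟩
  have hψ1 : ∀ y : ↥X, ψ y = 1 ↔ ψ₀ y = 1 := by
    intro y
    rw [hψdef]
    constructor
    · intro h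
      apply (e.permCongrHom).injective
      rw [map_one]; exact h
    · intro h
      show e.permCongrHom (ψ₀ y) = 1
      rw [h, map_one]
  have hker : ψ.ker = R.subgroupOf X := by
    ext y
    rw [MonoidHom.mem_ker, Subgroup.mem_subgroupOf, hψ1]
    constructor
    · intro h
      apply hY
      refine ⟨y.2, ?_⟩
      show (y : G) ∈ Subgroup.centralizer (V : Set G)
      rw [hCmem]
      have hz' := hψ₀ y ⟨z, hzV, hz1⟩
      have hx' := hψ₀ y ⟨x, hxV, hx1⟩
      rw [h] at hz' hx'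
      constructor
      · have h3 : z = (y : G) * z * (y : G)⁻¹ := hz'
        rw [eq_mul_inv_iff_mul_eq] at h3
        exact h3.symm
      · have h3 : x = (y : G) * x * (y : G)⁻¹ := hx'
        rw [eq_mul_inv_iff_mul_eq] at h3
        exact h3.symm
    · intro hyR
      apply Equiv.ext
      intro ω
      apply Subtype.ext
      rw [hψ₀]
      show (y : G) * ω.1 * (y : G)⁻¹ = ω.1
      rw [mul_inv_eq_iff_eq_mul]
      exact (Subgroup.mem_centralizer_iff.mp (hRCV hyR) ω.1 ω.2.1).symm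
  have hsurj : Function.Surjective ψ := by
    rw [← MonoidHom.range_eq_top]
    apply Subgroup.eq_top_of_card_eq
    rw [← Subgroup.index_ker, hker, Nat.card_perm, Nat.card_fin]
    exact hRidx
  have g3 : ∃ h : (R.subgroupOf X).Normal,
      Nonempty (↥X ⧸ R.subgroupOf X ≃* Equiv.Perm (Fin 3)) :=
    ⟨hRn, ⟨(QuotientGroup.quotientMulEquivOfEq hker.symm).trans
      (QuotientGroup.quotientKerEquivOfSurjective ψ hsurj)⟩⟩
  -- `R = O₂(X)`
  have hRp : IsPGroup 2 ↥R := by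
    intro r
    refine ⟨2, Subtype.ext ?_⟩
    show (r : G) ^ 2 ^ 2 = 1
    have h := (hR5 r r.2 r r.2).2
    have h' := hEsq _ h
    rw [← pow_mul] at h'
    exact h'
  have g2 : R = (Cfsg.pCore 2 ↥X).map X.subtype := by
    apply le_antisymm
    · exact le_pCoreOf5 hRX hXNR hRp
    · rintro _ ⟨o, ho, rfl⟩
      have h1 := normal_two_le_ker_S3_5 ψ hsurj (Cfsg.pCore 2 ↥X) (pCore_normal5 2 ↥X)
        (pCore_isPGroup5 2 ↥X) ho
      rw [hker] at h1
      exact Subgroup.mem_subgroupOf.mp h1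
  -- the normalizer of `V`
  have hstep1 : ∀ n ∈ Subgroup.normalizer (V : Set G), ∃ y ∈ X, y * z * y⁻¹ = n * z * n⁻¹ := by
    intro n hn
    have hv := (Subgroup.mem_normalizer_iff.mp hn z).1 hzV
    rcases (hVmem _).1 hv with h | h | h | h
    · exfalso; apply hz1
      have e : z = n⁻¹ * (n * z * n⁻¹) * n := by group
      rw [e, h]; group
    · exact ⟨1, X.one_mem, by rw [h]; group⟩
    · exact ⟨h₀, hh₀X, by rw [h, hh1]⟩
    · refine ⟨q₀ * h₀, X.mul_mem hq₀X hh₀X, ?_⟩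
      rw [h]
      calc q₀ * h₀ * z * (q₀ * h₀)⁻¹ = q₀ * (h₀ * z * h₀⁻¹) * q₀⁻¹ := by group
        _ = q₀ * x * q₀⁻¹ := by rw [hh1]
        _ = z * x := hq₀
        _ = x * z := hxzc.symm
  have hstep2 : ∀ m ∈ Subgroup.normalizer (V : Set G), m * z = z * m →
      ∃ y ∈ X, y * z = z * y ∧ y * x * y⁻¹ = m * x * m⁻¹ := by
    intro m hm hmz
    have hv := (Subgroup.mem_normalizer_iff.mp hm x).1 hxV
    rcases (hVmem _).1 hv with h | h | h | h
    · exfalso; apply hx1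
      have e : x = m⁻¹ * (m * x * m⁻¹) * m := by group
      rw [e, h]; group
    · exfalso; apply hxz
      have e : x = m⁻¹ * (m * x * m⁻¹) * m := by group
      rw [e, h]
      calc m⁻¹ * z * m = m⁻¹ * (z * m) := by group
        _ = m⁻¹ * (m * z) := by rw [hmz]
        _ = z := by group
    · exact ⟨1, X.one_mem, by rw [one_mul, mul_one], by rw [h]; group⟩
    · refine ⟨q₀, hq₀X, hzc q₀ hq₀Q, ?_⟩
      rw [h, hq₀, hxzc]
  have hconjeq : ∀ (y n v : G), y * v * y⁻¹ = n * v * n⁻¹ → (y⁻¹ * n) * v = v * (y⁻¹ * n) := by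
    intro y n v h
    calc (y⁻¹ * n) * v = y⁻¹ * (n * v * n⁻¹) * n := by group
      _ = y⁻¹ * (y * v * y⁻¹) * n := by rw [h]
      _ = v * (y⁻¹ * n) := by group
  have hCVN : Subgroup.centralizer (V : Set G) ≤ Subgroup.normalizer (V : Set G) :=
    Subgroup.centralizer_le_normalizer _
  have g4 : Subgroup.normalizer (V : Set G) =
      X ⊔ (Subgroup.centralizer ({z} : Set G) ⊓ Subgroup.centralizer (V : Set G)) := by
    apply le_antisymm
    · intro n hn
      obtain ⟨y₁, hy₁X, hy₁⟩ := hstep1 n hn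
      have hm : y₁⁻¹ * n ∈ Subgroup.normalizer (V : Set G) :=
        Subgroup.mul_mem _ (Subgroup.inv_mem _ (hXNV hy₁X)) hn
      have hmz := hconjeq y₁ n z hy₁
      obtain ⟨y₂, hy₂X, hy₂z, hy₂⟩ := hstep2 _ hm hmz
      have hcx := hconjeq y₂ (y₁⁻¹ * n) x hy₂
      have hy₂z' : y₂⁻¹ * z = z * y₂⁻¹ := by
        calc y₂⁻¹ * z = y₂⁻¹ * (z * y₂) * y₂⁻¹ := by group
          _ = y₂⁻¹ * (y₂ * z) * y₂⁻¹ := by rw [hy₂z]
          _ = z * y₂⁻¹ := by group
      have hcz : (y₂⁻¹ * (y₁⁻¹ * n)) * z = z * (y₂⁻¹ * (y₁⁻¹ * n)) := by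
        calc (y₂⁻¹ * (y₁⁻¹ * n)) * z = y₂⁻¹ * ((y₁⁻¹ * n) * z) := by group
          _ = y₂⁻¹ * (z * (y₁⁻¹ * n)) := by rw [hmz]
          _ = (y₂⁻¹ * z) * (y₁⁻¹ * n) := by group
          _ = (z * y₂⁻¹) * (y₁⁻¹ * n) := by rw [hy₂z']
          _ = z * (y₂⁻¹ * (y₁⁻¹ * n)) := by group
      have e : n = (y₁ * y₂) * (y₂⁻¹ * (y₁⁻¹ * n)) := by group
      rw [e]
      apply Subgroup.mul_mem _ (Subgroup.mem_sup_left (X.mul_mem hy₁X hy₂X))
      apply Subgroup.mem_sup_right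
      exact ⟨Subgroup.mem_centralizer_singleton_iff.2 hcz, (hCmem _).2 ⟨hcz, hcx⟩⟩
    · exact sup_le hXNV (inf_le_right.trans hCVN)
  -- the normalizer of `V` normalizes `X`
  have hQconj : ∀ t : G, (t * z * t⁻¹ = z ∨ t * z * t⁻¹ = x ∨ t * z * t⁻¹ = x * z) →
      ∀ q ∈ Q, t * q * t⁻¹ ∈ X := by
    intro t ht q hq
    rcases ht with h | h | h
    · apply hQX
      apply hnQ t _ q hq
      rw [mul_inv_eq_iff_eq_mul] at h; exact h
    · exact hPX (hcan t h q hq)
    · have h' : (q₀⁻¹ * t) * z * (q₀⁻¹ * t)⁻¹ = x := by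
        calc (q₀⁻¹ * t) * z * (q₀⁻¹ * t)⁻¹ = q₀⁻¹ * (t * z * t⁻¹) * q₀ := by group
          _ = q₀⁻¹ * (x * z) * q₀ := by rw [h]
          _ = q₀⁻¹ * (z * x) * q₀ := by rw [hxzc]
          _ = q₀⁻¹ * (q₀ * x * q₀⁻¹) * q₀ := by rw [hq₀]
          _ = x := by group
      have h2 := hPX (hcan _ h' q hq)
      have e : t * q * t⁻¹ = q₀ * ((q₀⁻¹ * t) * q * (q₀⁻¹ * t)⁻¹) * q₀⁻¹ := by group
      rw [e]; exact X.mul_mem (X.mul_mem hq₀X h2) (X.inv_mem hq₀X)
  have hVne : ∀ (t v : G), v ∈ V → v ≠ 1 → t * v * t⁻¹ ∈ V →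
      (t * v * t⁻¹ = z ∨ t * v * t⁻¹ = x ∨ t * v * t⁻¹ = x * z) := by
    intro t v _ hv1 h
    rcases (hVmem _).1 h with h | h | h | h
    · exfalso; apply hv1
      have e : v = t⁻¹ * (t * v * t⁻¹) * t := by group
      rw [e, h]; group
    · exact Or.inl h
    · exact Or.inr (Or.inl h)
    · exact Or.inr (Or.inr h)
  have g5 : ∀ y ∈ Subgroup.normalizer (V : Set G), ∀ x' ∈ X, y * x' * y⁻¹ ∈ X := by
    intro y hy
    have hmap : (Q ⊔ P).map (MulAut.conj y).toMonoidHom ≤ X := by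
      rw [Subgroup.map_sup]
      apply sup_le
      · rintro _ ⟨q, hq, rfl⟩
        show y * q * y⁻¹ ∈ X
        exact hQconj y (hVne y z hzV hz1 ((Subgroup.mem_normalizer_iff.mp hy z).1 hzV)) q hq
      · rintro _ ⟨p, hp, rfl⟩
        show y * p * y⁻¹ ∈ X
        have hp' : g⁻¹ * p * g ∈ Q := by
          have hp2 : p ∈ P := hp
          rw [hPdef, mem_map_conj5] at hp2; exact hp2
        have hyg : (y * g) * z * (y * g)⁻¹ = y * x * y⁻¹ := by
          rw [hxdef]; group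
        have h3 := hQconj (y * g) (by
          rw [hyg]
          exact hVne y x hxV hx1 ((Subgroup.mem_normalizer_iff.mp hy x).1 hxV)) _ hp'
        have e : y * p * y⁻¹ = (y * g) * (g⁻¹ * p * g) * (y * g)⁻¹ := by group
        rw [e]; exact h3
    intro x' hx'
    have hx'' : x' ∈ Q ⊔ P := by rw [← hX]; exact hx'
    exact hmap ⟨x', hx'', rfl⟩
  have g6 : R ≤ Subgroup.centralizer ({z} : Set G) ⊓ Subgroup.centralizer (V : Set G) :=
    le_inf (fun r hr => Subgroup.mem_centralizer_singleton_iff.2 (hRcz r hr).1) hRCV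
  have g7 : ∀ x' ∈ X, ∀ c ∈ Subgroup.centralizer ({z} : Set G) ⊓
      Subgroup.centralizer (V : Set G), x' * c * x'⁻¹ * c⁻¹ ∈ R := by
    intro x' hx' c hc
    rw [Subgroup.mem_inf] at hc
    apply hY
    constructor
    · have h1 := g5 c (hCVN hc.2) x'⁻¹ (X.inv_mem hx')
      have e : x' * c * x'⁻¹ * c⁻¹ = x' * (c * x'⁻¹ * c⁻¹) := by group
      rw [e]; exact X.mul_mem hx' h1
    · have hn := hXNV hx'
      have h1 : x' * c * x'⁻¹ ∈ Subgroup.centralizer (V : Set G) := by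
        rw [Subgroup.mem_centralizer_iff]
        intro v hv
        have hw : x'⁻¹ * v * x' ∈ V := by
          have := (Subgroup.mem_normalizer_iff.mp (Subgroup.inv_mem _ hn) v).1 hv
          rw [inv_inv] at this; exact this
        have hcw := Subgroup.mem_centralizer_iff.mp hc.2 _ hw
        calc v * (x' * c * x'⁻¹) = x' * ((x'⁻¹ * v * x') * c) * x'⁻¹ := by group
          _ = x' * (c * (x'⁻¹ * v * x')) * x'⁻¹ := by rw [hcw]
          _ = x' * c * x'⁻¹ * v := by group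
      exact Subgroup.mul_mem _ h1 (Subgroup.inv_mem _ hc.2)
  have g8 : X ⊓ (Subgroup.centralizer ({z} : Set G) ⊓ Subgroup.centralizer (V : Set G)) = R := by
    apply le_antisymm
    · exact le_trans (inf_le_inf_left X inf_le_right) hY
    · exact le_inf hRX g6
  exact ⟨g1, g2, g3, g4, g5, g6, g7, g8⟩

/-- structure of `X` for a large extraspecial subgroup -/
theorem es_large_X_structure5 {G : Type u} [Group G] [Finite G] (Q : Subgroup G)
    (hQ : Cfsg.IsLargeExtraspecial Q) (z : G)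
    (hz : ((Subgroup.center ↥Q).map Q.subtype) = Subgroup.zpowers z) (hz2 : orderOf z = 2)
    (g : G) (hgH : g ∉ Subgroup.centralizer ({z} : Set G)) (hgQ : g * z * g⁻¹ ∈ Q)
    (V X R E : Subgroup G) (hV : V = Subgroup.closure ({z, g * z * g⁻¹} : Set G))
    (hX : X = Q ⊔ (Q).map (MulAut.conj g).toMonoidHom)
    (hR : R = ((Q).map (MulAut.conj g).toMonoidHom ⊓ Subgroup.centralizer ({z} : Set G)) ⊔
      (Q ⊓ Subgroup.centralizer ({g * z * g⁻¹} : Set G)))
    (hE : E = Q ⊓ (Q).map (MulAut.conj g).toMonoidHom) :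
    R = X ⊓ Subgroup.centralizer (V : Set G) ∧
    R = (Cfsg.pCore 2 ↥X).map X.subtype ∧
    (∃ h : (R.subgroupOf X).Normal, Nonempty (↥X ⧸ R.subgroupOf X ≃* Equiv.Perm (Fin 3))) ∧
    Subgroup.normalizer (V : Set G) =
      X ⊔ (Subgroup.centralizer ({z} : Set G) ⊓ Subgroup.centralizer (V : Set G)) ∧
    (∀ y ∈ Subgroup.normalizer (V : Set G), ∀ x ∈ X, y * x * y⁻¹ ∈ X) ∧
    R ≤ Subgroup.centralizer ({z} : Set G) ⊓ Subgroup.centralizer (V : Set G) ∧
    (∀ x ∈ X, ∀ c ∈ Subgroup.centralizer ({z} : Set G) ⊓ Subgroup.centralizer (V : Set G),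
      x * c * x⁻¹ * c⁻¹ ∈ R) ∧
    X ⊓ (Subgroup.centralizer ({z} : Set G) ⊓ Subgroup.centralizer (V : Set G)) = R :=
  es_X_structure5 Q z g (esdata_of_large5 Q hQ z hz hz2)
    (fun h => hgH (Subgroup.mem_centralizer_singleton_iff.2 h)) hgQ V X R E hV hX hR hE

end Cfsg.Agent.Lib.Helper5
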