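import Mathlib
import Cfsg.Prelude
import Cfsg.Agent.Lib.Helper5.ESXStruct5
import Cfsg.Agent.Lib.Helper5.ESPlus5

set_option autoImplicit false

namespace Cfsg.Agent.Lib.Helper5

universe u

open scoped commutatorElement

/-- the common setting of the singular-subgroup statements: `Q` is conjugation-equivariant and
each conjugate of `z` carries the elementwise extraspecial data -/
theorem es_sing_setup5 {G : Type u} [Group G] [Finite G]
    (Q : G → Subgroup G)
    (hQ : ∀ x : G, Q x = (Cfsg.pCore 2 ↥(Subgroup.centralizer ({x} : Set G))).map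
      (Subgroup.centralizer ({x} : Set G)).subtype)
    (z : G) (hz : orderOf z = 2) (hE : Cfsg.IsExtraspecial 2 ↥(Q z))
    (hC : Subgroup.centralizer ((Q z : Subgroup G) : Set G) ≤ Q z) :
    (∀ h x : G, Q (h * x * h⁻¹) = (Q x).map (MulAut.conj h).toMonoidHom) ∧
    (∀ h : G, ESData5 (Q (h * z * h⁻¹)) (h * z * h⁻¹)) := by
  haveI : Fact (Nat.Prime 2) := ⟨Nat.prime_two⟩
  have hQ' : ∀ x : G, Q x = Cfsg.pCoreOf 2 (Subgroup.centralizer ({x} : Set G)) :=
    fun x => hQ x
  have hz1 : z ≠ 1 := by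
    intro h; rw [h, orderOf_one] at hz; omega
  have hQcent : ∀ q ∈ Q z, q * z = z * q := by
    intro q hq
    rw [hQ'] at hq
    have := pCoreOf_le5 (p := 2) _ hq
    rwa [Subgroup.mem_centralizer_singleton_iff] at this
  have hzQ : z ∈ Q z := by
    rw [hQ']
    have hle : Subgroup.zpowers z ≤ Subgroup.centralizer ({z} : Set G) := by
      rw [Subgroup.zpowers_le, Subgroup.mem_centralizer_singleton_iff]
    have hn : Subgroup.centralizer ({z} : Set G) ≤
        Subgroup.normalizer ((Subgroup.zpowers z : Subgroup G) : Set G) := by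
      intro c hc
      rw [Subgroup.mem_centralizer_singleton_iff] at hc
      have hfix : ∀ (d : G), d * z = z * d → ∀ y ∈ Subgroup.zpowers z, d * y * d⁻¹ = y := by
        intro d hd y hy
        obtain ⟨k, rfl⟩ := Subgroup.mem_zpowers_iff.mp hy
        have h1 : Commute d (z ^ k) := Commute.zpow_right hd k
        rw [mul_inv_eq_iff_eq_mul]; exact h1.eq
      have hcinv : c⁻¹ * z = z * c⁻¹ := by
        calc c⁻¹ * z = c⁻¹ * (z * c) * c⁻¹ := by group
          _ = c⁻¹ * (c * z) * c⁻¹ := by rw [hc]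
          _ = z * c⁻¹ := by group
      rw [Subgroup.mem_normalizer_iff]
      intro y
      constructor
      · intro hy
        rw [hfix c hc y hy]; exact hy
      · intro hy
        have h2 := hfix c⁻¹ hcinv _ hy
        rw [inv_inv] at h2
        have e : c⁻¹ * (c * y * c⁻¹) * c = y := by group
        rw [e] at h2
        rw [h2]; exact hy
    have hp : IsPGroup 2 ↥(Subgroup.zpowers z) := by
      apply IsPGroup.of_card (n := 1)
      rw [Nat.card_zpowers, hz, pow_one]
    exact le_pCoreOf5 hle hn hp (Subgroup.mem_zpowers z)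
  have hN : ∀ c : G, c * z = z * c → ∀ q ∈ Q z, c * q * c⁻¹ ∈ Q z := by
    intro c hc q hq
    have hcC : c ∈ Subgroup.centralizer ({z} : Set G) :=
      Subgroup.mem_centralizer_singleton_iff.2 hc
    have h1 := normalizer_le_normalizer_pCoreOf5 (p := 2)
      (Subgroup.centralizer ({z} : Set G)) (Subgroup.le_normalizer hcC)
    rw [hQ'] at hq ⊢
    exact (Subgroup.mem_normalizer_iff.mp h1 q).1 hq
  have data := esdata_of5 (Q z) z hE hC hzQ hz1 hQcent hN
  have hconjQ : ∀ h x : G, Q (h * x * h⁻¹) = (Q x).map (MulAut.conj h).toMonoidHom := by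
    intro h x
    rw [hQ', hQ', centralizer_conj5, Cfsg.Agent.Lib.Helper4.pCoreOf_map_conj]
  refine ⟨hconjQ, ?_⟩
  intro h
  rw [hconjQ h z]; exact esdata_conj5 (Q z) z data h

/-- `z` lies in `Q^g` when `z^g` lies in `Q` (orthogonality is symmetric) -/
theorem es_z_mem_conj5 {G : Type u} [Group G] (Q : Subgroup G) (z g : G)
    (data : ESData5 Q z) (hgz : g * z ≠ z * g) (hgQ : g * z * g⁻¹ ∈ Q) :
    z ∈ Q.map (MulAut.conj g).toMonoidHom := by
  have hxz : g * z * g⁻¹ ≠ z := by
    intro h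
    apply hgz
    calc g * z = (g * z * g⁻¹) * g := by group
      _ = z * g := by rw [h]
  have hP : ESData5 (Q.map (MulAut.conj g).toMonoidHom) (g * z * g⁻¹) :=
    esdata_conj5 Q z data g
  have hN := data.2.2.2.2.2.2.2.2
  have hcan : ∀ h : G, h * z * h⁻¹ = g * z * g⁻¹ → ∀ q ∈ Q,
      h * q * h⁻¹ ∈ Q.map (MulAut.conj g).toMonoidHom := by
    intro h hh q hq
    rw [mem_map_conj5]
    have hc : (g⁻¹ * h) * z = z * (g⁻¹ * h) := by
      have e1 : h * z = (g * z * g⁻¹) * h := by rw [← hh]; group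
      calc (g⁻¹ * h) * z = g⁻¹ * (h * z) := by group
        _ = g⁻¹ * ((g * z * g⁻¹) * h) := by rw [e1]
        _ = z * (g⁻¹ * h) := by group
    have h1 := hN _ hc q hq
    have e : g⁻¹ * (h * q * h⁻¹) * g = (g⁻¹ * h) * q * (g⁻¹ * h)⁻¹ := by group
    rw [e]; exact h1
  exact es_orth_core5 Q _ z (g * z * g⁻¹) data hP hgQ hxz hcan

/-- for orthogonal conjugates `a ≠ b`: `Q_a ∩ Q_b ≤ Q_{ab}` -/
theorem es_sing_inter5 {G : Type u} [Group G] [Finite G] (Q : G → Subgroup G)
    (hconj : ∀ h x : G, Q (h * x * h⁻¹) = (Q x).map (MulAut.conj h).toMonoidHom)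
    (a : G) (hdata : ESData5 (Q a) a) (g : G) (hba : g * a * g⁻¹ ∈ Q a)
    (hne : g * a * g⁻¹ ≠ a) :
    Q a ⊓ Q (g * a * g⁻¹) ≤ Q (a * (g * a * g⁻¹)) := by
  have hgz : g * a ≠ a * g := by
    intro h
    apply hne
    rw [h]; group
  have hS := es_R_structure5 (Q a) a g hdata hgz hba _ _ _ _ rfl rfl rfl rfl
  have h7 := hS.2.2.2.2.2.2
  have haP : a ∈ (Q a).map (MulAut.conj g).toMonoidHom := es_z_mem_conj5 (Q a) a g hdata hgz hba
  obtain ⟨b, hbdef⟩ : ∃ b : G, b = g * a * g⁻¹ := ⟨_, rfl⟩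
  rw [← hbdef] at hba hne h7 ⊢
  have hQb : Q b = (Q a).map (MulAut.conj g).toMonoidHom := by rw [hbdef]; exact hconj g a
  rw [← hQb] at h7 haP
  obtain ⟨hzQ, hz1, hz2, hzc, hZQ, hcomQ, hsqQ, hinQ, hnQ⟩ := hdata
  have hbP : b ∈ Q b := by
    rw [hQb, hbdef]; exact ⟨a, hzQ, rfl⟩
  have hb1 : b ≠ 1 := by
    intro h
    apply hz1
    have e : a = g⁻¹ * (g * a * g⁻¹) * g := by group
    rw [e, ← hbdef, h]; group
  have hq₀ex : ∃ q ∈ Q a, q * b * q⁻¹ = a * b := by
    by_contra hcon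
    push Not at hcon
    have hcen : ∀ q ∈ Q a, q * b = b * q := by
      intro q hq
      rcases hcomQ q hq b hba with h | h
      · rw [mul_inv_eq_one, mul_inv_eq_iff_eq_mul] at h; exact h
      · exfalso; apply hcon q hq; rw [mul_inv_eq_iff_eq_mul] at h; exact h
    rcases hZQ b hba hcen with h | h
    · exact hb1 h
    · exact hne h
  obtain ⟨q, hqQ, hq⟩ := hq₀ex
  have hVle : Subgroup.closure ({a, b} : Set G) ≤ Q b := by
    rw [Subgroup.closure_le]
    intro v hv
    rcases hv with hv | hv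
    · rw [hv]; exact haP
    · rw [Set.mem_singleton_iff.mp hv]; exact hbP
  intro e he
  rw [Subgroup.mem_inf] at he
  have hQab : Q (a * b) = (Q b).map (MulAut.conj q).toMonoidHom := by
    rw [← hq]; exact hconj q b
  rw [hQab, mem_map_conj5]
  have hcomm : ⁅q⁻¹, e⁆ ∈ ⁅Q a ⊔ Q b, Q a ⊓ Q b⁆ :=
    Subgroup.commutator_mem_commutator
      (Subgroup.mem_sup_left ((Q a).inv_mem hqQ)) (Subgroup.mem_inf.mpr he)
  have h1 := hVle (h7 hcomm)
  rw [commutatorElement_def, inv_inv] at h1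
  have e2 : q⁻¹ * e * q = (q⁻¹ * e * q * e⁻¹) * e := by group
  rw [e2]; exact (Q b).mul_mem h1 he.2

/-- the joint core of a singular subgroup is the intersection over a generating set -/
theorem es_sing_gen5 {G : Type u} [Group G] [Finite G]
    (Q : G → Subgroup G)
    (hQ : ∀ x : G, Q x = (Cfsg.pCore 2 ↥(Subgroup.centralizer ({x} : Set G))).map
      (Subgroup.centralizer ({x} : Set G)).subtype)
    (z : G) (hz : orderOf z = 2) (hE : Cfsg.IsExtraspecial 2 ↥(Q z))
    (hC : Subgroup.centralizer ((Q z : Subgroup G) : Set G) ≤ Q z)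
    (U : Subgroup G) (hU2 : ∀ u ∈ U, u * u = 1)
    (hS : ∀ u ∈ U, u ≠ 1 → ∃ g : G, g * z * g⁻¹ = u)
    (hO : ∀ u ∈ U, ∀ v ∈ U, u ≠ 1 → v ≠ 1 → v ∈ Q u)
    (QU : Subgroup G) (hQU : QU = ⨅ u ∈ ((U : Set G) \ {1}), Q u)
    (T : Set G) (hT : Subgroup.closure T = U) (hT1 : (1 : G) ∉ T) :
    QU = ⨅ t ∈ T, Q t := by
  obtain ⟨hconj, hdata⟩ := es_sing_setup5 Q hQ z hz hE hC
  have hkey : ∀ a ∈ U, ∀ b ∈ U, a ≠ 1 → b ≠ 1 → a ≠ b → Q a ⊓ Q b ≤ Q (a * b) := by
    intro a ha b hb ha1 hb1 hab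
    obtain ⟨h, hh⟩ := hS a ha ha1
    obtain ⟨k, hk⟩ := hS b hb hb1
    have hb' : b = (k * h⁻¹) * a * (k * h⁻¹)⁻¹ := by rw [← hk, ← hh]; group
    have hda : ESData5 (Q a) a := by rw [← hh]; exact hdata h
    have h1 := es_sing_inter5 Q hconj a hda (k * h⁻¹)
      (by rw [← hb']; exact hO a ha b hb ha1 hb1)
      (by rw [← hb']; exact fun h' => hab h'.symm)
    rw [← hb'] at h1
    exact h1
  rw [hQU]
  apply le_antisymm
  · apply le_iInf₂
    intro t ht
    have htU : t ∈ U := by rw [← hT]; exact Subgroup.subset_closure ht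
    have ht1 : t ≠ 1 := fun h => hT1 (h ▸ ht)
    exact iInf₂_le t (⟨htU, ht1⟩ : t ∈ (U : Set G) \ {1})
  · apply le_iInf₂
    intro u hu
    obtain ⟨huU, hu1⟩ := hu
    have hall : ∀ v ∈ Subgroup.closure T, v = 1 ∨ (⨅ t ∈ T, Q t) ≤ Q v := by
      intro v hv
      induction hv using Subgroup.closure_induction with
      | mem t ht => exact Or.inr (iInf₂_le t ht)
      | one => exact Or.inl rfl
      | mul a b ha hb iha ihb =>
        rw [hT] at ha hb
        by_cases ha1 : a = 1
        · rw [ha1, one_mul]; exact ihb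
        by_cases hb1 : b = 1
        · rw [hb1, mul_one]; exact iha
        by_cases hab1 : a * b = 1
        · exact Or.inl hab1
        right
        have hab : a ≠ b := by
          intro h
          apply hab1
          rw [h]; exact hU2 b hb
        rcases iha with h | h
        · exact absurd h ha1
        rcases ihb with h' | h'
        · exact absurd h' hb1
        exact le_trans (le_inf h h') (hkey a ha b hb ha1 hb1 hab)
      | inv a ha iha =>
        rw [hT] at ha
        have hinv : a⁻¹ = a := inv_eq_of_mul_eq_one_left (hU2 a ha)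
        rw [hinv]; exact iha
    rcases hall u (by rw [hT]; exact huU) with h | h
    · exact absurd h hu1
    · exact h

/-- the centre of a subgroup with extraspecial data has order two and contains all commutators -/
theorem esdata_center5 {G : Type u} [Group G] (Q : Subgroup G) (z : G) (data : ESData5 Q z) :
    (∀ a e : ↥Q, a * e * a⁻¹ * e⁻¹ ∈ Subgroup.center ↥Q) ∧
    Nat.card (Subgroup.center ↥Q) = 2 := by
  obtain ⟨hzQ, hz1, hz2, hzc, hZQ, hcomQ, hsqQ, hinQ, hnQ⟩ := data
  have hcen : ∀ c : ↥Q, ((c : G) = 1 ∨ (c : G) = z) → c ∈ Subgroup.center ↥Q := by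
    intro c hc
    rw [Subgroup.mem_center_iff]
    intro q
    apply Subtype.ext
    show (q : G) * (c : G) = (c : G) * (q : G)
    rcases hc with h | h
    · rw [h, mul_one, one_mul]
    · rw [h]; exact hzc q q.2
  constructor
  · intro a e
    apply hcen
    exact hcomQ a a.2 e e.2
  · rw [Nat.card_eq_two_iff' (1 : Subgroup.center ↥Q)]
    refine ⟨⟨⟨z, hzQ⟩, hcen ⟨z, hzQ⟩ (Or.inr rfl)⟩, ?_, ?_⟩
    · intro h
      apply hz1
      have := congrArg (fun c : Subgroup.center ↥Q => ((c : ↥Q) : G)) h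
      exact this
    · intro y hy
      have hyc : (y : ↥Q) ∈ Subgroup.center ↥Q := y.2
      rw [Subgroup.mem_center_iff] at hyc
      have h1 : ∀ q ∈ Q, q * ((y : ↥Q) : G) = ((y : ↥Q) : G) * q := by
        intro q hq
        exact congrArg Subtype.val (hyc ⟨q, hq⟩)
      rcases hZQ _ (y : ↥Q).2 h1 with h | h
      · exfalso; apply hy
        apply Subtype.ext
        apply Subtype.ext
        exact h
      · apply Subtype.ext
        apply Subtype.ext
        exact h

/-- the double centralizer of a subgroup containing the centre, in a group whose commutators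
are central and whose centre has order two -/
theorem es_double_cent5 {E : Type u} [Group E] [Finite E]
    (hcc : ∀ u e : E, u * e * u⁻¹ * e⁻¹ ∈ Subgroup.center E)
    (hZ : Nat.card (Subgroup.center E) = 2) (B : Subgroup E) (hB : Subgroup.center E ≤ B) :
    Subgroup.centralizer ((Subgroup.centralizer (B : Set E) : Subgroup E) : Set E) = B := by
  have hcount : ∀ A : Subgroup E, Subgroup.center E ≤ A →
      Nat.card {b : A // (b : E) ∈ Subgroup.center E} = 2 := by
    intro A hA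
    rw [← hZ]
    apply Nat.card_congr
    exact
      { toFun := fun b => ⟨b.1.1, b.2⟩
        invFun := fun c => ⟨⟨c.1, hA c.2⟩, c.2⟩
        left_inv := fun b => rfl
        right_inv := fun c => rfl }
  have h1 := es_cent_card5 hcc hZ B
  have h2 := es_cent_card5 hcc hZ (Subgroup.centralizer (B : Set E))
  rw [hcount B hB] at h1
  rw [hcount _ (Subgroup.center_le_centralizer _)] at h2
  have hle : B ≤ Subgroup.centralizer ((Subgroup.centralizer (B : Set E) : Subgroup E) : Set E) := by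
    intro b hb
    rw [Subgroup.mem_centralizer_iff]
    intro c hc
    exact (Subgroup.mem_centralizer_iff.mp hc b hb).symm
  have hpos : 0 < Nat.card (Subgroup.centralizer (B : Set E)) := Nat.card_pos
  have hcard : Nat.card (Subgroup.centralizer
      ((Subgroup.centralizer (B : Set E) : Subgroup E) : Set E)) ≤ Nat.card B := by
    have h3 : Nat.card (Subgroup.centralizer
        ((Subgroup.centralizer (B : Set E) : Subgroup E) : Set E)) *
        Nat.card (Subgroup.centralizer (B : Set E)) =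
        Nat.card B * Nat.card (Subgroup.centralizer (B : Set E)) := by
      rw [h2, ← h1, mul_comm]
    exact le_of_eq (Nat.eq_of_mul_eq_mul_right hpos h3)
  exact (Subgroup.eq_of_le_of_card_ge hle hcard).symm

/-- the action of the join of the radicals on the joint core of a singular subgroup -/
theorem es_sing_action5 {G : Type u} [Group G] [Finite G]
    (Q : G → Subgroup G)
    (hQ : ∀ x : G, Q x = (Cfsg.pCore 2 ↥(Subgroup.centralizer ({x} : Set G))).map
      (Subgroup.centralizer ({x} : Set G)).subtype)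
    (z : G) (hz : orderOf z = 2) (hE : Cfsg.IsExtraspecial 2 ↥(Q z))
    (hC : Subgroup.centralizer ((Q z : Subgroup G) : Set G) ≤ Q z)
    (U : Subgroup G) (hU2 : ∀ u ∈ U, u * u = 1)
    (hS : ∀ u ∈ U, u ≠ 1 → ∃ g : G, g * z * g⁻¹ = u)
    (hO : ∀ u ∈ U, ∀ v ∈ U, u ≠ 1 → v ≠ 1 → v ∈ Q u)
    (QU LU : Subgroup G) (hQU : QU = ⨅ u ∈ ((U : Set G) \ {1}), Q u)
    (hLU : LU = ⨆ u ∈ ((U : Set G) \ {1}), Q u) :
    (∀ g ∈ LU, ∀ x ∈ QU, g * x * g⁻¹ * x⁻¹ ∈ U) ∧
      ∀ x ∈ QU, x ∉ U → ∀ u ∈ U, ∃ g ∈ LU ⊓ Subgroup.centralizer (U : Set G),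
        g * x * g⁻¹ = x * u := by
  obtain ⟨hconj, hdata⟩ := es_sing_setup5 Q hQ z hz hE hC
  have hdu : ∀ u ∈ U, u ≠ 1 → ESData5 (Q u) u := by
    intro u hu hu1
    obtain ⟨h, hh⟩ := hS u hu hu1
    rw [← hh]; exact hdata h
  have hF1 : ∀ u ∈ U, u ≠ 1 → U ≤ Q u := by
    intro u hu hu1 v hv
    by_cases hv1 : v = 1
    · rw [hv1]; exact (Q u).one_mem
    · exact hO u hu v hv hu1 hv1
  have hF2 : ∀ u ∈ U, u ≠ 1 → Q u ≤ Subgroup.normalizer (U : Set G) := by
    intro u hu hu1 q hq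
    obtain ⟨hzQ, hz1, hz2, hzc, hZQ, hcomQ, hsqQ, hinQ, hnQ⟩ := hdu u hu hu1
    apply mem_normalizer_of_conj_mem5
    intro v hv
    rcases hcomQ q hq v (hF1 u hu hu1 hv) with h | h
    · have h' : q * v * q⁻¹ = v := by rw [mul_inv_eq_one] at h; exact h
      rw [h']; exact hv
    · have h' : q * v * q⁻¹ = u * v := by rw [mul_inv_eq_iff_eq_mul] at h; exact h
      rw [h']; exact U.mul_mem hu hv
  have hF3 : ∀ u ∈ U, u ≠ 1 → QU ≤ Q u := by
    intro u hu hu1
    rw [hQU]
    exact iInf₂_le u (⟨hu, hu1⟩ : u ∈ (U : Set G) \ {1})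
  have hF4 : ∀ u ∈ U, u ≠ 1 → Q u ≤ LU := by
    intro u hu hu1
    rw [hLU]
    exact le_iSup₂ (f := fun u (_ : u ∈ (U : Set G) \ {1}) => Q u) u ⟨hu, hu1⟩
  constructor
  · intro g hg x hx
    obtain ⟨M, hM⟩ := comm_mod_subgroup5 U x
    have hLM : LU ≤ M := by
      rw [hLU]
      apply iSup₂_le
      intro u hu
      obtain ⟨huU, hu1⟩ := hu
      intro q hq
      rw [hM]
      refine ⟨hF2 u huU hu1 hq, ?_⟩
      obtain ⟨hzQ, hz1, hz2, hzc, hZQ, hcomQ, hsqQ, hinQ, hnQ⟩ := hdu u huU hu1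
      rcases hcomQ q hq x (hF3 u huU hu1 hx) with h | h
      · rw [h]; exact U.one_mem
      · rw [h]; exact huU
    exact ((hM g).1 (hLM hg)).2
  · intro x hx hxU u hu
    by_cases hu1 : u = 1
    · refine ⟨1, Subgroup.one_mem _, ?_⟩
      rw [hu1]; group
    have du := hdu u hu hu1
    obtain ⟨hcc, hZ⟩ := esdata_center5 (Q u) u du
    obtain ⟨hzQ, hz1, hz2, hzc, hZQ, hcomQ, hsqQ, hinQ, hnQ⟩ := du
    have hxQ : x ∈ Q u := hF3 u hu hu1 hx
    have hUQ : U ≤ Q u := hF1 u hu hu1
    have hBcen : Subgroup.center ↥(Q u) ≤ U.subgroupOf (Q u) := by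
      intro c hc
      rw [Subgroup.mem_subgroupOf]
      rw [Subgroup.mem_center_iff] at hc
      have h1 : ∀ q ∈ Q u, q * (c : G) = (c : G) * q := by
        intro q hq
        exact congrArg Subtype.val (hc ⟨q, hq⟩)
      rcases hZQ _ c.2 h1 with h | h
      · rw [h]; exact U.one_mem
      · rw [h]; exact hu
    have hD := es_double_cent5 hcc hZ (U.subgroupOf (Q u)) hBcen
    have hxB : (⟨x, hxQ⟩ : ↥(Q u)) ∉ U.subgroupOf (Q u) := by
      rw [Subgroup.mem_subgroupOf]; exact hxU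
    rw [← hD, Subgroup.mem_centralizer_iff] at hxB
    push Not at hxB
    obtain ⟨c, hc0, hcx⟩ := hxB
    have hc : c ∈ Subgroup.centralizer ((U.subgroupOf (Q u) : Subgroup ↥(Q u)) : Set ↥(Q u)) := hc0
    rw [Subgroup.mem_centralizer_iff] at hc
    refine ⟨(c : G), ⟨hF4 u hu hu1 c.2, ?_⟩, ?_⟩
    · show (c : G) ∈ Subgroup.centralizer (U : Set G)
      rw [Subgroup.mem_centralizer_iff]
      intro v hv
      have h1 := hc ⟨v, hUQ hv⟩ (Subgroup.mem_subgroupOf.mpr hv)
      exact congrArg Subtype.val h1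
    · rcases hcomQ (c : G) c.2 x hxQ with h | h
      · exfalso
        apply hcx
        apply Subtype.ext
        rw [mul_inv_eq_one, mul_inv_eq_iff_eq_mul] at h
        exact h
      · rw [mul_inv_eq_iff_eq_mul] at h
        rw [h]
        exact (hzc x hxQ).symm

end Cfsg.Agent.Lib.Helper5
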