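import Mathlib
import Cfsg.Prelude
import Cfsg.Agent.Lib.Helper5.ESSing5

set_option autoImplicit false

namespace Cfsg.Agent.Lib.Helper5

universe u

/-- the join of a subgroup with a commuting involution, as an explicit subgroup -/
theorem inv_join5 {G : Type u} [Group G] (W : Subgroup G) (c : G) (hc2 : c * c = 1)
    (hcW : ∀ w ∈ W, c * w = w * c) :
    ∃ S : Subgroup G, ∀ v, v ∈ S ↔ (v ∈ W ∨ c * v ∈ W) := by
  have hcinv : c⁻¹ = c := inv_eq_of_mul_eq_one_left hc2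
  have hcomm : ∀ v : G, c * v ∈ W → c * v = v * c := by
    intro v hv
    have h1 := hcW _ hv
    calc c * v = c * (c * v) * c⁻¹ := by rw [h1]; group
      _ = (c * c) * v * c⁻¹ := by group
      _ = v * c := by rw [hc2, one_mul, hcinv]
  refine ⟨{ carrier := {v | v ∈ W ∨ c * v ∈ W}
            mul_mem' := ?_
            one_mem' := Or.inl W.one_mem
            inv_mem' := ?_ }, fun v => Iff.rfl⟩
  · rintro a b (ha | ha) (hb | hb)
    · exact Or.inl (W.mul_mem ha hb)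
    · right
      have e : c * (a * b) = a * (c * b) := by
        calc c * (a * b) = (c * a) * b := by group
          _ = (a * c) * b := by rw [hcW a ha]
          _ = a * (c * b) := by group
      rw [e]; exact W.mul_mem ha hb
    · right
      have e : c * (a * b) = (c * a) * b := by group
      rw [e]; exact W.mul_mem ha hb
    · left
      have e : a * b = (c * a) * (c * b) := by
        calc a * b = a * (c * c) * b := by rw [hc2, mul_one]
          _ = (a * c) * (c * b) := by group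
          _ = (c * a) * (c * b) := by rw [hcomm a ha]
      rw [e]; exact W.mul_mem ha hb
  · rintro a (ha | ha)
    · exact Or.inl (W.inv_mem ha)
    · right
      have e : c * a⁻¹ = (c * a)⁻¹ := by
        calc c * a⁻¹ = c⁻¹ * a⁻¹ := by rw [hcinv]
          _ = (a * c)⁻¹ := by group
          _ = (c * a)⁻¹ := by rw [hcomm a ha]
      rw [e]; exact W.inv_mem ha

/-- realizing a transvection: an element of `Q` centralizing `K ∋ z` and moving `w₀ ∉ K` -/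
theorem es_transvection5 {G : Type u} [Group G] [Finite G] (Qc : Subgroup G) (c : G)
    (data : ESData5 Qc c) (K : Subgroup G) (hcK : c ∈ K) (hKQ : K ≤ Qc) (w₀ : G)
    (hw₀Q : w₀ ∈ Qc) (hw₀K : w₀ ∉ K) :
    ∃ q ∈ Qc, (∀ k ∈ K, q * k = k * q) ∧ q * w₀ * q⁻¹ = c * w₀ := by
  obtain ⟨hcc, hZ⟩ := esdata_center5 Qc c data
  obtain ⟨hzQ, hz1, hz2, hzc, hZQ, hcomQ, hsqQ, hinQ, hnQ⟩ := data
  have hBcen : Subgroup.center ↥Qc ≤ K.subgroupOf Qc := by
    intro d hd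
    rw [Subgroup.mem_subgroupOf]
    rw [Subgroup.mem_center_iff] at hd
    have h1 : ∀ q ∈ Qc, q * (d : G) = (d : G) * q := by
      intro q hq
      exact congrArg Subtype.val (hd ⟨q, hq⟩)
    rcases hZQ _ d.2 h1 with h | h
    · rw [h]; exact K.one_mem
    · rw [h]; exact hcK
  have hD := es_double_cent5 hcc hZ (K.subgroupOf Qc) hBcen
  have hxB : (⟨w₀, hw₀Q⟩ : ↥Qc) ∉ K.subgroupOf Qc := by
    rw [Subgroup.mem_subgroupOf]; exact hw₀K
  rw [← hD, Subgroup.mem_centralizer_iff] at hxB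
  push Not at hxB
  obtain ⟨q, hq0, hqx⟩ := hxB
  have hq : q ∈ Subgroup.centralizer ((K.subgroupOf Qc : Subgroup ↥Qc) : Set ↥Qc) := hq0
  rw [Subgroup.mem_centralizer_iff] at hq
  refine ⟨(q : G), q.2, ?_, ?_⟩
  · intro k hk
    have h1 := hq ⟨k, hKQ hk⟩ (Subgroup.mem_subgroupOf.mpr hk)
    exact (congrArg Subtype.val h1).symm
  · rcases hcomQ (q : G) q.2 w₀ hw₀Q with h | h
    · exfalso
      apply hqx
      apply Subtype.ext
      rw [mul_inv_eq_one, mul_inv_eq_iff_eq_mul] at h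
      exact h
    · rw [mul_inv_eq_iff_eq_mul] at h
      exact h

/-- the join of the radicals of a singular subgroup induces every automorphism, in function
form -/
theorem es_sing_aut_fun5 {G : Type u} [Group G] [Finite G]
    (Q : G → Subgroup G)
    (hQ : ∀ x : G, Q x = (Cfsg.pCore 2 ↥(Subgroup.centralizer ({x} : Set G))).map
      (Subgroup.centralizer ({x} : Set G)).subtype)
    (z : G) (hz : orderOf z = 2) (hE : Cfsg.IsExtraspecial 2 ↥(Q z))
    (hC : Subgroup.centralizer ((Q z : Subgroup G) : Set G) ≤ Q z)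
    (U : Subgroup G) (hU2 : ∀ u ∈ U, u * u = 1)
    (hS : ∀ u ∈ U, u ≠ 1 → ∃ g : G, g * z * g⁻¹ = u)
    (hO : ∀ u ∈ U, ∀ v ∈ U, u ≠ 1 → v ≠ 1 → v ∈ Q u)
    (LU : Subgroup G) (hLU : LU = ⨆ u ∈ ((U : Set G) \ {1}), Q u)
    (f : G → G) (hfU : ∀ u ∈ U, f u ∈ U) (hfm : ∀ u ∈ U, ∀ v ∈ U, f (u * v) = f u * f v)
    (hfi : ∀ u ∈ U, f u = 1 → u = 1) :
    LU ≤ Subgroup.normalizer (U : Set G) ∧ ∃ g ∈ LU, ∀ u ∈ U, g * u * g⁻¹ = f u := by
  obtain ⟨hconj, hdata⟩ := es_sing_setup5 Q hQ z hz hE hC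
  have hdu : ∀ u ∈ U, u ≠ 1 → ESData5 (Q u) u := by
    intro u hu hu1
    obtain ⟨h, hh⟩ := hS u hu hu1
    rw [← hh]; exact hdata h
  have hF1 : ∀ u ∈ U, u ≠ 1 → U ≤ Q u := by
    intro u hu hu1 v hv
    by_cases hv1 : v = 1
    · rw [hv1]; exact (Q u).one_mem
    · exact hO u hu v hv hu1 hv1
  have hF2 : ∀ u ∈ U, u ≠ 1 → Q u ≤ Subgroup.normalizer (U : Set G) := by
    intro u hu hu1 q hq
    obtain ⟨hzQ, hz1, hz2, hzc, hZQ, hcomQ, hsqQ, hinQ, hnQ⟩ := hdu u hu hu1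
    apply mem_normalizer_of_conj_mem5
    intro v hv
    rcases hcomQ q hq v (hF1 u hu hu1 hv) with h | h
    · have h' : q * v * q⁻¹ = v := by rw [mul_inv_eq_one] at h; exact h
      rw [h']; exact hv
    · have h' : q * v * q⁻¹ = u * v := by rw [mul_inv_eq_iff_eq_mul] at h; exact h
      rw [h']; exact U.mul_mem hu hv
  have hF4 : ∀ u ∈ U, u ≠ 1 → Q u ≤ LU := by
    intro u hu hu1
    rw [hLU]
    exact le_iSup₂ (f := fun u (_ : u ∈ (U : Set G) \ {1}) => Q u) u ⟨hu, hu1⟩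
  have hLN : LU ≤ Subgroup.normalizer (U : Set G) := by
    rw [hLU]
    apply iSup₂_le
    intro u hu
    exact hF2 u hu.1 hu.2
  refine ⟨hLN, ?_⟩
  have hUinv : ∀ u ∈ U, u⁻¹ = u := fun u hu => inv_eq_of_mul_eq_one_left (hU2 u hu)
  have hUc : ∀ a ∈ U, ∀ b ∈ U, a * b = b * a := by
    intro a ha b hb
    have h1 := hU2 (a * b) (U.mul_mem ha hb)
    calc a * b = ((a * b) * (a * b)) * b⁻¹ * a⁻¹ := by group
      _ = b⁻¹ * a⁻¹ := by rw [h1]; group
      _ = b * a := by rw [hUinv a ha, hUinv b hb]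
  have hf1 : f 1 = 1 := by
    have h := hfm 1 U.one_mem 1 U.one_mem
    rw [mul_one] at h
    exact (mul_eq_left.mp h.symm)
  have hA : ∀ g : G, ∃ A : Subgroup G, ∀ v, v ∈ A ↔ (v ∈ U ∧ g * v * g⁻¹ = f v) := by
    intro g
    refine ⟨{ carrier := {v | v ∈ U ∧ g * v * g⁻¹ = f v}
              mul_mem' := ?_
              one_mem' := ?_
              inv_mem' := ?_ }, fun v => Iff.rfl⟩
    · rintro a b ⟨ha, ha'⟩ ⟨hb, hb'⟩
      refine ⟨U.mul_mem ha hb, ?_⟩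
      rw [hfm a ha b hb, ← ha', ← hb']; group
    · refine ⟨U.one_mem, ?_⟩
      rw [hf1]; group
    · rintro a ⟨ha, ha'⟩
      refine ⟨U.inv_mem ha, ?_⟩
      rw [hUinv a ha]; exact ha'
  choose A hA using hA
  obtain ⟨g₀, hmax⟩ := Finite.exists_max (fun g : ↥LU => Nat.card ↥(A (g : G)))
  refine ⟨(g₀ : G), g₀.2, ?_⟩
  by_contra hcon
  push Not at hcon
  obtain ⟨w₀, hw₀U, hw₀⟩ := hcon
  obtain ⟨g, hgdef⟩ : ∃ g : G, g = (g₀ : G) := ⟨_, rfl⟩
  rw [← hgdef] at hw₀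
  have hgL : g ∈ LU := by rw [hgdef]; exact g₀.2
  have hgN : g ∈ Subgroup.normalizer (U : Set G) := hLN hgL
  obtain ⟨y, hydef⟩ : ∃ y : G, y = g⁻¹ * f w₀ * g := ⟨_, rfl⟩
  have hyU : y ∈ U := by
    have h1 := (Subgroup.mem_normalizer_iff.mp (Subgroup.inv_mem _ hgN) (f w₀)).1 (hfU w₀ hw₀U)
    rw [inv_inv] at h1
    rw [hydef]; exact h1
  have hgy : g * y * g⁻¹ = f w₀ := by rw [hydef]; group
  have hyw : y ≠ w₀ := by
    intro h
    apply hw₀
    have h2 := hgy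
    rw [h] at h2
    exact h2
  have hyA : y ∉ A g := by
    intro h
    obtain ⟨-, h2⟩ := (hA g y).1 h
    rw [hgy] at h2
    apply hyw
    have h3 : f (y * w₀) = 1 := by
      rw [hfm y hyU w₀ hw₀U, ← h2, ← hfm w₀ hw₀U w₀ hw₀U, hU2 w₀ hw₀U, hf1]
    have h4 := hfi _ (U.mul_mem hyU hw₀U) h3
    have h5 : y = w₀⁻¹ := eq_inv_of_mul_eq_one_left h4
    rw [h5, hUinv w₀ hw₀U]
  have hw₀A : w₀ ∉ A g := by
    intro h
    exact hw₀ ((hA g w₀).1 h).2
  obtain ⟨c, hcdef⟩ : ∃ c : G, c = w₀ * y := ⟨_, rfl⟩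
  have hcU : c ∈ U := by rw [hcdef]; exact U.mul_mem hw₀U hyU
  have hc1 : c ≠ 1 := by
    intro h
    apply hyw
    rw [hcdef] at h
    have h5 : y = w₀⁻¹ := eq_inv_of_mul_eq_one_right h
    rw [h5, hUinv w₀ hw₀U]
  have hAU : A g ≤ U := fun v hv => ((hA g v).1 hv).1
  obtain ⟨S, hS'⟩ := inv_join5 (A g) c (hU2 c hcU) (fun w hw => hUc c hcU w (hAU hw))
  have hcS : c ∈ S := by
    rw [hS']; right; rw [hU2 c hcU]; exact (A g).one_mem
  have hSU : S ≤ U := by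
    intro v hv
    rcases (hS' v).1 hv with h | h
    · exact hAU h
    · have e : v = c⁻¹ * (c * v) := by group
      rw [e]; exact U.mul_mem (U.inv_mem hcU) (hAU h)
  have hcw₀ : c * w₀ = y := by
    rw [hcdef]
    calc w₀ * y * w₀ = w₀ * (y * w₀) := by group
      _ = w₀ * (w₀ * y) := by rw [hUc y hyU w₀ hw₀U]
      _ = (w₀ * w₀) * y := by group
      _ = y := by rw [hU2 w₀ hw₀U, one_mul]
  have hw₀S : w₀ ∉ S := by
    intro h
    rcases (hS' w₀).1 h with h | h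
    · exact hw₀A h
    · rw [hcw₀] at h; exact hyA h
  obtain ⟨q, hqQ, hqK, hqw⟩ := es_transvection5 (Q c) c (hdu c hcU hc1) S hcS
    (hSU.trans (hF1 c hcU hc1)) w₀ (hF1 c hcU hc1 hw₀U) hw₀S
  have hg'L : g * q ∈ LU := LU.mul_mem hgL (hF4 c hcU hc1 hqQ)
  have hle : A g ≤ A (g * q) := by
    intro v hv
    obtain ⟨hvU, hv'⟩ := (hA g v).1 hv
    rw [hA]
    refine ⟨hvU, ?_⟩
    have hqv : q * v = v * q := hqK v ((hS' v).2 (Or.inl hv))
    calc g * q * v * (g * q)⁻¹ = g * (q * v) * q⁻¹ * g⁻¹ := by group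
      _ = g * (v * q) * q⁻¹ * g⁻¹ := by rw [hqv]
      _ = g * v * g⁻¹ := by group
      _ = f v := hv'
  have hw₀A' : w₀ ∈ A (g * q) := by
    rw [hA]
    refine ⟨hw₀U, ?_⟩
    calc g * q * w₀ * (g * q)⁻¹ = g * (q * w₀ * q⁻¹) * g⁻¹ := by group
      _ = g * y * g⁻¹ := by rw [hqw, hcw₀]
      _ = f w₀ := hgy
  have hcard := hmax ⟨g * q, hg'L⟩
  have hcard' : Nat.card ↥(A (g * q)) ≤ Nat.card ↥(A g) := by
    have h2 := hcard
    rw [← hgdef] at h2
    exact h2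
  have heq := Subgroup.eq_of_le_of_card_ge hle hcard'
  rw [← heq] at hw₀A'
  exact hw₀A hw₀A'

/-- the join of the radicals of a singular subgroup induces its full automorphism group -/
theorem es_sing_aut5 {G : Type u} [Group G] [Finite G]
    (Q : G → Subgroup G)
    (hQ : ∀ x : G, Q x = (Cfsg.pCore 2 ↥(Subgroup.centralizer ({x} : Set G))).map
      (Subgroup.centralizer ({x} : Set G)).subtype)
    (z : G) (hz : orderOf z = 2) (hE : Cfsg.IsExtraspecial 2 ↥(Q z))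
    (hC : Subgroup.centralizer ((Q z : Subgroup G) : Set G) ≤ Q z)
    (U : Subgroup G) (hU2 : ∀ u ∈ U, u * u = 1)
    (hS : ∀ u ∈ U, u ≠ 1 → ∃ g : G, g * z * g⁻¹ = u)
    (hO : ∀ u ∈ U, ∀ v ∈ U, u ≠ 1 → v ≠ 1 → v ∈ Q u)
    (QU LU : Subgroup G) (hQU : QU = ⨅ u ∈ ((U : Set G) \ {1}), Q u)
    (hLU : LU = ⨆ u ∈ ((U : Set G) \ {1}), Q u)
    (n : ℕ) (hn : 2 ≤ n) (hcard : Nat.card ↥U = 2 ^ n) :
    U ≤ QU ∧ QU ≤ LU ∧ LU ≤ Subgroup.normalizer (U : Set G) ∧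
      ∀ φ : ↥U ≃* ↥U, ∃ g ∈ LU, ∀ u : ↥U, g * (u : G) * g⁻¹ = ((φ u : ↥U) : G) := by
  classical
  have hF1 : ∀ u ∈ U, u ≠ 1 → U ≤ Q u := by
    intro u hu hu1 v hv
    by_cases hv1 : v = 1
    · rw [hv1]; exact (Q u).one_mem
    · exact hO u hu v hv hu1 hv1
  have hne : ∃ u ∈ U, u ≠ 1 := by
    by_contra hcon
    push Not at hcon
    have hbot : U = ⊥ := by
      rw [eq_bot_iff]
      intro u hu
      rw [Subgroup.mem_bot]; exact hcon u hu
    rw [hbot, Subgroup.card_bot] at hcard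
    have h2 : 2 ^ 1 ≤ 2 ^ n := Nat.pow_le_pow_right (by norm_num) (by omega)
    omega
  obtain ⟨u₀, hu₀U, hu₀1⟩ := hne
  have hN : LU ≤ Subgroup.normalizer (U : Set G) :=
    (es_sing_aut_fun5 Q hQ z hz hE hC U hU2 hS hO LU hLU (fun x => x) (fun u hu => hu)
      (fun u _ v _ => rfl) (fun u _ h => h)).1
  refine ⟨?_, ?_, hN, ?_⟩
  · rw [hQU]
    apply le_iInf₂
    intro u hu
    exact hF1 u hu.1 hu.2
  · have h1 : QU ≤ Q u₀ := by
      rw [hQU]
      exact iInf₂_le u₀ (⟨hu₀U, hu₀1⟩ : u₀ ∈ (U : Set G) \ {1})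
    have h2 : Q u₀ ≤ LU := by
      rw [hLU]
      exact le_iSup₂ (f := fun u (_ : u ∈ (U : Set G) \ {1}) => Q u) u₀ ⟨hu₀U, hu₀1⟩
    exact h1.trans h2
  · intro φ
    obtain ⟨f, hfdef⟩ : ∃ f : G → G,
        f = fun x => if h : x ∈ U then ((φ ⟨x, h⟩ : ↥U) : G) else 1 := ⟨_, rfl⟩
    have hfval : ∀ (x : G) (h : x ∈ U), f x = ((φ ⟨x, h⟩ : ↥U) : G) := by
      intro x h
      rw [hfdef]
      exact dif_pos h
    have hfU : ∀ u ∈ U, f u ∈ U := by
      intro u hu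
      rw [hfval u hu]; exact (φ ⟨u, hu⟩).2
    have hfm : ∀ u ∈ U, ∀ v ∈ U, f (u * v) = f u * f v := by
      intro u hu v hv
      rw [hfval u hu, hfval v hv, hfval (u * v) (U.mul_mem hu hv)]
      have e : (⟨u * v, U.mul_mem hu hv⟩ : ↥U) = ⟨u, hu⟩ * ⟨v, hv⟩ := rfl
      rw [e, map_mul]; rfl
    have hfi : ∀ u ∈ U, f u = 1 → u = 1 := by
      intro u hu h
      rw [hfval u hu] at h
      have h1 : φ ⟨u, hu⟩ = 1 := Subtype.ext h
      have h2 : (⟨u, hu⟩ : ↥U) = 1 := by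
        have := φ.injective (h1.trans (map_one φ).symm)
        exact this
      exact congrArg Subtype.val h2
    obtain ⟨g, hgL, hg⟩ := (es_sing_aut_fun5 Q hQ z hz hE hC U hU2 hS hO LU hLU f hfU hfm hfi).2
    refine ⟨g, hgL, ?_⟩
    intro u
    rw [hg u u.2, hfval u u.2]

end Cfsg.Agent.Lib.Helper5
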