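import Mathlib
import Cfsg.Prelude.Def_CaseTheorems
import Cfsg.Prelude.Def_Transfer
import Cfsg.Agent.Lib.Lead.UniqueSub
import Cfsg.Agent.Lib.Helper1.CLT
import Cfsg.Agent.Lib.Helper3.NPC
import Cfsg.Agent.Lib.Helper3.PComplement
import Cfsg.Agent.Lib.Helper2.FStar
import Cfsg.Agent.Lib.Helper2.PQLayer2
import Cfsg.Agent.Lib.Helper2.Quasi
import Cfsg.Agent.Lib.Helper5.DStarOf
import Cfsg.Agent.Lib.Helper5.StronglyEmb
import Cfsg.Agent.Lib.Helper5.PRankOneIso5
import Cfsg.Agent.Lib.Helper5.ElemAbNormal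
import Cfsg.Agent.S1324

set_option autoImplicit false

universe u

namespace Cfsg.Agent.Lib.Helper5

/-- In a solvable group with trivial odd core, `O_2` is self-centralizing. -/
theorem centralizer_pCore_le5 {X : Type u} [Group X] [Finite X] (hs : Group.IsSolvable X)
    (hO : Cfsg.pPrimeCore 2 X = ⊥) :
    Subgroup.centralizer (Cfsg.pCore 2 X : Set X) ≤ Cfsg.pCore 2 X := by
  haveI : Fact (Nat.Prime 2) := ⟨Nat.prime_two⟩
  have hno : ∀ K : Subgroup X, ¬ Cfsg.IsComponent K := by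
    intro K hK
    exact Cfsg.Agent.Lib.Helper2.quasisimple_not_solvable hK.2 inferInstance
  have hF := Cfsg.Agent.Lib.Helper2.genFitting_eq_pCore_of_no_comp 2 hO hno
  have := Cfsg.Agent.Lib.Helper2.centralizer_genFitting_le X
  rwa [hF] at this

/-- An odd-order element of a 2-nilpotent involution centralizer commutes with the part of
`O_2` in that centralizer. -/
theorem npc_centralizes5 {H : Type u} [Group H] [Finite H] (t : H)
    (hI : Cfsg.HasNormalPComplement 2 ↥(Subgroup.centralizer ({t} : Set H)))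
    (x : H) (hx : (orderOf x).Coprime 2) (hxt : x * t = t * x)
    (w : H) (hw : w ∈ Cfsg.pCore 2 H) (hwt : w * t = t * w) : x * w = w * x := by
  haveI : Fact (Nat.Prime 2) := ⟨Nat.prime_two⟩
  obtain ⟨N, hNn, hNcop, -, hNall⟩ := Cfsg.Agent.Lib.Helper3.npc_exists hI
  have hxC : x ∈ Subgroup.centralizer ({t} : Set H) := by
    rw [Subgroup.mem_centralizer_iff]
    intro y hy
    rw [Set.mem_singleton_iff] at hy; subst hy; exact hxt.symm
  have hwC : w ∈ Subgroup.centralizer ({t} : Set H) := by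
    rw [Subgroup.mem_centralizer_iff]
    intro y hy
    rw [Set.mem_singleton_iff] at hy; subst hy; exact hwt.symm
  have hxN : (⟨x, hxC⟩ : ↥(Subgroup.centralizer ({t} : Set H))) ∈ N :=
    hNall _ (by rw [Subgroup.orderOf_mk]; exact hx)
  have hcN : (⟨x, hxC⟩ : ↥(Subgroup.centralizer ({t} : Set H))) *
      (⟨w, hwC⟩ * ⟨x, hxC⟩⁻¹ * ⟨w, hwC⟩⁻¹) ∈ N :=
    N.mul_mem hxN (hNn.conj_mem _ (N.inv_mem hxN) _)
  haveI := pCore_normal5 2 H
  have hcY : x * (w * x⁻¹ * w⁻¹) ∈ Cfsg.pCore 2 H := by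
    have h1 : x * w * x⁻¹ ∈ Cfsg.pCore 2 H := Subgroup.Normal.conj_mem inferInstance w hw x
    have h2 : x * (w * x⁻¹ * w⁻¹) = x * w * x⁻¹ * w⁻¹ := by group
    rw [h2]; exact Subgroup.mul_mem _ h1 (Subgroup.inv_mem _ hw)
  have hc1 : x * (w * x⁻¹ * w⁻¹) = 1 := by
    have h1 : orderOf ((⟨x, hxC⟩ : ↥(Subgroup.centralizer ({t} : Set H))) *
        (⟨w, hwC⟩ * ⟨x, hxC⟩⁻¹ * ⟨w, hwC⟩⁻¹)) ∣ Nat.card N := Subgroup.orderOf_dvd_natCard N hcN
    rw [← Subgroup.orderOf_coe] at h1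
    have h1' : orderOf (x * (w * x⁻¹ * w⁻¹)) ∣ Nat.card N := h1
    obtain ⟨k, hk⟩ := (pCore_isPGroup5 2 H) ⟨x * (w * x⁻¹ * w⁻¹), hcY⟩
    have h2 : (x * (w * x⁻¹ * w⁻¹)) ^ 2 ^ k = 1 := congrArg Subtype.val hk
    have h3 : orderOf (x * (w * x⁻¹ * w⁻¹)) ∣ 2 ^ k := orderOf_dvd_of_pow_eq_one h2
    have h4 : orderOf (x * (w * x⁻¹ * w⁻¹)) = 1 :=
      Nat.Coprime.eq_one_of_dvd
        (Nat.Coprime.coprime_dvd_left h1' (Nat.Coprime.pow_right k hNcop)) h3
    exact orderOf_eq_one_iff.mp h4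
  calc x * w = (x * (w * x⁻¹ * w⁻¹)) * w * x := by group
    _ = w * x := by rw [hc1, one_mul]

/-- Under the hypotheses, a nonidentity odd-order element commutes with no nonidentity element
of `O_2(H)`. -/
theorem odd_comm_core5 {H : Type u} [Group H] [Finite H] (hsol : Group.IsSolvable H)
    (hO : Cfsg.oddCore H = ⊥)
    (hI : ∀ t : H, orderOf t = 2 →
      Cfsg.HasNormalPComplement 2 ↥(Subgroup.centralizer ({t} : Set H)))
    (x : H) (hx : (orderOf x).Coprime 2) (y : H) (hy : y ∈ Cfsg.pCore 2 H) (hy1 : y ≠ 1)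
    (hxy : x * y = y * x) : x = 1 := by
  haveI : Fact (Nat.Prime 2) := ⟨Nat.prime_two⟩
  have hcent := centralizer_pCore_le5 hsol hO
  have hY2 := pCore_isPGroup5 2 H
  obtain ⟨k, hk⟩ := hY2 ⟨y, hy⟩
  have hyo : orderOf y ∣ 2 ^ k := orderOf_dvd_of_pow_eq_one (congrArg Subtype.val hk)
  obtain ⟨j, hjk, hj⟩ := (Nat.dvd_prime_pow Nat.prime_two).mp hyo
  have hj0 : j ≠ 0 := by
    rintro rfl
    rw [pow_zero, orderOf_eq_one_iff] at hj; exact hy1 hj
  obtain ⟨i, rfl⟩ : ∃ i, j = i + 1 := ⟨j - 1, by omega⟩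
  have hto : orderOf (y ^ 2 ^ i) = 2 := by
    rw [orderOf_pow' y (by positivity), hj, Nat.gcd_eq_right (pow_dvd_pow 2 (by omega)), pow_succ]
    exact Nat.mul_div_cancel_left _ (by positivity)
  have htY : y ^ 2 ^ i ∈ Cfsg.pCore 2 H := Subgroup.pow_mem _ hy _
  have hxt : x * y ^ 2 ^ i = y ^ 2 ^ i * x := (Commute.pow_right hxy _).eq
  have hYne : Cfsg.pCore 2 H ≠ ⊥ := fun h => hy1 (by rw [h] at hy; exact Subgroup.mem_bot.mp hy)
  obtain ⟨t', ht'Y, ht'o, ht'c⟩ := exists_central_orderOf_eq_prime (Cfsg.pCore 2 H) hY2 hYne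
  have hxt' : x * t' = t' * x :=
    npc_centralizes5 (y ^ 2 ^ i) (hI _ hto) x hx hxt t' ht'Y (ht'c _ htY)
  have hxC : x ∈ Subgroup.centralizer ((Cfsg.pCore 2 H : Subgroup H) : Set H) := by
    rw [Subgroup.mem_centralizer_iff]
    intro w hw
    exact (npc_centralizes5 t' (hI t' ht'o) x hx hxt' w hw (ht'c w hw).symm).symm
  have hxY := hcent hxC
  obtain ⟨k', hk'⟩ := hY2 ⟨x, hxY⟩
  have h1 : orderOf x ∣ 2 ^ k' := orderOf_dvd_of_pow_eq_one (congrArg Subtype.val hk')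
  have h2 : orderOf x = 1 := Nat.Coprime.eq_one_of_dvd (Nat.Coprime.pow_right k' hx) h1
  exact orderOf_eq_one_iff.mp h2

/-- A `p`-group acting fixed-point-freely on a nontrivial normal `p'`-subgroup has a unique
subgroup of order `p`. -/
theorem fpf_unique_sub5 {G : Type u} [Group G] [Finite G] {p : ℕ} [Fact p.Prime]
    (Q Y : Subgroup G) (hQ : IsPGroup p ↥Q) [Y.Normal] (hYp : ¬ p ∣ Nat.card ↥Y) (hY : Y ≠ ⊥)
    (hfpf : ∀ x ∈ Q, x ≠ 1 → ∀ y ∈ Y, x * y = y * x → y = 1)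
    (H1 K1 : Subgroup ↥Q) (hH1 : Nat.card H1 = p) (hK1 : Nat.card K1 = p) : H1 = K1 := by
  have hp : p.Prime := Fact.out
  by_contra hHK
  have hQ1 : Q ≠ ⊥ := by
    intro h
    haveI : Subsingleton ↥Q := by rw [h]; infer_instance
    exact hHK (Subsingleton.elim _ _)
  haveI : Nontrivial ↥Q := (Subgroup.nontrivial_iff_ne_bot _).mpr hQ1
  haveI := hQ.center_nontrivial
  obtain ⟨z, hzc, hzo⟩ := exists_orderOf_eq_prime_of_ne_bot (Subgroup.center ↥Q)
    (hQ.to_subgroup _) ((Subgroup.nontrivial_iff_ne_bot _).mp inferInstance)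
  obtain ⟨W, hW, hWZ⟩ : ∃ W : Subgroup ↥Q, Nat.card W = p ∧ W ≠ Subgroup.zpowers z := by
    by_cases h : H1 = Subgroup.zpowers z
    · exact ⟨K1, hK1, fun h' => hHK (h.trans h'.symm)⟩
    · exact ⟨H1, hH1, h⟩
  haveI : IsCyclic W := isCyclic_of_prime_card hW
  obtain ⟨w, hw⟩ := IsCyclic.exists_generator (α := W)
  have hwo : orderOf (w : ↥Q) = p := by
    rw [Subgroup.orderOf_coe, orderOf_eq_card_of_forall_mem_zpowers hw, hW]
  have hwz : (w : ↥Q) ∉ Subgroup.zpowers z := by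
    intro h
    apply hWZ
    have h1 : Subgroup.zpowers (w : ↥Q) ≤ Subgroup.zpowers z := Subgroup.zpowers_le.mpr h
    have h2 : Subgroup.zpowers (w : ↥Q) = Subgroup.zpowers z :=
      Subgroup.eq_of_le_of_card_ge h1 (by rw [Nat.card_zpowers, Nat.card_zpowers, hwo, hzo])
    have h3 : Subgroup.zpowers (w : ↥Q) = W :=
      Subgroup.eq_of_le_of_card_ge (Subgroup.zpowers_le.mpr w.2)
        (by rw [Nat.card_zpowers, hwo, hW])
    rw [← h3, h2]
  set zG : G := (z : G) with hzG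
  set wG : G := ((w : ↥Q) : G) with hwG
  have hzGo : orderOf zG = p := by rw [hzG, Subgroup.orderOf_coe]; exact hzo
  have hwGo : orderOf wG = p := by rw [hwG, Subgroup.orderOf_coe]; exact hwo
  have hcomm : zG * wG = wG * zG := by
    have := Subgroup.mem_center_iff.mp hzc (w : ↥Q)
    exact (congrArg Subtype.val this).symm
  have hwGz : wG ∉ Subgroup.zpowers zG := by
    intro h
    obtain ⟨k, hk⟩ := Subgroup.mem_zpowers_iff.mp h
    apply hwz
    refine Subgroup.mem_zpowers_iff.mpr ⟨k, ?_⟩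
    apply Subtype.ext
    rw [← hwG, ← hk, hzG]
    simp
  set E : Subgroup G := Subgroup.closure ({zG, wG} : Set G) with hE
  have hzE : zG ∈ E := Subgroup.subset_closure (by simp)
  have hwE : wG ∈ E := Subgroup.subset_closure (by simp)
  have hEQ : E ≤ Q := by
    rw [hE, Subgroup.closure_le]
    intro y hy
    rcases hy with rfl | hy
    · exact z.2
    · rw [Set.mem_singleton_iff] at hy; subst hy; exact (w : ↥Q).2
  have hEel : Cfsg.IsElementaryAbelian p E := by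
    refine ⟨⟨⟨fun a b => Subtype.ext (closure_pair_comm5 zG wG hcomm a a.2 b b.2)⟩⟩, ?_⟩
    exact closure_pair_exp5 zG wG hcomm p (by rw [← hzGo]; exact pow_orderOf_eq_one _)
      (by rw [← hwGo]; exact pow_orderOf_eq_one _)
  have hEp : IsPGroup p E := hQ.to_le hEQ
  have hE2 : p ^ 2 ≤ Nat.card E := by
    obtain ⟨k, hk⟩ := IsPGroup.iff_card.mp hEp
    rw [hk]
    apply Nat.pow_le_pow_right hp.pos
    by_contra hlt
    push Not at hlt
    have hle : Subgroup.zpowers zG ≤ E := Subgroup.zpowers_le.mpr hzE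
    have hcard : Nat.card E ≤ Nat.card (Subgroup.zpowers zG) := by
      rw [Nat.card_zpowers, hzGo, hk]
      calc p ^ k ≤ p ^ 1 := Nat.pow_le_pow_right hp.pos (by omega)
        _ = p := pow_one p
    have := Subgroup.eq_of_le_of_card_ge hle hcard
    exact hwGz (this ▸ hwE)
  have hEX : E ≤ Subgroup.normalizer ((Y : Subgroup G) : Set G) := by
    rw [Subgroup.normalizer_eq_top]; exact le_top
  have hgen := Cfsg.Agent.S1324.result p E Y hEel hE2 hYp hEX
  apply hY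
  rw [hgen, eq_bot_iff]
  apply iSup_le
  rintro ⟨B, hBE, hBidx⟩
  have hB : B ≠ ⊥ := by
    rintro rfl
    rw [Subgroup.relIndex_bot_left] at hBidx
    have : p < p ^ 2 := by
      calc p = p ^ 1 := (pow_one p).symm
        _ < p ^ 2 := Nat.pow_lt_pow_right hp.one_lt (by norm_num)
    omega
  obtain ⟨e, he1⟩ := (Subgroup.ne_bot_iff_exists_ne_one).mp hB
  intro y hy
  have hy' := Subgroup.mem_inf.mp hy
  have hcomm' : (e : G) * y = y * (e : G) := Subgroup.mem_centralizer_iff.mp hy'.2 (e : G) e.2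
  exact Subgroup.mem_bot.mpr (hfpf (e : G) (hEQ (hBE e.2))
    (fun h => he1 (Subtype.ext h)) y hy'.1 hcomm')

/-- A `p`-group (`p` odd) acting fixed-point-freely on a nontrivial normal `p'`-subgroup is
cyclic. -/
theorem fpf_cyclic5 {G : Type u} [Group G] [Finite G] {p : ℕ} [Fact p.Prime] (hp2 : p ≠ 2)
    (Q Y : Subgroup G) (hQ : IsPGroup p ↥Q) [Y.Normal] (hYp : ¬ p ∣ Nat.card ↥Y) (hY : Y ≠ ⊥)
    (hfpf : ∀ x ∈ Q, x ≠ 1 → ∀ y ∈ Y, x * y = y * x → y = 1) : IsCyclic ↥Q := by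
  rcases Cfsg.Agent.Lib.Lead.unique_sub_cyclic_or_quat p (G := ↥Q) hQ
    (fpf_unique_sub5 Q Y hQ hYp hY hfpf) with h | ⟨h, -⟩
  · exact h
  · exact absurd h hp2

/-- A cyclic Sylow 2-subgroup has a normal complement. -/
theorem cyclic_sylow_two_compl5 {G : Type u} [Group G] [Finite G] (T : Sylow 2 G)
    (hT : IsCyclic ↥(T : Subgroup G)) :
    ∃ K : Subgroup G, K.Normal ∧ K.IsComplement' (T : Subgroup G) := by
  haveI : Fact (Nat.Prime 2) := ⟨Nat.prime_two⟩
  by_cases h2 : 2 ∣ Nat.card G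
  · have hmin : (Nat.card G).minFac = 2 := (Nat.minFac_eq_two_iff _).mpr h2
    exact ⟨_, inferInstance, IsCyclic.isComplement' hmin hT⟩
  · have hTbot : (T : Subgroup G) = ⊥ := by
      obtain ⟨k, hk⟩ := IsPGroup.iff_card.mp T.isPGroup'
      have h1 : Nat.card (T : Subgroup G) ∣ Nat.card G := Subgroup.card_subgroup_dvd_card _
      rw [hk] at h1
      have hk0 : k = 0 := by
        by_contra hk0
        exact h2 ((dvd_pow_self 2 hk0).trans h1)
      rw [hk0, pow_zero] at hk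
      exact Subgroup.card_eq_one.mp hk
    refine ⟨⊤, Subgroup.normal_top, ?_⟩
    rw [hTbot]; exact Subgroup.isComplement'_top_bot

end Cfsg.Agent.Lib.Helper5
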