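import Mathlib
import Cfsg.Agent.Lib.Helper5.HallFrob5

set_option autoImplicit false

universe u

namespace Cfsg.Agent.Lib.Helper5

set_option maxHeartbeats 1600000 in
/-- Normality of `X O_2(H)` and a generator of the quotient. -/
theorem hall_frob_normal5 {H : Type u} [Group H] [Finite H] (hsol : Group.IsSolvable H)
    (hO : Cfsg.oddCore H = ⊥)
    (hI : ∀ t : H, orderOf t = 2 →
      Cfsg.HasNormalPComplement 2 ↥(Subgroup.centralizer ({t} : Set H)))
    (X : Subgroup H) (hXodd : Odd (Nat.card X)) (hXidx : ∃ k : ℕ, X.index = 2 ^ k) :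
    (X ⊔ Cfsg.pCore 2 H).Normal ∧
      ∃ τ : H, ∀ h : H, ∃ i : ℤ, h * τ ^ i ∈ X ⊔ Cfsg.pCore 2 H := by
  classical
  haveI : Fact (Nat.Prime 2) := ⟨Nat.prime_two⟩
  set Y := Cfsg.pCore 2 H with hYdef
  haveI hYn : Y.Normal := pCore_normal5 2 H
  have hY2 : IsPGroup 2 ↥Y := pCore_isPGroup5 2 H
  have hcent : Subgroup.centralizer (Y : Set H) ≤ Y := centralizer_pCore_le5 hsol hO
  have hoddX : ∀ x ∈ X, (orderOf x).Coprime 2 := by
    intro x hx
    have h1 : orderOf x ∣ Nat.card ↥X := Subgroup.orderOf_dvd_natCard X hx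
    exact Nat.Coprime.coprime_dvd_left h1 (Nat.coprime_two_right.mpr hXodd)
  by_cases hYtop : Y = ⊤
  · have h1 : X ⊔ Y = ⊤ := by rw [hYtop]; exact sup_top_eq _
    rw [h1]
    exact ⟨Subgroup.normal_top, 1, fun h => ⟨0, Subgroup.mem_top _⟩⟩
  have hYbot : Y ≠ ⊥ := by
    intro hb
    apply hYtop
    rw [eq_top_iff]
    intro h _
    apply hcent
    rw [Subgroup.mem_centralizer_iff]
    intro g hg
    rw [hb] at hg
    have hg1 : g = 1 := Subgroup.mem_bot.mp hg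
    rw [hg1, one_mul, mul_one]
  have hfpf : ∀ x : H, (orderOf x).Coprime 2 → x ≠ 1 → ∀ y ∈ Y, x * y = y * x → y = 1 := by
    intro x hx hx1 y hy hxy
    by_contra hy1
    exact hx1 (odd_comm_core5 hsol hO hI x hx y hy hy1 hxy)
  obtain ⟨h0, hh0⟩ : ∃ h0 : H, h0 ∉ Y := by
    by_contra hc
    push Not at hc
    exact hYtop (eq_top_iff.mpr fun h _ => hc h)
  haveI : Nontrivial (H ⧸ Y) :=
    nontrivial_of_ne (QuotientGroup.mk h0 : H ⧸ Y) 1
      (by rw [Ne, QuotientGroup.eq_one_iff]; exact hh0)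
  have htopne : (⊤ : Subgroup (H ⧸ Y)) ≠ ⊥ := top_ne_bot
  have hsolq : Group.IsSolvable ↥(⊤ : Subgroup (H ⧸ Y)) := inferInstance
  obtain ⟨V, r, hVn, hr, -, hVne, -, hVexp⟩ :=
    exists_normal_exponent_prime_of_solvable (⊤ : Subgroup (H ⧸ Y)) htopne hsolq
  haveI : Fact r.Prime := ⟨hr⟩
  set W : Subgroup H := V.comap (QuotientGroup.mk' Y) with hW
  haveI hWn : W.Normal := hVn.comap _
  have hYW : Y ≤ W := by
    intro y hy
    rw [hW, Subgroup.mem_comap]
    have h1 : (QuotientGroup.mk' Y) y = 1 := (QuotientGroup.eq_one_iff y).mpr hy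
    rw [h1]; exact V.one_mem
  have hWexp : ∀ w ∈ W, w ^ r ∈ Y := by
    intro w hw
    have h1 := hVexp _ (show (QuotientGroup.mk' Y) w ∈ V from hw)
    rw [← map_pow] at h1
    exact (QuotientGroup.eq_one_iff _).mp h1
  obtain ⟨w0, hw0W, hw0Y⟩ : ∃ w0 ∈ W, w0 ∉ Y := by
    obtain ⟨⟨v, hv⟩, hv1⟩ := (Subgroup.ne_bot_iff_exists_ne_one).mp hVne
    obtain ⟨w, rfl⟩ := QuotientGroup.mk_surjective v
    exact ⟨w, hv, fun h => hv1 (Subtype.ext ((QuotientGroup.eq_one_iff w).mpr h))⟩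
  have hr2 : r ≠ 2 := by
    rintro rfl
    have hW2 : IsPGroup 2 ↥W := by
      rintro ⟨w, hw⟩
      obtain ⟨k, hk⟩ := hY2 ⟨w ^ 2, hWexp w hw⟩
      refine ⟨k + 1, Subtype.ext ?_⟩
      have h1 : (w ^ 2) ^ 2 ^ k = 1 := congrArg Subtype.val hk
      show w ^ 2 ^ (k + 1) = 1
      rw [pow_succ', pow_mul]; exact h1
    exact hw0Y (le_pCore5 hWn hW2 hw0W)
  obtain ⟨R'⟩ : Nonempty (Sylow r ↥W) := inferInstance
  set R : Subgroup H := (R' : Subgroup ↥W).map W.subtype with hR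
  have hRW : R ≤ W := Subgroup.map_subtype_le _
  have hRr : IsPGroup r ↥R := R'.isPGroup'.map _
  have hrW : r ∣ Nat.card ↥W := by
    have h1 : orderOf ((QuotientGroup.mk' Y) w0) = r := by
      apply orderOf_eq_prime
      · exact hVexp _ hw0W
      · rw [Ne, QuotientGroup.mk'_apply, QuotientGroup.eq_one_iff]; exact hw0Y
    have h2 : orderOf ((QuotientGroup.mk' Y) w0) ∣ orderOf w0 := orderOf_map_dvd _ w0
    rw [h1] at h2
    exact h2.trans (Subgroup.orderOf_dvd_natCard W hw0W)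
  have hRne : R ≠ ⊥ := by
    intro h
    rw [hR, Subgroup.map_eq_bot_iff_of_injective _ (Subgroup.subtype_injective _)] at h
    exact R'.ne_bot_of_dvd_card hrW h
  have hrY : ¬ r ∣ Nat.card ↥Y := by
    intro h
    obtain ⟨b, hb⟩ := IsPGroup.iff_card.mp hY2
    rw [hb] at h
    exact hr2 ((Nat.prime_dvd_prime_iff_eq hr Nat.prime_two).mp (hr.dvd_of_dvd_pow h))
  have hRodd : ∀ f ∈ R, (orderOf f).Coprime 2 := by
    intro f hf
    obtain ⟨k, hk⟩ := hRr ⟨f, hf⟩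
    have h1 : orderOf f ∣ r ^ k := orderOf_dvd_of_pow_eq_one (congrArg Subtype.val hk)
    have h2 : (r ^ k).Coprime 2 :=
      Nat.Coprime.pow_left k ((Nat.coprime_primes hr Nat.prime_two).mpr hr2)
    exact Nat.Coprime.coprime_dvd_left h1 h2
  have hRcyc : IsCyclic ↥R := fpf_cyclic5 hr2 R Y hRr hrY hYbot
    (fun x hx hx1 y hy hxy => hfpf x (hRodd x hx) hx1 y hy hxy)
  obtain ⟨f0, hf0⟩ : ∃ f0 : H, R = Subgroup.zpowers f0 := by
    obtain ⟨⟨g, hg⟩, hgen⟩ := hRcyc.exists_generator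
    refine ⟨g, le_antisymm ?_ (Subgroup.zpowers_le.mpr hg)⟩
    intro x hx
    obtain ⟨i, hi⟩ := Subgroup.mem_zpowers_iff.mp (hgen ⟨x, hx⟩)
    exact Subgroup.mem_zpowers_iff.mpr ⟨i, by have := congrArg Subtype.val hi; simpa using this⟩
  have hf0R : f0 ∈ R := by rw [hf0]; exact Subgroup.mem_zpowers f0
  have hf01 : f0 ≠ 1 := by
    rintro rfl
    apply hRne; rw [hf0]; exact Subgroup.zpowers_one_eq_bot
  have hRcomm : ∀ a ∈ R, ∀ b ∈ R, a * b = b * a := by
    intro a ha b hb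
    rw [hf0] at ha hb
    obtain ⟨i, rfl⟩ := Subgroup.mem_zpowers_iff.mp ha
    obtain ⟨j, rfl⟩ := Subgroup.mem_zpowers_iff.mp hb
    rw [← zpow_add, ← zpow_add, add_comm]
  -- Frattini
  set N : Subgroup H := Subgroup.normalizer (R : Set H) with hN
  have hfrat : N ⊔ W = ⊤ := Sylow.normalizer_sup_eq_top R'
  have hRN : R ≤ N := Subgroup.le_normalizer
  have hWYR : W ≤ Y ⊔ R := by
    have hquot : IsPGroup r (↥W ⧸ Y.subgroupOf W) := by
      intro q
      induction q using QuotientGroup.induction_on with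
      | H w =>
        refine ⟨1, ?_⟩
        rw [pow_one, ← QuotientGroup.mk_pow, QuotientGroup.eq_one_iff, Subgroup.mem_subgroupOf]
        exact hWexp w w.2
    obtain ⟨c, hc⟩ := IsPGroup.iff_card.mp hquot
    have hidxY : (Y.subgroupOf W).index = r ^ c := by rw [Subgroup.index_eq_card]; exact hc
    have htop : Y.subgroupOf W ⊔ (R' : Subgroup ↥W) = ⊤ := by
      rw [← Subgroup.index_eq_one]
      have h1 : (Y.subgroupOf W ⊔ (R' : Subgroup ↥W)).index ∣ r ^ c := by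
        rw [← hidxY]; exact Subgroup.index_dvd_of_le le_sup_left
      have h2 : (Y.subgroupOf W ⊔ (R' : Subgroup ↥W)).index ∣ (R' : Subgroup ↥W).index :=
        Subgroup.index_dvd_of_le le_sup_right
      obtain ⟨j, hjc, hj⟩ := (Nat.dvd_prime_pow hr).mp h1
      rw [hj] at h2 ⊢
      by_contra hne
      have hj0 : j ≠ 0 := by rintro rfl; exact hne (pow_zero r)
      exact R'.not_dvd_index ((dvd_pow_self r hj0).trans h2)
    intro w hw
    have h1 : (⟨w, hw⟩ : ↥W) ∈ Y.subgroupOf W ⊔ (R' : Subgroup ↥W) := by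
      rw [htop]; exact Subgroup.mem_top _
    have h2 : w ∈ (Y.subgroupOf W ⊔ (R' : Subgroup ↥W)).map W.subtype := ⟨⟨w, hw⟩, h1, rfl⟩
    rw [Subgroup.map_sup, Subgroup.map_subgroupOf_eq_of_le hYW] at h2
    exact h2
  have hYN : Y ⊔ N = ⊤ := by
    rw [eq_top_iff, ← hfrat]
    exact sup_le le_sup_right (hWYR.trans (sup_le le_sup_left (hRN.trans le_sup_right)))
  have hdecomp : ∀ h : H, ∃ y ∈ Y, ∃ n ∈ N, h = y * n := by
    intro h
    have h1 : h ∈ Y ⊔ N := by rw [hYN]; exact Subgroup.mem_top h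
    obtain ⟨y, hy, n, hn, rfl⟩ := Subgroup.mem_sup_of_normal_left.mp h1
    exact ⟨y, hy, n, hn, rfl⟩
  have hNR : ∀ n ∈ N, ∀ f ∈ R, n * f * n⁻¹ ∈ R := by
    intro n hn f hf
    exact (Subgroup.mem_normalizer_iff.mp hn f).mp hf
  -- involutions of `N` invert `R`
  have hinvR : ∀ u ∈ N, orderOf u = 2 → ∀ f ∈ R, u * f * u⁻¹ = f⁻¹ := by
    intro u hu huo f hf
    have hu2 : u * u = 1 := by rw [← pow_two, ← huo]; exact pow_orderOf_eq_one u
    have huinv : u⁻¹ = u := inv_eq_of_mul_eq_one_right hu2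
    have hgR : f * (u * f * u⁻¹) ∈ R := R.mul_mem hf (hNR u hu f hf)
    have hgu : f * (u * f * u⁻¹) * u = u * (f * (u * f * u⁻¹)) := by
      have h1 : u * (f * (u * f * u⁻¹)) * u⁻¹ = (u * f * u⁻¹) * f := by
        rw [huinv]
        calc u * (f * (u * f * u)) * u = (u * f * u * f) * (u * u) := by group
          _ = u * f * u * f := by rw [hu2, mul_one]
      have h2 : u * (f * (u * f * u⁻¹)) * u⁻¹ = f * (u * f * u⁻¹) := by
        rw [h1]; exact hRcomm _ (hNR u hu f hf) _ hf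
      calc f * (u * f * u⁻¹) * u = (u * (f * (u * f * u⁻¹)) * u⁻¹) * u := by rw [h2]
        _ = u * (f * (u * f * u⁻¹)) := by group
    have hzu : IsPGroup 2 ↥(Subgroup.zpowers u) :=
      IsPGroup.of_card (n := 1) (by rw [Nat.card_zpowers, huo, pow_one])
    have hD : IsPGroup 2 ↥(Y ⊔ Subgroup.zpowers u) := hY2.to_sup_of_normal_left hzu
    obtain ⟨b, hbY, hb1, hbc⟩ := Cfsg.Agent.Lib.Helper1.exists_central_of_normal_pgroup
      (Y ⊔ Subgroup.zpowers u) Y hD le_sup_left hYbot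
    have hbu : b * u = u * b := (hbc u (le_sup_right (α := Subgroup H) (Subgroup.mem_zpowers u))).symm
    have hgb : f * (u * f * u⁻¹) * b = b * (f * (u * f * u⁻¹)) :=
      npc_centralizes5 u (hI u huo) _ (hRodd _ hgR) hgu b hbY hbu
    have hg1 : f * (u * f * u⁻¹) = 1 := by
      by_contra hg1
      exact hb1 (hfpf _ (hRodd _ hgR) hg1 b hbY hgb)
    exact eq_inv_of_mul_eq_one_right hg1
  have hC3 : ∀ c ∈ N, (∃ k : ℕ, c ^ 2 ^ k = 1) → (∀ f ∈ R, c * f = f * c) → c = 1 := by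
    rintro c hc ⟨k, hk⟩ hcf
    by_contra hc1
    obtain ⟨j, hjk, hj⟩ := (Nat.dvd_prime_pow Nat.prime_two).mp (orderOf_dvd_of_pow_eq_one hk)
    have hj0 : j ≠ 0 := by
      rintro rfl
      rw [pow_zero, orderOf_eq_one_iff] at hj; exact hc1 hj
    obtain ⟨i, rfl⟩ : ∃ i, j = i + 1 := ⟨j - 1, by omega⟩
    have huo : orderOf (c ^ 2 ^ i) = 2 := by
      rw [orderOf_pow' c (by positivity), hj, Nat.gcd_eq_right (pow_dvd_pow 2 (by omega)),
        pow_succ]
      exact Nat.mul_div_cancel_left _ (by positivity)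
    have h1 := hinvR (c ^ 2 ^ i) (N.pow_mem hc _) huo f0 hf0R
    have h2 : c ^ 2 ^ i * f0 = f0 * c ^ 2 ^ i :=
      (Commute.pow_left (show Commute c f0 from hcf f0 hf0R) _).eq
    have h3 : f0 = f0⁻¹ := by
      rw [← h1, h2]; group
    have h4 : f0 ^ 2 = 1 := by
      rw [pow_two]; nth_rewrite 1 [h3]; exact inv_mul_cancel f0
    have h5 : orderOf f0 ∣ 2 := orderOf_dvd_of_pow_eq_one h4
    have h6 : orderOf f0 = 1 := Nat.Coprime.eq_one_of_dvd (hRodd f0 hf0R) h5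
    exact hf01 (orderOf_eq_one_iff.mp h6)
  have hpow : ∀ s ∈ N, ∃ m : ℤ, s * f0 * s⁻¹ = f0 ^ m := by
    intro s hs
    have h1 := hNR s hs f0 hf0R
    rw [hf0] at h1
    obtain ⟨m, hm⟩ := Subgroup.mem_zpowers_iff.mp h1
    exact ⟨m, hm.symm⟩
  have hC2 : ∀ s ∈ N, ∀ s' ∈ N,
      ((s' * s)⁻¹ * (s * s')) * f0 = f0 * ((s' * s)⁻¹ * (s * s')) := by
    intro s hs s' hs'
    obtain ⟨m, hm⟩ := hpow s hs
    obtain ⟨m', hm'⟩ := hpow s' hs'
    have h1 : (s * s') * f0 * (s * s')⁻¹ = f0 ^ (m * m') := by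
      have e : (s * s') * f0 * (s * s')⁻¹ = s * (s' * f0 * s'⁻¹) * s⁻¹ := by group
      rw [e, hm', ← conj_zpow, hm, ← zpow_mul]
    have h2 : (s' * s) * f0 * (s' * s)⁻¹ = f0 ^ (m * m') := by
      have e : (s' * s) * f0 * (s' * s)⁻¹ = s' * (s * f0 * s⁻¹) * s'⁻¹ := by group
      rw [e, hm, ← conj_zpow, hm', ← zpow_mul, mul_comm]
    calc ((s' * s)⁻¹ * (s * s')) * f0
        = (s' * s)⁻¹ * ((s * s') * f0 * (s * s')⁻¹) * (s * s') := by group
      _ = (s' * s)⁻¹ * ((s' * s) * f0 * (s' * s)⁻¹) * (s * s') := by rw [h1, h2]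
      _ = f0 * ((s' * s)⁻¹ * (s * s')) := by group
  obtain ⟨T0⟩ : Nonempty (Sylow 2 ↥N) := inferInstance
  have hT0two : ∀ s : ↥N, s ∈ (T0 : Subgroup ↥N) → ∃ k : ℕ, (s : H) ^ 2 ^ k = 1 := by
    intro s hs
    obtain ⟨k, hk⟩ := T0.isPGroup' ⟨s, hs⟩
    refine ⟨k, ?_⟩
    have h1 : s ^ 2 ^ k = 1 := congrArg Subtype.val hk
    have h2 := congrArg Subtype.val h1
    simpa using h2
  have hT0comm : ∀ s s' : ↥N, s ∈ (T0 : Subgroup ↥N) → s' ∈ (T0 : Subgroup ↥N) →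
      s * s' = s' * s := by
    intro s s' hs hs'
    have hcT : (s' * s)⁻¹ * (s * s') ∈ (T0 : Subgroup ↥N) :=
      mul_mem (inv_mem (mul_mem hs' hs)) (mul_mem hs hs')
    have h1 := hC3 (((s' * s)⁻¹ * (s * s') : ↥N) : H) (Subtype.property _) (hT0two _ hcT) (by
      intro f hf
      rw [hf0] at hf
      obtain ⟨i, rfl⟩ := Subgroup.mem_zpowers_iff.mp hf
      have h2 := hC2 (s : H) s.2 (s' : H) s'.2
      exact (Commute.zpow_right (show Commute _ f0 from h2) i).eq)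
    have h2 : (s' * s)⁻¹ * (s * s') = 1 := Subtype.ext h1
    calc s * s' = (s' * s) * ((s' * s)⁻¹ * (s * s')) := by group
      _ = s' * s := by rw [h2, mul_one]
  have hT0uniq : ∀ A B : Subgroup ↥(T0 : Subgroup ↥N), Nat.card A = 2 → Nat.card B = 2 →
      A = B := by
    have hinvol : ∀ u u' : ↥(T0 : Subgroup ↥N), orderOf u = 2 → orderOf u' = 2 → u = u' := by
      intro u u' hu hu'
      have huH : orderOf ((u : ↥N) : H) = 2 := by
        rw [Subgroup.orderOf_coe, Subgroup.orderOf_coe]; exact hu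
      have hu'H : orderOf ((u' : ↥N) : H) = 2 := by
        rw [Subgroup.orderOf_coe, Subgroup.orderOf_coe]; exact hu'
      have h1 := hC3 (((u : ↥N) : H) * ((u' : ↥N) : H)⁻¹)
        (N.mul_mem (u : ↥N).2 (N.inv_mem (u' : ↥N).2)) ?_ ?_
      · apply Subtype.ext; apply Subtype.ext
        exact mul_inv_eq_one.mp h1
      · have h2 := hT0two ((u : ↥N) * (u' : ↥N)⁻¹) (mul_mem u.2 (inv_mem u'.2))
        simpa using h2
      · intro f hf
        have e1 := hinvR _ (u : ↥N).2 huH f hf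
        have e2 := hinvR _ (u' : ↥N).2 hu'H f⁻¹ (R.inv_mem hf)
        rw [inv_inv] at e2
        calc ((u : ↥N) : H) * ((u' : ↥N) : H)⁻¹ * f
            = ((u : ↥N) : H) * (((u' : ↥N) : H)⁻¹ * (((u' : ↥N) : H) * f⁻¹ * ((u' : ↥N) : H)⁻¹)
                * ((u' : ↥N) : H)) * ((u : ↥N) : H)⁻¹ * (((u : ↥N) : H) * ((u' : ↥N) : H)⁻¹) := by
              rw [e2]; group
          _ = (((u : ↥N) : H) * f * ((u : ↥N) : H)⁻¹)⁻¹ * (((u : ↥N) : H) * ((u' : ↥N) : H)⁻¹) := by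
              group
          _ = f * (((u : ↥N) : H) * ((u' : ↥N) : H)⁻¹) := by rw [e1, inv_inv]
    have key : ∀ A : Subgroup ↥(T0 : Subgroup ↥N), Nat.card A = 2 →
        ∃ u, orderOf u = 2 ∧ A = Subgroup.zpowers u := by
      intro A hA
      haveI : IsCyclic A := isCyclic_of_prime_card hA
      obtain ⟨w, hw⟩ := IsCyclic.exists_generator (α := A)
      have hwo : orderOf (w : ↥(T0 : Subgroup ↥N)) = 2 := by
        rw [Subgroup.orderOf_coe, orderOf_eq_card_of_forall_mem_zpowers hw, hA]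
      refine ⟨w, hwo, ?_⟩
      exact (Subgroup.eq_of_le_of_card_ge (Subgroup.zpowers_le.mpr w.2)
        (by rw [Nat.card_zpowers, hwo, hA])).symm
    intro A B hA hB
    obtain ⟨u, hu, rfl⟩ := key A hA
    obtain ⟨u', hu', rfl⟩ := key B hB
    rw [hinvol u u' hu hu']
  obtain ⟨τ, hτ⟩ := Cfsg.Agent.Lib.Lead.exists_zpowers_of_comm_unique 2 T0.isPGroup' hT0uniq ⊤
    (by
      intro a _ b _
      exact Subtype.ext (hT0comm a b a.2 b.2))
  have hT0cyc : IsCyclic ↥(T0 : Subgroup ↥N) :=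
    ⟨⟨τ, fun x => by
      have hx : x ∈ Subgroup.zpowers τ := by rw [← hτ]; exact Subgroup.mem_top x
      exact hx⟩⟩
  obtain ⟨K0, hK0n, hK0c⟩ := cyclic_sylow_two_compl5 T0 hT0cyc
  set K0' : Subgroup H := K0.map N.subtype with hK0'
  set K : Subgroup H := Y ⊔ K0' with hK
  have hK0'conj : ∀ n ∈ N, ∀ k ∈ K0', n * k * n⁻¹ ∈ K0' := by
    rintro n hn k ⟨k0, hk0, rfl⟩
    exact ⟨⟨n, hn⟩ * k0 * ⟨n, hn⟩⁻¹, hK0n.conj_mem k0 hk0 ⟨n, hn⟩, rfl⟩
  have hKmem : ∀ g : H, g ∈ K ↔ ∃ y ∈ Y, ∃ k ∈ K0', g = y * k := by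
    intro g
    rw [hK, Subgroup.mem_sup_of_normal_left]
    constructor
    · rintro ⟨y, hy, k, hk, rfl⟩; exact ⟨y, hy, k, hk, rfl⟩
    · rintro ⟨y, hy, k, hk, rfl⟩; exact ⟨y, hy, k, hk, rfl⟩
  have hKn : K.Normal := by
    constructor
    intro g hg h
    obtain ⟨y, hy, k, hk, rfl⟩ := (hKmem g).mp hg
    obtain ⟨y', hy', n, hn, rfl⟩ := hdecomp h
    rw [hKmem]
    refine ⟨y' * (n * y * n⁻¹) * ((n * k * n⁻¹) * y'⁻¹ * (n * k * n⁻¹)⁻¹), ?_, n * k * n⁻¹,
      hK0'conj n hn k hk, by group⟩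
    exact Y.mul_mem (Y.mul_mem hy' (hYn.conj_mem y hy n)) (hYn.conj_mem _ (Y.inv_mem hy') _)
  have hK0T0 : ∀ n' : ↥N, ∃ k0 ∈ K0, ∃ t ∈ (T0 : Subgroup ↥N), n' = k0 * t := by
    intro n'
    have h1 : n' ∈ K0 ⊔ (T0 : Subgroup ↥N) := by rw [hK0c.sup_eq_top]; exact Subgroup.mem_top _
    obtain ⟨k0, hk0, t, ht, rfl⟩ := Subgroup.mem_sup_of_normal_left.mp h1
    exact ⟨k0, hk0, t, ht, rfl⟩
  have hKpow : ∀ g : H, ∃ j : ℕ, g ^ 2 ^ j ∈ K := by
    intro g
    obtain ⟨y, hy, n, hn, rfl⟩ := hdecomp g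
    obtain ⟨k0, hk0, t, ht, hnt⟩ := hK0T0 ⟨n, hn⟩
    obtain ⟨j, hj⟩ := T0.isPGroup' ⟨t, ht⟩
    have htj : t ^ 2 ^ j = 1 := congrArg Subtype.val hj
    refine ⟨j, ?_⟩
    have hn' : n = (k0 : H) * (t : H) := congrArg Subtype.val hnt
    have hyK : y ∈ K := le_sup_left (α := Subgroup H) hy
    have hkK : (k0 : H) ∈ K := le_sup_right (α := Subgroup H) ⟨k0, hk0, rfl⟩
    rw [← QuotientGroup.eq_one_iff, QuotientGroup.mk_pow, hn', QuotientGroup.mk_mul,
      QuotientGroup.mk_mul, (QuotientGroup.eq_one_iff y).mpr hyK,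
      (QuotientGroup.eq_one_iff (k0 : H)).mpr hkK, one_mul, one_mul, ← QuotientGroup.mk_pow]
    have h3 : (t : H) ^ 2 ^ j = 1 := by
      have := congrArg Subtype.val htj
      simpa using this
    rw [h3, QuotientGroup.mk_one]
  have hXK : X ≤ K := by
    intro x hx
    obtain ⟨j, hj⟩ := hKpow x
    exact Cfsg.Agent.Lib.Helper3.mem_of_pow_prime_pow_mem K x (hoddX x hx) j hj
  have hle : X ⊔ Y ≤ K := sup_le hXK le_sup_left
  have hXY : X ⊓ Y = ⊥ := by
    rw [eq_bot_iff]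
    intro x hx
    obtain ⟨k, hk⟩ := hY2 ⟨x, hx.2⟩
    have h1 : orderOf x ∣ 2 ^ k := orderOf_dvd_of_pow_eq_one (congrArg Subtype.val hk)
    have h2 := Nat.Coprime.eq_one_of_dvd (Nat.Coprime.pow_right k (hoddX x hx.1)) h1
    exact Subgroup.mem_bot.mpr (orderOf_eq_one_iff.mp h2)
  have hcardXY : Nat.card ↥(X ⊔ Y) = Nat.card ↥Y * Nat.card ↥X := by
    have h1 := Subgroup.relIndex_mul_relIndex (⊥ : Subgroup H) Y (X ⊔ Y) bot_le le_sup_right
    rw [Subgroup.relIndex_bot_left, Subgroup.relIndex_bot_left, Subgroup.relIndex_sup_right] at h1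
    have h2 : Y.relIndex X = Nat.card ↥X := by
      rw [← Subgroup.inf_relIndex_right, inf_comm, hXY, Subgroup.relIndex_bot_left]
    rw [← h1, h2]
  have hcardK : Nat.card ↥K = Nat.card ↥Y * Y.relIndex K0' := by
    have h1 := Subgroup.relIndex_mul_relIndex (⊥ : Subgroup H) Y K bot_le le_sup_left
    rw [Subgroup.relIndex_bot_left, Subgroup.relIndex_bot_left, hK,
      Subgroup.relIndex_sup_left] at h1
    exact h1.symm
  have hd_odd : (Y.relIndex K0').Coprime 2 := by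
    have h1 : Y.relIndex K0' ∣ Nat.card ↥K0' := Subgroup.relIndex_dvd_card _ _
    have h2 : Nat.card ↥K0' = Nat.card ↥K0 := Subgroup.card_map_of_injective N.subtype_injective
    have h3 : (Nat.card ↥K0).Coprime 2 := by
      rw [← hK0c.index_eq_card]
      exact ((Nat.Prime.coprime_iff_not_dvd Nat.prime_two).mpr T0.not_dvd_index).symm
    exact Nat.Coprime.coprime_dvd_left h1 (h2 ▸ h3)
  have hd_le : Y.relIndex K0' ≤ Nat.card ↥X := by
    obtain ⟨k, hk⟩ := hXidx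
    have h1 : Y.relIndex K0' ∣ Nat.card H := by
      have h0 : Y.relIndex K0' ∣ Nat.card ↥K := by rw [hcardK]; exact dvd_mul_left _ _
      exact h0.trans (Subgroup.card_subgroup_dvd_card K)
    rw [← X.card_mul_index, hk] at h1
    have h2 : Y.relIndex K0' ∣ Nat.card ↥X :=
      (Nat.Coprime.pow_right k hd_odd).dvd_of_dvd_mul_right h1
    exact Nat.le_of_dvd Nat.card_pos h2
  have hKeq : X ⊔ Y = K := by
    apply Subgroup.eq_of_le_of_card_ge hle
    rw [hcardXY, hcardK]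
    exact Nat.mul_le_mul_left _ hd_le
  refine ⟨hKeq ▸ hKn, ((τ : ↥N) : H), ?_⟩
  intro h
  obtain ⟨y, hy, n, hn, rfl⟩ := hdecomp h
  obtain ⟨k0, hk0, t, ht, hnt⟩ := hK0T0 ⟨n, hn⟩
  have h1 : (⟨t, ht⟩ : ↥(T0 : Subgroup ↥N)) ∈ Subgroup.zpowers τ := by
    rw [← hτ]; exact Subgroup.mem_top _
  obtain ⟨i, hi⟩ := Subgroup.mem_zpowers_iff.mp h1
  refine ⟨-i, ?_⟩
  rw [hKeq, hKmem]
  refine ⟨y, hy, (k0 : H), ⟨k0, hk0, rfl⟩, ?_⟩
  have hn' : n = (k0 : H) * (t : H) := congrArg Subtype.val hnt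
  have ht' : (t : H) = ((τ : ↥N) : H) ^ i := by
    have h2 := congrArg (fun z : ↥(T0 : Subgroup ↥N) => ((z : ↥N) : H)) hi
    simpa using h2.symm
  rw [hn', ht']; group

/-- Solvable `H` with `O(H) = 1` and 2-nilpotent involution centralizers: structure of a Hall
`2'`-subgroup `X` relative to `O_2(H)`. -/
theorem hall_frob_main5 {H : Type u} [Group H] [Finite H] (hsol : Group.IsSolvable H)
    (hO : Cfsg.oddCore H = ⊥)
    (hI : ∀ t : H, orderOf t = 2 →
      Cfsg.HasNormalPComplement 2 ↥(Subgroup.centralizer ({t} : Set H)))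
    (X : Subgroup H) (hXodd : Odd (Nat.card X)) (hXidx : ∃ k : ℕ, X.index = 2 ^ k) :
    (∀ x ∈ X, x ≠ 1 → ∀ y ∈ Cfsg.pCore 2 H, y ≠ 1 → x * y ≠ y * x) ∧
      (∀ (p : ℕ) [Fact p.Prime] (P : Sylow p ↥X), IsCyclic ↥(P : Subgroup ↥X)) ∧
      (X ⊔ Cfsg.pCore 2 H).Normal ∧
      ∀ hN : (X ⊔ Cfsg.pCore 2 H).Normal, IsCyclic (H ⧸ (X ⊔ Cfsg.pCore 2 H)) ∧
        IsPGroup 2 (H ⧸ (X ⊔ Cfsg.pCore 2 H)) := by
  classical
  haveI : Fact (Nat.Prime 2) := ⟨Nat.prime_two⟩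
  have hY2 := pCore_isPGroup5 2 H
  haveI hYn := pCore_normal5 2 H
  have hoddX : ∀ x ∈ X, (orderOf x).Coprime 2 := by
    intro x hx
    have h1 : orderOf x ∣ Nat.card ↥X := Subgroup.orderOf_dvd_natCard X hx
    exact Nat.Coprime.coprime_dvd_left h1 (Nat.coprime_two_right.mpr hXodd)
  obtain ⟨hnorm, τ, hτ⟩ := hall_frob_normal5 hsol hO hI X hXodd hXidx
  refine ⟨?_, ?_, hnorm, ?_⟩
  · intro x hx hx1 y hy hy1 hxy
    exact hx1 (odd_comm_core5 hsol hO hI x (hoddX x hx) y hy hy1 hxy)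
  · intro p _ P
    by_cases hYbot : Cfsg.pCore 2 H = ⊥
    · have hsub : Subsingleton H := by
        have hcent := centralizer_pCore_le5 hsol hO
        rw [hYbot] at hcent
        have hall : ∀ a : H, a = 1 := by
          intro a
          have ha : a ∈ (⊥ : Subgroup H) := hcent (by
            rw [Subgroup.mem_centralizer_iff]
            intro g hg
            have hg1 : g = 1 := Subgroup.mem_bot.mp hg
            rw [hg1, one_mul, mul_one])
          exact Subgroup.mem_bot.mp ha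
        exact ⟨fun a b => by rw [hall a, hall b]⟩
      exact isCyclic_of_subsingleton
    · by_cases hp2 : p = 2
      · subst hp2
        have hPbot : (P : Subgroup ↥X) = ⊥ := by
          obtain ⟨k, hk⟩ := IsPGroup.iff_card.mp P.isPGroup'
          have h1 : Nat.card (P : Subgroup ↥X) ∣ Nat.card ↥X := Subgroup.card_subgroup_dvd_card _
          rw [hk] at h1
          have hk0 : k = 0 := by
            by_contra hk0
            have h2 : 2 ∣ Nat.card ↥X := (dvd_pow_self 2 hk0).trans h1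
            exact (Nat.not_even_iff_odd.mpr hXodd) (even_iff_two_dvd.mpr h2)
          rw [hk0, pow_zero] at hk
          exact Subgroup.card_eq_one.mp hk
        rw [hPbot]
        exact isCyclic_of_subsingleton
      · have hp : p.Prime := Fact.out
        have hQ : IsPGroup p ↥((P : Subgroup ↥X).map X.subtype) := P.isPGroup'.map _
        have hYp : ¬ p ∣ Nat.card ↥(Cfsg.pCore 2 H) := by
          intro h
          obtain ⟨b, hb⟩ := IsPGroup.iff_card.mp hY2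
          rw [hb] at h
          exact hp2 ((Nat.prime_dvd_prime_iff_eq hp Nat.prime_two).mp (hp.dvd_of_dvd_pow h))
        have hcyc := fpf_cyclic5 hp2 ((P : Subgroup ↥X).map X.subtype) (Cfsg.pCore 2 H) hQ hYp
          hYbot (by
            intro x hx hx1 y hy hxy
            by_contra hy1
            have hxX : x ∈ X := Subgroup.map_subtype_le _ hx
            exact hx1 (odd_comm_core5 hsol hO hI x (hoddX x hxX) y hy hy1 hxy))
        exact isCyclic_of_surjective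
          ((P : Subgroup ↥X).equivMapOfInjective X.subtype X.subtype_injective).symm.toMonoidHom
          (MulEquiv.surjective _)
  · intro hN
    refine ⟨⟨⟨QuotientGroup.mk τ, ?_⟩⟩, ?_⟩
    · intro q
      induction q using QuotientGroup.induction_on with
      | H h =>
        obtain ⟨i, hi⟩ := hτ h
        refine ⟨-i, ?_⟩
        have h1 : (QuotientGroup.mk (h * τ ^ i) : H ⧸ (X ⊔ Cfsg.pCore 2 H)) = 1 :=
          (QuotientGroup.eq_one_iff _).mpr hi
        rw [QuotientGroup.mk_mul, QuotientGroup.mk_zpow] at h1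
        show (QuotientGroup.mk τ : H ⧸ (X ⊔ Cfsg.pCore 2 H)) ^ (-i) = QuotientGroup.mk h
        rw [zpow_neg, eq_inv_of_mul_eq_one_right h1, inv_inv]
    · obtain ⟨k, hk⟩ := hXidx
      have h1 : (X ⊔ Cfsg.pCore 2 H).index ∣ 2 ^ k := by
        rw [← hk]; exact Subgroup.index_dvd_of_le le_sup_left
      obtain ⟨j, -, hj⟩ := (Nat.dvd_prime_pow Nat.prime_two).mp h1
      exact IsPGroup.of_card (n := j) (by rw [← Subgroup.index_eq_card]; exact hj)

end Cfsg.Agent.Lib.Helper5
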