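import Mathlib

namespace Cfsg.Agent.Lib.Helper5

theorem invAut_fpf5 {H : Type*} [Group H] [Finite H] (γ : MulAut H) (hγ2 : ∀ h, γ (γ h) = h)
    (hfix : ∀ h : H, γ h = h → h = 1) : (∀ a b : H, a * b = b * a) ∧ ∀ h : H, γ h = h⁻¹ := by
  have hinj : Function.Injective (fun h : H => h⁻¹ * γ h) := by
    intro a b hab
    simp only at hab
    have h1 : γ (b * a⁻¹) = b * a⁻¹ := by
      rw [map_mul, map_inv]
      have h2 : γ b = b * (a⁻¹ * γ a) := by rw [hab]; group
      rw [h2]; group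
    have h3 := hfix _ h1
    exact (mul_inv_eq_one.mp h3).symm
  have hsurj := Finite.surjective_of_injective hinj
  have hinv : ∀ h : H, γ h = h⁻¹ := by
    intro g
    obtain ⟨h, rfl⟩ := hsurj g
    simp only [map_mul, map_inv, hγ2, mul_inv_rev, inv_inv]
  refine ⟨?_, hinv⟩
  intro a b
  have h1 := hinv (a * b)
  rw [map_mul, hinv a, hinv b, mul_inv_rev] at h1
  have h2 : (a⁻¹ * b⁻¹)⁻¹ = (b⁻¹ * a⁻¹)⁻¹ := by rw [h1]
  simp only [mul_inv_rev, inv_inv] at h2
  exact h2.symm

theorem invAut_two_core5 {H : Type*} [Group H] [Finite H] (γ : MulAut H) (hγ2 : ∀ h, γ (γ h) = h)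
    (hC : Nat.card {h : H // γ h = h} = 2) (A : Subgroup H) (hA : A.index = 2)
    (hinv : ∀ a ∈ A, γ a ∈ A) : IsMulCommutative A ∧ ∀ a ∈ A, γ a = a⁻¹ := by
  classical
  haveI := Fintype.ofFinite H
  have hfA : ∀ h : H, h⁻¹ * γ h ∈ A := by
    intro h
    rw [Subgroup.mul_mem_iff_of_index_two hA, inv_mem_iff]
    constructor
    · exact hinv h
    · intro hh
      have := hinv _ hh
      rwa [hγ2] at this
  -- counting
  have hfib : ∀ a ∈ (Finset.univ : Finset H).image (fun h : H => h⁻¹ * γ h),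
      ((Finset.univ : Finset H).filter (fun x => x⁻¹ * γ x = a)).card ≤ 2 := by
    intro a ha
    rw [Finset.mem_image] at ha
    obtain ⟨x₀, -, rfl⟩ := ha
    have h2 : ((Finset.univ : Finset H).filter (fun h => γ h = h)).card = 2 := by
      rw [← Fintype.card_subtype, ← Nat.card_eq_fintype_card, hC]
    rw [← h2]
    apply Finset.card_le_card_of_injOn (fun x => x * x₀⁻¹)
    · intro x hx
      simp only [Finset.coe_filter, Finset.mem_univ, true_and, Set.mem_setOf_eq] at hx ⊢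
      rw [map_mul, map_inv]
      have h3 : γ x = x * (x₀⁻¹ * γ x₀) := by rw [← hx]; group
      rw [h3]; group
    · intro x _ y _ hxy
      exact mul_right_cancel hxy
  have hcard := Finset.card_le_mul_card_image (Finset.univ : Finset H) 2 hfib
  have hsub : (Finset.univ : Finset H).image (fun h : H => h⁻¹ * γ h) ⊆
      (Finset.univ : Finset H).filter (fun h => h ∈ A) := by
    intro a ha
    rw [Finset.mem_image] at ha
    obtain ⟨x₀, -, rfl⟩ := ha
    simp only [Finset.mem_filter, Finset.mem_univ, true_and]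
    exact hfA x₀
  have hAc : ((Finset.univ : Finset H).filter (fun h => h ∈ A)).card = Nat.card A := by
    rw [Nat.card_eq_fintype_card, Fintype.card_subtype]
  have hHc : (Finset.univ : Finset H).card = Nat.card A * 2 := by
    rw [Finset.card_univ, ← Nat.card_eq_fintype_card, ← hA, Subgroup.card_mul_index]
  have heq := Finset.eq_of_subset_of_card_le hsub (by rw [hAc]; omega)
  have hinvA : ∀ a ∈ A, γ a = a⁻¹ := by
    intro a ha
    have h1 : a ∈ (Finset.univ : Finset H).image (fun h : H => h⁻¹ * γ h) := by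
      rw [heq]; simp [ha]
    rw [Finset.mem_image] at h1
    obtain ⟨h, -, rfl⟩ := h1
    simp only [map_mul, map_inv, hγ2, mul_inv_rev, inv_inv]
  refine ⟨⟨⟨?_⟩⟩, hinvA⟩
  rintro ⟨a, ha⟩ ⟨b, hb⟩
  apply Subtype.ext
  show a * b = b * a
  have h1 := hinvA (a * b) (mul_mem ha hb)
  rw [map_mul, hinvA a ha, hinvA b hb, mul_inv_rev] at h1
  have h2 : (a⁻¹ * b⁻¹)⁻¹ = (b⁻¹ * a⁻¹)⁻¹ := by rw [h1]
  simp only [mul_inv_rev, inv_inv] at h2
  exact h2.symm

theorem invAut_main5 {H : Type*} [Group H] [Finite H] (γ : MulAut H) (hγ : orderOf γ = 2) :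
    ((∀ h : H, γ h = h → h = 1) → (∀ a b : H, a * b = b * a) ∧ ∀ h : H, γ h = h⁻¹) ∧
    ((Nat.card {h : H // γ h = h} = 2 ∧ ∃ M : Subgroup H, M.index = 2) →
      ∃ A : Subgroup H, A.index = 2 ∧ IsMulCommutative A ∧ (∀ a ∈ A, γ a ∈ A) ∧ ∀ a ∈ A, γ a = a⁻¹) := by
  have hγ2 : ∀ h, γ (γ h) = h := by
    intro h
    have h1 : γ ^ 2 = 1 := by rw [← hγ]; exact pow_orderOf_eq_one γ
    have h2 : (γ ^ 2) h = h := by rw [h1]; rfl
    rwa [pow_two, MulAut.mul_apply] at h2
  refine ⟨invAut_fpf5 γ hγ2, ?_⟩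
  rintro ⟨hC, M, hM⟩
  by_cases hMinv : ∀ a ∈ M, γ a ∈ M
  · exact ⟨M, hM, (invAut_two_core5 γ hγ2 hC M hM hMinv).1, hMinv,
      (invAut_two_core5 γ hγ2 hC M hM hMinv).2⟩
  · push_neg at hMinv
    obtain ⟨h₀, hh₀, hh₀'⟩ := hMinv
    let B : Subgroup H :=
      { carrier := {h | h ∈ M ↔ γ h ∈ M}
        mul_mem' := by
          intro a b ha hb
          simp only [Set.mem_setOf_eq] at ha hb ⊢
          rw [map_mul, Subgroup.mul_mem_iff_of_index_two hM, Subgroup.mul_mem_iff_of_index_two hM]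
          tauto
        one_mem' := by simp
        inv_mem' := by
          intro a ha
          simp only [Set.mem_setOf_eq] at ha ⊢
          rw [map_inv, inv_mem_iff, inv_mem_iff]
          exact ha }
    have hBmem : ∀ h, h ∈ B ↔ (h ∈ M ↔ γ h ∈ M) := fun h => Iff.rfl
    have hBinv : ∀ a ∈ B, γ a ∈ B := by
      intro a ha
      rw [hBmem] at ha ⊢
      rw [hγ2]
      exact ha.symm
    have hBidx : B.index = 2 := by
      rw [Subgroup.index_eq_two_iff]
      refine ⟨h₀, fun b => ?_⟩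
      rw [hBmem, hBmem, map_mul, Subgroup.mul_mem_iff_of_index_two hM,
        Subgroup.mul_mem_iff_of_index_two hM]
      rw [xor_def]
      tauto
    exact ⟨B, hBidx, (invAut_two_core5 γ hγ2 hC B hBidx hBinv).1, hBinv,
      (invAut_two_core5 γ hγ2 hC B hBidx hBinv).2⟩

end Cfsg.Agent.Lib.Helper5
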