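import Mathlib
import Cfsg.Agent.Lib.Helper5.SylowInterCenter
import Cfsg.Agent.Lib.Helper3.PGroup
import Cfsg.Agent.Lib.Helper4.Normalizer

set_option autoImplicit false

namespace Cfsg.Agent.Lib.Helper5

variable {X : Type*} [Group X]

/-- Conjugation by an element normalizing `R` preserves `Z(R)`. -/
theorem conj_mem_center_map5 (R : Subgroup X) (g : X)
    (hg : g ∈ Subgroup.normalizer (R : Set X)) (v : X)
    (hv : v ∈ (Subgroup.center ↥R).map R.subtype) :
    g * v * g⁻¹ ∈ (Subgroup.center ↥R).map R.subtype := by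
  rw [mem_center_map5] at hv ⊢
  refine ⟨Cfsg.Agent.Lib.Helper4.conj_mem_of_mem_normalizer hg hv.1, ?_⟩
  intro r hr
  have hr' : g⁻¹ * r * g ∈ R := by
    have := Cfsg.Agent.Lib.Helper4.conj_mem_of_mem_normalizer (Subgroup.inv_mem _ hg) hr
    rwa [inv_inv] at this
  have h1 := hv.2 _ hr'
  calc r * (g * v * g⁻¹) = g * ((g⁻¹ * r * g) * v) * g⁻¹ := by group
    _ = g * (v * (g⁻¹ * r * g)) * g⁻¹ := by rw [h1]
    _ = g * v * g⁻¹ * r := by group

theorem klein_center_main5 [Finite X] {p : ℕ} (hp : p.Prime) (hodd : Odd p) (P T R : Subgroup X)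
    (hP : IsPGroup p ↥P) (hT : IsKleinFour ↥T)
    (hRP : R ≤ P) (hRn : (R.subgroupOf P).Normal)
    (hTR : T ≤ Subgroup.normalizer (R : Set X))
    (hfac : R ⊔ (P ⊓ Subgroup.centralizer (T : Set X)) = P)
    (hZ : T ≤ Subgroup.centralizer (((Subgroup.center ↥P).map P.subtype : Subgroup X) : Set X)) :
    T ≤ Subgroup.centralizer (((Subgroup.center ↥R).map R.subtype : Subgroup X) : Set X) := by
  have : Fact p.Prime := ⟨hp⟩
  intro t ht
  have ht2 : t * t = 1 := by
    have h1 : (⟨t, ht⟩ : T) ^ 2 = 1 := by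
      have := Monoid.pow_exponent_eq_one (⟨t, ht⟩ : T)
      rwa [hT.exponent_two] at this
    have h2 := congrArg Subtype.val h1
    simpa [pow_two] using h2
  have htinv : t⁻¹ = t := inv_eq_of_mul_eq_one_left ht2
  have hPR : P ≤ Subgroup.normalizer (R : Set X) :=
    (Subgroup.normal_subgroupOf_iff_le_normalizer hRP).mp hRn
  -- the inverted part
  let Zm : Subgroup X :=
    { carrier := {v | v ∈ (Subgroup.center ↥R).map R.subtype ∧ t * v * t⁻¹ = v⁻¹}
      one_mem' := ⟨Subgroup.one_mem _, by group⟩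
      mul_mem' := by
        rintro a b ⟨ha, hat⟩ ⟨hb, hbt⟩
        refine ⟨Subgroup.mul_mem _ ha hb, ?_⟩
        have hab : a * b = b * a := ((mem_center_map5 R b).mp hb).2 a ((mem_center_map5 R a).mp ha).1
        have e : t * (a * b) * t⁻¹ = (t * a * t⁻¹) * (t * b * t⁻¹) := by group
        rw [e, hat, hbt, hab, mul_inv_rev]
      inv_mem' := by
        rintro a ⟨ha, hat⟩
        refine ⟨Subgroup.inv_mem _ ha, ?_⟩
        have e : t * a⁻¹ * t⁻¹ = (t * a * t⁻¹)⁻¹ := by group
        rw [e, hat] }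
  have hZm_mem : ∀ v, v ∈ Zm ↔ v ∈ (Subgroup.center ↥R).map R.subtype ∧ t * v * t⁻¹ = v⁻¹ :=
    fun v => Iff.rfl
  have hZmR : Zm ≤ R := fun v hv => ((mem_center_map5 R v).mp hv.1).1
  have hZmP : Zm ≤ P := hZmR.trans hRP
  have hPn : P ≤ Subgroup.normalizer (Zm : Set X) := by
    rw [← hfac]
    apply sup_le
    · apply Cfsg.Agent.Lib.Helper4.le_normalizer_of_conj_mem
      intro r hr v hv
      have h1 := ((mem_center_map5 R v).mp hv.1).2 r hr
      rw [h1, mul_inv_cancel_right]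
      exact hv
    · apply Cfsg.Agent.Lib.Helper4.le_normalizer_of_conj_mem
      intro c hc v hv
      refine ⟨conj_mem_center_map5 R c (hPR hc.1) v hv.1, ?_⟩
      have hct : t * c = c * t := (Subgroup.mem_centralizer_iff.mp hc.2) t ht
      calc t * (c * v * c⁻¹) * t⁻¹ = (t * c) * v * (t * c)⁻¹ := by group
        _ = (c * t) * v * (c * t)⁻¹ := by rw [hct]
        _ = c * (t * v * t⁻¹) * c⁻¹ := by group
        _ = c * v⁻¹ * c⁻¹ := by rw [hv.2]
        _ = (c * v * c⁻¹)⁻¹ := by group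
  have hZm0 : Zm = ⊥ := by
    by_contra hne
    haveI : (Zm.subgroupOf P).Normal := Subgroup.normal_subgroupOf_of_le_normalizer hPn
    have hne' : Zm.subgroupOf P ≠ ⊥ := by
      intro h
      apply hne
      rw [eq_bot_iff]
      intro v hv
      have : (⟨v, hZmP hv⟩ : P) ∈ Zm.subgroupOf P := by
        rw [Subgroup.mem_subgroupOf]; exact hv
      rw [h, Subgroup.mem_bot] at this
      have := congrArg Subtype.val this
      exact Subgroup.mem_bot.mpr this
    obtain ⟨z, hzZm, hz1, hzc⟩ :=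
      Cfsg.Agent.Lib.Helper3.exists_ne_one_mem_center_of_normal hP (Zm.subgroupOf P) hne'
    rw [Subgroup.mem_subgroupOf] at hzZm
    have hzZP : (z : X) ∈ (Subgroup.center ↥P).map P.subtype := ⟨z, hzc, rfl⟩
    have h1 := (Subgroup.mem_centralizer_iff.mp (hZ ht)) (z : X) hzZP
    have h2 : t * (z : X) * t⁻¹ = (z : X) := by rw [← h1]; group
    have h3 : (z : X)⁻¹ = (z : X) := by rw [← hzZm.2, h2]
    have h4 : (z : X) ^ 2 = 1 := by
      rw [pow_two]
      nth_rewrite 1 [← h3]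
      exact inv_mul_cancel _
    obtain ⟨k, hk⟩ := hP z
    have hk' : (z : X) ^ p ^ k = 1 := by
      have := congrArg Subtype.val hk
      simpa using this
    have h5 : orderOf (z : X) ∣ 2 := orderOf_dvd_of_pow_eq_one h4
    have h6 : orderOf (z : X) ∣ p ^ k := orderOf_dvd_of_pow_eq_one hk'
    have h7 : Nat.Coprime 2 (p ^ k) := by
      apply Nat.Coprime.pow_right
      rw [Nat.coprime_primes Nat.prime_two hp]
      rintro rfl
      exact absurd hodd (by decide)
    have h8 : orderOf (z : X) = 1 := Nat.eq_one_of_dvd_coprimes h7 h5 h6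
    apply hz1
    exact Subtype.ext (orderOf_eq_one_iff.mp h8)
  rw [Subgroup.mem_centralizer_iff]
  intro v hv
  have hw : v⁻¹ * (t * v * t⁻¹) ∈ Zm := by
    refine ⟨Subgroup.mul_mem _ (Subgroup.inv_mem _ hv) (conj_mem_center_map5 R t (hTR ht) v hv), ?_⟩
    have e : t * (v⁻¹ * (t * v * t⁻¹)) * t⁻¹ = (t * v * t⁻¹)⁻¹ * ((t * t) * v * (t * t)⁻¹) := by
      group
    rw [e, ht2]
    group
  rw [hZm0, Subgroup.mem_bot] at hw
  have : t * v * t⁻¹ = v := by
    have e : t * v * t⁻¹ = v * (v⁻¹ * (t * v * t⁻¹)) := by group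
    rw [e, hw, mul_one]
  calc v * t = (t * v * t⁻¹) * t := by rw [this]
    _ = t * v := by group

end Cfsg.Agent.Lib.Helper5
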