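import Mathlib
import Cfsg.Prelude.Def_SubgroupEmbedding
import Cfsg.Prelude.Def_Transfer
import Cfsg.Agent.Lib.Helper5.KleinSidki

set_option autoImplicit false

namespace Cfsg.Agent.Lib.Helper5

section

variable {G : Type*} [Group G]

theorem odd_orderOf_mul_of_commute (h h' : G) (hc : Commute h h') (hodd : Odd (orderOf h))
    (hodd' : Odd (orderOf h')) : Odd (orderOf (h * h')) := by
  have h1 : (h * h') ^ (orderOf h * orderOf h') = 1 := by
    rw [hc.mul_pow, pow_mul, pow_orderOf_eq_one, one_pow, mul_comm (orderOf h),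
      pow_mul, pow_orderOf_eq_one, one_pow, one_mul]
  exact Odd.of_dvd_nat (hodd.mul hodd') (orderOf_dvd_of_pow_eq_one h1)

/-- Key step for Sidki pairs of order four. -/
theorem sidki_mixed_false (V : Subgroup G) (hcomm : ∀ x ∈ V, ∀ y ∈ V, x * y = y * x)
    (hsq : ∀ x ∈ V, x * x = 1) (hS : Cfsg.IsSidkiPair V)
    (v w : G) (hv : v ∈ V) (hw : w ∈ V) (hvw : v ≠ w)
    (h3 : ∀ x ∈ V, x ≠ 1 → x = v ∨ x = w ∨ x = v * w)
    (h h' : G) (hodd : Odd (orderOf h)) (hodd' : Odd (orderOf h')) (hne : h ≠ 1) (hne' : h' ≠ 1)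
    (hvh : v * h * v⁻¹ = h⁻¹) (hwh : w * h * w⁻¹ = h) (hwh' : w * h' * w⁻¹ = h'⁻¹)
    (hvh' : v * h' * v⁻¹ = h') : False := by
  obtain ⟨c, hc⟩ : ∃ c, c = v * w := ⟨_, rfl⟩
  have hcV : c ∈ V := by rw [hc]; exact V.mul_mem hv hw
  have hch : c * h * c⁻¹ = h⁻¹ := by
    have e : c * h * c⁻¹ = v * (w * h * w⁻¹) * v⁻¹ := by rw [hc]; group
    rw [e, hwh, hvh]
  have hch' : c * h' * c⁻¹ = h'⁻¹ := by
    have e : c * h' * c⁻¹ = w * (v * h' * v⁻¹) * w⁻¹ := by
      rw [hc, hcomm v hv w hw]; group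
    rw [e, hvh', hwh']
  obtain ⟨k, hk⟩ := exists_sq_root_of_odd h hodd
  obtain ⟨u, hu⟩ : ∃ u, u = h ^ k := ⟨_, rfl⟩
  rw [← hu] at hk
  have hvu : v * u * v⁻¹ = u⁻¹ := by rw [hu]; exact conj_pow_inv5 v h hvh k
  have hwu : w * u * w⁻¹ = u := by rw [hu]; exact conj_pow_comm5 w h hwh k
  have hcu : c * u * c⁻¹ = u⁻¹ := by rw [hu]; exact conj_pow_inv5 c h hch k
  -- the conjugate `x` of `h'`
  obtain ⟨x, hx⟩ : ∃ x, x = u * h' * u⁻¹ := ⟨_, rfl⟩
  have hxodd : Odd (orderOf x) := by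
    have e : orderOf x = orderOf h' := by
      rw [hx]; exact (MulAut.conj u).orderOf_eq h'
    rw [e]; exact hodd'
  have hgen : ∀ z : G, z * x * z⁻¹ = (z * u * z⁻¹) * (z * h' * z⁻¹) * (z * u * z⁻¹)⁻¹ := by
    intro z; rw [hx]; group
  have hwx : w * x * w⁻¹ = x⁻¹ := by
    rw [hgen, hwu, hwh', hx]; group
  obtain ⟨z, hzV, hz1, hzx⟩ := hS x w hw hxodd hwx
  have hzx' : z * x * z⁻¹ = x := by rw [hzx, mul_inv_cancel_right]
  have hcommhh : h' * h = h * h' := by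
    rcases h3 z hzV hz1 with rfl | rfl | hzc
    · -- `z = v`
      rw [hgen, hvu, hvh', inv_inv, hx] at hzx'
      have e2 : u * (u⁻¹ * h' * u) * u = u * (u * h' * u⁻¹) * u := by rw [hzx']
      have e3 : u * (u⁻¹ * h' * u) * u = h' * (u * u) := by group
      have e4 : u * (u * h' * u⁻¹) * u = (u * u) * h' := by group
      rw [e3, e4, hk] at e2
      exact e2
    · -- `z = w`
      exfalso
      rw [hwx] at hzx'
      have e1 : x = 1 := by
        apply eq_one_of_odd_of_mul_self x hxodd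
        calc x * x = x * x⁻¹ := by rw [hzx']
          _ = 1 := mul_inv_cancel x
      apply hne'
      have e2 : h' = u⁻¹ * x * u := by rw [hx]; group
      rw [e2, e1]; group
    · -- `z = c`
      exfalso
      rw [hzc, ← hc] at hzx'
      rw [hgen, hcu, hch', inv_inv, hx] at hzx'
      have e2 : u * (u⁻¹ * h'⁻¹ * u) * u = u * (u * h' * u⁻¹) * u := by rw [hzx']
      have e3 : u * (u⁻¹ * h'⁻¹ * u) * u = h'⁻¹ * (u * u) := by group
      have e4 : u * (u * h' * u⁻¹) * u = (u * u) * h' := by group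
      rw [e3, e4, hk] at e2
      -- e2 : h'⁻¹ * h = h * h'
      have e5 : h⁻¹ * h' * h⁻¹⁻¹ = h'⁻¹ := by
        rw [inv_inv]
        have e6 : h⁻¹ * h' * h = (h⁻¹ * (h'⁻¹ * h))⁻¹ := by group
        rw [e6, e2]; group
      have hoddinv : Odd (orderOf h⁻¹) := by rw [orderOf_inv]; exact hodd
      exact hne' (eq_one_of_odd_inverts h⁻¹ h' hoddinv hodd' e5)
  -- now `h` and `h'` commute
  have hcm : Commute h h' := hcommhh.symm
  obtain ⟨p, hp⟩ : ∃ p, p = h * h' := ⟨_, rfl⟩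
  have hpodd : Odd (orderOf p) := by
    rw [hp]; exact odd_orderOf_mul_of_commute h h' hcm hodd hodd'
  have hgen2 : ∀ z : G, z * p * z⁻¹ = (z * h * z⁻¹) * (z * h' * z⁻¹) := by
    intro z; rw [hp]; group
  have hcp : c * p * c⁻¹ = p⁻¹ := by
    rw [hgen2, hch, hch', hp, mul_inv_rev]
    exact ((hcm.inv_left).inv_right).eq
  obtain ⟨z, hzV, hz1, hzp⟩ := hS p c hcV hpodd hcp
  have hzp' : z * p * z⁻¹ = p := by rw [hzp, mul_inv_cancel_right]
  rcases h3 z hzV hz1 with rfl | rfl | hzc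
  · -- `z = v`
    rw [hgen2, hvh, hvh', hp] at hzp'
    have e1 : h⁻¹ = h := mul_right_cancel hzp'
    apply hne
    apply eq_one_of_odd_of_mul_self h hodd
    calc h * h = h * h⁻¹ := by rw [e1]
      _ = 1 := mul_inv_cancel h
  · -- `z = w`
    rw [hgen2, hwh, hwh', hp] at hzp'
    have e1 : h'⁻¹ = h' := mul_left_cancel hzp'
    apply hne'
    apply eq_one_of_odd_of_mul_self h' hodd'
    calc h' * h' = h' * h'⁻¹ := by rw [e1]
      _ = 1 := mul_inv_cancel h'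
  · -- `z = c`
    rw [hzc, ← hc, hcp] at hzp'
    have e1 : p = 1 := by
      apply eq_one_of_odd_of_mul_self p hpodd
      calc p * p = p * p⁻¹ := by rw [hzp']
        _ = 1 := mul_inv_cancel p
    rw [hp] at e1
    have e2 : h' = h⁻¹ := (eq_inv_of_mul_eq_one_right e1)
    -- `w` centralizes `h⁻¹ = h'` and inverts `h'`
    have e3 : w * h' * w⁻¹ = h' := by
      rw [e2]
      have e4 : w * h⁻¹ * w⁻¹ = (w * h * w⁻¹)⁻¹ := by group
      rw [e4, hwh]
    rw [hwh'] at e3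
    apply hne'
    apply eq_one_of_odd_of_mul_self h' hodd'
    calc h' * h' = h' * h'⁻¹ := by rw [e3]
      _ = 1 := mul_inv_cancel h'

/-- A Sidki pair of order at most four whose involutions all invert nontrivial elements of odd
order does not exist. -/
theorem sidki_small_false [Finite G] (V : Subgroup G) (hV : Cfsg.IsElementaryAbelian 2 V)
    (hV1 : V ≠ ⊥) (hS : Cfsg.IsSidkiPair V) (h4 : Nat.card V ≤ 4)
    (hinv : ∀ v ∈ V, v ≠ 1 → ∃ h : G, h ≠ 1 ∧ Odd (orderOf h) ∧ v * h * v⁻¹ = h⁻¹) : False := by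
  have hsq : ∀ x ∈ V, x * x = 1 := by
    intro x hx
    have h1 := hV.2 x hx
    rw [pow_two] at h1
    exact h1
  have hcomm : ∀ x ∈ V, ∀ y ∈ V, x * y = y * x := by
    intro x hx y hy
    haveI := hV.1
    have h1 : (⟨x, hx⟩ : V) * ⟨y, hy⟩ = ⟨y, hy⟩ * ⟨x, hx⟩ := mul_comm' _ _
    exact congrArg Subtype.val h1
  have htype : ∀ v ∈ V, v ≠ 1 → ∀ h : G, h ≠ 1 → Odd (orderOf h) → v * h * v⁻¹ = h⁻¹ →
      ∃ w ∈ V, w ≠ 1 ∧ w ≠ v ∧ w * h * w⁻¹ = h := by
    intro v hv hv1 h hne hodd hvh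
    obtain ⟨x, hxV, hx1, hxh⟩ := hS h v hv hodd hvh
    refine ⟨x, hxV, hx1, ?_, by rw [hxh, mul_inv_cancel_right]⟩
    rintro rfl
    apply hne
    apply eq_one_of_odd_of_mul_self h hodd
    have e3 : h⁻¹ = h := by rw [← hvh, hxh, mul_inv_cancel_right]
    calc h * h = h * h⁻¹ := by rw [e3]
      _ = 1 := mul_inv_cancel h
  obtain ⟨⟨v₁, hv₁V⟩, hv₁ne⟩ := (Subgroup.ne_bot_iff_exists_ne_one).mp hV1
  have hv₁1 : v₁ ≠ 1 := fun e => hv₁ne (Subtype.ext e)
  obtain ⟨h₁, hne₁, hodd₁, hinv₁⟩ := hinv v₁ hv₁V hv₁1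
  obtain ⟨w, hwV, hw1, hwv, hwh₁⟩ := htype v₁ hv₁V hv₁1 h₁ hne₁ hodd₁ hinv₁
  obtain ⟨h₂, hne₂, hodd₂, hinv₂⟩ := hinv w hwV hw1
  obtain ⟨w₂, hw₂V, hw₂1, hw₂w, hw₂h₂⟩ := htype w hwV hw1 h₂ hne₂ hodd₂ hinv₂
  have hww : w * w = 1 := hsq w hwV
  have hvv : v₁ * v₁ = 1 := hsq v₁ hv₁V
  have h3 : ∀ x ∈ V, x ≠ 1 → x = v₁ ∨ x = w ∨ x = v₁ * w := by
    intro x hx hx1
    by_contra hcon
    push Not at hcon
    obtain ⟨e1, e2, e3⟩ := hcon
    have hvw1 : v₁ * w ≠ 1 := by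
      intro e
      apply hwv
      have e4 : v₁ = w⁻¹ := eq_inv_of_mul_eq_one_left e
      have e5 : w⁻¹ = w := by
        rw [inv_eq_iff_eq_inv, eq_inv_iff_mul_eq_one]; exact hww
      rw [e4, e5]
    have hvwv : v₁ * w ≠ v₁ := by
      intro e
      apply hw1
      have e4 : v₁ * w = v₁ * 1 := by rw [mul_one]; exact e
      exact mul_left_cancel e4
    have hvww : v₁ * w ≠ w := by
      intro e
      apply hv₁1
      have e4 : v₁ * w = 1 * w := by rw [one_mul]; exact e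
      exact mul_right_cancel e4
    have hf : Function.Injective (fun i : Fin 5 =>
        (![(1 : G), v₁, w, v₁ * w, x] i)) := by
      intro i j hij
      fin_cases i <;> fin_cases j <;>
        first
        | rfl
        | (exfalso
           simp only [Matrix.cons_val_zero, Matrix.cons_val_one, Matrix.cons_val] at hij
           first
           | exact hv₁1 hij | exact hv₁1 hij.symm | exact hw1 hij | exact hw1 hij.symm
           | exact hx1 hij | exact hx1 hij.symm | exact hwv hij | exact hwv hij.symm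
           | exact e1 hij | exact e1 hij.symm | exact e2 hij | exact e2 hij.symm
           | exact e3 hij | exact e3 hij.symm | exact hvw1 hij | exact hvw1 hij.symm
           | exact hvwv hij | exact hvwv hij.symm | exact hvww hij | exact hvww hij.symm)
    have hmem : ∀ i : Fin 5, (![(1 : G), v₁, w, v₁ * w, x] i) ∈ V := by
      intro i
      fin_cases i
      · exact V.one_mem
      · exact hv₁V
      · exact hwV
      · exact V.mul_mem hv₁V hwV
      · exact hx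
    have hf' : Function.Injective (fun i : Fin 5 =>
        (⟨![(1 : G), v₁, w, v₁ * w, x] i, hmem i⟩ : V)) := by
      intro i j hij
      exact hf (congrArg Subtype.val hij)
    have h5 := Nat.card_le_card_of_injective _ hf'
    rw [Nat.card_fin] at h5
    omega
  by_cases hcase : w₂ = v₁
  · rw [hcase] at hw₂h₂
    exact sidki_mixed_false V hcomm hsq hS v₁ w hv₁V hwV (fun e => hwv e.symm) h3 h₁ h₂ hodd₁ hodd₂
      hne₁ hne₂ hinv₁ hwh₁ hinv₂ hw₂h₂
  · have hw₂eq : w₂ = v₁ * w := by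
      rcases h3 w₂ hw₂V hw₂1 with e | e | e
      · exact absurd e hcase
      · exact absurd e hw₂w
      · exact e
    have h3' : ∀ x ∈ V, x ≠ 1 → x = w₂ ∨ x = w ∨ x = w₂ * w := by
      intro x hx hx1
      have e4 : w₂ * w = v₁ := by rw [hw₂eq, mul_assoc, hww, mul_one]
      rw [e4]
      rcases h3 x hx hx1 with e | e | e
      · exact Or.inr (Or.inr e)
      · exact Or.inr (Or.inl e)
      · exact Or.inl (by rw [hw₂eq]; exact e)
    have hw₂h₁ : w₂ * h₁ * w₂⁻¹ = h₁⁻¹ := by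
      have e5 : w₂ * h₁ * w₂⁻¹ = v₁ * (w * h₁ * w⁻¹) * v₁⁻¹ := by rw [hw₂eq]; group
      rw [e5, hwh₁, hinv₁]
    exact sidki_mixed_false V hcomm hsq hS w₂ w hw₂V hwV hw₂w h3' h₁ h₂ hodd₁ hodd₂
      hne₁ hne₂ hw₂h₁ hwh₁ hinv₂ hw₂h₂

end

end Cfsg.Agent.Lib.Helper5
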