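import Mathlib
import Cfsg.Agent.Lib.Helper5.StronglyEmb
import Cfsg.Agent.Lib.Helper5.Isolated
import Cfsg.Agent.Lib.Helper5.DStarOf
import Cfsg.Agent.Lib.Helper5.PGroupBasics

set_option autoImplicit false

namespace Cfsg.Agent.Lib.Helper5

variable {G : Type*} [Group G]

/-- `S ∩ N` is a maximal `p`-subgroup of the normal subgroup `N`. -/
theorem sylow_inf_normal_max5 [Finite G] {p : ℕ} [Fact p.Prime] (P : Sylow p G) (N : Subgroup G)
    [N.Normal] (T : Subgroup G) (hT : IsPGroup p T) (hTN : T ≤ N)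
    (hPT : (P : Subgroup G) ⊓ N ≤ T) : T ≤ (P : Subgroup G) := by
  obtain ⟨S', hS'⟩ := sylow_inf_normal5 P N
  have h1 : IsPGroup p (T.subgroupOf N) := hT.comap_subtype
  have h2 : (S' : Subgroup N) ≤ T.subgroupOf N := by
    rw [hS']
    intro y hy
    rw [Subgroup.mem_subgroupOf] at hy ⊢
    exact hPT ⟨hy, y.2⟩
  have h3 := S'.is_maximal' h1 h2
  intro t ht
  have : (⟨t, hTN ht⟩ : N) ∈ T.subgroupOf N := by
    rw [Subgroup.mem_subgroupOf]; exact ht
  rw [h3, hS', Subgroup.mem_subgroupOf] at this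
  exact this

theorem localCtl_main5 [Finite G] {p : ℕ} [Fact p.Prime] (P : Sylow p G) (x : G)
    (hxP : x ∈ (P : Subgroup G))
    (hlc : ∀ R : Subgroup G, R ≤ (P : Subgroup G) → R ≠ ⊥ →
      Subgroup.normalizer (R : Set G) ≤ Subgroup.centralizer ({x} : Set G)) :
    (P : Subgroup G) ≤ Subgroup.centralizer ({x} : Set G) ∧
    (∀ g : G, g * x * g⁻¹ ∈ (P : Subgroup G) → g * x * g⁻¹ = x) ∧
    ∀ (N : Subgroup G) [N.Normal], ∀ R : Subgroup (G ⧸ N),
      R ≤ (P : Subgroup G).map (QuotientGroup.mk' N) → R ≠ ⊥ →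
      Subgroup.normalizer (R : Set (G ⧸ N)) ≤
        Subgroup.centralizer ({(QuotientGroup.mk x : G ⧸ N)} : Set (G ⧸ N)) := by
  have ha : (P : Subgroup G) ≤ Subgroup.centralizer ({x} : Set G) := by
    by_cases hP : (P : Subgroup G) = ⊥
    · rw [hP]; exact bot_le
    · exact Subgroup.le_normalizer.trans (hlc _ le_rfl hP)
  refine ⟨ha, ?_, ?_⟩
  · intro g hg
    by_cases hx1 : x = 1
    · rw [hx1]; group
    have hX : Subgroup.zpowers x ≤ (P : Subgroup G) := by
      rw [Subgroup.zpowers_le]; exact hxP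
    have hX1 : Subgroup.zpowers x ≠ ⊥ := by
      intro h
      rw [Subgroup.zpowers_eq_bot] at h
      exact hx1 h
    have hgH : g ∈ Subgroup.centralizer ({x} : Set G) := by
      apply semb_fusion P _ ha hlc (Subgroup.zpowers x) (hX.trans ha) (P.isPGroup'.to_le hX) hX1 g
      intro y hy
      obtain ⟨k, rfl⟩ := Subgroup.mem_zpowers_iff.mp hy
      have h1 : g * x ^ k * g⁻¹ = (g * x * g⁻¹) ^ k := by
        rw [conj_zpow]
      rw [h1]
      exact Subgroup.zpow_mem _ (ha hg) k
    rw [Subgroup.mem_centralizer_iff] at hgH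
    have := hgH x (Set.mem_singleton x)
    rw [← this]; group
  · intro N _ R hRP hR1 q hq
    obtain ⟨g, rfl⟩ := QuotientGroup.mk'_surjective N q
    -- L = preimage of R
    have hNL : N ≤ R.comap (QuotientGroup.mk' N) := by
      intro n hn
      rw [Subgroup.mem_comap]
      have : (QuotientGroup.mk' N) n = 1 := (QuotientGroup.eq_one_iff n).mpr hn
      rw [this]; exact R.one_mem
    have hmax : ∀ R' : Subgroup G, R' ≤ R.comap (QuotientGroup.mk' N) → IsPGroup p R' →
        (P : Subgroup G) ⊓ R.comap (QuotientGroup.mk' N) ≤ R' →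
        R' = (P : Subgroup G) ⊓ R.comap (QuotientGroup.mk' N) := by
      intro R' hR'L hR'p hRR'
      apply le_antisymm _ hRR'
      intro y hy
      have hyL := hR'L hy
      obtain ⟨u, hu, huy⟩ := hRP (Subgroup.mem_comap.mp hyL)
      have huL : u ∈ R.comap (QuotientGroup.mk' N) := by
        rw [Subgroup.mem_comap, huy]; exact Subgroup.mem_comap.mp hyL
      have huR' : u ∈ R' := hRR' ⟨hu, huL⟩
      have hker : u⁻¹ * y ∈ N := QuotientGroup.eq.mp huy
      have hT : R' ⊓ N ≤ (P : Subgroup G) := by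
        apply sylow_inf_normal_max5 P N (R' ⊓ N) (hR'p.to_le inf_le_left) inf_le_right
        intro z hz
        exact ⟨hRR' ⟨hz.1, hNL hz.2⟩, hz.2⟩
      have h1 : u⁻¹ * y ∈ (P : Subgroup G) :=
        hT ⟨R'.mul_mem (R'.inv_mem huR') hy, hker⟩
      have h2 : y = u * (u⁻¹ * y) := by group
      refine ⟨?_, hyL⟩
      rw [h2]
      exact Subgroup.mul_mem _ hu h1
    -- g normalizes L
    have hgL : ∀ l ∈ R.comap (QuotientGroup.mk' N), g * l * g⁻¹ ∈ R.comap (QuotientGroup.mk' N) := by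
      intro l hl
      rw [Subgroup.mem_comap] at hl ⊢
      rw [map_mul, map_mul, map_inv]
      exact (Subgroup.mem_normalizer_iff.mp hq _).mp hl
    have hQL : ((P : Subgroup G) ⊓ R.comap (QuotientGroup.mk' N)).map (MulAut.conj g).toMonoidHom ≤
        R.comap (QuotientGroup.mk' N) := by
      rintro _ ⟨r, hr, rfl⟩
      exact hgL r hr.2
    obtain ⟨n, hnL, hn⟩ := exists_conj_mem_of_max_pSubgroup (R.comap (QuotientGroup.mk' N))
      ((P : Subgroup G) ⊓ R.comap (QuotientGroup.mk' N)) _ inf_le_right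
      (P.isPGroup'.to_le inf_le_left) hmax hQL ((P.isPGroup'.to_le inf_le_left).map _)
    have haN : n⁻¹ * g ∈ Subgroup.normalizer
        (((P : Subgroup G) ⊓ R.comap (QuotientGroup.mk' N) : Subgroup G) : Set G) := by
      apply mem_normalizer_of_conj_mem5
      intro r hr
      have := hn _ ⟨r, hr, rfl⟩
      have e : n⁻¹ * g * r * (n⁻¹ * g)⁻¹ = n⁻¹ * ((MulAut.conj g).toMonoidHom r) * n := by
        show n⁻¹ * g * r * (n⁻¹ * g)⁻¹ = n⁻¹ * (g * r * g⁻¹) * n
        group
      rw [e]; exact this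
    have hRne : (P : Subgroup G) ⊓ R.comap (QuotientGroup.mk' N) ≠ ⊥ := by
      intro h0
      apply hR1
      rw [eq_bot_iff]
      intro y hy
      obtain ⟨u, hu, huy⟩ := hRP hy
      have huL : u ∈ R.comap (QuotientGroup.mk' N) := by
        rw [Subgroup.mem_comap, huy]; exact hy
      have : u ∈ (P : Subgroup G) ⊓ R.comap (QuotientGroup.mk' N) := ⟨hu, huL⟩
      rw [h0, Subgroup.mem_bot] at this
      rw [← huy, this, map_one]
      exact Subgroup.mem_bot.mpr rfl
    have haC := hlc _ inf_le_left hRne haN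
    -- π n commutes with π x
    obtain ⟨u, hu, hun⟩ := hRP (Subgroup.mem_comap.mp hnL)
    have huC := ha hu
    rw [Subgroup.mem_centralizer_iff] at haC huC ⊢
    intro h hh
    rw [Set.mem_singleton_iff] at hh
    subst hh
    have h1 := haC x (Set.mem_singleton x)
    have h2 := huC x (Set.mem_singleton x)
    have e : (QuotientGroup.mk' N) g = (QuotientGroup.mk' N) u * (QuotientGroup.mk' N) (n⁻¹ * g) := by
      rw [hun, ← map_mul]; congr 1; group
    show (QuotientGroup.mk' N) x * (QuotientGroup.mk' N) g = (QuotientGroup.mk' N) g * (QuotientGroup.mk' N) x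
    rw [e, ← map_mul, ← map_mul, ← map_mul]
    congr 1
    calc x * (u * (n⁻¹ * g)) = (x * u) * (n⁻¹ * g) := by group
      _ = (u * x) * (n⁻¹ * g) := by rw [h2]
      _ = u * (x * (n⁻¹ * g)) := by group
      _ = u * ((n⁻¹ * g) * x) := by rw [h1]
      _ = u * (n⁻¹ * g) * x := by group

end Cfsg.Agent.Lib.Helper5
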