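import Mathlib
import Cfsg.Prelude.Def_PLocal
import Cfsg.Prelude.Def_DStar
import Cfsg.Agent.Lib.Helper5.CD
import Cfsg.Agent.Lib.Helper5.CDLarge2
import Cfsg.Agent.Lib.Helper5.DStar

set_option autoImplicit false

namespace Cfsg.Agent.Lib.Helper5

open scoped commutatorElement

section

variable {S : Type*} [Group S]

theorem mem_normalizer_of_conj_mem [Finite S] (A : Subgroup S) (x : S)
    (h : ∀ a ∈ A, x * a * x⁻¹ ∈ A) : x ∈ Subgroup.normalizer (A : Set S) := by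
  have hle : A.map (MulAut.conj x).toMonoidHom ≤ A := by
    rintro _ ⟨a, ha, rfl⟩; exact h a ha
  have hcard : Nat.card A ≤ Nat.card (A.map (MulAut.conj x).toMonoidHom) := by
    rw [Subgroup.card_map_of_injective (MulAut.conj x).injective]
  have heq := Subgroup.eq_of_le_of_card_ge hle hcard
  rw [Subgroup.mem_normalizer_iff]
  intro a
  constructor
  · exact h a
  · intro ha
    rw [← heq] at ha
    obtain ⟨b, hb, hb2⟩ := ha
    have : b = a := (MulAut.conj x).injective hb2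
    rw [← this]; exact hb

/-- **Thompson replacement theorem** (for an abelian normal subgroup `M` of a `p`-group). -/
theorem thompson_replacement_normal [Finite S] {p : ℕ} [Fact p.Prime] (hS : IsPGroup p S)
    (A : Subgroup S) (hA : A ∈ Cfsg.maxAbelianSubgroups S) (M : Subgroup S) (hMn : M.Normal)
    (hMa : ∀ x ∈ M, ∀ y ∈ M, x * y = y * x)
    (hnot : ¬ M ≤ Subgroup.normalizer (A : Set S)) :
    ∃ B ∈ Cfsg.maxAbelianSubgroups S, A ⊓ M < B ⊓ M ∧ B ≤ Subgroup.normalizer (A : Set S) := by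
  have hAab := maxAbelian_comm A hA
  have hnil : Group.IsNilpotent S := hS.isNilpotent
  obtain ⟨n, hn⟩ := hnil.nilpotent
  have hcomM : ∀ m ∈ M, ∀ g : S, ⁅m, g⁆ ∈ M := by
    intro m hm g
    have h1 : g * m⁻¹ * g⁻¹ ∈ M := hMn.conj_mem _ (M.inv_mem hm) g
    have h2 : ⁅m, g⁆ = m * (g * m⁻¹ * g⁻¹) := by simp only [commutatorElement_def]; group
    rw [h2]; exact M.mul_mem hm h1
  -- Step 1: the element x
  obtain ⟨x, hxM, hxN, hxc⟩ : ∃ x ∈ M, x ∉ Subgroup.normalizer (A : Set S) ∧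
      ∀ g : S, ⁅x, g⁆ ∈ Subgroup.normalizer (A : Set S) := by
    by_contra hne
    push Not at hne
    apply hnot
    have key : ∀ k : ℕ, ∀ m ∈ M, m ∈ Subgroup.upperCentralSeries S k →
        m ∈ Subgroup.normalizer (A : Set S) := by
      intro k
      induction k with
      | zero =>
        intro m _ hm
        rw [Subgroup.upperCentralSeries_zero, Subgroup.mem_bot] at hm
        rw [hm]; exact Subgroup.one_mem _
      | succ k ih =>
        intro m hmM hm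
        by_contra hmN
        obtain ⟨g, hg⟩ := hne m hmM hmN
        exact hg (ih _ (hcomM m hmM g) (Subgroup.mem_upperCentralSeries_succ_iff.mp hm g))
    intro m hm
    exact key n m hm (by rw [hn]; exact Subgroup.mem_top m)
  -- Step 2: the subgroup generated by the commutators
  obtain ⟨Mx, hMxdef⟩ : ∃ Mx : Subgroup S,
      Mx = Subgroup.closure {c : S | ∃ a ∈ A, c = ⁅x, a⁆} := ⟨_, rfl⟩
  have hgen : ∀ a ∈ A, ⁅x, a⁆ ∈ Mx := by
    intro a ha; rw [hMxdef]; exact Subgroup.subset_closure ⟨a, ha, rfl⟩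
  have hMxM : Mx ≤ M := by
    rw [hMxdef, Subgroup.closure_le]; rintro _ ⟨a, ha, rfl⟩; exact hcomM x hxM a
  have hMxN : Mx ≤ Subgroup.normalizer (A : Set S) := by
    rw [hMxdef, Subgroup.closure_le]; rintro _ ⟨a, ha, rfl⟩; exact hxc a
  have hD : ∀ m ∈ M, m ∈ Subgroup.normalizer (A : Set S) → ∀ a ∈ A, ⁅m, a⁆ ∈ A := by
    intro m _ hmN a ha
    have h1 : m * a * m⁻¹ ∈ A := (Subgroup.mem_normalizer_iff.mp hmN a).mp ha
    have h2 : ⁅m, a⁆ = (m * a * m⁻¹) * a⁻¹ := rfl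
    rw [h2]; exact A.mul_mem h1 (A.inv_mem ha)
  -- Step 3: the symmetry [[x,a],b] = [[x,b],a]
  have hsymm : ∀ a ∈ A, ∀ b ∈ A, ⁅⁅x, a⁆, b⁆ = ⁅⁅x, b⁆, a⁆ := by
    intro a ha b hb
    have huM : ⁅x, a⁆ ∈ M := hcomM x hxM a
    have hvM : ⁅x, b⁆ ∈ M := hcomM x hxM b
    have hd1M : ⁅⁅x, b⁆, a⁆ ∈ M := hcomM _ hvM a
    have hd2M : ⁅⁅x, a⁆, b⁆ ∈ M := hcomM _ huM b
    have h1 : ⁅x, a * b⁆ = ⁅x, b * a⁆ := by rw [hAab a ha b hb]
    rw [comm_mul_right_eq, comm_mul_right_eq] at h1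
    have h2 : a * ⁅x, b⁆ * a⁻¹ = (⁅⁅x, b⁆, a⁆)⁻¹ * ⁅x, b⁆ := by
      simp only [commutatorElement_def]; group
    have h3 : b * ⁅x, a⁆ * b⁻¹ = (⁅⁅x, a⁆, b⁆)⁻¹ * ⁅x, a⁆ := by
      simp only [commutatorElement_def]; group
    rw [h2, h3] at h1
    have e1 : ⁅x, a⁆ * ((⁅⁅x, b⁆, a⁆)⁻¹ * ⁅x, b⁆) = (⁅⁅x, b⁆, a⁆)⁻¹ * (⁅x, a⁆ * ⁅x, b⁆) := by
      rw [← mul_assoc, ← mul_assoc, hMa _ huM _ (M.inv_mem hd1M)]
    have e2 : ⁅x, b⁆ * ((⁅⁅x, a⁆, b⁆)⁻¹ * ⁅x, a⁆) = (⁅⁅x, a⁆, b⁆)⁻¹ * (⁅x, a⁆ * ⁅x, b⁆) := by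
      rw [← mul_assoc, ← mul_assoc, hMa _ hvM _ (M.inv_mem hd2M), mul_assoc, mul_assoc,
        hMa _ hvM _ huM]
    rw [e1, e2] at h1
    exact (inv_injective (mul_right_cancel h1)).symm
  -- Step 4
  have hK : ∀ a ∈ A, ⁅x, a⁆ ∈ A → a ∈ Subgroup.centralizer (Mx : Set S) := by
    intro a ha hxa
    have hle : Mx ≤ Subgroup.centralizer ({a} : Set S) := by
      rw [hMxdef, Subgroup.closure_le]
      rintro _ ⟨b, hb, rfl⟩
      rw [SetLike.mem_coe, Subgroup.mem_centralizer_iff]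
      intro y hy
      rw [Set.mem_singleton_iff] at hy
      subst hy
      have h1 : ⁅⁅x, b⁆, y⁆ = 1 := by
        rw [← hsymm y ha b hb, commutatorElement_eq_one_iff_mul_comm]
        exact hAab _ hxa b hb
      exact ((commutatorElement_eq_one_iff_mul_comm).mp h1).symm
    rw [Subgroup.mem_centralizer_iff]
    intro m hm
    exact (Subgroup.mem_centralizer_iff.mp (hle hm) a rfl).symm
  -- Step 5: counting
  have hfib : ∀ a b : A, (QuotientGroup.mk (⟨⁅x, (a : S)⁆, hgen a a.2⟩ : Mx) :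
        Mx ⧸ A.subgroupOf Mx) = QuotientGroup.mk (⟨⁅x, (b : S)⁆, hgen b b.2⟩ : Mx) →
      (b : S)⁻¹ * a ∈ A ⊓ Subgroup.centralizer (Mx : Set S) := by
    intro a b hab
    have h1 := QuotientGroup.eq.mp hab.symm
    rw [Subgroup.mem_subgroupOf] at h1
    have h2 : (⁅x, (b : S)⁆)⁻¹ * ⁅x, (a : S)⁆ ∈ A := h1
    have h3 : ⁅x, (b : S)⁻¹ * a⁆ = (b : S)⁻¹ * ((⁅x, (b : S)⁆)⁻¹ * ⁅x, (a : S)⁆) * b := by
      simp only [commutatorElement_def]; group
    have h4 : (b : S)⁻¹ * a ∈ A := A.mul_mem (A.inv_mem b.2) a.2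
    refine ⟨h4, hK _ h4 ?_⟩
    rw [h3]
    exact A.mul_mem (A.mul_mem (A.inv_mem b.2) h2) b.2
  classical
  obtain ⟨g, hg⟩ : ∃ g : A → Mx ⧸ A.subgroupOf Mx,
      g = fun a : A => QuotientGroup.mk (⟨⁅x, (a : S)⁆, hgen a a.2⟩ : Mx) := ⟨_, rfl⟩
  obtain ⟨r, hr⟩ : ∃ r : (Mx ⧸ A.subgroupOf Mx) → A, ∀ a : A, g (r (g a)) = g a := by
    refine ⟨fun q => if h : ∃ a, g a = q then Classical.choose h else 1, ?_⟩
    intro a
    have h : ∃ a', g a' = g a := ⟨a, rfl⟩
    simp only [dif_pos h]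
    exact Classical.choose_spec h
  have hfib' : ∀ a : A, ((r (g a) : A) : S)⁻¹ * a ∈ A ⊓ Subgroup.centralizer (Mx : Set S) := by
    intro a
    apply hfib
    have := hr a
    rw [hg] at this
    rw [hg]
    exact this.symm
  have hinj : Function.Injective (fun a : A =>
      ((g a, ⟨((r (g a) : A) : S)⁻¹ * a, hfib' a⟩) :
        (Mx ⧸ A.subgroupOf Mx) × ↥(A ⊓ Subgroup.centralizer (Mx : Set S)))) := by
    intro a b hab
    have h1 : g a = g b := congrArg Prod.fst hab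
    have h2 := congrArg (fun t => (t.2 : S)) hab
    simp only at h2
    rw [h1] at h2
    exact Subtype.ext (mul_left_cancel h2)
  have hcount : Nat.card A ≤ Nat.card (Mx ⧸ A.subgroupOf Mx) *
      Nat.card ↥(A ⊓ Subgroup.centralizer (Mx : Set S)) := by
    have := Nat.card_le_card_of_injective _ hinj
    rwa [Nat.card_prod] at this
  have hq : Nat.card Mx = Nat.card (Mx ⧸ A.subgroupOf Mx) * Nat.card (A.subgroupOf Mx) :=
    Subgroup.card_eq_card_quotient_mul_card_subgroup _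
  have hsub : Nat.card (A.subgroupOf Mx) = Nat.card ↥(A ⊓ Mx) := by
    rw [← Subgroup.inf_subgroupOf_right]
    exact Nat.card_congr (Subgroup.subgroupOfEquivOfLe inf_le_right).toEquiv
  have hineq : Nat.card A * Nat.card ↥(A ⊓ Mx) ≤
      Nat.card Mx * Nat.card ↥(A ⊓ Subgroup.centralizer (Mx : Set S)) := by
    rw [hq, hsub]
    calc Nat.card A * Nat.card ↥(A ⊓ Mx)
        ≤ (Nat.card (Mx ⧸ A.subgroupOf Mx) *
            Nat.card ↥(A ⊓ Subgroup.centralizer (Mx : Set S))) * Nat.card ↥(A ⊓ Mx) :=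
          Nat.mul_le_mul_right _ hcount
      _ = _ := by ring
  -- Step 6: the replacement
  have hMxab : ∀ u ∈ Mx, ∀ v ∈ Mx, u * v = v * u := fun u hu v hv => hMa u (hMxM hu) v (hMxM hv)
  have hCab : ∀ u ∈ A ⊓ Subgroup.centralizer (Mx : Set S),
      ∀ v ∈ A ⊓ Subgroup.centralizer (Mx : Set S), u * v = v * u :=
    fun u hu v hv => hAab u hu.1 v hv.1
  have hMxC : ∀ u ∈ Mx, ∀ v ∈ A ⊓ Subgroup.centralizer (Mx : Set S), u * v = v * u :=
    fun u hu v hv => Subgroup.mem_centralizer_iff.mp hv.2 u hu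
  have hBab := sup_comm_of_comm Mx (A ⊓ Subgroup.centralizer (Mx : Set S)) hMxab hCab hMxC
  have hcard : Nat.card A ≤ Nat.card ↥(Mx ⊔ (A ⊓ Subgroup.centralizer (Mx : Set S))) := by
    have h1 := card_mul_card_le_sup_inf Mx (A ⊓ Subgroup.centralizer (Mx : Set S))
    have h2 : Nat.card ↥(Mx ⊓ (A ⊓ Subgroup.centralizer (Mx : Set S))) ≤ Nat.card ↥(A ⊓ Mx) :=
      Subgroup.card_le_of_le (fun y hy => ⟨hy.2.1, hy.1⟩)
    have hpos : 0 < Nat.card ↥(A ⊓ Mx) := Nat.card_pos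
    have h3 : Nat.card A * Nat.card ↥(A ⊓ Mx) ≤
        Nat.card ↥(Mx ⊔ (A ⊓ Subgroup.centralizer (Mx : Set S))) * Nat.card ↥(A ⊓ Mx) :=
      hineq.trans (h1.trans (Nat.mul_le_mul_left _ h2))
    exact Nat.le_of_mul_le_mul_right h3 hpos
  refine ⟨Mx ⊔ (A ⊓ Subgroup.centralizer (Mx : Set S)),
    ⟨IsMulCommutative.of_setLike_mul_comm hBab, fun B hB => (hA.2 B hB).trans hcard⟩, ?_, ?_⟩
  · apply lt_of_le_of_ne
    · intro d hd
      refine ⟨Subgroup.mem_sup_right ⟨hd.1, ?_⟩, hd.2⟩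
      show d ∈ Subgroup.centralizer (Mx : Set S)
      rw [Subgroup.mem_centralizer_iff]
      intro m hm
      exact hMa m (hMxM hm) d hd.2
    · intro heq
      apply hxN
      apply mem_normalizer_of_conj_mem
      intro a ha
      have h1 : ⁅x, a⁆ ∈ (Mx ⊔ (A ⊓ Subgroup.centralizer (Mx : Set S))) ⊓ M :=
        ⟨Subgroup.mem_sup_left (hgen a ha), hcomM x hxM a⟩
      rw [← heq] at h1
      have h2 : x * a * x⁻¹ = ⁅x, a⁆ * a := by simp only [commutatorElement_def]; group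
      rw [h2]
      exact A.mul_mem h1.1 ha
  · exact sup_le hMxN (inf_le_left.trans Subgroup.le_normalizer)

/-- Members of the `D*`-family centralize the abelian subgroups of maximal order. -/
theorem dStarFamily_centralizes_maxAbelian [Finite S] {p : ℕ} [Fact p.Prime] (hS : IsPGroup p S)
    (A : Subgroup S) (hA : A ∈ Cfsg.dStarFamily S) :
    ∀ B ∈ Cfsg.maxAbelianSubgroups S, ∀ b ∈ B, ∀ a ∈ A, a * b = b * a := by
  obtain ⟨M, hMn, hMa, hmax⟩ := exists_max_normal_abelian S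
  have hAM : A ≤ M := (le_sSup hA).trans (dStar_le_of_max_normal_abelian hS M hMn hMa hmax)
  have hAab : ∀ a ∈ A, ∀ b ∈ A, a * b = b * a := by
    have := hA.1
    exact fun a ha b hb => setLike_mul_comm ha hb
  -- if A normalizes B then A centralizes B
  have key : ∀ B : Subgroup S, (∀ u ∈ B, ∀ v ∈ B, u * v = v * u) →
      A ≤ Subgroup.normalizer (B : Set S) → ∀ b ∈ B, ∀ a ∈ A, a * b = b * a := by
    intro B hBab hAN b hb
    apply hA.2 b
    apply class_two_sup_zpowers A b hAab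
    · intro a ha a' ha'
      have h1 : ⁅b, a⁆ ∈ M := by
        have h2 : ⁅b, a⁆ = (b * a * b⁻¹) * a⁻¹ := rfl
        rw [h2]
        exact M.mul_mem (hMn.conj_mem a (hAM ha) b) (M.inv_mem (hAM ha))
      exact hMa _ h1 a' (hAM ha')
    · intro a ha
      have h1 : ⁅b, a⁆ ∈ B := by
        have h2 : ⁅b, a⁆ = b * (a * b⁻¹ * a⁻¹) := by simp only [commutatorElement_def]; group
        rw [h2]
        exact B.mul_mem hb ((Subgroup.mem_normalizer_iff.mp (hAN ha) b⁻¹).mp (B.inv_mem hb))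
      exact hBab _ h1 b hb
  have main : ∀ n : ℕ, ∀ B ∈ Cfsg.maxAbelianSubgroups S,
      Nat.card M - Nat.card ↥(B ⊓ M) = n → ∀ b ∈ B, ∀ a ∈ A, a * b = b * a := by
    intro n
    induction n using Nat.strong_induction_on with
    | _ n ih =>
      intro B hB hn
      by_cases hMB : M ≤ Subgroup.normalizer (B : Set S)
      · exact key B (maxAbelian_comm B hB) (hAM.trans hMB)
      · obtain ⟨B', hB', hlt, hB'N⟩ := thompson_replacement_normal hS B hB M hMn hMa hMB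
        have hc1 : Nat.card ↥(B ⊓ M) < Nat.card ↥(B' ⊓ M) := by
          by_contra hle
          push Not at hle
          exact hlt.ne (Subgroup.eq_of_le_of_card_ge hlt.le hle)
        have hc2 : Nat.card ↥(B' ⊓ M) ≤ Nat.card M := Subgroup.card_le_of_le inf_le_right
        have hB'c := ih (Nat.card M - Nat.card ↥(B' ⊓ M)) (by omega) B' hB' rfl
        have hAB' : A ≤ B' := by
          rw [← maxAbelian_centralizer B' hB']
          intro a ha
          rw [Subgroup.mem_centralizer_iff]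
          intro b hb
          exact (hB'c b hb a ha).symm
        exact key B (maxAbelian_comm B hB) (hAB'.trans hB'N)
  intro B hB
  exact main _ B hB rfl

end

end Cfsg.Agent.Lib.Helper5
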