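import Mathlib
import Cfsg.Prelude.Def_PLocal
import Cfsg.Agent.Lib.Helper5.ThompsonRepl

set_option autoImplicit false

namespace Cfsg.Agent.Lib.Helper5

open scoped commutatorElement

section

variable {S : Type*} [Group S]

/-- Replacement with respect to an arbitrary element `x` all of whose commutators with `A`
lie in an abelian normal subgroup `M`. -/
theorem metab_replace5 [Finite S] (M : Subgroup S) (hMn : M.Normal)
    (hMa : ∀ x ∈ M, ∀ y ∈ M, x * y = y * x)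
    (A : Subgroup S) (hA : A ∈ Cfsg.maxAbelianSubgroups S) (x : S)
    (hx : ∀ a ∈ A, ⁅x, a⁆ ∈ M) :
    ∃ B ∈ Cfsg.maxAbelianSubgroups S, B ≤ Subgroup.normalClosure (A : Set S) ∧ A ⊓ M ≤ B ∧
      ∀ a ∈ A, ⁅x, a⁆ ∈ B := by
  have hAab := maxAbelian_comm A hA
  have hcomM : ∀ m ∈ M, ∀ g : S, ⁅m, g⁆ ∈ M := by
    intro m hm g
    have h1 : g * m⁻¹ * g⁻¹ ∈ M := hMn.conj_mem _ (M.inv_mem hm) g
    have h2 : ⁅m, g⁆ = m * (g * m⁻¹ * g⁻¹) := by simp only [commutatorElement_def]; group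
    rw [h2]; exact M.mul_mem hm h1
  obtain ⟨Mx, hMxdef⟩ : ∃ Mx : Subgroup S,
      Mx = Subgroup.closure {c : S | ∃ a ∈ A, c = ⁅x, a⁆} := ⟨_, rfl⟩
  have hgen : ∀ a ∈ A, ⁅x, a⁆ ∈ Mx := by
    intro a ha; rw [hMxdef]; exact Subgroup.subset_closure ⟨a, ha, rfl⟩
  have hMxM : Mx ≤ M := by
    rw [hMxdef, Subgroup.closure_le]; rintro _ ⟨a, ha, rfl⟩; exact hx a ha
  have hMxT : Mx ≤ Subgroup.normalClosure (A : Set S) := by
    rw [hMxdef, Subgroup.closure_le]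
    rintro _ ⟨a, ha, rfl⟩
    have h1 : a ∈ Subgroup.normalClosure (A : Set S) := Subgroup.le_normalClosure ha
    have h2 : x * a * x⁻¹ ∈ Subgroup.normalClosure (A : Set S) :=
      Subgroup.normalClosure_normal.conj_mem a h1 x
    have h3 : ⁅x, a⁆ = (x * a * x⁻¹) * a⁻¹ := rfl
    rw [SetLike.mem_coe, h3]
    exact Subgroup.mul_mem _ h2 (Subgroup.inv_mem _ h1)
  have hsymm : ∀ a ∈ A, ∀ b ∈ A, ⁅⁅x, a⁆, b⁆ = ⁅⁅x, b⁆, a⁆ := by
    intro a ha b hb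
    have huM : ⁅x, a⁆ ∈ M := hx a ha
    have hvM : ⁅x, b⁆ ∈ M := hx b hb
    have hd1M : ⁅⁅x, b⁆, a⁆ ∈ M := hcomM _ hvM a
    have hd2M : ⁅⁅x, a⁆, b⁆ ∈ M := hcomM _ huM b
    have h1 : ⁅x, a * b⁆ = ⁅x, b * a⁆ := by rw [hAab a ha b hb]
    rw [comm_mul_right_eq, comm_mul_right_eq] at h1
    have h2 : a * ⁅x, b⁆ * a⁻¹ = (⁅⁅x, b⁆, a⁆)⁻¹ * ⁅x, b⁆ := by
      simp only [commutatorElement_def]; group
    have h3 : b * ⁅x, a⁆ * b⁻¹ = (⁅⁅x, a⁆, b⁆)⁻¹ * ⁅x, a⁆ := by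
      simp only [commutatorElement_def]; group
    rw [h2, h3] at h1
    have e1 : ⁅x, a⁆ * ((⁅⁅x, b⁆, a⁆)⁻¹ * ⁅x, b⁆) = (⁅⁅x, b⁆, a⁆)⁻¹ * (⁅x, a⁆ * ⁅x, b⁆) := by
      rw [← mul_assoc, ← mul_assoc, hMa _ huM _ (M.inv_mem hd1M)]
    have e2 : ⁅x, b⁆ * ((⁅⁅x, a⁆, b⁆)⁻¹ * ⁅x, a⁆) = (⁅⁅x, a⁆, b⁆)⁻¹ * (⁅x, a⁆ * ⁅x, b⁆) := by
      rw [← mul_assoc, ← mul_assoc, hMa _ hvM _ (M.inv_mem hd2M), mul_assoc, mul_assoc,
        hMa _ hvM _ huM]
    rw [e1, e2] at h1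
    exact (inv_injective (mul_right_cancel h1)).symm
  have hK : ∀ a ∈ A, ⁅x, a⁆ ∈ A → a ∈ Subgroup.centralizer (Mx : Set S) := by
    intro a ha hxa
    have hle : Mx ≤ Subgroup.centralizer ({a} : Set S) := by
      rw [hMxdef, Subgroup.closure_le]
      rintro _ ⟨b, hb, rfl⟩
      rw [SetLike.mem_coe, Subgroup.mem_centralizer_iff]
      intro y hy
      rw [Set.mem_singleton_iff] at hy
      subst hy
      have h1 : ⁅⁅x, b⁆, y⁆ = 1 := by
        rw [← hsymm y ha b hb, commutatorElement_eq_one_iff_mul_comm]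
        exact hAab _ hxa b hb
      exact ((commutatorElement_eq_one_iff_mul_comm).mp h1).symm
    rw [Subgroup.mem_centralizer_iff]
    intro m hm
    exact (Subgroup.mem_centralizer_iff.mp (hle hm) a rfl).symm
  have hfib : ∀ a b : A, (QuotientGroup.mk (⟨⁅x, (a : S)⁆, hgen a a.2⟩ : Mx) :
        Mx ⧸ A.subgroupOf Mx) = QuotientGroup.mk (⟨⁅x, (b : S)⁆, hgen b b.2⟩ : Mx) →
      (b : S)⁻¹ * a ∈ A ⊓ Subgroup.centralizer (Mx : Set S) := by
    intro a b hab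
    have h1 := QuotientGroup.eq.mp hab.symm
    rw [Subgroup.mem_subgroupOf] at h1
    have h2 : (⁅x, (b : S)⁆)⁻¹ * ⁅x, (a : S)⁆ ∈ A := h1
    have h3 : ⁅x, (b : S)⁻¹ * a⁆ = (b : S)⁻¹ * ((⁅x, (b : S)⁆)⁻¹ * ⁅x, (a : S)⁆) * b := by
      simp only [commutatorElement_def]; group
    have h4 : (b : S)⁻¹ * a ∈ A := A.mul_mem (A.inv_mem b.2) a.2
    refine ⟨h4, hK _ h4 ?_⟩
    rw [h3]
    exact A.mul_mem (A.mul_mem (A.inv_mem b.2) h2) b.2
  classical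
  obtain ⟨g, hg⟩ : ∃ g : A → Mx ⧸ A.subgroupOf Mx,
      g = fun a : A => QuotientGroup.mk (⟨⁅x, (a : S)⁆, hgen a a.2⟩ : Mx) := ⟨_, rfl⟩
  obtain ⟨r, hr⟩ : ∃ r : (Mx ⧸ A.subgroupOf Mx) → A, ∀ a : A, g (r (g a)) = g a := by
    refine ⟨fun q => if h : ∃ a, g a = q then Classical.choose h else 1, ?_⟩
    intro a
    have h : ∃ a', g a' = g a := ⟨a, rfl⟩
    simp only [dif_pos h]
    exact Classical.choose_spec h
  have hfib' : ∀ a : A, ((r (g a) : A) : S)⁻¹ * a ∈ A ⊓ Subgroup.centralizer (Mx : Set S) := by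
    intro a
    apply hfib
    have := hr a
    rw [hg] at this
    rw [hg]
    exact this.symm
  have hinj : Function.Injective (fun a : A =>
      ((g a, ⟨((r (g a) : A) : S)⁻¹ * a, hfib' a⟩) :
        (Mx ⧸ A.subgroupOf Mx) × ↥(A ⊓ Subgroup.centralizer (Mx : Set S)))) := by
    intro a b hab
    have h1 : g a = g b := congrArg Prod.fst hab
    have h2 := congrArg (fun t => (t.2 : S)) hab
    simp only at h2
    rw [h1] at h2
    exact Subtype.ext (mul_left_cancel h2)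
  have hcount : Nat.card A ≤ Nat.card (Mx ⧸ A.subgroupOf Mx) *
      Nat.card ↥(A ⊓ Subgroup.centralizer (Mx : Set S)) := by
    have := Nat.card_le_card_of_injective _ hinj
    rwa [Nat.card_prod] at this
  have hq : Nat.card Mx = Nat.card (Mx ⧸ A.subgroupOf Mx) * Nat.card (A.subgroupOf Mx) :=
    Subgroup.card_eq_card_quotient_mul_card_subgroup _
  have hsub : Nat.card (A.subgroupOf Mx) = Nat.card ↥(A ⊓ Mx) := by
    rw [← Subgroup.inf_subgroupOf_right]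
    exact Nat.card_congr (Subgroup.subgroupOfEquivOfLe inf_le_right).toEquiv
  have hineq : Nat.card A * Nat.card ↥(A ⊓ Mx) ≤
      Nat.card Mx * Nat.card ↥(A ⊓ Subgroup.centralizer (Mx : Set S)) := by
    rw [hq, hsub]
    calc Nat.card A * Nat.card ↥(A ⊓ Mx)
        ≤ (Nat.card (Mx ⧸ A.subgroupOf Mx) *
            Nat.card ↥(A ⊓ Subgroup.centralizer (Mx : Set S))) * Nat.card ↥(A ⊓ Mx) :=
          Nat.mul_le_mul_right _ hcount
      _ = _ := by ring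
  have hMxab : ∀ u ∈ Mx, ∀ v ∈ Mx, u * v = v * u := fun u hu v hv => hMa u (hMxM hu) v (hMxM hv)
  have hCab : ∀ u ∈ A ⊓ Subgroup.centralizer (Mx : Set S),
      ∀ v ∈ A ⊓ Subgroup.centralizer (Mx : Set S), u * v = v * u :=
    fun u hu v hv => hAab u hu.1 v hv.1
  have hMxC : ∀ u ∈ Mx, ∀ v ∈ A ⊓ Subgroup.centralizer (Mx : Set S), u * v = v * u :=
    fun u hu v hv => Subgroup.mem_centralizer_iff.mp hv.2 u hu
  have hBab := sup_comm_of_comm Mx (A ⊓ Subgroup.centralizer (Mx : Set S)) hMxab hCab hMxC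
  have hcard : Nat.card A ≤ Nat.card ↥(Mx ⊔ (A ⊓ Subgroup.centralizer (Mx : Set S))) := by
    have h1 := card_mul_card_le_sup_inf Mx (A ⊓ Subgroup.centralizer (Mx : Set S))
    have h2 : Nat.card ↥(Mx ⊓ (A ⊓ Subgroup.centralizer (Mx : Set S))) ≤ Nat.card ↥(A ⊓ Mx) :=
      Subgroup.card_le_of_le (fun y hy => ⟨hy.2.1, hy.1⟩)
    have hpos : 0 < Nat.card ↥(A ⊓ Mx) := Nat.card_pos
    have h3 : Nat.card A * Nat.card ↥(A ⊓ Mx) ≤
        Nat.card ↥(Mx ⊔ (A ⊓ Subgroup.centralizer (Mx : Set S))) * Nat.card ↥(A ⊓ Mx) :=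
      hineq.trans (h1.trans (Nat.mul_le_mul_left _ h2))
    exact Nat.le_of_mul_le_mul_right h3 hpos
  refine ⟨Mx ⊔ (A ⊓ Subgroup.centralizer (Mx : Set S)),
    ⟨IsMulCommutative.of_setLike_mul_comm hBab, fun B hB => (hA.2 B hB).trans hcard⟩, ?_, ?_, ?_⟩
  · exact sup_le hMxT (inf_le_left.trans Subgroup.le_normalClosure)
  · intro d hd
    refine Subgroup.mem_sup_right ⟨hd.1, ?_⟩
    show d ∈ Subgroup.centralizer (Mx : Set S)
    rw [Subgroup.mem_centralizer_iff]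
    intro m hm
    exact hMa m (hMxM hm) d hd.2
  · intro a ha
    exact Subgroup.mem_sup_left (hgen a ha)

theorem metab_weak_replacement5 [Finite S]
    (hmeta : IsMulCommutative ↥(commutator S))
    (A : Subgroup S) (hA : A ∈ Cfsg.maxAbelianSubgroups S) :
    ∃ B ∈ Cfsg.maxAbelianSubgroups S, B.Normal ∧ B ≤ Subgroup.normalClosure (A : Set S) := by
  have hDa : ∀ x ∈ commutator S, ∀ y ∈ commutator S, x * y = y * x := by
    intro x hx y hy
    exact congrArg Subtype.val (hmeta.is_comm.comm ⟨x, hx⟩ ⟨y, hy⟩)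
  have hDn : (commutator S).Normal := inferInstance
  have hcomm : ∀ g a : S, ⁅g, a⁆ ∈ commutator S := by
    intro g a
    rw [commutator_def]
    exact Subgroup.commutator_mem_commutator (Subgroup.mem_top g) (Subgroup.mem_top a)
  obtain ⟨A1, ⟨hA1max, hA1T⟩, hA1best⟩ := Set.exists_max_image
    {X : Subgroup S | X ∈ Cfsg.maxAbelianSubgroups S ∧ X ≤ Subgroup.normalClosure (A : Set S)}
    (fun X => Nat.card ↥(X ⊓ commutator S)) (Set.toFinite _) ⟨A, hA, Subgroup.le_normalClosure⟩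
  have hnorm : ∀ a ∈ A1, ∀ g : S, g * a * g⁻¹ ∈ A1 := by
    intro a ha g
    obtain ⟨B, hBmax, hBT, hle, hBc⟩ := metab_replace5 (commutator S) hDn hDa A1 hA1max g
      (fun a _ => hcomm g a)
    have hBT' : B ≤ Subgroup.normalClosure (A : Set S) :=
      hBT.trans (Subgroup.normalClosure_le_normal hA1T)
    have h1 := hA1best B ⟨hBmax, hBT'⟩
    have h2 : A1 ⊓ commutator S ≤ B ⊓ commutator S := le_inf hle inf_le_right
    have h3 := Subgroup.eq_of_le_of_card_ge h2 h1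
    have h4 : ⁅g, a⁆ ∈ B ⊓ commutator S := ⟨hBc a ha, hcomm g a⟩
    rw [← h3] at h4
    have h5 : g * a * g⁻¹ = ⁅g, a⁆ * a := by simp only [commutatorElement_def]; group
    rw [h5]
    exact A1.mul_mem h4.1 ha
  exact ⟨A1, hA1max, ⟨hnorm⟩, hA1T⟩

end

end Cfsg.Agent.Lib.Helper5
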