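import Mathlib
import Cfsg.Agent.Lib.Lead.UniqueSub
import Cfsg.Agent.Lib.Helper5.PGroupBasics

set_option autoImplicit false

namespace Cfsg.Agent.Lib.Helper5

theorem min_subgroup_main5 {F : Type*} [Group F] [Finite F] (H : Subgroup F) (hH : H ≠ ⊥)
    (hmin : ∀ R : Subgroup F, R ≠ ⊥ → H ≤ Subgroup.normalizer (R : Set F) → H ≤ R) :
    ∃ N : Subgroup F, N.Normal ∧ N ≠ ⊥ ∧ (∀ M : Subgroup F, M.Normal → M ≠ ⊥ → N ≤ M) ∧
      IsSimpleGroup ↥N ∧
      (Subgroup.centralizer (N : Set F) = ⊥ ∨
       (H = N ∧ (Nat.card N).Prime ∧ IsCyclic ↥(Subgroup.centralizer (N : Set F)) ∧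
          (∃ k : ℕ, 1 ≤ k ∧ Nat.card ↥(Subgroup.centralizer (N : Set F)) = Nat.card N ^ k) ∧
          (∃ g : F, Subgroup.centralizer (N : Set F) ⊔ Subgroup.zpowers g = ⊤) ∧
          (Subgroup.centralizer (N : Set F)).index ∣ Nat.card N - 1) ∨
       (H = N ∧ Nat.card N = 2 ∧ Subgroup.centralizer (N : Set F) = ⊤ ∧
          ∃ k : ℕ, 1 ≤ k ∧ Nonempty (F ≃* QuaternionGroup (2 ^ k)))) := by
  obtain ⟨N, hNn, hHN, hNmin⟩ : ∃ N : Subgroup F, N.Normal ∧ H ≤ N ∧
      ∀ M : Subgroup F, M.Normal → M ≠ ⊥ → N ≤ M := by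
    refine ⟨Subgroup.normalClosure (H : Set F), Subgroup.normalClosure_normal,
      Subgroup.le_normalClosure, ?_⟩
    intro M hMn hM
    have h1 : H ≤ M := hmin M hM (by
      rw [Subgroup.normalizer_eq_top_iff.mpr hMn]; exact le_top)
    exact Subgroup.normalClosure_le_normal h1
  have hN : N ≠ ⊥ := by
    intro h; apply hH; rw [eq_bot_iff, ← h]; exact hHN
  have hNnt : Nontrivial ↥N := (Subgroup.nontrivial_iff_ne_bot N).mpr hN
  have hsimple : IsSimpleGroup ↥N := by
    refine { exists_pair_ne := hNnt.exists_pair_ne, eq_bot_or_eq_top_of_normal := ?_ }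
    intro T hTn
    by_cases hT : T = ⊥
    · left; exact hT
    right
    have hTF : T.map N.subtype ≠ ⊥ := by
      intro h
      apply hT
      rw [eq_bot_iff]
      intro t ht
      have h1 : (t : F) ∈ T.map N.subtype := ⟨t, ht, rfl⟩
      rw [h, Subgroup.mem_bot] at h1
      rw [Subgroup.mem_bot]
      exact Subtype.ext h1
    have hHle : ∀ g : F, H ≤ (T.map N.subtype).map (MulAut.conj g).toMonoidHom := by
      intro g
      apply hmin
      · intro h
        apply hTF
        rw [eq_bot_iff]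
        intro t ht
        have h1 : g * t * g⁻¹ ∈ (T.map N.subtype).map (MulAut.conj g).toMonoidHom :=
          ⟨t, ht, rfl⟩
        rw [h, Subgroup.mem_bot] at h1
        rw [Subgroup.mem_bot]
        have h2 : t = g⁻¹ * (g * t * g⁻¹) * g := by group
        rw [h2, h1]; group
      · intro n hn
        have hnN : n ∈ N := hHN hn
        apply mem_normalizer_of_conj_mem5
        rintro _ ⟨_, ⟨t, ht, rfl⟩, rfl⟩
        have h1 : g⁻¹ * n * g ∈ N := by
          have h0 := hNn.conj_mem n hnN g⁻¹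
          simpa using h0
        have h2 := hTn.conj_mem t ht ⟨g⁻¹ * n * g, h1⟩
        refine ⟨_, ⟨_, h2, rfl⟩, ?_⟩
        show g * (g⁻¹ * n * g * (t : F) * (g⁻¹ * n * g)⁻¹) * g⁻¹ = n * (g * (t : F) * g⁻¹) * n⁻¹
        group
    have hHcore : H ≤ (T.map N.subtype).normalCore := by
      intro h hh b
      obtain ⟨t, ht, hte⟩ := hHle b⁻¹ hh
      have h1 : b * h * b⁻¹ = t := by
        rw [← hte]
        show b * (b⁻¹ * t * b⁻¹⁻¹) * b⁻¹ = t
        group
      rw [h1]; exact ht
    have hcore_ne : (T.map N.subtype).normalCore ≠ ⊥ := by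
      intro h; apply hH; rw [eq_bot_iff, ← h]; exact hHcore
    have hNle : N ≤ T.map N.subtype :=
      (hNmin _ (Subgroup.normalCore_normal _) hcore_ne).trans (Subgroup.normalCore_le _)
    rw [eq_top_iff]
    intro n _
    obtain ⟨t, ht, hte⟩ := hNle n.2
    have : t = n := Subtype.ext hte
    rw [← this]; exact ht
  refine ⟨N, hNn, hN, hNmin, hsimple, ?_⟩
  have hCn : (Subgroup.centralizer (N : Set F)).Normal := Subgroup.normal_centralizer
  by_cases hC : Subgroup.centralizer (N : Set F) = ⊥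
  · left; exact hC
  right
  have hNC : N ≤ Subgroup.centralizer (N : Set F) := hNmin _ hCn hC
  have hcomm : ∀ a b : ↥N, a * b = b * a := by
    intro a b
    apply Subtype.ext
    exact (Subgroup.mem_centralizer_iff.mp (hNC b.2) a a.2)
  have hprime : (Nat.card N).Prime := by
    letI : CommGroup ↥N := { (inferInstance : Group ↥N) with mul_comm := hcomm }
    exact IsSimpleGroup.prime_card
  have hHeq : H = N := by
    apply Subgroup.eq_of_le_of_card_ge hHN
    have h1 : Nat.card H ∣ Nat.card N := Subgroup.card_dvd_of_le hHN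
    rcases (Nat.dvd_prime hprime).mp h1 with h | h
    · exact absurd (Subgroup.card_eq_one.mp h) hH
    · exact h.ge
  -- every nontrivial subgroup of C contains N
  have hsub : ∀ R : Subgroup F, R ≠ ⊥ → R ≤ Subgroup.centralizer (N : Set F) → N ≤ R := by
    intro R hR hRC
    rw [← hHeq]
    apply hmin R hR
    rw [hHeq]
    intro n hn
    apply mem_normalizer_of_conj_mem5
    intro r hr
    have h1 := Subgroup.mem_centralizer_iff.mp (hRC hr) n hn
    have h2 : n * r * n⁻¹ = r := by rw [h1]; group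
    rw [h2]; exact hr
  haveI hq : Fact (Nat.card N).Prime := ⟨hprime⟩
  have hCcard : ∃ k : ℕ, Nat.card ↥(Subgroup.centralizer (N : Set F)) = Nat.card N ^ k := by
    refine ⟨_, Nat.eq_prime_pow_of_unique_prime_dvd Nat.card_pos.ne' ?_⟩
    intro r hr hdvd
    haveI : Fact r.Prime := ⟨hr⟩
    obtain ⟨c, hc⟩ := exists_prime_orderOf_dvd_card' r hdvd
    have hne : Subgroup.zpowers (c : F) ≠ ⊥ := by
      intro h
      have h1 : (c : F) = 1 := by
        have := Subgroup.mem_zpowers (c : F)
        rwa [h, Subgroup.mem_bot] at this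
      have h2 : orderOf (c : F) = r := by rw [Subgroup.orderOf_coe]; exact hc
      rw [h1, orderOf_one] at h2
      exact hr.one_lt.ne h2
    have hle := hsub _ hne (by rw [Subgroup.zpowers_le]; exact c.2)
    have h3 : Nat.card N ∣ Nat.card (Subgroup.zpowers (c : F)) := Subgroup.card_dvd_of_le hle
    rw [Nat.card_zpowers, Subgroup.orderOf_coe, hc] at h3
    exact ((Nat.prime_dvd_prime_iff_eq hprime hr).mp h3).symm
  obtain ⟨k, hk⟩ := hCcard
  have hk1 : 1 ≤ k := by
    rcases Nat.eq_zero_or_pos k with h | h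
    · exfalso
      rw [h, pow_zero] at hk
      exact hC (Subgroup.card_eq_one.mp hk)
    · exact h
  have hCp : IsPGroup (Nat.card N) ↥(Subgroup.centralizer (N : Set F)) := IsPGroup.of_card hk
  have huniq : ∀ A B : Subgroup ↥(Subgroup.centralizer (N : Set F)),
      Nat.card A = Nat.card N → Nat.card B = Nat.card N → A = B := by
    have hone : ∀ A : Subgroup ↥(Subgroup.centralizer (N : Set F)),
        Nat.card A = Nat.card N → A.map (Subgroup.centralizer (N : Set F)).subtype = N := by
      intro A hA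
      have hc : Nat.card (A.map (Subgroup.centralizer (N : Set F)).subtype) = Nat.card A :=
        Subgroup.card_map_of_injective (Subgroup.subtype_injective _)
      have hne : A.map (Subgroup.centralizer (N : Set F)).subtype ≠ ⊥ := by
        intro h
        rw [h, Subgroup.card_bot, hA] at hc
        exact hprime.one_lt.ne hc
      have hle := hsub _ hne (by
        rintro _ ⟨a, -, rfl⟩; exact a.2)
      exact (Subgroup.eq_of_le_of_card_ge hle (by rw [hc, hA])).symm
    intro A B hA hB
    apply Subgroup.map_injective (Subgroup.subtype_injective _)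
    rw [hone A hA, hone B hB]
  have hlead := Cfsg.Agent.Lib.Lead.unique_sub_cyclic_or_quat (Nat.card N) hCp huniq
  -- conjugation action on N
  obtain ⟨φ, hφ⟩ : ∃ φ : F →* MulAut ↥N, ∀ g, φ g = 1 ↔ g ∈ Subgroup.centralizer (N : Set F) := by
    refine ⟨MulAut.conjNormal, fun g => ?_⟩
    constructor
    · intro h
      rw [Subgroup.mem_centralizer_iff]
      intro n hn
      have h1 : (MulAut.conjNormal g : MulAut ↥N) ⟨n, hn⟩ = ⟨n, hn⟩ := by rw [h]; rfl
      have h2 := congrArg Subtype.val h1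
      rw [MulAut.conjNormal_apply] at h2
      have h3 : g * n * g⁻¹ = n := h2
      calc n * g = (g * n * g⁻¹) * g := by rw [h3]
        _ = g * n := by group
    · intro h
      ext n
      rw [MulAut.conjNormal_apply]
      have h1 := Subgroup.mem_centralizer_iff.mp h n n.2
      show g * (n : F) * g⁻¹ = n
      rw [← h1]; group
  have hker : φ.ker = Subgroup.centralizer (N : Set F) := by
    ext g; rw [MonoidHom.mem_ker]; exact hφ g
  haveI hNcyc : IsCyclic ↥N := isCyclic_of_prime_card rfl
  have hAutcyc : IsCyclic (MulAut ↥N) :=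
    isCyclic_of_surjective (IsCyclic.mulAutMulEquiv ↥N).symm.toMonoidHom
      (IsCyclic.mulAutMulEquiv ↥N).symm.surjective
  have hAutcard : Nat.card (MulAut ↥N) = Nat.card N - 1 := by
    rw [IsCyclic.card_mulAut, Nat.totient_prime hprime]
  have hidx : (Subgroup.centralizer (N : Set F)).index ∣ Nat.card N - 1 := by
    rw [← hker, Subgroup.index_ker, ← hAutcard]
    exact Subgroup.card_subgroup_dvd_card _
  have hgen : ∃ g : F, Subgroup.centralizer (N : Set F) ⊔ Subgroup.zpowers g = ⊤ := by
    haveI : IsCyclic φ.range := Subgroup.isCyclic _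
    obtain ⟨⟨y, g0, rfl⟩, hy⟩ := IsCyclic.exists_generator (α := φ.range)
    refine ⟨g0, ?_⟩
    rw [eq_top_iff]
    intro f _
    obtain ⟨i, hi⟩ := Subgroup.mem_zpowers_iff.mp (hy ⟨φ f, f, rfl⟩)
    have hi' : (φ g0) ^ i = φ f := by
      have := congrArg Subtype.val hi
      simpa using this
    have h1 : f * (g0 ^ i)⁻¹ ∈ Subgroup.centralizer (N : Set F) := by
      rw [← hφ, map_mul, map_inv, map_zpow, hi', mul_inv_cancel]
    have h2 : f = (f * (g0 ^ i)⁻¹) * g0 ^ i := by group
    rw [h2]
    exact Subgroup.mul_mem_sup h1 (Subgroup.zpow_mem_zpowers g0 i)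
  by_cases hCcyc : IsCyclic ↥(Subgroup.centralizer (N : Set F))
  · left
    exact ⟨hHeq, hprime, hCcyc, ⟨k, hk1, hk⟩, hgen, hidx⟩
  right
  rcases hlead with h | ⟨h2, n, ⟨e⟩⟩
  · exact absurd h hCcyc
  have hCtop : Subgroup.centralizer (N : Set F) = ⊤ := by
    rw [h2] at hidx
    exact Subgroup.index_eq_one.mp (Nat.dvd_one.mp hidx)
  refine ⟨hHeq, h2, hCtop, n, ?_, ?_⟩
  · rcases Nat.eq_zero_or_pos n with h | h
    · exfalso
      apply hCcyc
      subst h
      haveI : IsCyclic (QuaternionGroup (2 ^ 0)) := QuaternionGroup.quaternionGroup_one_isCyclic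
      exact isCyclic_of_surjective e.symm.toMonoidHom e.symm.surjective
    · exact h
  · exact ⟨(Subgroup.topEquiv.symm.trans (MulEquiv.subgroupCongr hCtop.symm)).trans e⟩

end Cfsg.Agent.Lib.Helper5
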