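import Mathlib
import Cfsg.Agent.Lib.Helper5.ExtClosed

set_option autoImplicit false

namespace Cfsg.Agent.Lib.Helper5

open scoped commutatorElement

section

/-- In a finite nilpotent group, a subgroup that together with the commutator subgroup generates
the group is the whole group. -/
theorem eq_top_of_sup_commutator_eq_top {X : Type*} [Group X] [Finite X]
    [hn : Group.IsNilpotent X] (C : Subgroup X) (h : C ⊔ commutator X = ⊤) : C = ⊤ := by
  by_contra hC
  obtain ⟨M, hM, hCM⟩ := (eq_top_or_exists_le_coatom C).resolve_left hC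
  have htfae : Group.IsNilpotent X ↔ ∀ H : Subgroup X, IsCoatom H → H.Normal :=
    (Group.isNilpotent_of_finite_tfae (G := X)).out 0 2
  have hMn : M.Normal := htfae.mp hn M hM
  have hcomm := quotient_comm_of_coatom M hM
  have hle : commutator X ≤ M := by
    rw [commutator_def, Subgroup.commutator_le]
    intro a _ b _
    rw [← QuotientGroup.eq_one_iff (N := M)]
    have h1 : ((⁅a, b⁆ : X) : X ⧸ M) = ⁅(a : X ⧸ M), (b : X ⧸ M)⁆ :=
      map_commutatorElement (QuotientGroup.mk' M) a b
    rw [h1, commutatorElement_eq_one_iff_mul_comm]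
    exact hcomm _ _
  apply hM.1
  rw [eq_top_iff, ← h]
  exact sup_le hCM hle

variable {G : Type*} [Group G]

theorem le_of_le_sup_commutator [Finite G] {p : ℕ} [Fact p.Prime] (X C : Subgroup G)
    (hX : IsPGroup p X) (hCX : C ≤ X) (h : X ≤ C ⊔ ⁅X, X⁆) : X ≤ C := by
  haveI : Group.IsNilpotent X := hX.isNilpotent
  have h1 : C.subgroupOf X ⊔ commutator X = ⊤ := by
    rw [eq_top_iff]
    intro x _
    have hx : (x : G) ∈ C ⊔ ⁅X, X⁆ := h x.2
    rw [← Subgroup.map_subtype_commutator, ← Subgroup.map_subgroupOf_eq_of_le hCX,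
      ← Subgroup.map_sup] at hx
    obtain ⟨y, hy, hyx⟩ := hx
    have e : y = x := Subtype.ext hyx
    rw [← e]; exact hy
  have h2 := eq_top_of_sup_commutator_eq_top _ h1
  rw [Subgroup.subgroupOf_eq_top] at h2
  exact h2

end

end Cfsg.Agent.Lib.Helper5
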