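import Mathlib
import Cfsg.Prelude.Def_LocalEven
import Cfsg.Prelude.Def_Transfer
import Cfsg.Agent.Lib.Lead.PResidual
import Cfsg.Agent.Lib.Helper1.Subn
import Cfsg.Agent.Lib.Helper1.ThompsonJ
import Cfsg.Agent.Lib.Helper4.Index
import Cfsg.Agent.Lib.Helper4.Normalizer
import Cfsg.Agent.Lib.Helper7.SylowConj
import Cfsg.Agent.Lib.Helper5.TwoMaxEA5
import Cfsg.Agent.Lib.Helper5.Fixity5
import Cfsg.Agent.Lib.Helper5.DStarOf
import Cfsg.Agent.Lib.Helper5.SubnSylow

set_option autoImplicit false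

namespace Cfsg.Agent.Lib.Helper5

open scoped Pointwise

section
variable {P : Type*} [Group P] [Finite P] {p : ℕ} [Fact p.Prime]

theorem pmin_le5 (hP : Cfsg.IsPMinimal p P) (S : Sylow p P) (M : Subgroup P) (hM : IsCoatom M)
    (hSM : (S : Subgroup P) ≤ M) (X : Subgroup P) (hSX : (S : Subgroup P) ≤ X) (hX : X ≠ ⊤) :
    X ≤ M := by
  obtain ⟨-, M', -, hM'uniq⟩ := hP S
  obtain ⟨M₁, hM₁, hXM₁⟩ := (eq_top_or_exists_le_coatom X).resolve_left hX
  have h1 := hM'uniq M₁ ⟨hM₁, hSX.trans hXM₁⟩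
  have h2 := hM'uniq M ⟨hM, hSM⟩
  rw [h2, ← h1]; exact hXM₁

theorem mem_of_coprime_order5 (S : Sylow p P) (N : Subgroup P) (hN : N.Normal)
    (h : N ⊔ (S : Subgroup P) = ⊤) (g : P) (hg : Nat.Coprime (orderOf g) p) : g ∈ N := by
  have hgmem : g ∈ N ⊔ (S : Subgroup P) := by rw [h]; trivial
  rw [← SetLike.mem_coe, Subgroup.normal_mul] at hgmem
  obtain ⟨n, hn, s, hs, hns⟩ := Set.mem_mul.mp hgmem
  obtain ⟨k, hk⟩ := S.2 ⟨s, hs⟩
  have hsk : s ^ p ^ k = 1 := congrArg Subtype.val hk
  have h1 : g ^ p ^ k ∈ N := by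
    rw [← QuotientGroup.eq_one_iff (N := N), QuotientGroup.mk_pow, ← hns, QuotientGroup.mk_mul,
      (QuotientGroup.eq_one_iff n).mpr hn, one_mul, ← QuotientGroup.mk_pow, hsk,
      QuotientGroup.mk_one]
  have hcop : Nat.Coprime (p ^ k) (orderOf g) := (Nat.Coprime.pow_right k hg).symm
  obtain ⟨m, hm⟩ := exists_pow_eq_self_of_coprime hcop
  rw [← hm]
  exact pow_mem h1 m

theorem pResidual_le_of_sup_sylow5 (S : Sylow p P) (N : Subgroup P) (hN : N.Normal)
    (h : N ⊔ (S : Subgroup P) = ⊤) : Cfsg.pResidual p P ≤ N := by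
  unfold Cfsg.pResidual
  rw [Subgroup.closure_le]
  intro g hg
  exact mem_of_coprime_order5 S N hN h g hg

theorem pmin_normal_dich5 (hP : Cfsg.IsPMinimal p P) (S : Sylow p P) (M : Subgroup P)
    (hM : IsCoatom M) (hSM : (S : Subgroup P) ≤ M) (N : Subgroup P) (hN : N.Normal) :
    Cfsg.pResidual p P ≤ N ∨ N ≤ M.normalCore := by
  by_cases h : N ⊔ (S : Subgroup P) = ⊤
  · left
    exact pResidual_le_of_sup_sylow5 S N hN h
  · right
    have h1 := pmin_le5 hP S M hM hSM _ le_sup_right h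
    haveI := hN
    exact Subgroup.normal_le_normalCore.mpr (le_sup_left.trans h1)

theorem pmin_subnormal5 (hP : Cfsg.IsPMinimal p P) (S : Sylow p P) (M : Subgroup P)
    (hM : IsCoatom M) (hSM : (S : Subgroup P) ≤ M) (N : Subgroup P) (hN : N.IsSubnormal)
    (hNM : N ≤ M) : N ⊓ (S : Subgroup P) ≤ Cfsg.pCore p P := by
  obtain ⟨Ns, hNsdef⟩ : ∃ Ns : Subgroup P, Ns = ⨆ s : (S : Subgroup P), cj5 (s : P) N := ⟨_, rfl⟩
  have hNs_sub : Ns.IsSubnormal := by
    rw [hNsdef, ← sSup_range]
    apply Cfsg.Agent.Lib.Helper1.subnormal_sSup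
    rintro U ⟨s, rfl⟩
    exact hN.map (MulAut.conj (s : P)).surjective
  have hNNs : N ≤ Ns := by
    rw [hNsdef]
    have h1 : cj5 ((1 : (S : Subgroup P)) : P) N = N := cj5_one N
    exact (le_of_eq h1.symm).trans (le_iSup (fun s : (S : Subgroup P) => cj5 (s : P) N) 1)
  have hNsM : Ns ≤ M := by
    rw [hNsdef]
    apply iSup_le
    intro s x hx
    rw [mem_cj5] at hx
    have h1 := M.mul_mem (M.mul_mem (hSM s.2) (hNM hx)) (M.inv_mem (hSM s.2))
    have e : (s : P) * ((s : P)⁻¹ * x * s) * (s : P)⁻¹ = x := by group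
    rwa [e] at h1
  have hSNs : ∀ s ∈ (S : Subgroup P), ∀ x ∈ Ns, s * x * s⁻¹ ∈ Ns := by
    intro s hs x hx
    have h1 : cj5 s Ns ≤ Ns := by
      rw [hNsdef]
      unfold cj5
      rw [Subgroup.map_iSup]
      apply iSup_le
      intro s'
      have h2 : (N.map (MulAut.conj (s' : P)).toMonoidHom).map (MulAut.conj s).toMonoidHom =
          cj5 (s * (s' : P)) N := (cj5_mul N s s').symm
      rw [h2]
      exact le_iSup (fun t : (S : Subgroup P) => N.map (MulAut.conj (t : P)).toMonoidHom)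
        (⟨s * s', mul_mem hs s'.2⟩ : (S : Subgroup P))
    exact h1 (cj5_mem Ns s hx)
  have hLn : (Subgroup.normalClosure (Ns : Set P)).Normal := Subgroup.normalClosure_normal
  have hNsL : Ns ≤ Subgroup.normalClosure (Ns : Set P) := Subgroup.le_normalClosure
  have hLM : Subgroup.normalClosure (Ns : Set P) ≤ M := by
    by_contra hLM
    have hRL : Cfsg.pResidual p P ≤ Subgroup.normalClosure (Ns : Set P) := by
      rcases pmin_normal_dich5 hP S M hM hSM _ hLn with h | h
      · exact h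
      · exact absurd (h.trans (Subgroup.normalCore_le M)) hLM
    have hLS : Subgroup.normalClosure (Ns : Set P) ⊔ (S : Subgroup P) = ⊤ := by
      rw [eq_top_iff, ← Cfsg.Agent.Lib.Lead.sylow_sup_pResidual S]
      exact sup_le le_sup_right (hRL.trans le_sup_left)
    have htop : Ns.subgroupOf (Subgroup.normalClosure (Ns : Set P)) = ⊤ := by
      by_contra hne
      obtain ⟨K, hKn, hNK, hKlt⟩ :=
        (hNs_sub.subgroupOf (K := Subgroup.normalClosure (Ns : Set P))).exists_normal_and_le_and_lt_top_of_ne hne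
      have hconj : ∀ g : P, ∀ x ∈ Ns, g * x * g⁻¹ ∈
          K.map (Subgroup.normalClosure (Ns : Set P)).subtype := by
        intro g x hx
        have hg : g ∈ Subgroup.normalClosure (Ns : Set P) ⊔ (S : Subgroup P) := by
          rw [hLS]; trivial
        rw [← SetLike.mem_coe, Subgroup.normal_mul] at hg
        obtain ⟨l, hl, s, hs, rfl⟩ := Set.mem_mul.mp hg
        have h1 : s * x * s⁻¹ ∈ Ns := hSNs s hs x hx
        have h2 : (⟨s * x * s⁻¹, hNsL h1⟩ : Subgroup.normalClosure (Ns : Set P)) ∈ K :=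
          hNK (Subgroup.mem_subgroupOf.mpr h1)
        have h3 := hKn.conj_mem _ h2 ⟨l, hl⟩
        refine ⟨_, h3, ?_⟩
        simp only [Subgroup.coe_subtype, Subgroup.coe_mul, Subgroup.coe_inv]
        group
      have hLK : Subgroup.normalClosure (Ns : Set P) ≤
          K.map (Subgroup.normalClosure (Ns : Set P)).subtype := by
        show Subgroup.closure (Group.conjugatesOfSet (Ns : Set P)) ≤ _
        rw [Subgroup.closure_le]
        intro y hy
        rw [Group.mem_conjugatesOfSet_iff] at hy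
        obtain ⟨x, hx, hxy⟩ := hy
        obtain ⟨g, hg⟩ := isConj_iff.mp hxy
        rw [← hg]; exact hconj g x hx
      apply hKlt.ne
      rw [eq_top_iff]
      intro x _
      obtain ⟨k, hk, hkx⟩ := hLK x.2
      have hkx' : k = x := Subtype.ext hkx
      rw [← hkx']; exact hk
    apply hLM
    intro x hx
    have h1 : (⟨x, hx⟩ : Subgroup.normalClosure (Ns : Set P)) ∈
        Ns.subgroupOf (Subgroup.normalClosure (Ns : Set P)) := by rw [htop]; trivial
    exact hNsM (Subgroup.mem_subgroupOf.mp h1)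
  haveI := hLn
  obtain ⟨T, hT⟩ := sylow_inf_normal5 S (Subgroup.normalClosure (Ns : Set P))
  have hfr := Sylow.normalizer_sup_eq_top T
  have hmap : (T : Subgroup (Subgroup.normalClosure (Ns : Set P))).map
      (Subgroup.normalClosure (Ns : Set P)).subtype =
      (S : Subgroup P) ⊓ Subgroup.normalClosure (Ns : Set P) := by
    rw [hT, Subgroup.subgroupOf_map_subtype]
  rw [hmap] at hfr
  have hSn : (S : Subgroup P) ≤ Subgroup.normalizer
      (((S : Subgroup P) ⊓ Subgroup.normalClosure (Ns : Set P) : Subgroup P) : Set P) := by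
    apply Cfsg.Agent.Lib.Helper4.le_normalizer_of_conj_mem
    intro s hs d hd
    exact Subgroup.mem_inf.mpr ⟨mul_mem (mul_mem hs (Subgroup.mem_inf.mp hd).1) (inv_mem hs),
      hLn.conj_mem d (Subgroup.mem_inf.mp hd).2 s⟩
  have hnormtop : Subgroup.normalizer
      (((S : Subgroup P) ⊓ Subgroup.normalClosure (Ns : Set P) : Subgroup P) : Set P) = ⊤ := by
    by_contra hne
    have h1 := pmin_le5 hP S M hM hSM _ hSn hne
    have h2 : (⊤ : Subgroup P) ≤ M := by rw [← hfr]; exact sup_le h1 hLM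
    exact hM.1 (eq_top_iff.mpr h2)
  have hnormal : ((S : Subgroup P) ⊓ Subgroup.normalClosure (Ns : Set P)).Normal :=
    Subgroup.normalizer_eq_top_iff.mp hnormtop
  have hpg : IsPGroup p ((S : Subgroup P) ⊓ Subgroup.normalClosure (Ns : Set P) : Subgroup P) :=
    S.2.to_le inf_le_left
  have h3 := le_pCore5 hnormal hpg
  exact (le_inf inf_le_right (inf_le_left.trans (hNNs.trans hNsL))).trans h3

theorem pmin_two_primes5 (hP : Cfsg.IsPMinimal p P) (S : Sylow p P) (M : Subgroup P)
    (hM : IsCoatom M) (hSM : (S : Subgroup P) ≤ M) (R : Subgroup P) [hRn : R.Normal]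
    (hRS : (S : Subgroup P) ⊔ R = ⊤)
    (hT : ∀ T : Sylow p ↥R, (T : Subgroup ↥R).Normal) :
    (Nat.card P).primeFactors.card ≤ 2 := by
  have hp : p.Prime := Fact.out
  obtain ⟨T, hTeq⟩ := sylow_inf_normal5 S R
  have hTn := hT T
  have hRpn : ((S : Subgroup P) ⊓ R).Normal := by
    haveI hchar : (T : Subgroup ↥R).Characteristic := Sylow.characteristic_of_normal T hTn
    have h1 : ((T : Subgroup ↥R).map R.subtype).Normal :=
      ConjAct.normal_of_characteristic_of_normal
    rw [hTeq, Subgroup.subgroupOf_map_subtype] at h1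
    exact h1
  have hRpcard : Nat.card ((S : Subgroup P) ⊓ R : Subgroup P) = p ^ (Nat.card R).factorization p :=
    card_sylow_inf_subnormal5 S R hRn.isSubnormal
  have hNRS : R ⊔ (S : Subgroup P) = ⊤ := by rw [sup_comm]; exact hRS
  have key : ∀ q : ℕ, q.Prime → q ≠ p → q ∣ Nat.card P →
      q ^ (Nat.card P).factorization q ∣ Nat.card M ∨ (Nat.card P).primeFactors ⊆ {p, q} := by
    intro q hq hqp hqd
    haveI : Fact q.Prime := ⟨hq⟩
    obtain ⟨Q⟩ : Nonempty (Sylow q P) := inferInstance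
    have hQR : (Q : Subgroup P) ≤ R := by
      intro x hx
      apply mem_of_coprime_order5 S R hRn hNRS x
      obtain ⟨k, hk⟩ := Q.2 ⟨x, hx⟩
      have hxk : x ^ q ^ k = 1 := congrArg Subtype.val hk
      have hdvd : orderOf x ∣ q ^ k := orderOf_dvd_of_pow_eq_one hxk
      exact Nat.Coprime.coprime_dvd_left hdvd
        (Nat.Coprime.pow_left k ((Nat.coprime_primes hq hp).mpr hqp))
    obtain ⟨U, hUdef⟩ : ∃ U : Subgroup P, U = (Q : Subgroup P) ⊔ ((S : Subgroup P) ⊓ R) :=
      ⟨_, rfl⟩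
    have hQU : (Q : Subgroup P) ≤ U := by rw [hUdef]; exact le_sup_left
    have hRpU : (S : Subgroup P) ⊓ R ≤ U := by rw [hUdef]; exact le_sup_right
    have hRX : Subgroup.normalizer (U : Set P) ⊔ R = ⊤ := by
      rw [eq_top_iff]
      intro g _
      have c1 := sylow_card_of_le5 Q R hQR
      have hgQR : cj5 g (Q : Subgroup P) ≤ R := by
        intro y hy
        rw [mem_cj5] at hy
        have h1 := hRn.conj_mem _ (hQR hy) g
        have e : g * (g⁻¹ * y * g) * g⁻¹ = y := by group
        rwa [e] at h1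
      have c2 : Nat.card (cj5 g (Q : Subgroup P)) = q ^ (Nat.card R).factorization q := by
        rw [cj5_card]; exact c1
      obtain ⟨r, hrR, hr⟩ := Cfsg.Agent.Lib.Helper7.exists_conj_of_card_eq R (Q : Subgroup P)
        (cj5 g (Q : Subgroup P)) hQR hgQR c1 c2
      have hQeq : cj5 g (Q : Subgroup P) = cj5 r (Q : Subgroup P) := by
        ext y
        rw [hr y, mem_cj5]
      have hRpg : ∀ g : P, cj5 g ((S : Subgroup P) ⊓ R) = (S : Subgroup P) ⊓ R := by
        intro g
        apply cj5_of_mem_normalizer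
        rw [Subgroup.normalizer_eq_top_iff.mpr hRpn]
        trivial
      have hUsup : ∀ g : P, cj5 g U = cj5 g (Q : Subgroup P) ⊔ ((S : Subgroup P) ⊓ R) := by
        intro g
        rw [hUdef]
        have h1 : cj5 g ((Q : Subgroup P) ⊔ ((S : Subgroup P) ⊓ R)) =
            cj5 g (Q : Subgroup P) ⊔ cj5 g ((S : Subgroup P) ⊓ R) := Subgroup.map_sup _ _ _
        rw [h1, hRpg]
      have hUeq : cj5 g U = cj5 r U := by rw [hUsup, hUsup, hQeq]
      have hx : r⁻¹ * g ∈ Subgroup.normalizer (U : Set P) := by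
        apply Cfsg.Agent.Lib.Helper4.mem_normalizer_of_map_conj_eq
        show cj5 (r⁻¹ * g) U = U
        rw [cj5_mul, hUeq, cj5_inv_cancel]
      have hg : g = r * (r⁻¹ * g) := by group
      rw [hg]
      exact mul_mem (Subgroup.mem_sup_right hrR) (Subgroup.mem_sup_left hx)
    have hXidx : ¬ p ∣ (Subgroup.normalizer (U : Set P)).index := by
      intro hdvd
      have h1 := Cfsg.Agent.Lib.Helper1.card_sup_mul_card_inf (Subgroup.normalizer (U : Set P)) R
        (Cfsg.Agent.Lib.Helper4.le_normalizer_of_normal hRn)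
      rw [hRX, Subgroup.card_top] at h1
      have h2 := Subgroup.card_mul_index (Subgroup.normalizer (U : Set P))
      have h3 : (Subgroup.normalizer (U : Set P)).index *
          Nat.card (Subgroup.normalizer (U : Set P) ⊓ R : Subgroup P) = Nat.card R := by
        have hXpos : 0 < Nat.card (Subgroup.normalizer (U : Set P)) := Nat.card_pos
        rw [← h2] at h1
        exact Nat.eq_of_mul_eq_mul_left hXpos (by rw [← mul_assoc]; exact h1)
      have h4 : (S : Subgroup P) ⊓ R ≤ Subgroup.normalizer (U : Set P) ⊓ R :=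
        le_inf (hRpU.trans Subgroup.le_normalizer) inf_le_right
      have h5 := Subgroup.card_dvd_of_le h4
      rw [hRpcard] at h5
      have h6 : p ^ ((Nat.card R).factorization p + 1) ∣ Nat.card R := by
        have h7 := mul_dvd_mul hdvd h5
        rw [h3] at h7
        rw [pow_succ, mul_comm]
        exact h7
      exact Nat.pow_succ_factorization_not_dvd (Nat.card_pos.ne') hp h6
    obtain ⟨x, hx⟩ := Cfsg.Agent.Lib.Helper4.exists_conj_le_of_not_dvd_index (S : Subgroup P) S.2
      (Subgroup.normalizer (U : Set P)) hXidx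
    have hSU' : (S : Subgroup P) ≤ Subgroup.normalizer ((cj5 x U : Subgroup P) : Set P) := by
      intro s hs
      apply Cfsg.Agent.Lib.Helper4.mem_normalizer_of_map_conj_eq
      show cj5 s (cj5 x U) = cj5 x U
      have h1 : cj5 (x⁻¹ * s * x) U = U := cj5_of_mem_normalizer (hx s hs)
      have e : s * x = x * (x⁻¹ * s * x) := by group
      rw [← cj5_mul, e, cj5_mul, h1]
    by_cases hY : cj5 x U ⊔ (S : Subgroup P) = ⊤
    · right
      have h1 := Cfsg.Agent.Lib.Helper1.card_sup_mul_card_inf (S : Subgroup P) (cj5 x U) hSU'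
      rw [sup_comm, hY, Subgroup.card_top] at h1
      have h2 : Nat.card P ∣ Nat.card (S : Subgroup P) * Nat.card U := by
        rw [← cj5_card U x, ← h1]; exact dvd_mul_right _ _
      have h3 := Cfsg.Agent.Lib.Helper1.card_sup_mul_card_inf (Q : Subgroup P)
        ((S : Subgroup P) ⊓ R) (Cfsg.Agent.Lib.Helper4.le_normalizer_of_normal hRpn)
      have h4 : Nat.card U ∣ Nat.card (Q : Subgroup P) *
          Nat.card ((S : Subgroup P) ⊓ R : Subgroup P) := by
        rw [hUdef, ← h3]; exact dvd_mul_right _ _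
      intro l hl
      rw [Nat.mem_primeFactors] at hl
      obtain ⟨hlp, hld, -⟩ := hl
      have h5 : l ∣ Nat.card (S : Subgroup P) * (Nat.card (Q : Subgroup P) *
          Nat.card ((S : Subgroup P) ⊓ R : Subgroup P)) :=
        hld.trans (h2.trans (mul_dvd_mul_left _ h4))
      obtain ⟨a, ha⟩ := IsPGroup.iff_card.mp S.2
      obtain ⟨b, hb⟩ := IsPGroup.iff_card.mp Q.2
      rw [ha, hb, hRpcard] at h5
      simp only [Finset.mem_insert, Finset.mem_singleton]
      rcases (Nat.Prime.dvd_mul hlp).mp h5 with h | h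
      · left; exact (Nat.prime_dvd_prime_iff_eq hlp hp).mp (hlp.dvd_of_dvd_pow h)
      · rcases (Nat.Prime.dvd_mul hlp).mp h with h | h
        · right; exact (Nat.prime_dvd_prime_iff_eq hlp hq).mp (hlp.dvd_of_dvd_pow h)
        · left; exact (Nat.prime_dvd_prime_iff_eq hlp hp).mp (hlp.dvd_of_dvd_pow h)
    · left
      have h1 := pmin_le5 hP S M hM hSM _ le_sup_right hY
      have h2 : cj5 x (Q : Subgroup P) ≤ M := (cj5_mono x hQU).trans (le_sup_left.trans h1)
      have h3 := Subgroup.card_dvd_of_le h2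
      rw [cj5_card, Sylow.card_eq_multiplicity] at h3
      exact h3
  by_cases hall : ∀ q : ℕ, q.Prime → q ≠ p → q ∣ Nat.card P →
      q ^ (Nat.card P).factorization q ∣ Nat.card M
  · exfalso
    have hdvd : Nat.card P ∣ Nat.card M := by
      rw [← Nat.factorization_le_iff_dvd Nat.card_pos.ne' Nat.card_pos.ne']
      intro q
      by_cases hq : q.Prime
      · by_cases hqp : q = p
        · subst hqp
          have h1 : Nat.card (S : Subgroup P) ∣ Nat.card M := Subgroup.card_dvd_of_le hSM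
          rw [Sylow.card_eq_multiplicity] at h1
          exact (hq.pow_dvd_iff_le_factorization Nat.card_pos.ne').mp h1
        · by_cases hqd : q ∣ Nat.card P
          · exact (hq.pow_dvd_iff_le_factorization Nat.card_pos.ne').mp (hall q hq hqp hqd)
          · rw [Nat.factorization_eq_zero_of_not_dvd hqd]; exact Nat.zero_le _
      · rw [Nat.factorization_eq_zero_of_not_prime _ hq]; exact Nat.zero_le _
    have hle : Nat.card P ≤ Nat.card M := Nat.le_of_dvd Nat.card_pos hdvd
    exact hM.1 ((Subgroup.card_eq_iff_eq_top M).mp (le_antisymm (Subgroup.card_le_card_group M) hle))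
  · push Not at hall
    obtain ⟨q, hq, hqp, hqd, hnd⟩ := hall
    have hsub := (key q hq hqp hqd).resolve_left hnd
    calc (Nat.card P).primeFactors.card ≤ ({p, q} : Finset ℕ).card := Finset.card_le_card hsub
      _ ≤ 2 := Finset.card_le_two

theorem pmin_main5 (hP : Cfsg.IsPMinimal p P) (S : Sylow p P) (M : Subgroup P) (hM : IsCoatom M) (hSM : (S : Subgroup P) ≤ M) [hF : M.normalCore.Normal] : (∀ N : Subgroup P, N.IsSubnormal → N ≤ M → N ⊓ (S : Subgroup P) ≤ Cfsg.pCore p P) ∧ ((∀ T : Sylow p ↥(Cfsg.pResidual p P), (T : Subgroup ↥(Cfsg.pResidual p P)).Normal) → (Nat.card P).primeFactors.card ≤ 2) ∧ (∀ N : Subgroup P, N.Normal → Cfsg.pResidual p P ≤ N ∨ N ≤ M.normalCore) ∧ (∀ N : Subgroup P, N.Normal → M.normalCore ≤ N → N ≤ Cfsg.pResidual p P ⊔ M.normalCore → N = M.normalCore ∨ N = Cfsg.pResidual p P ⊔ M.normalCore) ∧ M.normalCore < Cfsg.pResidual p P ⊔ M.normalCore := by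
  refine ⟨fun N hN hNM => pmin_subnormal5 hP S M hM hSM N hN hNM, ?_,
    fun N hN => pmin_normal_dich5 hP S M hM hSM N hN, ?_, ?_⟩
  · intro hT
    haveI := Cfsg.Agent.Lib.Lead.pResidual_normal (G := P) p
    exact pmin_two_primes5 hP S M hM hSM (Cfsg.pResidual p P)
      (Cfsg.Agent.Lib.Lead.sylow_sup_pResidual S) hT
  · intro N hN hFN hNR
    rcases pmin_normal_dich5 hP S M hM hSM N hN with h | h
    · right; exact le_antisymm hNR (sup_le h hFN)
    · left; exact le_antisymm h hFN
  · rw [lt_iff_le_and_ne]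
    refine ⟨le_sup_right, ?_⟩
    intro heq
    have hRF : Cfsg.pResidual p P ≤ M.normalCore := le_sup_left.trans heq.ge
    have hRM := hRF.trans (Subgroup.normalCore_le M)
    have h2 : (⊤ : Subgroup P) ≤ M := by
      rw [← Cfsg.Agent.Lib.Lead.sylow_sup_pResidual S]; exact sup_le hSM hRM
    exact hM.1 (eq_top_iff.mpr h2)

end

end Cfsg.Agent.Lib.Helper5
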