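import Mathlib
import Cfsg.Prelude.Def_Transfer

universe u

namespace Cfsg.Agent.Lib.Helper5

theorem pResidual_le_of_index5 {G : Type u} [Group G] [Finite G] {p : ℕ}
    (N : Subgroup G) [N.Normal] (hN : N.index = p) : Cfsg.pResidual p G ≤ N := by
  unfold Cfsg.pResidual
  rw [Subgroup.closure_le]
  intro g hg
  have h1 : g ^ p ∈ N := by
    have := Subgroup.pow_index_mem N g
    rwa [hN] at this
  have h2 : g ^ orderOf g ∈ N := by rw [pow_orderOf_eq_one]; exact N.one_mem
  have hc : Nat.gcd (orderOf g) p = 1 := hg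
  have hb := Nat.gcd_eq_gcd_ab (orderOf g) p
  have hz : g = (g ^ orderOf g) ^ (Nat.gcdA (orderOf g) p) * (g ^ p) ^ (Nat.gcdB (orderOf g) p) := by
    rw [← zpow_natCast, ← zpow_natCast, ← zpow_mul, ← zpow_mul, ← zpow_add, ← hb, hc]; simp
  show g ∈ N
  rw [hz]; exact N.mul_mem (N.zpow_mem h2 _) (N.zpow_mem h1 _)

theorem pResidual_ne_top_of_index5 {G : Type u} [Group G] [Finite G] {p : ℕ} [Fact p.Prime]
    (N : Subgroup G) [N.Normal] (hN : N.index = p) : Cfsg.pResidual p G ≠ ⊤ := by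
  intro h
  have hle := pResidual_le_of_index5 N hN
  rw [h, top_le_iff] at hle
  rw [hle, Subgroup.index_top] at hN
  exact (Fact.out : p.Prime).one_lt.ne hN

end Cfsg.Agent.Lib.Helper5
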