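import Mathlib
import Cfsg.Prelude.Def_SylowChains
import Cfsg.Prelude.Def_Local
import Cfsg.Agent.Lib.Helper5.ClassicalSE
import Cfsg.Agent.Lib.Helper5.DStarOf
import Cfsg.Agent.Lib.Helper5.PPrimeCore5
import Cfsg.Agent.Lib.Helper5.PRankOneIso5
import Cfsg.Agent.Lib.Helper5.QuatSolv5
import Cfsg.Agent.Lib.Helper6.PSolvCore
import Cfsg.Agent.Lib.Lead.UniqueSub
import Cfsg.Agent.Lib.Lead.FrobCenter
import Cfsg.Agent.S1324

set_option autoImplicit false

namespace Cfsg.Agent.Lib.Helper5

theorem not_connected_of_rank_one5 {G : Type*} [Group G] [Finite G]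
    (p : ℕ) [Fact p.Prime] (hdiv : p ∣ Nat.card G) (P : Sylow p G)
    (hcore : Cfsg.pCore p G = ⊥)
    (hP : IsCyclic ↥P ∨ (p = 2 ∧ ∃ n : ℕ, Nonempty (↥P ≃* QuaternionGroup (2 ^ n)))) :
    ¬ Cfsg.IsSylowChainConnected p G := by
  have hp : p.Prime := Fact.out
  have hU0 : ∀ x y : G, x ∈ (P : Subgroup G) → y ∈ (P : Subgroup G) → orderOf x = p →
      orderOf y = p → y ∈ Subgroup.zpowers x := by
    intro x y hx hy hxo hyo
    rcases hP with hc | ⟨h2, n, ⟨e⟩⟩
    · have h1 : (⟨y, hy⟩ : ↥P) ^ p = 1 := by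
        apply Subtype.ext
        show y ^ p = 1
        rw [← hyo]; exact pow_orderOf_eq_one y
      have h := Cfsg.Agent.Lib.Lead.mem_zpowers_of_isCyclic (C := ↥P) ⟨x, hx⟩ ⟨y, hy⟩ p hp.pos
        (by rw [Subgroup.orderOf_mk]; exact hxo) h1
      obtain ⟨k, hk⟩ := Subgroup.mem_zpowers_iff.mp h
      refine Subgroup.mem_zpowers_iff.mpr ⟨k, ?_⟩
      have := congrArg Subtype.val hk
      simpa using this
    · subst h2
      haveI : NeZero (2 ^ n) := ⟨by positivity⟩
      have h1 : ∀ z : G, ∀ hz : z ∈ (P : Subgroup G), orderOf z = 2 →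
          e ⟨z, hz⟩ = QuaternionGroup.a ((2 ^ n : ℕ) : ZMod (2 * 2 ^ n)) := by
        intro z hz hzo
        apply quat_invol5
        · intro h
          have h' : (⟨z, hz⟩ : ↥P) = 1 := e.injective (by rw [h, map_one])
          have hz1 : z = 1 := congrArg Subtype.val h'
          rw [hz1, orderOf_one] at hzo
          omega
        · rw [← map_pow]
          have : (⟨z, hz⟩ : ↥P) ^ 2 = 1 := by
            apply Subtype.ext
            show z ^ 2 = 1
            rw [← hzo]; exact pow_orderOf_eq_one z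
          rw [this, map_one]
      have h2 := e.injective ((h1 x hx hxo).trans (h1 y hy hyo).symm)
      have : x = y := congrArg Subtype.val h2
      rw [this]; exact Subgroup.mem_zpowers y
  have hU : ∀ S : Sylow p G, ∀ x y : G, x ∈ (S : Subgroup G) → y ∈ (S : Subgroup G) →
      orderOf x = p → orderOf y = p → y ∈ Subgroup.zpowers x := by
    intro S x y hx hy hxo hyo
    obtain ⟨g, rfl⟩ := MulAction.exists_smul_eq G P S
    rw [mem_smul_sylow_iff5] at hx hy
    have hconj : ∀ z : G, orderOf (g⁻¹ * z * g) = orderOf z := by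
      intro z
      have := MulEquiv.orderOf_eq (MulAut.conj g⁻¹) z
      rwa [MulAut.conj_apply, inv_inv] at this
    have h := hU0 (g⁻¹ * x * g) (g⁻¹ * y * g) hx hy (by rw [hconj, hxo]) (by rw [hconj, hyo])
    obtain ⟨k, hk⟩ := Subgroup.mem_zpowers_iff.mp h
    have e1 : (g⁻¹ * x * g) ^ k = g⁻¹ * x ^ k * g := by
      have := conj_zpow (a := g⁻¹) (b := x) (i := k)
      rwa [inv_inv] at this
    rw [e1] at hk
    have : x ^ k = y := mul_left_cancel (mul_right_cancel hk)
    exact Subgroup.mem_zpowers_iff.mpr ⟨k, this⟩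
  intro hconn
  obtain ⟨x0, hx0P, hx0o⟩ := exists_orderOf_eq_prime_of_ne_bot (P : Subgroup G) P.isPGroup'
    (P.ne_bot_of_dvd_card hdiv)
  have hall : ∀ T : Sylow p G, x0 ∈ (T : Subgroup G) := by
    intro T
    obtain ⟨n, c, hc0, hcl, -, hadj⟩ := hconn P T
    have key : ∀ i : Fin (n + 1), x0 ∈ (c i : Subgroup G) := by
      intro i
      induction i using Fin.induction with
      | zero => rw [hc0]; exact hx0P
      | succ i ih =>
        obtain ⟨-, hne⟩ := hadj i
        obtain ⟨y, hy, hyo⟩ := exists_orderOf_eq_prime_of_ne_bot _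
          ((c i.castSucc).isPGroup'.to_le inf_le_left) hne
        have := hU (c i.castSucc) y x0 hy.1 ih hyo hx0o
        exact (Subgroup.zpowers_le.mpr hy.2) this
    rw [← hcl]; exact key (Fin.last n)
  have hNP : Subgroup.normalClosure ({x0} : Set G) ≤ (P : Subgroup G) := by
    unfold Subgroup.normalClosure
    rw [Subgroup.closure_le]
    intro y hy
    obtain ⟨b, hb, hconj⟩ := Group.mem_conjugatesOfSet_iff.mp hy
    rw [Set.mem_singleton_iff] at hb
    subst hb
    obtain ⟨c, hc⟩ := isConj_iff.mp hconj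
    have h1 := hall (c • P)
    rw [mem_smul_sylow_iff5] at h1
    have h2 := hall (c⁻¹ • P)
    rw [mem_smul_sylow_iff5, inv_inv] at h2
    rw [← hc]; exact h2
  have hle : Subgroup.normalClosure ({x0} : Set G) ≤ Cfsg.pCore p G :=
    le_pCore5 Subgroup.normalClosure_normal (P.isPGroup'.to_le hNP)
  rw [hcore] at hle
  have hx01 : x0 = 1 := Subgroup.mem_bot.mp (hle (Subgroup.subset_normalClosure rfl))
  rw [hx01, orderOf_one] at hx0o
  exact hp.one_lt.ne hx0o

theorem rank_one_of_not_connected5 {G : Type*} [Group G] [Finite G]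
    (p : ℕ) [Fact p.Prime] (hsol : Cfsg.IsPSolvable p G) (hdiv : p ∣ Nat.card G)
    (P : Sylow p G) (hnc : ¬ Cfsg.IsSylowChainConnected p G) :
    Cfsg.pCore p G = ⊥ ∧
      (IsCyclic ↥P ∨ (p = 2 ∧ ∃ n : ℕ, Nonempty (↥P ≃* QuaternionGroup (2 ^ n)))) := by
  have hp : p.Prime := Fact.out
  constructor
  · by_contra hne
    apply hnc
    intro S T
    by_cases hST : S = T
    · subst hST
      exact ⟨0, fun _ => S, rfl, rfl, fun i => inf_le_left, fun i => i.elim0⟩
    · refine ⟨1, ![S, T], rfl, rfl, ?_, ?_⟩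
      · intro i
        fin_cases i
        · exact inf_le_left
        · exact inf_le_right
      · intro i
        fin_cases i
        refine ⟨hST, ?_⟩
        intro hbot
        apply hne
        rw [eq_bot_iff, ← hbot]
        exact le_inf (pCore_le_sylow5 S) (pCore_le_sylow5 T)
  · obtain ⟨H, hH, hpH, hse⟩ := exists_cse_of_not_connected hnc
    obtain ⟨P0, hP0H, hP01⟩ := cse_sylow H hse hpH
    suffices h : IsCyclic ↥P0 ∨ (p = 2 ∧ ∃ n : ℕ, Nonempty (↥P0 ≃* QuaternionGroup (2 ^ n))) by
      obtain ⟨g, rfl⟩ := MulAction.exists_smul_eq G P0 P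
      have e : ↥P0 ≃* ↥(g • P0) := Sylow.equivSMul P0 g
      rcases h with h | ⟨h2, n, ⟨f⟩⟩
      · left; exact isCyclic_of_surjective e e.surjective
      · right; exact ⟨h2, n, ⟨e.symm.trans f⟩⟩
    by_contra hcon
    have huniq : ¬ (∀ H K : Subgroup ↥P0, Nat.card H = p → Nat.card K = p → H = K) := by
      intro hu
      exact hcon (Cfsg.Agent.Lib.Lead.unique_sub_cyclic_or_quat p P0.isPGroup' hu)
    push Not at huniq
    obtain ⟨H1, K1, hH1, hK1, hHK⟩ := huniq
    haveI : Nontrivial ↥P0 := (Subgroup.nontrivial_iff_ne_bot _).mpr hP01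
    haveI := P0.isPGroup'.center_nontrivial
    obtain ⟨z, hzc, hzo⟩ := exists_orderOf_eq_prime_of_ne_bot (Subgroup.center ↥P0)
      (P0.isPGroup'.to_subgroup _) ((Subgroup.nontrivial_iff_ne_bot _).mp inferInstance)
    obtain ⟨W, hW, hWZ⟩ : ∃ W : Subgroup ↥P0, Nat.card W = p ∧ W ≠ Subgroup.zpowers z := by
      by_cases h : H1 = Subgroup.zpowers z
      · exact ⟨K1, hK1, fun h' => hHK (h.trans h'.symm)⟩
      · exact ⟨H1, hH1, h⟩
    haveI : IsCyclic W := isCyclic_of_prime_card hW
    obtain ⟨w, hw⟩ := IsCyclic.exists_generator (α := W)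
    have hwo : orderOf (w : ↥P0) = p := by
      rw [Subgroup.orderOf_coe, orderOf_eq_card_of_forall_mem_zpowers hw, hW]
    have hwz : (w : ↥P0) ∉ Subgroup.zpowers z := by
      intro h
      apply hWZ
      have h1 : Subgroup.zpowers (w : ↥P0) ≤ Subgroup.zpowers z := Subgroup.zpowers_le.mpr h
      have h2 : Subgroup.zpowers (w : ↥P0) = Subgroup.zpowers z :=
        Subgroup.eq_of_le_of_card_ge h1 (by rw [Nat.card_zpowers, Nat.card_zpowers, hwo, hzo])
      have h3 : Subgroup.zpowers (w : ↥P0) = W :=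
        Subgroup.eq_of_le_of_card_ge (Subgroup.zpowers_le.mpr w.2)
          (by rw [Nat.card_zpowers, hwo, hW])
      rw [← h3, h2]
    set zG : G := (z : G) with hzG
    set wG : G := ((w : ↥P0) : G) with hwG
    have hzGo : orderOf zG = p := by rw [hzG, Subgroup.orderOf_coe]; exact hzo
    have hwGo : orderOf wG = p := by rw [hwG, Subgroup.orderOf_coe]; exact hwo
    have hcomm : zG * wG = wG * zG := by
      have := Subgroup.mem_center_iff.mp hzc (w : ↥P0)
      exact (congrArg Subtype.val this).symm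
    have hwGz : wG ∉ Subgroup.zpowers zG := by
      intro h
      obtain ⟨k, hk⟩ := Subgroup.mem_zpowers_iff.mp h
      apply hwz
      refine Subgroup.mem_zpowers_iff.mpr ⟨k, ?_⟩
      apply Subtype.ext
      rw [← hwG, ← hk, hzG]
      simp
    set E : Subgroup G := Subgroup.closure ({zG, wG} : Set G) with hE
    have hzE : zG ∈ E := Subgroup.subset_closure (by simp)
    have hwE : wG ∈ E := Subgroup.subset_closure (by simp)
    have hEP : E ≤ (P0 : Subgroup G) := by
      rw [hE, Subgroup.closure_le]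
      intro y hy
      rcases hy with rfl | hy
      · exact z.2
      · rw [Set.mem_singleton_iff] at hy; subst hy; exact (w : ↥P0).2
    have hEel : Cfsg.IsElementaryAbelian p E := by
      refine ⟨⟨⟨fun a b => Subtype.ext (closure_pair_comm5 zG wG hcomm a a.2 b b.2)⟩⟩, ?_⟩
      exact closure_pair_exp5 zG wG hcomm p (by rw [← hzGo]; exact pow_orderOf_eq_one _)
        (by rw [← hwGo]; exact pow_orderOf_eq_one _)
    have hEp : IsPGroup p E := P0.isPGroup'.to_le hEP
    have hE2 : p ^ 2 ≤ Nat.card E := by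
      obtain ⟨k, hk⟩ := IsPGroup.iff_card.mp hEp
      rw [hk]
      apply Nat.pow_le_pow_right hp.pos
      by_contra hlt
      push Not at hlt
      have hle : Subgroup.zpowers zG ≤ E := Subgroup.zpowers_le.mpr hzE
      have hcard : Nat.card E ≤ Nat.card (Subgroup.zpowers zG) := by
        rw [Nat.card_zpowers, hzGo, hk]
        calc p ^ k ≤ p ^ 1 := Nat.pow_le_pow_right hp.pos (by omega)
          _ = p := pow_one p
      have := Subgroup.eq_of_le_of_card_ge hle hcard
      exact hwGz (this ▸ hwE)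
    have hX : ¬ p ∣ Nat.card ↥(Cfsg.pPrimeCore p G) :=
      (Nat.Prime.coprime_iff_not_dvd hp).mp (pPrimeCore_coprime5 p G).symm
    have hEX : E ≤ Subgroup.normalizer ((Cfsg.pPrimeCore p G : Subgroup G) : Set G) := by
      rw [Subgroup.normalizer_eq_top]; exact le_top
    have hgen := Cfsg.Agent.S1324.result p E (Cfsg.pPrimeCore p G) hEel hE2 hX hEX
    have hXH : Cfsg.pPrimeCore p G ≤ H := by
      rw [hgen]
      apply iSup_le
      rintro ⟨B, hBE, hBidx⟩
      refine inf_le_right.trans ((Subgroup.centralizer_le_normalizer _).trans ?_)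
      apply cse_normalizer_le H hse B (hBE.trans (hEP.trans hP0H))
        (P0.isPGroup'.to_le (hBE.trans hEP))
      rintro rfl
      rw [Subgroup.relIndex_bot_left] at hBidx
      have : p < p ^ 2 := by
        calc p = p ^ 1 := (pow_one p).symm
          _ < p ^ 2 := Nat.pow_lt_pow_right hp.one_lt (by norm_num)
      omega
    have hLH : Cfsg.pPrimePCore p G ≤ H := by
      intro l hl
      obtain ⟨d, hd, q, hq, rfl⟩ := Cfsg.Agent.Lib.Helper6.pPrimePCore_decomp P0 l hl
      exact H.mul_mem (hXH hd) (hP0H hq)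
    haveI := Cfsg.Agent.Lib.Helper6.pPrimePCore_characteristic p G
    haveI : (Cfsg.pPrimePCore p G).Normal := Subgroup.normal_of_characteristic _
    have hpL : p ∣ Nat.card (Cfsg.pPrimePCore p G) :=
      Cfsg.Agent.Lib.Helper6.dvd_card_pPrimePCore hsol hdiv
    obtain ⟨Q'⟩ : Nonempty (Sylow p ↥(Cfsg.pPrimePCore p G)) := inferInstance
    have hQ1 : (Q' : Subgroup ↥(Cfsg.pPrimePCore p G)).map (Cfsg.pPrimePCore p G).subtype ≠ ⊥ := by
      intro h
      rw [Subgroup.map_eq_bot_iff_of_injective _ (Subgroup.subtype_injective _)] at h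
      exact Q'.ne_bot_of_dvd_card hpL h
    have hQp : IsPGroup p ((Q' : Subgroup ↥(Cfsg.pPrimePCore p G)).map
        (Cfsg.pPrimePCore p G).subtype) := Q'.isPGroup'.map _
    have hQH : (Q' : Subgroup ↥(Cfsg.pPrimePCore p G)).map (Cfsg.pPrimePCore p G).subtype ≤ H :=
      (Subgroup.map_subtype_le _).trans hLH
    have hN := cse_normalizer_le H hse _ hQH hQp hQ1
    have htop := Sylow.normalizer_sup_eq_top Q'
    apply hH
    rw [eq_top_iff, ← htop]
    exact sup_le hN hLH

end Cfsg.Agent.Lib.Helper5
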