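import Mathlib
import Cfsg.Prelude
import Cfsg.Agent.Lib.Helper5.ParaChar5
import Cfsg.Agent.Lib.Helper2.InvFix

set_option autoImplicit false

namespace Cfsg.Agent.Lib.Helper5

universe u

/-- A group of even order and parabolic characteristic 2 with `Z(G/O(G)) = 1` has `O(G) = 1`. -/
theorem oddCore_eq_bot_of_parabolicChar5 {G : Type u} [Group G] [Finite G]
    (h2 : 2 ∣ Nat.card G) (hG : Cfsg.IsOfParabolicCharacteristic 2 G)
    [hN : (Cfsg.oddCore G).Normal] (hZ : Subgroup.center (G ⧸ Cfsg.oddCore G) = ⊥) :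
    Cfsg.oddCore G = ⊥ := by
  haveI : Fact (Nat.Prime 2) := ⟨Nat.prime_two⟩
  have hKn : (Cfsg.oddCore G).Normal := hN
  have hKodd : (Nat.card ↥(Cfsg.oddCore G)).Coprime 2 :=
    Cfsg.Agent.Lib.Helper2.pPrimeCore_card_coprime 2 G
  obtain ⟨S⟩ : Nonempty (Sylow 2 G) := inferInstance
  have hS1 : (S : Subgroup G) ≠ ⊥ := by
    intro h
    have h3 : 2 ∣ Nat.card (S : Subgroup G) := S.dvd_card_of_dvd_card h2
    rw [h, Subgroup.card_bot] at h3
    omega
  obtain ⟨z, hzS, hzo, hzc⟩ :=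
    Cfsg.Agent.Lib.Helper2.exists_central_order_p 2 (S : Subgroup G) S.isPGroup' hS1
  have hz1 : z ≠ 1 := by
    intro h
    rw [h, orderOf_one] at hzo
    omega
  have hCn : (Subgroup.centralizer ((Cfsg.oddCore G : Subgroup G) : Set G)).Normal := inferInstance
  by_cases hT : (S : Subgroup G) ⊓ Subgroup.centralizer ((Cfsg.oddCore G : Subgroup G) : Set G) = ⊥
  · exfalso
    obtain ⟨SC, hSC⟩ :=
      sylow_inf_normal5 S (Subgroup.centralizer ((Cfsg.oddCore G : Subgroup G) : Set G))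
    have hSCbot : (SC : Subgroup ↥(Subgroup.centralizer ((Cfsg.oddCore G : Subgroup G) : Set G))) = ⊥ := by
      rw [hSC, eq_bot_iff]
      intro x hx
      rw [Subgroup.mem_subgroupOf] at hx
      have h3 : (x : G) ∈ (S : Subgroup G) ⊓
          Subgroup.centralizer ((Cfsg.oddCore G : Subgroup G) : Set G) := ⟨hx, x.2⟩
      rw [hT, Subgroup.mem_bot] at h3
      rw [Subgroup.mem_bot]
      exact Subtype.ext h3
    have hCodd : (Nat.card ↥(Subgroup.centralizer
        ((Cfsg.oddCore G : Subgroup G) : Set G))).Coprime 2 := by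
      apply Nat.Coprime.symm
      rw [Nat.Prime.coprime_iff_not_dvd Nat.prime_two]
      intro hdvd
      have h3 : 2 ∣ Nat.card (SC : Subgroup ↥(Subgroup.centralizer ((Cfsg.oddCore G : Subgroup G) : Set G))) := SC.dvd_card_of_dvd_card hdvd
      rw [hSCbot, Subgroup.card_bot] at h3
      omega
    have hCK : Subgroup.centralizer ((Cfsg.oddCore G : Subgroup G) : Set G) ≤ Cfsg.oddCore G :=
      le_sSup ⟨hCn, hCodd⟩
    have hF := genFitting_centralizer_of_parabolicChar5 hG S z hz1 hzS hzc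
    obtain ⟨hpp, -⟩ := Cfsg.Agent.Lib.Helper2.no_comp_of_genFitting_eq_pCore 2 hF
    have hKz : ∀ k ∈ Cfsg.oddCore G, k * z = z * k → k = 1 := by
      intro k hk hkz
      have hle : (Cfsg.oddCore G).subgroupOf (Subgroup.centralizer ({z} : Set G)) ≤
          Cfsg.pPrimeCore 2 ↥(Subgroup.centralizer ({z} : Set G)) := by
        refine le_sSup ⟨Subgroup.Normal.subgroupOf hKn _, ?_⟩
        have hdvd : Nat.card ↥((Cfsg.oddCore G).subgroupOf (Subgroup.centralizer ({z} : Set G))) ∣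
            Nat.card ↥(Cfsg.oddCore G) := by
          let f : ↥((Cfsg.oddCore G).subgroupOf (Subgroup.centralizer ({z} : Set G))) →*
              ↥(Cfsg.oddCore G) :=
            { toFun := fun x => ⟨((x : ↥(Subgroup.centralizer ({z} : Set G))) : G),
                Subgroup.mem_subgroupOf.mp x.2⟩
              map_one' := rfl
              map_mul' := fun _ _ => rfl }
          exact Subgroup.card_dvd_of_injective f (by
            intro a b hab
            have := congrArg Subtype.val hab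
            exact Subtype.ext (Subtype.ext this))
        exact Nat.Coprime.coprime_dvd_left hdvd hKodd
      have h1 : (⟨k, Subgroup.mem_centralizer_singleton_iff.mpr hkz⟩ :
          ↥(Subgroup.centralizer ({z} : Set G))) ∈
          (Cfsg.oddCore G).subgroupOf (Subgroup.centralizer ({z} : Set G)) :=
        Subgroup.mem_subgroupOf.mpr hk
      have h3 := hle h1
      rw [hpp, Subgroup.mem_bot] at h3
      exact congrArg Subtype.val h3
    have hzz : z * z = 1 := Cfsg.Agent.Lib.Helper2.invol_mul_self hzo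
    have hzinv : z⁻¹ = z := Cfsg.Agent.Lib.Helper2.invol_inv hzo
    have hinv : ∀ k ∈ Cfsg.oddCore G, z * k * z⁻¹ = k⁻¹ := by
      let φ : ↥(Cfsg.oddCore G) → ↥(Cfsg.oddCore G) := fun k =>
        ⟨(k : G)⁻¹ * (z * (k : G) * z⁻¹),
          Subgroup.mul_mem _ (Subgroup.inv_mem _ k.2) (hKn.conj_mem _ k.2 z)⟩
      have hφinj : Function.Injective φ := by
        intro a b hab
        have h1 : (a : G)⁻¹ * (z * (a : G) * z⁻¹) = (b : G)⁻¹ * (z * (b : G) * z⁻¹) :=
          congrArg Subtype.val hab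
        have h3 : ((b : G) * (a : G)⁻¹) * z = z * ((b : G) * (a : G)⁻¹) := by
          calc (b : G) * (a : G)⁻¹ * z
              = (b : G) * ((a : G)⁻¹ * (z * (a : G) * z⁻¹)) * z * (a : G)⁻¹ := by group
            _ = (b : G) * ((b : G)⁻¹ * (z * (b : G) * z⁻¹)) * z * (a : G)⁻¹ := by rw [h1]
            _ = z * ((b : G) * (a : G)⁻¹) := by group
        have h4 := hKz _ (Subgroup.mul_mem _ b.2 (Subgroup.inv_mem _ a.2)) h3
        apply Subtype.ext
        have h5 : (b : G) = (b : G) * (a : G)⁻¹ * (a : G) := by group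
        rw [h5, h4, one_mul]
      have hφsurj : Function.Surjective φ := Finite.surjective_of_injective hφinj
      intro k hk
      obtain ⟨a, ha⟩ := hφsurj ⟨k, hk⟩
      have hk' : k = (a : G)⁻¹ * (z * (a : G) * z⁻¹) := (congrArg Subtype.val ha).symm
      rw [hk']
      apply eq_inv_of_mul_eq_one_left
      calc z * ((a : G)⁻¹ * (z * (a : G) * z⁻¹)) * z⁻¹ * ((a : G)⁻¹ * (z * (a : G) * z⁻¹))
          = z * (a : G)⁻¹ * z * (a : G) * (z⁻¹ * z⁻¹) * (a : G)⁻¹ * z * (a : G) * z⁻¹ := by group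
        _ = z * (a : G)⁻¹ * z * (a : G) * (z * z) * (a : G)⁻¹ * z * (a : G) * z := by rw [hzinv]
        _ = z * (a : G)⁻¹ * z * (a : G) * 1 * (a : G)⁻¹ * z * (a : G) * z := by rw [hzz]
        _ = z * (a : G)⁻¹ * (z * z) * (a : G) * z := by group
        _ = z * (a : G)⁻¹ * 1 * (a : G) * z := by rw [hzz]
        _ = z * z := by group
        _ = 1 := hzz
    have hcent : ∀ g : G, z * (g * z * g⁻¹) ∈
        Subgroup.centralizer ((Cfsg.oddCore G : Subgroup G) : Set G) := by
      intro g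
      rw [Subgroup.mem_centralizer_iff]
      intro k hk
      have hk' : g⁻¹ * k * g ∈ Cfsg.oddCore G := by
        have := hKn.conj_mem k hk g⁻¹
        simpa using this
      have h1 := hinv _ hk'
      have h3 : (g * z * g⁻¹) * k * (g * z * g⁻¹)⁻¹ = k⁻¹ := by
        calc (g * z * g⁻¹) * k * (g * z * g⁻¹)⁻¹ = g * (z * (g⁻¹ * k * g) * z⁻¹) * g⁻¹ := by group
          _ = g * (g⁻¹ * k * g)⁻¹ * g⁻¹ := by rw [h1]
          _ = k⁻¹ := by group
      have h4 := hinv k⁻¹ (Subgroup.inv_mem _ hk)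
      have h5 : (z * (g * z * g⁻¹)) * k * (z * (g * z * g⁻¹))⁻¹ = k := by
        calc (z * (g * z * g⁻¹)) * k * (z * (g * z * g⁻¹))⁻¹
            = z * ((g * z * g⁻¹) * k * (g * z * g⁻¹)⁻¹) * z⁻¹ := by group
          _ = z * k⁻¹ * z⁻¹ := by rw [h3]
          _ = k := by rw [h4, inv_inv]
      calc k * (z * (g * z * g⁻¹))
          = ((z * (g * z * g⁻¹)) * k * (z * (g * z * g⁻¹))⁻¹) * (z * (g * z * g⁻¹)) := by rw [h5]
        _ = (z * (g * z * g⁻¹)) * k := by group
    have hcenter : (QuotientGroup.mk z : G ⧸ Cfsg.oddCore G) ∈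
        Subgroup.center (G ⧸ Cfsg.oddCore G) := by
      rw [Subgroup.mem_center_iff]
      intro gb
      obtain ⟨g, rfl⟩ := QuotientGroup.mk_surjective gb
      have h1 : z * (g * z * g⁻¹) ∈ Cfsg.oddCore G := hCK (hcent g)
      have h3 : ((z * (g * z * g⁻¹) : G) : G ⧸ Cfsg.oddCore G) = 1 :=
        (QuotientGroup.eq_one_iff _).mpr h1
      have h4 : (g * z : G) = z⁻¹ * (z * (g * z * g⁻¹)) * g := by group
      calc (g : G ⧸ Cfsg.oddCore G) * (z : G ⧸ Cfsg.oddCore G)
          = ((g * z : G) : G ⧸ Cfsg.oddCore G) := rfl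
        _ = ((z⁻¹ * (z * (g * z * g⁻¹)) * g : G) : G ⧸ Cfsg.oddCore G) := by rw [← h4]
        _ = ((z⁻¹ : G) : G ⧸ Cfsg.oddCore G) * ((z * (g * z * g⁻¹) : G) : G ⧸ Cfsg.oddCore G) *
            (g : G ⧸ Cfsg.oddCore G) := rfl
        _ = (z : G ⧸ Cfsg.oddCore G) * (g : G ⧸ Cfsg.oddCore G) := by rw [h3, mul_one, hzinv]
    rw [hZ, Subgroup.mem_bot, QuotientGroup.eq_one_iff] at hcenter
    have h5 : orderOf z ∣ Nat.card ↥(Cfsg.oddCore G) := by
      have h6 := orderOf_dvd_natCard (⟨z, hcenter⟩ : ↥(Cfsg.oddCore G))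
      rwa [Subgroup.orderOf_mk] at h6
    rw [hzo] at h5
    exact ((Nat.Prime.coprime_iff_not_dvd Nat.prime_two).mp hKodd.symm) h5
  · obtain ⟨T₀, hT₀def⟩ : ∃ T₀ : Subgroup G, T₀ = (S : Subgroup G) ⊓
        Subgroup.centralizer ((Cfsg.oddCore G : Subgroup G) : Set G) := ⟨_, rfl⟩
    rw [← hT₀def] at hT
    have hT₀p : IsPGroup 2 ↥T₀ := S.isPGroup'.to_le (hT₀def ▸ inf_le_left)
    have hpar : Cfsg.IsParabolic 2 (Subgroup.normalizer (T₀ : Set G)) := ⟨S, by
      rw [hT₀def]
      exact Cfsg.Agent.Lib.Helper4.le_normalizer_inf Subgroup.le_normalizer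
        (Cfsg.Agent.Lib.Helper4.le_normalizer_of_normal hCn)⟩
    have hchar := hG T₀ hT₀p hT hpar
    have hF := genFitting_eq_pCore_of_charP5 2 hchar
    obtain ⟨hpp, -⟩ := Cfsg.Agent.Lib.Helper2.no_comp_of_genFitting_eq_pCore 2 hF
    have hKN : Cfsg.oddCore G ≤ Subgroup.normalizer (T₀ : Set G) := by
      intro k hk
      apply Subgroup.centralizer_le_normalizer
      rw [Subgroup.mem_centralizer_iff]
      intro t ht
      rw [hT₀def] at ht
      exact (Subgroup.mem_centralizer_iff.mp ht.2 k hk).symm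
    have hle : (Cfsg.oddCore G).subgroupOf (Subgroup.normalizer (T₀ : Set G)) ≤
        Cfsg.pPrimeCore 2 ↥(Subgroup.normalizer (T₀ : Set G)) := by
      refine le_sSup ⟨Subgroup.Normal.subgroupOf hKn _, ?_⟩
      rw [Nat.card_congr (Subgroup.subgroupOfEquivOfLe hKN).toEquiv]
      exact hKodd
    rw [hpp] at hle
    rw [eq_bot_iff]
    intro k hk
    have h3 := hle (show (⟨k, hKN hk⟩ : ↥(Subgroup.normalizer (T₀ : Set G))) ∈
      (Cfsg.oddCore G).subgroupOf (Subgroup.normalizer (T₀ : Set G)) from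
        Subgroup.mem_subgroupOf.mpr hk)
    rw [Subgroup.mem_bot] at h3 ⊢
    exact congrArg Subtype.val h3

end Cfsg.Agent.Lib.Helper5
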