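import Mathlib
import Cfsg.Agent.Lib.Helper5.SL2Invol5
import Cfsg.Agent.Lib.Helper4.SL2Unip

set_option autoImplicit false

namespace Cfsg.Agent.Lib.Helper5

universe u v w

open Matrix

section SL2K

variable {F : Type u} [Field F]

/-- a second element squaring to `-1` -/
def sl2K5 (F : Type u) [Field F] : Matrix.SpecialLinearGroup (Fin 2) F :=
  ⟨!![1, -2; 1, -1], by rw [Matrix.det_fin_two_of]; ring⟩

theorem sl2K5_sq : sl2K5 F * sl2K5 F = sl2Z5 F := by
  apply Subtype.ext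
  show !![(1 : F), -2; 1, -1] * !![(1 : F), -2; 1, -1] = !![-1, 0; 0, -1]
  rw [Matrix.mul_fin_two]
  ext i j
  fin_cases i <;> fin_cases j <;> simp <;> ring

theorem sl2JK5_ne : sl2J5 F * sl2K5 F ≠ sl2K5 F * sl2J5 F := by
  intro h
  have hm : !![(0 : F), -1; 1, 0] * !![(1 : F), -2; 1, -1] =
      !![(1 : F), -2; 1, -1] * !![(0 : F), -1; 1, 0] := congrArg Subtype.val h
  rw [Matrix.mul_fin_two, Matrix.mul_fin_two] at hm
  have h00 : (0 : F) * 1 + -1 * 1 = 1 * 0 + -2 * 1 := congrFun (congrFun hm 0) 0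
  have : (1 : F) = 0 := by linear_combination h00
  exact one_ne_zero this

theorem sl2Z5_comm (B : Matrix.SpecialLinearGroup (Fin 2) F) :
    B * sl2Z5 F = sl2Z5 F * B := by
  induction B using Matrix.SpecialLinearGroup.fin_two_induction with
  | h a b c d hdet =>
    apply Subtype.ext
    show !![a, b; c, d] * !![(-1 : F), 0; 0, -1] = !![(-1 : F), 0; 0, -1] * !![a, b; c, d]
    rw [Matrix.mul_fin_two, Matrix.mul_fin_two]
    ext i j
    fin_cases i <;> fin_cases j <;> simp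

/-- an element commuting with `J` and squaring to `Z` is `±J` -/
theorem sl2_comm_J5 (h2 : (2 : F) ≠ 0) (B : Matrix.SpecialLinearGroup (Fin 2) F)
    (hc : B * sl2J5 F = sl2J5 F * B) (hB : B * B = sl2Z5 F) :
    B = sl2J5 F ∨ B = sl2J5 F * sl2Z5 F := by
  induction B using Matrix.SpecialLinearGroup.fin_two_induction with
  | h a b c d hdet =>
    have hm : !![a, b; c, d] * !![(0 : F), -1; 1, 0] = !![(0 : F), -1; 1, 0] * !![a, b; c, d] :=
      congrArg Subtype.val hc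
    have hq : !![a, b; c, d] * !![a, b; c, d] = (!![-1, 0; 0, -1] : Matrix (Fin 2) (Fin 2) F) :=
      congrArg Subtype.val hB
    rw [Matrix.mul_fin_two, Matrix.mul_fin_two] at hm
    rw [Matrix.mul_fin_two] at hq
    have m00 : a * 0 + b * 1 = 0 * a + -1 * c := congrFun (congrFun hm 0) 0
    have m01 : a * -1 + b * 0 = 0 * b + -1 * d := congrFun (congrFun hm 0) 1
    have q00 : a * a + b * c = -1 := congrFun (congrFun hq 0) 0
    have hcb : c = -b := by linear_combination m00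
    have hda : d = a := by linear_combination m01
    subst hcb; subst hda
    have ha : d = 0 := by
      have : 2 * (d * d) = 0 := by linear_combination hdet + q00
      rcases mul_eq_zero.1 this with h | h
      · exact absurd h h2
      · exact mul_self_eq_zero.1 h
    subst ha
    have hb : (b - 1) * (b + 1) = 0 := by linear_combination hdet
    rcases mul_eq_zero.1 hb with h | h
    · right
      have h1 : b = 1 := by linear_combination h
      subst h1
      apply Subtype.ext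
      show !![(0 : F), 1; -1, 0] = !![(0 : F), -1; 1, 0] * !![(-1 : F), 0; 0, -1]
      rw [Matrix.mul_fin_two]
      ext i j
      fin_cases i <;> fin_cases j <;> simp
    · left
      have h1 : b = -1 := by linear_combination h
      subst h1
      apply Subtype.ext
      show !![(0 : F), -1; - -1, 0] = !![(0 : F), -1; 1, 0]
      ext i j
      fin_cases i <;> fin_cases j <;> simp

/-- an element commuting with `J` and `K` is central -/
theorem sl2_comm_JK5 (h2 : (2 : F) ≠ 0) (B : Matrix.SpecialLinearGroup (Fin 2) F)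
    (hJ : B * sl2J5 F = sl2J5 F * B) (hK : B * sl2K5 F = sl2K5 F * B) :
    B = 1 ∨ B = sl2Z5 F := by
  apply sl2_sq_one5 h2
  induction B using Matrix.SpecialLinearGroup.fin_two_induction with
  | h a b c d hdet =>
    have hm : !![a, b; c, d] * !![(0 : F), -1; 1, 0] = !![(0 : F), -1; 1, 0] * !![a, b; c, d] :=
      congrArg Subtype.val hJ
    have hk : !![a, b; c, d] * !![(1 : F), -2; 1, -1] = !![(1 : F), -2; 1, -1] * !![a, b; c, d] :=
      congrArg Subtype.val hK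
    rw [Matrix.mul_fin_two, Matrix.mul_fin_two] at hm hk
    have m00 : a * 0 + b * 1 = 0 * a + -1 * c := congrFun (congrFun hm 0) 0
    have m01 : a * -1 + b * 0 = 0 * b + -1 * d := congrFun (congrFun hm 0) 1
    have k00 : a * 1 + b * 1 = 1 * a + -2 * c := congrFun (congrFun hk 0) 0
    have hcb : c = -b := by linear_combination m00
    have hda : d = a := by linear_combination m01
    subst hcb; subst hda
    have hb : b = 0 := by linear_combination -k00
    subst hb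
    have hdd : d * d = 1 := by linear_combination hdet
    apply Subtype.ext
    show !![d, 0; -0, d] * !![d, 0; -0, d] = (1 : Matrix (Fin 2) (Fin 2) F)
    rw [Matrix.mul_fin_two, Matrix.one_fin_two]
    ext i j
    fin_cases i <;> fin_cases j <;> simp [hdd]

end SL2K

/-- the abstract properties of `SL₂(q)`, `q` odd, with central involution `j`, that we use -/
structure SL2Like5 {G : Type w} [Group G] (A : Subgroup G) (j : G) : Prop where
  mem : j ∈ A
  sq_one : ∀ x ∈ A, x * x = 1 → x = 1 ∨ x = j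
  comm : ∀ g ∈ A, ∀ h ∈ A, g * g = j → h * h = j → g * h = h * g → h = g ∨ h = g * j
  cent : ∀ x ∈ A, (∀ h ∈ A, h * h = j → x * h = h * x) → x = 1 ∨ x = j
  ex : ∃ g ∈ A, g * g = j

theorem sl2Like_of_equiv5 {G : Type w} [Group G] {F : Type u} [Field F] [Fintype F]
    (hF : Odd (Fintype.card F)) (L : Subgroup G)
    (e : ↥L ≃* Matrix.SpecialLinearGroup (Fin 2) F) (j : G) (hjL : j ∈ L) (hj2 : j * j = 1)
    (hj1 : j ≠ 1) : SL2Like5 L j := by
  have h2 := sl2_two_ne_zero5 hF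
  have hjZ : e ⟨j, hjL⟩ = sl2Z5 F := by
    have h'' : e ⟨j, hjL⟩ * e ⟨j, hjL⟩ = 1 := by
      rw [← map_mul]
      have : (⟨j, hjL⟩ : ↥L) * ⟨j, hjL⟩ = 1 := Subtype.ext hj2
      rw [this, map_one]
    rcases sl2_sq_one5 h2 _ h'' with h | h
    · exfalso; apply hj1
      have := e.injective (h.trans (map_one e).symm)
      exact congrArg Subtype.val this
    · exact h
  have hsqZ : ∀ a (ha : a ∈ L), a * a = j → e ⟨a, ha⟩ * e ⟨a, ha⟩ = sl2Z5 F := by
    intro a ha haj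
    rw [← map_mul, ← hjZ]
    congr 1
    exact Subtype.ext haj
  have hsymm : ∀ X : Matrix.SpecialLinearGroup (Fin 2) F, X * X = sl2Z5 F →
      ((e.symm X : ↥L) : G) * (e.symm X : ↥L) = j := by
    intro X hX
    have : e.symm X * e.symm X = ⟨j, hjL⟩ := by
      apply e.injective
      rw [map_mul, e.apply_symm_apply, hX, hjZ]
    exact congrArg Subtype.val this
  have hpull : ∀ x (hx : x ∈ L) (X : Matrix.SpecialLinearGroup (Fin 2) F),
      x * ((e.symm X : ↥L) : G) = ((e.symm X : ↥L) : G) * x → e ⟨x, hx⟩ * X = X * e ⟨x, hx⟩ := by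
    intro x hx X h1
    have h1' : (⟨x, hx⟩ : ↥L) * e.symm X = e.symm X * ⟨x, hx⟩ := Subtype.ext h1
    have h3 := congrArg e h1'
    rwa [map_mul, map_mul, e.apply_symm_apply] at h3
  refine ⟨hjL, (sl2_factor5 hF L e j hjL hj2 hj1).1, ?_, ?_, ?_⟩
  · intro g hg h hh hgj hhj hcomm
    obtain ⟨P, hP⟩ := sl2_sq_neg5 hF _ (hsqZ g hg hgj)
    have hc' : e ⟨g, hg⟩ * e ⟨h, hh⟩ = e ⟨h, hh⟩ * e ⟨g, hg⟩ := by
      rw [← map_mul, ← map_mul]
      congr 1
      exact Subtype.ext hcomm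
    rw [← hP] at hc'
    have hBJ : (P⁻¹ * e ⟨h, hh⟩ * P) * sl2J5 F = sl2J5 F * (P⁻¹ * e ⟨h, hh⟩ * P) := by
      calc (P⁻¹ * e ⟨h, hh⟩ * P) * sl2J5 F
          = P⁻¹ * (e ⟨h, hh⟩ * (P * sl2J5 F * P⁻¹)) * P := by group
        _ = P⁻¹ * ((P * sl2J5 F * P⁻¹) * e ⟨h, hh⟩) * P := by rw [hc']
        _ = sl2J5 F * (P⁻¹ * e ⟨h, hh⟩ * P) := by group
    have hBB : (P⁻¹ * e ⟨h, hh⟩ * P) * (P⁻¹ * e ⟨h, hh⟩ * P) = sl2Z5 F := by
      calc (P⁻¹ * e ⟨h, hh⟩ * P) * (P⁻¹ * e ⟨h, hh⟩ * P)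
          = P⁻¹ * (e ⟨h, hh⟩ * e ⟨h, hh⟩) * P := by group
        _ = P⁻¹ * (sl2Z5 F * P) := by rw [hsqZ h hh hhj, mul_assoc]
        _ = P⁻¹ * (P * sl2Z5 F) := by rw [sl2Z5_comm P]
        _ = sl2Z5 F := by group
    have hh' : e ⟨h, hh⟩ = P * (P⁻¹ * e ⟨h, hh⟩ * P) * P⁻¹ := by group
    rcases sl2_comm_J5 h2 _ hBJ hBB with hB | hB
    · left
      have : e ⟨h, hh⟩ = e ⟨g, hg⟩ := by
        rw [hh', hB, hP]
      exact congrArg Subtype.val (e.injective this)
    · right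
      have : e ⟨h, hh⟩ = e (⟨g, hg⟩ * ⟨j, hjL⟩) := by
        rw [map_mul, hjZ, ← hP, hh', hB]
        calc P * (sl2J5 F * sl2Z5 F) * P⁻¹ = P * sl2J5 F * (sl2Z5 F * P⁻¹) := by group
          _ = P * sl2J5 F * (P⁻¹ * sl2Z5 F) := by rw [sl2Z5_comm P⁻¹]
          _ = P * sl2J5 F * P⁻¹ * sl2Z5 F := by group
      exact congrArg Subtype.val (e.injective this)
  · intro x hx hall
    have hJ := hpull x hx (sl2J5 F) (hall _ (e.symm (sl2J5 F)).2 (hsymm _ sl2J5_sq))
    have hK := hpull x hx (sl2K5 F) (hall _ (e.symm (sl2K5 F)).2 (hsymm _ sl2K5_sq))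
    rcases sl2_comm_JK5 h2 _ hJ hK with h | h
    · left
      have := e.injective (h.trans (map_one e).symm)
      exact congrArg Subtype.val this
    · right
      have := e.injective (h.trans hjZ.symm)
      exact congrArg Subtype.val this
  · exact ⟨((e.symm (sl2J5 F) : ↥L) : G), (e.symm (sl2J5 F)).2, hsymm _ sl2J5_sq⟩

/-- two commuting `SL₂`-like subgroups meeting in `⟨j⟩` -/
structure SLPair5 {G : Type w} [Group G] (A B : Subgroup G) (j : G) : Prop where
  likeA : SL2Like5 A j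
  likeB : SL2Like5 B j
  comm : ∀ x ∈ A, ∀ y ∈ B, x * y = y * x
  inter : ∀ t, t ∈ A → t ∈ B → t = 1 ∨ t = j
  sq : j * j = 1
  ne : j ≠ 1

section Pair

variable {G : Type w} [Group G] {A B A' B' : Subgroup G} {j : G}

theorem SLPair5.symm (h : SLPair5 A B j) : SLPair5 B A j :=
  ⟨h.likeB, h.likeA, fun x hx y hy => (h.comm y hy x hx).symm, fun t h1 h2 => h.inter t h2 h1,
    h.sq, h.ne⟩

theorem SLPair5.not_both (h : SLPair5 A B j) (g : G) (hA : g ∈ A) (hB : g ∈ B)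
    (hg : g * g = j) : False := by
  rcases h.inter g hA hB with h1 | h1
  · rw [h1, one_mul] at hg; exact h.ne hg.symm
  · rw [h1, h.sq] at hg; exact h.ne hg.symm

theorem SLPair5.omega (h : SLPair5 A B j) (a b : G) (ha : a ∈ A) (hb : b ∈ B)
    (hab : (a * b) * (a * b) = j) : a * b ∈ A ∨ a * b ∈ B := by
  have hc := h.comm a ha b hb
  have h1 : (a * a) * (b * b) = j := by
    calc (a * a) * (b * b) = a * (a * b) * b := by group
      _ = a * (b * a) * b := by rw [hc]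
      _ = (a * b) * (a * b) := by group
      _ = j := hab
  have h2 : a * a ∈ B := by
    have : a * a = j * (b * b)⁻¹ := by rw [← h1]; group
    rw [this]; exact B.mul_mem h.likeB.mem (B.inv_mem (B.mul_mem hb hb))
  rcases h.inter _ (A.mul_mem ha ha) h2 with h3 | h3
  · right
    rcases h.likeA.sq_one a ha h3 with h4 | h4
    · rw [h4, one_mul]; exact hb
    · rw [h4]; exact B.mul_mem h.likeB.mem hb
  · left
    have h4 : b * b = 1 := by
      rw [h3] at h1
      exact mul_left_cancel (a := j) (by rw [h1, mul_one])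
    rcases h.likeB.sq_one b hb h4 with h5 | h5
    · rw [h5, mul_one]; exact ha
    · rw [h5]; exact A.mul_mem ha h.likeA.mem

theorem SLPair5.conj_all (h : SLPair5 A B j) (h' : SLPair5 A' B' j) (m : G)
    (hmj : m * j * m⁻¹ = j)
    (hK : ∀ g ∈ A, g * g = j → m * g * m⁻¹ ∈ A' ∨ m * g * m⁻¹ ∈ B')
    (g₀ : G) (hg₀ : g₀ ∈ A) (hg₀j : g₀ * g₀ = j) (hg₀' : m * g₀ * m⁻¹ ∈ A') :
    ∀ g ∈ A, g * g = j → m * g * m⁻¹ ∈ A' := by
  intro g hg hgj
  by_cases hcm : g₀ * g = g * g₀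
  · rcases h.likeA.comm g₀ hg₀ g hg hg₀j hgj hcm with h1 | h1
    · rw [h1]; exact hg₀'
    · have : m * (g₀ * j) * m⁻¹ = (m * g₀ * m⁻¹) * (m * j * m⁻¹) := by group
      rw [h1, this, hmj]; exact A'.mul_mem hg₀' h'.likeA.mem
  · rcases hK g hg hgj with h1 | h1
    · exact h1
    · exfalso; apply hcm
      have h2 := h'.comm _ hg₀' _ h1
      have h3 : m * (g₀ * g) * m⁻¹ = m * (g * g₀) * m⁻¹ := by
        calc m * (g₀ * g) * m⁻¹ = (m * g₀ * m⁻¹) * (m * g * m⁻¹) := by group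
          _ = (m * g * m⁻¹) * (m * g₀ * m⁻¹) := h2
          _ = m * (g * g₀) * m⁻¹ := by group
      exact mul_left_cancel (mul_right_cancel h3)

theorem SLPair5.conj_other (h : SLPair5 A B j) (h' : SLPair5 A' B' j) (m : G)
    (hmj : m * j * m⁻¹ = j)
    (hK : ∀ g ∈ B, g * g = j → m * g * m⁻¹ ∈ A' ∨ m * g * m⁻¹ ∈ B')
    (hall : ∀ g ∈ A, g * g = j → m * g * m⁻¹ ∈ A') :
    ∀ k ∈ B, k * k = j → m * k * m⁻¹ ∈ B' := by
  intro k hk hkj
  rcases hK k hk hkj with h1 | h1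
  · exfalso
    obtain ⟨g₀, hg₀, hg₀j⟩ := h.likeA.ex
    have hc0 := h.comm g₀ hg₀ k hk
    have hcc : (m * g₀ * m⁻¹) * (m * k * m⁻¹) = (m * k * m⁻¹) * (m * g₀ * m⁻¹) := by
      calc (m * g₀ * m⁻¹) * (m * k * m⁻¹) = m * (g₀ * k) * m⁻¹ := by group
        _ = m * (k * g₀) * m⁻¹ := by rw [hc0]
        _ = (m * k * m⁻¹) * (m * g₀ * m⁻¹) := by group
    have sq1 : (m * g₀ * m⁻¹) * (m * g₀ * m⁻¹) = j := by
      calc (m * g₀ * m⁻¹) * (m * g₀ * m⁻¹) = m * (g₀ * g₀) * m⁻¹ := by group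
        _ = j := by rw [hg₀j, hmj]
    have sq2 : (m * k * m⁻¹) * (m * k * m⁻¹) = j := by
      calc (m * k * m⁻¹) * (m * k * m⁻¹) = m * (k * k) * m⁻¹ := by group
        _ = j := by rw [hkj, hmj]
    have hkA : k ∈ A := by
      rcases h'.likeA.comm _ (hall g₀ hg₀ hg₀j) _ h1 sq1 sq2 hcc with h2 | h2
      · have : k = g₀ := mul_left_cancel (mul_right_cancel h2)
        rw [this]; exact hg₀
      · have h3 : m * k * m⁻¹ = m * (g₀ * j) * m⁻¹ := by
          calc m * k * m⁻¹ = m * g₀ * m⁻¹ * j := h2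
            _ = m * g₀ * m⁻¹ * (m * j * m⁻¹) := by rw [hmj]
            _ = m * (g₀ * j) * m⁻¹ := by group
        have : k = g₀ * j := mul_left_cancel (mul_right_cancel h3)
        rw [this]; exact A.mul_mem hg₀ h.likeA.mem
    exact h.not_both k hkA hk hkj
  · exact h1

theorem SLPair5.conj_sub (h : SLPair5 A B j) (h' : SLPair5 A' B' j) (m : G)
    (hinv : ∀ k ∈ B', k * k = j → m⁻¹ * k * m ∈ B)
    (hL : ∀ x ∈ A, ∃ a' ∈ A', ∃ b' ∈ B', m * x * m⁻¹ = a' * b') :
    ∀ x ∈ A, m * x * m⁻¹ ∈ A' := by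
  intro x hx
  obtain ⟨a', ha', b', hb', hab⟩ := hL x hx
  have hb : b' = 1 ∨ b' = j := by
    apply h'.likeB.cent b' hb'
    intro k hk hkj
    have h1 := h.comm x hx _ (hinv k hk hkj)
    have h2 : (a' * b') * k = k * (a' * b') := by
      rw [← hab]
      calc m * x * m⁻¹ * k = m * (x * (m⁻¹ * k * m)) * m⁻¹ := by group
        _ = m * ((m⁻¹ * k * m) * x) * m⁻¹ := by rw [h1]
        _ = k * (m * x * m⁻¹) := by group
    have h3 := h'.comm a' ha' k hk
    have h4 : a' * (b' * k) = a' * (k * b') := by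
      calc a' * (b' * k) = (a' * b') * k := by group
        _ = k * (a' * b') := h2
        _ = (k * a') * b' := by group
        _ = (a' * k) * b' := by rw [h3]
        _ = a' * (k * b') := by group
    exact mul_left_cancel h4
  rw [hab]
  rcases hb with h5 | h5
  · rw [h5, mul_one]; exact ha'
  · rw [h5]; exact A'.mul_mem ha' h'.likeA.mem

theorem map_conj_eq5 (A B : Subgroup G) (n : G) (h1 : ∀ x ∈ A, n * x * n⁻¹ ∈ B)
    (h2 : ∀ y ∈ B, n⁻¹ * y * n ∈ A) : A.map (MulAut.conj n).toMonoidHom = B := by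
  apply le_antisymm
  · rintro _ ⟨x, hx, rfl⟩
    exact h1 x hx
  · intro y hy
    refine ⟨n⁻¹ * y * n, h2 y hy, ?_⟩
    show n * (n⁻¹ * y * n) * n⁻¹ = y
    group

end Pair

theorem sl2_card_inj5 (a b : ℕ) (ha : 2 ≤ a) (hb : 2 ≤ b)
    (h : a * (a ^ 2 - 1) = b * (b ^ 2 - 1)) : a = b := by
  have key : ∀ x y : ℕ, 2 ≤ x → x < y → x * (x ^ 2 - 1) < y * (y ^ 2 - 1) := by
    intro x y hx hxy
    have h1 : x ^ 2 - 1 ≤ y ^ 2 - 1 := Nat.sub_le_sub_right (Nat.pow_le_pow_left hxy.le 2) 1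
    have h2 : 0 < y ^ 2 - 1 := by
      have : 2 ^ 2 ≤ y ^ 2 := Nat.pow_le_pow_left (by omega) 2
      omega
    calc x * (x ^ 2 - 1) ≤ x * (y ^ 2 - 1) := Nat.mul_le_mul_left x h1
      _ < y * (y ^ 2 - 1) := Nat.mul_lt_mul_of_pos_right hxy h2
  rcases lt_trichotomy a b with h1 | h1 | h1
  · exact absurd h (key a b ha h1).ne
  · exact h1
  · exact absurd h.symm (key b a hb h1).ne

/-- S3210 -/
theorem sl2_outer_normalizes_or_swaps5 {G : Type w} [Group G] [Finite G]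
    {F₁ : Type u} [Field F₁] [Fintype F₁] {F₂ : Type v} [Field F₂] [Fintype F₂]
    (hF₁ : Odd (Fintype.card F₁)) (hF₂ : Odd (Fintype.card F₂)) (L₁ L₂ : Subgroup G)
    (e₁ : ↥L₁ ≃* Matrix.SpecialLinearGroup (Fin 2) F₁)
    (e₂ : ↥L₂ ≃* Matrix.SpecialLinearGroup (Fin 2) F₂)
    (hc : ∀ x ∈ L₁, ∀ y ∈ L₂, x * y = y * x) (j : G) (hj : orderOf j = 2)
    (hm : L₁ ⊓ L₂ = Subgroup.zpowers j)
    (hle : L₁ ⊔ L₂ ≤ Subgroup.centralizer ({j} : Set G))
    (hi : (L₁ ⊔ L₂).relIndex (Subgroup.centralizer ({j} : Set G)) = 2) (n : G)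
    (hn : n ∈ Subgroup.centralizer ({j} : Set G)) (hn' : n ∉ L₁ ⊔ L₂) :
    (L₁.map (MulAut.conj n).toMonoidHom = L₁ ∧ L₂.map (MulAut.conj n).toMonoidHom = L₂) ∨
      (L₁.map (MulAut.conj n).toMonoidHom = L₂ ∧ Fintype.card F₁ = Fintype.card F₂ ∧
        ∃ n' ∈ Subgroup.centralizer ({j} : Set G), n' ∉ L₁ ⊔ L₂ ∧
          L₁.map (MulAut.conj n').toMonoidHom = L₂ ∧ n' ^ 2 ∈ Subgroup.zpowers j) := by
  have hj2 : j * j = 1 := by
    have := pow_orderOf_eq_one j
    rwa [hj, pow_two] at this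
  have hj1 : j ≠ 1 := by
    intro h
    rw [h, orderOf_one] at hj
    omega
  have hjm : j ∈ L₁ ⊓ L₂ := by rw [hm]; exact Subgroup.mem_zpowers j
  have hjL₁ : j ∈ L₁ := hjm.1
  have hjL₂ : j ∈ L₂ := hjm.2
  have hmem : ∀ t, t ∈ L₁ → t ∈ L₂ → t = 1 ∨ t = j := by
    intro t h1 h2
    have : t ∈ Subgroup.zpowers j := by rw [← hm]; exact ⟨h1, h2⟩
    obtain ⟨k, rfl⟩ := Subgroup.mem_zpowers_iff.1 this
    rcases Int.even_or_odd k with ⟨r, rfl⟩ | ⟨r, rfl⟩
    · left; rw [← two_mul, _root_.zpow_mul, zpow_two, hj2, _root_.one_zpow]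
    · right; rw [_root_.zpow_add, _root_.zpow_mul, zpow_two, hj2, _root_.one_zpow, one_mul, zpow_one]
  have hP : SLPair5 L₁ L₂ j :=
    ⟨sl2Like_of_equiv5 hF₁ L₁ e₁ j hjL₁ hj2 hj1, sl2Like_of_equiv5 hF₂ L₂ e₂ j hjL₂ hj2 hj1,
      hc, hmem, hj2, hj1⟩
  have hN : ((L₁ ⊔ L₂).subgroupOf (Subgroup.centralizer ({j} : Set G))).Normal :=
    Subgroup.normal_of_index_eq_two hi
  have hnormal : ∀ m ∈ Subgroup.centralizer ({j} : Set G), ∀ g ∈ L₁ ⊔ L₂,
      m * g * m⁻¹ ∈ L₁ ⊔ L₂ := by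
    intro m hm' g hg
    have := hN.conj_mem ⟨g, hle hg⟩ (Subgroup.mem_subgroupOf.2 hg) ⟨m, hm'⟩
    exact Subgroup.mem_subgroupOf.1 this
  have hcj : ∀ m ∈ Subgroup.centralizer ({j} : Set G), m * j * m⁻¹ = j := by
    intro m hm'
    have := Subgroup.mem_centralizer_iff.1 hm' j (Set.mem_singleton j)
    rw [← this, mul_inv_cancel_right]
  have hL12 : ∀ m ∈ Subgroup.centralizer ({j} : Set G), ∀ x ∈ L₁ ⊔ L₂,
      ∃ a ∈ L₁, ∃ b ∈ L₂, m * x * m⁻¹ = a * b :=
    fun m hm' x hx => mem_sup_of_commute5 L₁ L₂ hc _ (hnormal m hm' x hx)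
  have hL21 : ∀ m ∈ Subgroup.centralizer ({j} : Set G), ∀ x ∈ L₁ ⊔ L₂,
      ∃ b ∈ L₂, ∃ a ∈ L₁, m * x * m⁻¹ = b * a := by
    intro m hm' x hx
    obtain ⟨a, ha, b, hb, hab⟩ := hL12 m hm' x hx
    exact ⟨b, hb, a, ha, by rw [hab, hc a ha b hb]⟩
  have hK : ∀ m ∈ Subgroup.centralizer ({j} : Set G), ∀ g ∈ L₁ ⊔ L₂, g * g = j →
      m * g * m⁻¹ ∈ L₁ ∨ m * g * m⁻¹ ∈ L₂ := by
    intro m hm' g hg hgj
    obtain ⟨a, ha, b, hb, hab⟩ := hL12 m hm' g hg
    rw [hab]
    apply hP.omega a b ha hb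
    rw [← hab]
    calc (m * g * m⁻¹) * (m * g * m⁻¹) = m * (g * g) * m⁻¹ := by group
      _ = j := by rw [hgj, hcj m hm']
  have htype : ∀ m ∈ Subgroup.centralizer ({j} : Set G),
      ((∀ g ∈ L₁, g * g = j → m * g * m⁻¹ ∈ L₁) ∧ (∀ k ∈ L₂, k * k = j → m * k * m⁻¹ ∈ L₂)) ∨
      ((∀ g ∈ L₁, g * g = j → m * g * m⁻¹ ∈ L₂) ∧ (∀ k ∈ L₂, k * k = j → m * k * m⁻¹ ∈ L₁)) := by
    intro m hm'
    obtain ⟨g₀, hg₀, hg₀j⟩ := hP.likeA.ex
    have hK1 : ∀ g ∈ L₁, g * g = j → m * g * m⁻¹ ∈ L₁ ∨ m * g * m⁻¹ ∈ L₂ :=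
      fun g hg hgj => hK m hm' g (Subgroup.mem_sup_left hg) hgj
    have hK2 : ∀ g ∈ L₂, g * g = j → m * g * m⁻¹ ∈ L₁ ∨ m * g * m⁻¹ ∈ L₂ :=
      fun g hg hgj => hK m hm' g (Subgroup.mem_sup_right hg) hgj
    rcases hK1 g₀ hg₀ hg₀j with h1 | h1
    · left
      have hall := hP.conj_all hP m (hcj m hm') hK1 g₀ hg₀ hg₀j h1
      exact ⟨hall, hP.conj_other hP m (hcj m hm') hK2 hall⟩
    · right
      have hall := hP.conj_all hP.symm m (hcj m hm') (fun g hg hgj => (hK1 g hg hgj).symm)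
        g₀ hg₀ hg₀j h1
      exact ⟨hall, hP.conj_other hP.symm m (hcj m hm')
        (fun g hg hgj => (hK2 g hg hgj).symm) hall⟩
  have hninv : n⁻¹ ∈ Subgroup.centralizer ({j} : Set G) := Subgroup.inv_mem _ hn
  obtain ⟨g₀, hg₀, hg₀j⟩ := hP.likeA.ex
  have hback : n * (n⁻¹ * g₀ * (n⁻¹)⁻¹) * n⁻¹ = g₀ := by group
  have hsqb : (n⁻¹ * g₀ * (n⁻¹)⁻¹) * (n⁻¹ * g₀ * (n⁻¹)⁻¹) = j := by
    calc (n⁻¹ * g₀ * (n⁻¹)⁻¹) * (n⁻¹ * g₀ * (n⁻¹)⁻¹) = n⁻¹ * (g₀ * g₀) * (n⁻¹)⁻¹ := by group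
      _ = j := by rw [hg₀j, hcj n⁻¹ hninv]
  rcases htype n hn with ⟨p1, p2⟩ | ⟨s1, s2⟩
  · rcases htype n⁻¹ hninv with ⟨q1, q2⟩ | ⟨t1, t2⟩
    · left
      constructor
      · apply map_conj_eq5
        · exact hP.conj_sub hP n
            (fun k hk hkj => by have := q2 k hk hkj; rwa [inv_inv] at this)
            (fun x hx => hL12 n hn x (Subgroup.mem_sup_left hx))
        · intro y hy
          have := hP.conj_sub hP n⁻¹
            (fun k hk hkj => by rw [inv_inv]; exact p2 k hk hkj)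
            (fun x hx => hL12 n⁻¹ hninv x (Subgroup.mem_sup_left hx)) y hy
          rwa [inv_inv] at this
      · apply map_conj_eq5
        · exact hP.symm.conj_sub hP.symm n
            (fun k hk hkj => by have := q1 k hk hkj; rwa [inv_inv] at this)
            (fun x hx => hL21 n hn x (Subgroup.mem_sup_right hx))
        · intro y hy
          have := hP.symm.conj_sub hP.symm n⁻¹
            (fun k hk hkj => by rw [inv_inv]; exact p1 k hk hkj)
            (fun x hx => hL21 n⁻¹ hninv x (Subgroup.mem_sup_right hx)) y hy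
          rwa [inv_inv] at this
    · exfalso
      have h1 := t1 g₀ hg₀ hg₀j
      have h2 := p2 _ h1 hsqb
      rw [hback] at h2
      exact hP.not_both g₀ hg₀ h2 hg₀j
  · rcases htype n⁻¹ hninv with ⟨q1, q2⟩ | ⟨t1, t2⟩
    · exfalso
      have h1 := q1 g₀ hg₀ hg₀j
      have h2 := s1 _ h1 hsqb
      rw [hback] at h2
      exact hP.not_both g₀ hg₀ h2 hg₀j
    · right
      have S1 : ∀ a ∈ L₁, n * a * n⁻¹ ∈ L₂ :=
        hP.conj_sub hP.symm n
          (fun k hk hkj => by have := t1 k hk hkj; rwa [inv_inv] at this)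
          (fun x hx => hL21 n hn x (Subgroup.mem_sup_left hx))
      have S2 : ∀ b ∈ L₂, n⁻¹ * b * n ∈ L₁ := by
        intro y hy
        have := hP.symm.conj_sub hP n⁻¹
          (fun k hk hkj => by rw [inv_inv]; exact s2 k hk hkj)
          (fun x hx => hL12 n⁻¹ hninv x (Subgroup.mem_sup_right hx)) y hy
        rwa [inv_inv] at this
      have S3 : ∀ b ∈ L₂, n * b * n⁻¹ ∈ L₁ :=
        hP.symm.conj_sub hP n
          (fun k hk hkj => by have := t2 k hk hkj; rwa [inv_inv] at this)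
          (fun x hx => hL12 n hn x (Subgroup.mem_sup_right hx))
      have hmap : L₁.map (MulAut.conj n).toMonoidHom = L₂ := map_conj_eq5 L₁ L₂ n S1 S2
      refine ⟨hmap, ?_, ?_⟩
      · -- cardinalities
        have hinjc : Function.Injective (MulAut.conj n).toMonoidHom := (MulAut.conj n).injective
        have c1 : Nat.card L₁ = Nat.card L₂ := by
          rw [← hmap]
          exact Nat.card_congr (Subgroup.equivMapOfInjective L₁ _ hinjc).toEquiv
        have c2 : Nat.card (Matrix.SpecialLinearGroup (Fin 2) F₁) =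
            Nat.card (Matrix.SpecialLinearGroup (Fin 2) F₂) := by
          rw [← Nat.card_congr e₁.toEquiv, ← Nat.card_congr e₂.toEquiv, c1]
        rw [Cfsg.Agent.Lib.Helper4.card_sl2, Cfsg.Agent.Lib.Helper4.card_sl2] at c2
        exact sl2_card_inj5 _ _ Fintype.one_lt_card Fintype.one_lt_card c2
      · -- the element n'
        have hnn : n * n ∈ L₁ ⊔ L₂ := by
          have := Subgroup.mul_self_mem_of_index_two hi (⟨n, hn⟩ : ↥(Subgroup.centralizer ({j} : Set G)))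
          exact Subgroup.mem_subgroupOf.1 this
        obtain ⟨x, hx, y, hy, hxy⟩ := mem_sup_of_commute5 L₁ L₂ hc _ hnn
        have hxinv : x⁻¹ ∈ L₁ := L₁.inv_mem hx
        have hxL : x ∈ L₁ ⊔ L₂ := Subgroup.mem_sup_left hx
        refine ⟨n * x⁻¹, Subgroup.mul_mem _ hn (hle (Subgroup.inv_mem _ hxL)), ?_, ?_, ?_⟩
        · intro h
          apply hn'
          have : n = (n * x⁻¹) * x := by group
          rw [this]
          exact Subgroup.mul_mem _ h hxL
        · apply map_conj_eq5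
          · intro a ha
            have : n * x⁻¹ * a * (n * x⁻¹)⁻¹ = n * (x⁻¹ * a * x) * n⁻¹ := by group
            rw [this]
            exact S1 _ (L₁.mul_mem (L₁.mul_mem hxinv ha) hx)
          · intro b hb
            have : (n * x⁻¹)⁻¹ * b * (n * x⁻¹) = x * (n⁻¹ * b * n) * x⁻¹ := by group
            rw [this]
            exact L₁.mul_mem (L₁.mul_mem hx (S2 b hb)) hxinv
        · have hy1 : y = x⁻¹ * (n * n) := by rw [hxy]; group
          have hy2 : y = (n * n) * x⁻¹ := by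
            have h1 := hc x hx y hy
            rw [← hxy] at h1
            rw [h1]; group
          have e1 : (n * x⁻¹) ^ 2 = (n * y * n⁻¹) * x⁻¹ := by
            rw [pow_two, hy1]; group
          have e2 : (n * x⁻¹) ^ 2 = (n * x⁻¹ * n⁻¹) * y := by
            rw [pow_two]
            have : n * x⁻¹ * n⁻¹ * y = n * x⁻¹ * n⁻¹ * ((n * n) * x⁻¹) := by rw [← hy2]
            rw [this]; group
          rw [← hm]
          constructor
          · rw [e1]; exact L₁.mul_mem (S3 y hy) hxinv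
          · rw [e2]; exact L₂.mul_mem (S1 _ hxinv) hy

end Cfsg.Agent.Lib.Helper5
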