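import Mathlib
import Cfsg.Prelude.Def_AlmostLie

set_option autoImplicit false

namespace Cfsg.Agent.Lib.Helper5

open Cfsg

/-- In a special group, commutators are central. -/
theorem special_comm_mem_center5 {X : Type*} [Group X] {p : ℕ} (hX : Cfsg.IsSpecial p X)
    (x y : X) : x * y * x⁻¹ * y⁻¹ ∈ Subgroup.center X := by
  rw [← hX.2.2, commutator_def]
  have := Subgroup.commutator_mem_commutator (Subgroup.mem_top x) (Subgroup.mem_top y)
  rwa [commutatorElement_def] at this

/-- The commutator hom `y ↦ [x,y]` in a special group. -/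
noncomputable def commHom5 {X : Type*} [Group X] {p : ℕ} (hX : Cfsg.IsSpecial p X) (x : X) :
    X →* X :=
  MonoidHom.mk' (fun y => x * y * x⁻¹ * y⁻¹) (by
    intro a b
    have hb := special_comm_mem_center5 hX x b
    have hb' := (Subgroup.mem_center_iff.mp hb) a⁻¹
    -- x a b x⁻¹ b⁻¹ a⁻¹ = x a x⁻¹ (x b x⁻¹ b⁻¹) a⁻¹ = x a x⁻¹ a⁻¹ (x b x⁻¹ b⁻¹)
    have : x * (a * b) * x⁻¹ * (a * b)⁻¹ = x * a * x⁻¹ * ((x * b * x⁻¹ * b⁻¹) * a⁻¹) := by group
    rw [this, ← hb']
    group)

theorem commHom5_apply {X : Type*} [Group X] {p : ℕ} (hX : Cfsg.IsSpecial p X) (x y : X) :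
    commHom5 hX x y = x * y * x⁻¹ * y⁻¹ := rfl

theorem commHom5_ker {X : Type*} [Group X] {p : ℕ} (hX : Cfsg.IsSpecial p X) (x : X) :
    (commHom5 hX x).ker = Subgroup.centralizer ({x} : Set X) := by
  ext y
  rw [MonoidHom.mem_ker, commHom5_apply, Subgroup.mem_centralizer_iff]
  constructor
  · intro h z hz
    rw [Set.mem_singleton_iff] at hz
    subst hz
    have : z * y = y * z := by
      have h2 : z * y * z⁻¹ * y⁻¹ * (y * z) = z * y := by group
      rw [← h2, h, one_mul]
    exact this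
  · intro h
    have := h x (Set.mem_singleton x)
    rw [this]; group

theorem commHom5_range_le {X : Type*} [Group X] {p : ℕ} (hX : Cfsg.IsSpecial p X) (x : X) :
    (commHom5 hX x).range ≤ Subgroup.center X := by
  rintro _ ⟨y, rfl⟩
  exact special_comm_mem_center5 hX x y

theorem semiExtraspecial_range5 {X : Type*} [Group X] [Finite X] {p : ℕ} [Fact p.Prime]
    (hX : Cfsg.IsSemiExtraspecial p X) (x : X) (hx : x ∉ Subgroup.center X) :
    (commHom5 hX.1 x).range = Subgroup.center X := by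
  classical
  by_contra hne
  set I := (commHom5 hX.1 x).range with hI
  have hIle : I ≤ Subgroup.center X := commHom5_range_le hX.1 x
  have hI' : I.subgroupOf (Subgroup.center X) ≠ ⊤ := by
    intro h
    rw [Subgroup.subgroupOf_eq_top] at h
    exact hne (le_antisymm hIle h)
  obtain ⟨Y', hY'co, hY'le⟩ := (eq_top_or_exists_le_coatom (I.subgroupOf (Subgroup.center X))).resolve_left hI'
  set Y : Subgroup X := Y'.map (Subgroup.center X).subtype with hY
  have hYle : Y ≤ Subgroup.center X := by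
    rintro _ ⟨y, _, rfl⟩
    exact y.2
  have hYsub : Y.subgroupOf (Subgroup.center X) = Y' := by
    ext z
    rw [Subgroup.mem_subgroupOf]
    constructor
    · rintro ⟨w, hw, hwz⟩
      have : w = z := Subtype.ext hwz
      rw [← this]; exact hw
    · intro h
      exact ⟨z, h, rfl⟩
  have hIY : I ≤ Y := by
    intro z hz
    have hzZ := hIle hz
    have : (⟨z, hzZ⟩ : Subgroup.center X) ∈ I.subgroupOf (Subgroup.center X) := by
      rw [Subgroup.mem_subgroupOf]; exact hz
    exact ⟨⟨z, hzZ⟩, hY'le this, rfl⟩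
  obtain ⟨hYn, hext⟩ := hX.2 Y hYle (by rw [hYsub]; exact hY'co)
  -- Z(X/Y) = image of Z(X)
  have hZq : Subgroup.center (X ⧸ Y) = (Subgroup.center X).map (QuotientGroup.mk' Y) := by
    rw [← hext.1.2.2, ← hX.1.2.2, commutator_def, commutator_def, Subgroup.map_commutator,
      Subgroup.map_top_of_surjective _ (QuotientGroup.mk'_surjective Y)]
  have hxq : (QuotientGroup.mk' Y x) ∈ Subgroup.center (X ⧸ Y) := by
    rw [Subgroup.mem_center_iff]
    intro q
    obtain ⟨y, rfl⟩ := QuotientGroup.mk'_surjective Y q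
    have hmem : x * y * x⁻¹ * y⁻¹ ∈ Y := hIY ⟨y, rfl⟩
    have h1 : (QuotientGroup.mk' Y) (x * y * x⁻¹ * y⁻¹) = 1 := by
      rw [← MonoidHom.mem_ker, QuotientGroup.ker_mk']; exact hmem
    have h2 : x * y = (x * y * x⁻¹ * y⁻¹) * (y * x) := by group
    have h3 : (QuotientGroup.mk' Y) (x * y) = (QuotientGroup.mk' Y) (y * x) := by
      have h4 : (QuotientGroup.mk' Y) (x * y) =
          (QuotientGroup.mk' Y) ((x * y * x⁻¹ * y⁻¹) * (y * x)) := congrArg _ h2
      rw [h4, map_mul, h1, one_mul]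
    rw [← map_mul, ← map_mul]
    exact h3.symm
  rw [hZq] at hxq
  obtain ⟨z, hz, hzx⟩ := hxq
  have : z⁻¹ * x ∈ Y := by
    have h := QuotientGroup.eq.mp hzx
    exact h
  have hxz : x = z * (z⁻¹ * x) := by group
  apply hx
  rw [hxz]
  exact Subgroup.mul_mem _ hz (hYle this)

theorem semiExtraspecial_main5 {X : Type*} [Group X] [Finite X] {p : ℕ} [Fact p.Prime]
    (hX : Cfsg.IsSemiExtraspecial p X) (x : X) (hx : x ∉ Subgroup.center X) :
    (Subgroup.centralizer ({x} : Set X)).index = Nat.card ↥(Subgroup.center X) ∧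
      {z : X | ∃ y : X, z = x * y * x⁻¹ * y⁻¹} = (Subgroup.center X : Set X) := by
  have hr := semiExtraspecial_range5 hX x hx
  constructor
  · rw [← commHom5_ker hX.1 x, Subgroup.index_ker, hr]
  · rw [← hr]
    ext z
    constructor
    · rintro ⟨y, rfl⟩; exact ⟨y, rfl⟩
    · rintro ⟨y, rfl⟩; exact ⟨y, rfl⟩

end Cfsg.Agent.Lib.Helper5
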