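import Mathlib
import Cfsg.Agent.Lib.Helper5.SubnSylow
import Cfsg.Agent.Lib.Lead.PResidual

set_option autoImplicit false

universe u

namespace Cfsg.Agent.Lib.Helper5

variable {G : Type u} [Group G]

/-- Family version of `sylow_inf_sup_perf5`. -/
theorem sylow_inf_sSup_perf_le5 [Finite G] {p : ℕ} [Fact p.Prime] (S : Sylow p G)
    (𝔅 : Set (Subgroup G)) (h𝔅 : ∀ B ∈ 𝔅, B.IsSubnormal ∧ IsPPerf5 p B) (Q : Subgroup G)
    (hQ : ∀ B ∈ 𝔅, (S : Subgroup G) ⊓ B ≤ Q) :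
    (sSup 𝔅).IsSubnormal ∧ IsPPerf5 p (sSup 𝔅) ∧ (S : Subgroup G) ⊓ sSup 𝔅 ≤ Q := by
  have hfin : 𝔅.Finite := Set.toFinite 𝔅
  induction 𝔅, hfin using Set.Finite.induction_on with
  | empty =>
    rw [sSup_empty]
    exact ⟨Subgroup.IsSubnormal.bot, isPPerf_bot5, by rw [inf_bot_eq]; exact bot_le⟩
  | insert ha hs ih =>
    rename_i a s
    obtain ⟨h1, h2, h3⟩ := ih (fun U hU => h𝔅 U (Set.mem_insert_of_mem a hU))
      (fun U hU => hQ U (Set.mem_insert_of_mem a hU))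
    obtain ⟨ha1, ha2⟩ := h𝔅 a (Set.mem_insert a s)
    rw [sSup_insert]
    refine ⟨Cfsg.Agent.Lib.Helper1.subnormal_sup _ G rfl _ _ ha1 h1, isPPerf_sup5 ha2 h2, ?_⟩
    rw [sylow_inf_sup_perf5 _ G rfl S a (sSup s) ha1 h1 ha2 h2]
    exact sup_le (hQ a (Set.mem_insert a s)) h3

/-- The subgroup of `A` generated by its `p'`-elements. -/
def pRes5 (p : ℕ) (A : Subgroup G) : Subgroup G :=
  Subgroup.closure {x : G | x ∈ A ∧ (orderOf x).Coprime p}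

theorem pRes5_le (p : ℕ) (A : Subgroup G) : pRes5 p A ≤ A := by
  unfold pRes5
  rw [Subgroup.closure_le]
  exact fun x hx => hx.1

theorem pRes5_perf (p : ℕ) (A : Subgroup G) : IsPPerf5 p (pRes5 p A) := by
  unfold IsPPerf5
  show pRes5 p A ≤ _
  unfold pRes5
  apply Subgroup.closure_mono
  intro x hx
  exact ⟨Subgroup.subset_closure hx, hx.2⟩

theorem pRes5_normalizer (p : ℕ) (A : Subgroup G) :
    A ≤ Subgroup.normalizer ((pRes5 p A : Subgroup G) : Set G) := by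
  apply Cfsg.Agent.Lib.Helper4.le_normalizer_of_conj_mem
  intro a ha d hd
  have h : pRes5 p A ≤ (pRes5 p A).comap (MulAut.conj a).toMonoidHom := by
    unfold pRes5
    rw [Subgroup.closure_le]
    intro x hx
    show (MulAut.conj a) x ∈ Subgroup.closure {x : G | x ∈ A ∧ (orderOf x).Coprime p}
    apply Subgroup.subset_closure
    refine ⟨?_, ?_⟩
    · rw [MulAut.conj_apply]
      exact A.mul_mem (A.mul_mem ha hx.1) (A.inv_mem ha)
    · rw [MulEquiv.orderOf_eq]; exact hx.2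
  exact h hd

theorem pRes5_subnormal (p : ℕ) (A : Subgroup G) (hA : A.IsSubnormal) :
    (pRes5 p A).IsSubnormal :=
  Subgroup.IsSubnormal.trans (pRes5_le p A)
    (Subgroup.normal_subgroupOf_of_le_normalizer (pRes5_normalizer p A)).isSubnormal hA

theorem le_pRes5_sup [Finite G] {p : ℕ} [Fact p.Prime] (S : Sylow p G) (A : Subgroup G)
    (hA : A.IsSubnormal) : A ≤ pRes5 p A ⊔ ((S : Subgroup G) ⊓ A) := by
  obtain ⟨S', hS'⟩ := sylow_inf_subnormal5 S A hA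
  have h1 := Cfsg.Agent.Lib.Lead.sylow_sup_pResidual S'
  have h2 := congrArg (Subgroup.map A.subtype) h1
  rw [Subgroup.map_sup, hS', Subgroup.subgroupOf_map_subtype, ← MonoidHom.range_eq_map,
    Subgroup.range_subtype] at h2
  have h3 : (Cfsg.pResidual p ↥A).map A.subtype ≤ pRes5 p A := by
    unfold Cfsg.pResidual pRes5
    rw [MonoidHom.map_closure]
    apply Subgroup.closure_mono
    rintro _ ⟨x, hx, rfl⟩
    refine ⟨x.2, ?_⟩
    have hx' : (orderOf x).Coprime p := hx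
    rw [← Subgroup.orderOf_coe] at hx'
    exact hx'
  calc A = ((S : Subgroup G) ⊓ A) ⊔ (Cfsg.pResidual p ↥A).map A.subtype := h2.symm
    _ ≤ ((S : Subgroup G) ⊓ A) ⊔ pRes5 p A := sup_le_sup_left h3 _
    _ = pRes5 p A ⊔ ((S : Subgroup G) ⊓ A) := sup_comm _ _

/-- Wielandt: `S ∩ ⟨A₁, A₂⟩ = ⟨S ∩ A₁, S ∩ A₂⟩` for subnormal `A₁`, `A₂`. -/
theorem sylow_inf_sup_subnormal5 [Finite G] {p : ℕ} [Fact p.Prime] (S : Sylow p G)
    (A₁ A₂ : Subgroup G) (h₁ : A₁.IsSubnormal) (h₂ : A₂.IsSubnormal) :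
    (A₁ ⊔ A₂) ⊓ (S : Subgroup G) = (A₁ ⊓ (S : Subgroup G)) ⊔ (A₂ ⊓ (S : Subgroup G)) := by
  have hp : p.Prime := Fact.out
  rw [inf_comm (A₁ ⊔ A₂), inf_comm A₁, inf_comm A₂]
  have hle : ((S : Subgroup G) ⊓ A₁) ⊔ ((S : Subgroup G) ⊓ A₂) ≤ (S : Subgroup G) ⊓ (A₁ ⊔ A₂) :=
    le_inf (sup_le inf_le_left inf_le_left) (sup_le_sup inf_le_right inf_le_right)
  apply le_antisymm _ hle
  have hPS : ((S : Subgroup G) ⊓ A₁) ⊔ ((S : Subgroup G) ⊓ A₂) ≤ (S : Subgroup G) :=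
    sup_le inf_le_left inf_le_left
  -- the family
  let 𝔅 : Set (Subgroup G) := {B | ∃ y ∈ ((S : Subgroup G) ⊓ A₁) ⊔ ((S : Subgroup G) ⊓ A₂),
    B = (pRes5 p A₁).map (MulAut.conj y).toMonoidHom ∨
    B = (pRes5 p A₂).map (MulAut.conj y).toMonoidHom}
  have hkey : ∀ (A : Subgroup G), A.IsSubnormal →
      (S : Subgroup G) ⊓ A ≤ ((S : Subgroup G) ⊓ A₁) ⊔ ((S : Subgroup G) ⊓ A₂) →
      ∀ y ∈ ((S : Subgroup G) ⊓ A₁) ⊔ ((S : Subgroup G) ⊓ A₂),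
        ((pRes5 p A).map (MulAut.conj y).toMonoidHom).IsSubnormal ∧
        IsPPerf5 p ((pRes5 p A).map (MulAut.conj y).toMonoidHom) ∧
        (S : Subgroup G) ⊓ (pRes5 p A).map (MulAut.conj y).toMonoidHom ≤
          ((S : Subgroup G) ⊓ A₁) ⊔ ((S : Subgroup G) ⊓ A₂) := by
    intro A hA hAP y hy
    refine ⟨(pRes5_subnormal p A hA).map (MulAut.conj y).surjective,
      isPPerf_map5 _ (pRes5_perf p A), ?_⟩
    rintro z ⟨hzS, r, hr, rfl⟩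
    have hrS : r ∈ (S : Subgroup G) := by
      have e : r = y⁻¹ * ((MulAut.conj y).toMonoidHom r) * y := by
        show r = y⁻¹ * (y * r * y⁻¹) * y
        group
      rw [e]
      exact Subgroup.mul_mem _ (Subgroup.mul_mem _ (Subgroup.inv_mem _ (hPS hy)) hzS) (hPS hy)
    have hrP : r ∈ ((S : Subgroup G) ⊓ A₁) ⊔ ((S : Subgroup G) ⊓ A₂) :=
      hAP ⟨hrS, pRes5_le p A hr⟩
    show y * r * y⁻¹ ∈ _
    exact Subgroup.mul_mem _ (Subgroup.mul_mem _ hy hrP) (Subgroup.inv_mem _ hy)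
  have h𝔅 : ∀ B ∈ 𝔅, B.IsSubnormal ∧ IsPPerf5 p B := by
    rintro B ⟨y, hy, rfl | rfl⟩
    · exact ⟨(hkey A₁ h₁ le_sup_left y hy).1, (hkey A₁ h₁ le_sup_left y hy).2.1⟩
    · exact ⟨(hkey A₂ h₂ le_sup_right y hy).1, (hkey A₂ h₂ le_sup_right y hy).2.1⟩
  have hQ : ∀ B ∈ 𝔅, (S : Subgroup G) ⊓ B ≤
      ((S : Subgroup G) ⊓ A₁) ⊔ ((S : Subgroup G) ⊓ A₂) := by
    rintro B ⟨y, hy, rfl | rfl⟩
    · exact (hkey A₁ h₁ le_sup_left y hy).2.2
    · exact (hkey A₂ h₂ le_sup_right y hy).2.2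
  obtain ⟨hRsn, -, hSR⟩ := sylow_inf_sSup_perf_le5 S 𝔅 h𝔅 _ hQ
  -- P normalizes R*
  have hPn : ((S : Subgroup G) ⊓ A₁) ⊔ ((S : Subgroup G) ⊓ A₂) ≤
      Subgroup.normalizer ((sSup 𝔅 : Subgroup G) : Set G) := by
    apply Cfsg.Agent.Lib.Helper4.le_normalizer_of_conj_mem
    intro y hy d hd
    have h : sSup 𝔅 ≤ (sSup 𝔅).comap (MulAut.conj y).toMonoidHom := by
      apply sSup_le
      rintro B ⟨y', hy', rfl | rfl⟩
      · rintro _ ⟨r, hr, rfl⟩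
        have hmem : (pRes5 p A₁).map (MulAut.conj (y * y')).toMonoidHom ∈ 𝔅 :=
          ⟨y * y', Subgroup.mul_mem _ hy hy', Or.inl rfl⟩
        apply le_sSup hmem
        refine ⟨r, hr, ?_⟩
        show y * y' * r * (y * y')⁻¹ = y * (y' * r * y'⁻¹) * y⁻¹
        group
      · rintro _ ⟨r, hr, rfl⟩
        have hmem : (pRes5 p A₂).map (MulAut.conj (y * y')).toMonoidHom ∈ 𝔅 :=
          ⟨y * y', Subgroup.mul_mem _ hy hy', Or.inr rfl⟩
        apply le_sSup hmem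
        refine ⟨r, hr, ?_⟩
        show y * y' * r * (y * y')⁻¹ = y * (y' * r * y'⁻¹) * y⁻¹
        group
    exact h hd
  have hR₁ : pRes5 p A₁ ≤ sSup 𝔅 := by
    intro r hr
    have hmem : (pRes5 p A₁).map (MulAut.conj (1 : G)).toMonoidHom ∈ 𝔅 :=
      ⟨1, Subgroup.one_mem _, Or.inl rfl⟩
    apply le_sSup hmem
    exact ⟨r, hr, by simp⟩
  have hR₂ : pRes5 p A₂ ≤ sSup 𝔅 := by
    intro r hr
    have hmem : (pRes5 p A₂).map (MulAut.conj (1 : G)).toMonoidHom ∈ 𝔅 :=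
      ⟨1, Subgroup.one_mem _, Or.inr rfl⟩
    apply le_sSup hmem
    exact ⟨r, hr, by simp⟩
  have hA₁ : A₁ ≤ (((S : Subgroup G) ⊓ A₁) ⊔ ((S : Subgroup G) ⊓ A₂)) ⊔ sSup 𝔅 :=
    (le_pRes5_sup S A₁ h₁).trans (sup_le (hR₁.trans le_sup_right) (le_sup_left.trans le_sup_left))
  have hA₂ : A₂ ≤ (((S : Subgroup G) ⊓ A₁) ⊔ ((S : Subgroup G) ⊓ A₂)) ⊔ sSup 𝔅 :=
    (le_pRes5_sup S A₂ h₂).trans (sup_le (hR₂.trans le_sup_right) (le_sup_right.trans le_sup_left))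
  -- counting
  have h4 := Cfsg.Agent.Lib.Helper1.card_sup_mul_card_inf _ _ hPn
  have h5 : (((S : Subgroup G) ⊓ A₁) ⊔ ((S : Subgroup G) ⊓ A₂)) ⊓ sSup 𝔅 =
      (S : Subgroup G) ⊓ sSup 𝔅 :=
    le_antisymm (inf_le_inf_right _ hPS) (le_inf hSR inf_le_right)
  rw [h5, card_sylow_inf_subnormal5 S _ hRsn] at h4
  obtain ⟨k, hk⟩ := IsPGroup.iff_card.mp (S.isPGroup'.to_le hPS)
  rw [hk] at h4
  have h6 : (Nat.card ↥((((S : Subgroup G) ⊓ A₁) ⊔ ((S : Subgroup G) ⊓ A₂)) ⊔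
      sSup 𝔅)).factorization p = k := by
    have h7 : (Nat.card ↥((((S : Subgroup G) ⊓ A₁) ⊔ ((S : Subgroup G) ⊓ A₂)) ⊔ sSup 𝔅) *
        p ^ (Nat.card ↥(sSup 𝔅)).factorization p).factorization p =
        (p ^ k * Nat.card ↥(sSup 𝔅)).factorization p := by rw [h4]
    rw [Nat.factorization_mul Nat.card_pos.ne' (pow_pos hp.pos _).ne',
      Nat.factorization_mul (pow_pos hp.pos _).ne' Nat.card_pos.ne',
      Nat.factorization_pow, Nat.factorization_pow] at h7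
    simp only [Finsupp.coe_add, Finsupp.coe_smul, Pi.add_apply, Pi.smul_apply,
      hp.factorization_self, smul_eq_mul, mul_one] at h7
    omega
  have h8 : Nat.card ↥((S : Subgroup G) ⊓ ((((S : Subgroup G) ⊓ A₁) ⊔ ((S : Subgroup G) ⊓ A₂)) ⊔
      sSup 𝔅)) ≤ p ^ k := by
    have := card_le_of_isPGroup_le5 (p := p) _ _ (S.isPGroup'.to_le inf_le_left)
      (inf_le_right : (S : Subgroup G) ⊓ ((((S : Subgroup G) ⊓ A₁) ⊔ ((S : Subgroup G) ⊓ A₂)) ⊔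
      sSup 𝔅) ≤ _)
    rwa [h6] at this
  have h9 : ((S : Subgroup G) ⊓ A₁) ⊔ ((S : Subgroup G) ⊓ A₂) =
      (S : Subgroup G) ⊓ ((((S : Subgroup G) ⊓ A₁) ⊔ ((S : Subgroup G) ⊓ A₂)) ⊔ sSup 𝔅) := by
    apply Subgroup.eq_of_le_of_card_ge (le_inf hPS le_sup_left)
    rw [hk]; exact h8
  rw [h9]
  exact inf_le_inf_left _ (sup_le hA₁ hA₂)

end Cfsg.Agent.Lib.Helper5
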