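import Mathlib

set_option autoImplicit false

namespace Cfsg.Agent.Lib.Helper5

open scoped commutatorElement

variable {G : Type*} [Group G]

theorem sInf_mem_of_inf_closed [Finite G] (𝒮 : Set (Subgroup G))
    (hcl : ∀ x ∈ 𝒮, ∀ y ∈ 𝒮, x ⊓ y ∈ 𝒮) (𝒯 : Set (Subgroup G)) (hsub : 𝒯 ⊆ 𝒮)
    (hne : 𝒯.Nonempty) : sInf 𝒯 ∈ 𝒮 := by
  classical
  have hfin : 𝒯.Finite := Set.toFinite 𝒯
  have hne' : hfin.toFinset.Nonempty := by
    obtain ⟨x, hx⟩ := hne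
    exact ⟨x, hfin.mem_toFinset.mpr hx⟩
  have h1 : hfin.toFinset.inf' hne' id ∈ 𝒮 :=
    Finset.inf'_mem 𝒮 hcl hfin.toFinset hne' id (fun i hi => hsub (hfin.mem_toFinset.mp hi))
  have h2 : hfin.toFinset.inf' hne' id = sInf 𝒯 := by
    rw [Finset.inf'_eq_inf, Finset.inf_id_eq_sInf, Set.Finite.coe_toFinset]
  rw [← h2]
  exact h1

/-- Two mutually normalizing subgroups that both map onto a perfect group: so does their
intersection. -/
theorem map_inf_eq_top_of_perfect {Q : Type*} [Group Q] (f : G →* Q)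
    (hQ : ⁅(⊤ : Subgroup Q), (⊤ : Subgroup Q)⁆ = ⊤) (N₁ N₂ : Subgroup G)
    (h12 : ∀ a ∈ N₁, ∀ b ∈ N₂, a * b * a⁻¹ ∈ N₂) (h21 : ∀ b ∈ N₂, ∀ a ∈ N₁, b * a * b⁻¹ ∈ N₁)
    (h1 : N₁.map f = ⊤) (h2 : N₂.map f = ⊤) : (N₁ ⊓ N₂).map f = ⊤ := by
  have hle : ⁅N₁, N₂⁆ ≤ N₁ ⊓ N₂ := by
    rw [Subgroup.commutator_le]
    intro a ha b hb
    refine ⟨?_, ?_⟩
    · have h := h21 b hb a⁻¹ (N₁.inv_mem ha)
      have e : ⁅a, b⁆ = a * (b * a⁻¹ * b⁻¹) := by rw [commutatorElement_def]; group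
      rw [e]
      exact N₁.mul_mem ha h
    · have h := h12 a ha b hb
      rw [commutatorElement_def]
      exact N₂.mul_mem h (N₂.inv_mem hb)
  have hmap : (⁅N₁, N₂⁆).map f = ⊤ := by
    rw [Subgroup.map_commutator, h1, h2, hQ]
  rw [eq_top_iff, ← hmap]
  exact Subgroup.map_mono hle

theorem map_mk'_eq_top_iff (D : Subgroup G) [D.Normal] (H : Subgroup G) :
    H.map (QuotientGroup.mk' D) = ⊤ ↔ H ⊔ D = ⊤ := by
  constructor
  · intro h
    have := Subgroup.comap_map_eq (QuotientGroup.mk' D) H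
    rw [h, Subgroup.comap_top, QuotientGroup.ker_mk'] at this
    exact this.symm
  · intro h
    have h1 : (H ⊔ D).map (QuotientGroup.mk' D) = ⊤ := by
      rw [h]
      exact Subgroup.map_top_of_surjective _ (QuotientGroup.mk'_surjective D)
    rw [Subgroup.map_sup] at h1
    have h2 : D.map (QuotientGroup.mk' D) = ⊥ := by
      rw [Subgroup.map_eq_bot_iff, QuotientGroup.ker_mk']
    rw [h2, sup_bot_eq] at h1
    exact h1

/-- If `G/D` is perfect, there is a least subnormal supplement to `D`, and it is normal. -/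
theorem exists_min_subnormal_supplement [Finite G] (D : Subgroup G) [D.Normal]
    (hperf : ⁅(⊤ : Subgroup G), (⊤ : Subgroup G)⁆ ⊔ D = ⊤) :
    ∃ B : Subgroup G, B.Normal ∧ B ⊔ D = ⊤ ∧
      ∀ B' : Subgroup G, B'.IsSubnormal → B' ⊔ D = ⊤ → B ≤ B' := by
  set f := QuotientGroup.mk' D with hf
  have hQ : ⁅(⊤ : Subgroup (G ⧸ D)), (⊤ : Subgroup (G ⧸ D))⁆ = ⊤ := by
    have h1 := (map_mk'_eq_top_iff D ⁅(⊤ : Subgroup G), (⊤ : Subgroup G)⁆).mpr hperf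
    rw [Subgroup.map_commutator, Subgroup.map_top_of_surjective _ (QuotientGroup.mk'_surjective D)]
      at h1
    exact h1
  let 𝒩 : Set (Subgroup G) := {N | N.Normal ∧ N.map f = ⊤}
  have h𝒩cl : ∀ x ∈ 𝒩, ∀ y ∈ 𝒩, x ⊓ y ∈ 𝒩 := by
    rintro x ⟨hxn, hx⟩ y ⟨hyn, hy⟩
    refine ⟨inferInstance, ?_⟩
    exact map_inf_eq_top_of_perfect f hQ x y (fun a _ b hb => hyn.conj_mem b hb a)
      (fun b _ a ha => hxn.conj_mem a ha b) hx hy
  have htop : (⊤ : Subgroup G) ∈ 𝒩 :=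
    ⟨inferInstance, Subgroup.map_top_of_surjective _ (QuotientGroup.mk'_surjective D)⟩
  set R := sInf 𝒩 with hR
  have hR𝒩 : R ∈ 𝒩 := sInf_mem_of_inf_closed 𝒩 h𝒩cl 𝒩 (le_refl _) ⟨⊤, htop⟩
  obtain ⟨hRn, hRf⟩ := hR𝒩
  refine ⟨R, hRn, (map_mk'_eq_top_iff D R).mp hRf, ?_⟩
  intro B' hB' hB'D
  have hB'f : B'.map f = ⊤ := (map_mk'_eq_top_iff D B').mpr hB'D
  clear hB'D
  induction hB' with
  | top => exact le_top
  | step X K hXK hK hXn ih =>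
    have hKf : K.map f = ⊤ := by
      rw [eq_top_iff, ← hB'f]
      exact Subgroup.map_mono hXK
    have hRK : R ≤ K := ih hKf
    have hXnorm : ∀ k ∈ K, ∀ x ∈ X, k * x * k⁻¹ ∈ X := by
      intro k hk x hx
      have := hXn.conj_mem ⟨x, hXK hx⟩ (by simpa [Subgroup.mem_subgroupOf] using hx) ⟨k, hk⟩
      simpa [Subgroup.mem_subgroupOf] using this
    -- Y = X ⊓ R
    set Y := X ⊓ R with hY
    have hYf : Y.map f = ⊤ := by
      apply map_inf_eq_top_of_perfect f hQ X R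
      · intro a _ b hb
        exact hRn.conj_mem b hb a
      · intro b hb a ha
        exact hXnorm b (hRK hb) a ha
      · exact hB'f
      · exact hRf
    have hYR : ∀ r ∈ R, ∀ y ∈ Y, r * y * r⁻¹ ∈ Y := by
      intro r hr y hy
      exact ⟨hXnorm r (hRK hr) y hy.1, hRn.conj_mem y hy.2 r⟩
    -- the family of subgroups of R normalized by R and mapping onto
    let 𝒮 : Set (Subgroup G) := {N | N ≤ R ∧ (∀ r ∈ R, ∀ y ∈ N, r * y * r⁻¹ ∈ N) ∧ N.map f = ⊤}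
    have h𝒮cl : ∀ x ∈ 𝒮, ∀ y ∈ 𝒮, x ⊓ y ∈ 𝒮 := by
      rintro x ⟨hx1, hx2, hx3⟩ y ⟨hy1, hy2, hy3⟩
      refine ⟨inf_le_left.trans hx1, ?_, ?_⟩
      · intro r hr z hz
        exact ⟨hx2 r hr z hz.1, hy2 r hr z hz.2⟩
      · exact map_inf_eq_top_of_perfect f hQ x y (fun a ha b hb => hy2 a (hx1 ha) b hb)
          (fun b hb a ha => hx2 b (hy1 hb) a ha) hx3 hy3
    let 𝒯 : Set (Subgroup G) := Set.range (fun g : G => Y.map (MulAut.conj g).toMonoidHom)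
    have h𝒯 : 𝒯 ⊆ 𝒮 := by
      rintro _ ⟨g, rfl⟩
      refine ⟨?_, ?_, ?_⟩
      · rintro _ ⟨y, hy, rfl⟩
        exact hRn.conj_mem y hy.2 g
      · rintro r hr _ ⟨y, hy, rfl⟩
        refine ⟨(g⁻¹ * r * g) * y * (g⁻¹ * r * g)⁻¹, ?_, ?_⟩
        · apply hYR _ _ y hy
          have := hRn.conj_mem r hr g⁻¹
          simpa using this
        · simp only [MulEquiv.toMonoidHom_eq_coe, MonoidHom.coe_coe, MulAut.conj_apply]
          group
      · rw [eq_top_iff]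
        intro q _
        obtain ⟨q', hq'⟩ : ∃ q' : G ⧸ D, f g * q' * (f g)⁻¹ = q := ⟨(f g)⁻¹ * q * f g, by group⟩
        have hq'mem : q' ∈ Y.map f := by rw [hYf]; exact Subgroup.mem_top _
        obtain ⟨y, hy, rfl⟩ := hq'mem
        refine ⟨g * y * g⁻¹, ⟨y, hy, by simp⟩, ?_⟩
        rw [← hq']
        simp
    have hY₀ : sInf 𝒯 ∈ 𝒮 := sInf_mem_of_inf_closed 𝒮 h𝒮cl 𝒯 h𝒯 ⟨_, ⟨1, rfl⟩⟩
    have hY₀n : (sInf 𝒯).Normal := by
      constructor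
      intro a ha b
      rw [Subgroup.mem_sInf] at ha ⊢
      rintro _ ⟨g, rfl⟩
      have := ha _ ⟨b⁻¹ * g, rfl⟩
      obtain ⟨y, hy, hya⟩ := this
      refine ⟨y, hy, ?_⟩
      simp only [MulEquiv.toMonoidHom_eq_coe, MonoidHom.coe_coe, MulAut.conj_apply] at hya ⊢
      rw [← hya]
      group
    have hle : R ≤ sInf 𝒯 := sInf_le (show sInf 𝒯 ∈ 𝒩 from ⟨hY₀n, hY₀.2.2⟩)
    have hle2 : sInf 𝒯 ≤ Y := by
      apply sInf_le_of_le (show Y.map (MulAut.conj (1 : G)).toMonoidHom ∈ 𝒯 from ⟨1, rfl⟩)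
      rintro _ ⟨y, hy, rfl⟩
      simpa using hy
    exact hle.trans (hle2.trans inf_le_left)

end Cfsg.Agent.Lib.Helper5
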