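import Mathlib
import Cfsg.Prelude.Def_SylowChains
import Cfsg.Agent.Lib.Helper5.SylowCtl

namespace Cfsg.Agent.Lib.Helper5

open Subgroup

theorem adjacent_conj5 {G : Type*} [Group G] [Finite G] {p : ℕ} [Fact p.Prime]
    (𝓕 : Set (Subgroup G))
    (hF : Cfsg.FamilyStronglyControlsFusion p 𝓕) (S T : Sylow p G) (hST : S ≠ T)
    (hne : (S : Subgroup G) ⊓ (T : Subgroup G) ≠ ⊥) :
    ∃ k ∈ (⨆ X ∈ Cfsg.sylowMembers p 𝓕 (S : Subgroup G), X) ⊔
      Subgroup.normalizer ((S : Subgroup G) : Set G), k • S = T := by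
  obtain ⟨g, hg⟩ := MulAction.exists_smul_eq G S T
  have hA1 : ∃ a ∈ (((S : Subgroup G) ⊓ (T : Subgroup G) : Subgroup G) : Set G), a ≠ 1 := by
    by_contra hcon
    push Not at hcon
    apply hne
    rw [eq_bot_iff]
    intro a ha
    rw [Subgroup.mem_bot]
    exact hcon a ha
  have hAg : Cfsg.conjRight g (((S : Subgroup G) ⊓ (T : Subgroup G) : Subgroup G) : Set G)
      ⊆ (S : Set G) := by
    rintro _ ⟨a, ha, rfl⟩
    have h1 : a ∈ ((g • S : Sylow p G) : Subgroup G) := by rw [hg]; exact ha.2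
    rw [mem_smul_sylow_iff5] at h1
    exact h1
  obtain ⟨n, Y, y, y₀, hy₀, hY, hgy, hA'⟩ := hF S _ g (fun a ha => ha.1) hA1 hAg
  refine ⟨g, ?_, hg⟩
  rw [hgy]
  refine Subgroup.mul_mem _ (Subgroup.mem_sup_left ?_) (Subgroup.mem_sup_right hy₀)
  apply Subgroup.list_prod_mem
  intro z hz
  rw [List.mem_ofFn] at hz
  obtain ⟨i, rfl⟩ := hz
  have h1 : Y i ≤ ⨆ X ∈ Cfsg.sylowMembers p 𝓕 (S : Subgroup G), X :=
    le_biSup (fun X => X) (hY i).1
  exact h1 (hY i).2

theorem gen_sylowMembers_normalizer5 {G : Type*} [Group G] [Finite G] {p : ℕ} [Fact p.Prime]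
    (𝓕 : Set (Subgroup G))
    (hF : Cfsg.FamilyStronglyControlsFusion p 𝓕)
    (hconn : Cfsg.IsSylowChainConnected p G) (S : Sylow p G) :
    (⨆ X ∈ Cfsg.sylowMembers p 𝓕 (S : Subgroup G), X) ⊔
      Subgroup.normalizer ((S : Subgroup G) : Set G) = ⊤ := by
  obtain ⟨K, hK⟩ : ∃ K : Subgroup G, K = (⨆ X ∈ Cfsg.sylowMembers p 𝓕 (S : Subgroup G), X) ⊔
      Subgroup.normalizer ((S : Subgroup G) : Set G) := ⟨_, rfl⟩
  rw [← hK]
  have hall : ∀ T : Sylow p G, ∃ k ∈ K, k • S = T := by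
    intro T
    obtain ⟨n, c, hc0, hcn, -, hi⟩ := hconn S T
    have hind : ∀ k (hk : k < n + 1), ∃ u ∈ K, u • S = c ⟨k, hk⟩ := by
      intro k
      induction k with
      | zero =>
        intro hk
        exact ⟨1, K.one_mem, by rw [one_smul]; exact hc0.symm⟩
      | succ k ih =>
        intro hk
        have hk' : k < n := by omega
        obtain ⟨u, huK, hu⟩ := ih (by omega)
        obtain ⟨hne1, hne2⟩ := hi ⟨k, hk'⟩
        have h3 : c (Fin.castSucc ⟨k, hk'⟩) = c ⟨k, by omega⟩ := rfl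
        have h4 : c (Fin.succ ⟨k, hk'⟩) = c ⟨k + 1, hk⟩ := rfl
        rw [h3, h4] at hne1 hne2
        rw [← hu] at hne1 hne2
        have hST : S ≠ u⁻¹ • c ⟨k + 1, hk⟩ := by
          intro h
          apply hne1
          rw [h, smul_smul, mul_inv_cancel, one_smul]
        have hne : (S : Subgroup G) ⊓ ((u⁻¹ • c ⟨k + 1, hk⟩ : Sylow p G) : Subgroup G) ≠ ⊥ := by
          intro hbot
          apply hne2
          rw [eq_bot_iff]
          intro a ha
          rw [Subgroup.mem_bot]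
          have h5 : u⁻¹ * a * u ∈ (S : Subgroup G) ⊓
              ((u⁻¹ • c ⟨k + 1, hk⟩ : Sylow p G) : Subgroup G) := by
            refine ⟨(mem_smul_sylow_iff5 u S a).mp ha.1, ?_⟩
            have h6 : u⁻¹ * a * u ∈ ((u⁻¹ • c ⟨k + 1, hk⟩ : Sylow p G) : Subgroup G) := by
              rw [mem_smul_sylow_iff5]
              have e : u⁻¹⁻¹ * (u⁻¹ * a * u) * u⁻¹ = a := by group
              rw [e]
              exact ha.2
            exact h6
          rw [hbot, Subgroup.mem_bot] at h5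
          have e : a = u * (u⁻¹ * a * u) * u⁻¹ := by group
          rw [e, h5]
          group
        obtain ⟨v, hvK, hv⟩ := adjacent_conj5 𝓕 hF S _ hST hne
        refine ⟨u * v, K.mul_mem huK (hK ▸ hvK), ?_⟩
        rw [mul_smul, hv, smul_smul, mul_inv_cancel, one_smul]
    obtain ⟨u, hu, hu'⟩ := hind n (by omega)
    exact ⟨u, hu, hu'.trans hcn⟩
  rw [eq_top_iff]
  intro g _
  obtain ⟨k, hk, hk'⟩ := hall (g • S)
  have h1 : (k⁻¹ * g) • S = S := by
    rw [mul_smul, ← hk', smul_smul, inv_mul_cancel, one_smul]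
  have h2 : k⁻¹ * g ∈ K := by
    rw [hK]
    exact Subgroup.mem_sup_right (Sylow.smul_eq_iff_mem_normalizer.mp h1)
  have e : g = k * (k⁻¹ * g) := by group
  rw [e]
  exact K.mul_mem hk h2

end Cfsg.Agent.Lib.Helper5
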