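import Mathlib
import Cfsg.Prelude.Def_LocalEven

set_option autoImplicit false

namespace Cfsg.Agent.Lib.Helper5

open MulAction
open scoped Pointwise

theorem symm_pmin_main5 (n : ℕ) (hn : Odd n) (h : Cfsg.IsPMinimal 2 (Equiv.Perm (Fin n))) :
    ∃ m : ℕ, n = 2 ^ m + 1 := by
  classical
  obtain ⟨S⟩ : Nonempty (Sylow 2 (Equiv.Perm (Fin n))) := inferInstance
  obtain ⟨hnn, M, ⟨hMco, hSM⟩, hMuniq⟩ := h S
  have hn2 : 2 ≤ n := by
    by_contra hcon
    have hn1 : n = 1 := by
      obtain ⟨k, hk⟩ := hn; omega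
    subst hn1
    apply hnn
    constructor
    intro a ha g
    have : g * a * g⁻¹ = a := Subsingleton.elim _ _
    rw [this]; exact ha
  have hodd2 : ¬ 2 ∣ Nat.card (Fin n) := by rw [Nat.card_fin]; exact hn.not_two_dvd_nat
  obtain ⟨x, hx⟩ := S.2.nonempty_fixed_point_of_prime_not_dvd_card (Fin n) hodd2
  have hSx : ∀ g ∈ (S : Subgroup (Equiv.Perm (Fin n))), g x = x := fun g hg => hx ⟨g, hg⟩
  haveI : Nontrivial (Fin n) := Fin.nontrivial_iff_two_le.mpr hn2
  obtain ⟨y, hy⟩ := exists_ne x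
  have hM1co : IsCoatom (stabilizer (Equiv.Perm (Fin n)) ({x} : Set (Fin n))) := by
    apply Equiv.Perm.isCoatom_stabilizer
    · exact Set.singleton_nonempty x
    · exact ⟨y, hy⟩
    · rw [Nat.card_fin, Set.ncard_singleton]
      obtain ⟨k, hk⟩ := hn; omega
  have hSM1 : (S : Subgroup _) ≤ stabilizer (Equiv.Perm (Fin n)) ({x} : Set (Fin n)) := by
    intro g hg
    rw [mem_stabilizer_set]
    intro b
    simp only [Set.mem_singleton_iff, Equiv.Perm.smul_def]
    constructor
    · intro hb; exact g.injective (hb.trans (hSx g hg).symm)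
    · intro hb; rw [hb]; exact hSx g hg
  have hM1 : stabilizer (Equiv.Perm (Fin n)) ({x} : Set (Fin n)) = M := hMuniq _ ⟨hM1co, hSM1⟩
  obtain ⟨a, ha⟩ := S.2.card_orbit y
  have hxO : x ∉ orbit (↥(S : Subgroup (Equiv.Perm (Fin n)))) y := by
    rintro ⟨g, hg⟩
    apply hy
    have h1 : (g : Equiv.Perm (Fin n)) y = x := hg
    have h2 := hSx g g.2
    exact ((g : Equiv.Perm (Fin n)).injective (h1.trans h2.symm))
  have hyO : y ∈ orbit (↥(S : Subgroup (Equiv.Perm (Fin n)))) y := mem_orbit_self y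
  have hOcard : (orbit (↥(S : Subgroup (Equiv.Perm (Fin n)))) y).ncard = 2 ^ a := by
    rw [← ha, Nat.card_coe_set_eq]
  have hOle : (orbit (↥(S : Subgroup (Equiv.Perm (Fin n)))) y).ncard + 1 ≤ n := by
    have h1 : insert x (orbit (↥(S : Subgroup (Equiv.Perm (Fin n)))) y) ⊆ Set.univ :=
      Set.subset_univ _
    have h2 := Set.ncard_le_ncard h1 (Set.toFinite _)
    rw [Set.ncard_univ, Nat.card_fin, Set.ncard_insert_of_notMem hxO (Set.toFinite _)] at h2
    exact h2
  by_cases hcase : (orbit (↥(S : Subgroup (Equiv.Perm (Fin n)))) y).ncard + 1 = n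
  · exact ⟨a, by omega⟩
  · exfalso
    have hlt : (orbit (↥(S : Subgroup (Equiv.Perm (Fin n)))) y).ncard + 1 < n := by omega
    have hex : ∃ z, z ∉ orbit (↥(S : Subgroup (Equiv.Perm (Fin n)))) y ∧ z ≠ x := by
      by_contra hcon
      push Not at hcon
      have huniv : (Set.univ : Set (Fin n)) ⊆
          insert x (orbit (↥(S : Subgroup (Equiv.Perm (Fin n)))) y) := by
        intro z _
        by_cases hz : z ∈ orbit (↥(S : Subgroup (Equiv.Perm (Fin n)))) y
        · exact Set.mem_insert_of_mem _ hz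
        · exact Set.mem_insert_iff.mpr (Or.inl (hcon z hz))
      have h1 := Set.ncard_le_ncard huniv (Set.toFinite _)
      rw [Set.ncard_univ, Nat.card_fin, Set.ncard_insert_of_notMem hxO (Set.toFinite _)] at h1
      omega
    obtain ⟨z, hzO, hzx⟩ := hex
    have hM2co : IsCoatom (stabilizer (Equiv.Perm (Fin n))
        (orbit (↥(S : Subgroup (Equiv.Perm (Fin n)))) y)) := by
      apply Equiv.Perm.isCoatom_stabilizer
      · exact ⟨y, hyO⟩
      · exact ⟨x, hxO⟩
      · rw [Nat.card_fin]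
        obtain ⟨k, hk⟩ := hn; omega
    have hSM2 : (S : Subgroup _) ≤ stabilizer (Equiv.Perm (Fin n))
        (orbit (↥(S : Subgroup (Equiv.Perm (Fin n)))) y) := by
      intro g hg
      rw [mem_stabilizer_iff]
      exact smul_orbit (⟨g, hg⟩ : (S : Subgroup (Equiv.Perm (Fin n)))) y
    have hM2 : stabilizer (Equiv.Perm (Fin n))
        (orbit (↥(S : Subgroup (Equiv.Perm (Fin n)))) y) = M := hMuniq _ ⟨hM2co, hSM2⟩
    have hsw : Equiv.swap x z ∈ stabilizer (Equiv.Perm (Fin n))
        (orbit (↥(S : Subgroup (Equiv.Perm (Fin n)))) y) := by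
      rw [mem_stabilizer_set]
      intro b
      rw [Equiv.Perm.smul_def]
      by_cases hbx : b = x
      · subst hbx
        rw [Equiv.swap_apply_left]
        exact ⟨fun h => absurd h hzO, fun h => absurd h hxO⟩
      · by_cases hbz : b = z
        · subst hbz
          rw [Equiv.swap_apply_right]
          exact ⟨fun h => absurd h hxO, fun h => absurd h hzO⟩
        · rw [Equiv.swap_apply_of_ne_of_ne hbx hbz]
    rw [hM2, ← hM1, mem_stabilizer_set] at hsw
    have h3 := (hsw x).mpr rfl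
    rw [Equiv.Perm.smul_def, Equiv.swap_apply_left, Set.mem_singleton_iff] at h3
    exact hzx h3

end Cfsg.Agent.Lib.Helper5
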